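import Mathlib

set_option autoImplicit false

namespace Cfsg.Agent.H12.A5

lemma arith_one {a b q : ℕ} (ha : 3 ≤ a) (hb : 3 ≤ b) (hq : 2 ≤ q) (hdvd : (q - 1) ∣ a * b)
    (hgt : q - 1 < a * b) (h : 2 * (a * b - (q - 1)) = (a - 1) * q) : False := by
  obtain ⟨q', rfl⟩ : ∃ q', q = q' + 2 := ⟨q - 2, by omega⟩
  obtain ⟨a', rfl⟩ : ∃ a', a = a' + 3 := ⟨a - 3, by omega⟩
  obtain ⟨b', rfl⟩ : ∃ b', b = b' + 3 := ⟨b - 3, by omega⟩
  have h1 : q' + 2 - 1 = q' + 1 := by omega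
  have h2 : a' + 3 - 1 = a' + 2 := by omega
  rw [h1] at hdvd hgt h
  rw [h2] at h
  -- 2ab + 2 = a q + q
  have h3 : 2 * ((a' + 3) * (b' + 3)) + 2 = (a' + 3) * (q' + 2) + (q' + 2) := by
    have h4 : 2 * ((a' + 3) * (b' + 3) - (q' + 1)) + 2 * (q' + 1) = 2 * ((a' + 3) * (b' + 3)) := by omega
    nlinarith
  rcases Nat.eq_zero_or_pos q' with rfl | hq'
  · nlinarith
  -- a divides q - 2
  have h5 : (a' + 3 : ℤ) * (2 * (b' + 3) - (q' + 2)) = q' := by
    have : ((2 * ((a' + 3) * (b' + 3)) + 2 : ℕ) : ℤ) = (((a' + 3) * (q' + 2) + (q' + 2) : ℕ) : ℤ) := by rw [h3]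
    push_cast at this
    linarith
  have hpos : (0 : ℤ) < 2 * (b' + 3) - (q' + 2) := by
    by_contra hn
    push Not at hn
    have : (a' + 3 : ℤ) * (2 * (b' + 3) - (q' + 2)) ≤ 0 := mul_nonpos_of_nonneg_of_nonpos (by positivity) hn
    have h6 : (0 : ℤ) < q' := by exact_mod_cast hq'
    linarith
  have hd : (a' + 3) ∣ q' := by
    have : ((a' + 3 : ℕ) : ℤ) ∣ (q' : ℤ) := ⟨_, by push_cast; exact h5.symm⟩
    exact_mod_cast this
  have hcop : Nat.Coprime (q' + 1) (a' + 3) := by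
    have h7 : Nat.gcd (q' + 1) (a' + 3) ∣ q' + 1 := Nat.gcd_dvd_left _ _
    have h8 : Nat.gcd (q' + 1) (a' + 3) ∣ q' := (Nat.gcd_dvd_right _ _).trans hd
    have h9 : Nat.gcd (q' + 1) (a' + 3) ∣ 1 := by
      have := (Nat.dvd_add_right h8).mp h7
      exact this
    exact Nat.dvd_one.mp h9
  have hdb : (q' + 1) ∣ (b' + 3) := hcop.dvd_of_dvd_mul_left hdvd
  have hle : q' + 1 ≤ b' + 3 := Nat.le_of_dvd (by omega) hdb
  have hle' : (q' : ℤ) + 1 ≤ b' + 3 := by exact_mod_cast hle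
  have h6 : (0 : ℤ) < q' := by exact_mod_cast hq'
  nlinarith

lemma arith_two {a b q : ℕ} (hq : 4 ≤ q) (hdiv : (q - 1) ∣ a) (ha : 0 < a) (hodd : Odd b)
    (h : 2 * a * b + 2 = (a + b) * q) : a = q - 1 ∧ b = q + 1 := by
  obtain ⟨q', rfl⟩ : ∃ q', q = q' + 1 := ⟨q - 1, by omega⟩
  simp only [Nat.add_sub_cancel] at hdiv ⊢
  obtain ⟨m, rfl⟩ := hdiv
  have hq' : 3 ≤ q' := by omega
  have hm : 1 ≤ m := by
    rcases Nat.eq_zero_or_pos m with rfl | h'
    · simp at ha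
    · exact h'
  have hb1 : b ≠ 1 := by
    rintro rfl
    have h3 : 2 * (q' * m + 1) = (q' * m + 1) * (q' + 1) := by linarith
    have h4 : 2 = q' + 1 := Nat.eq_of_mul_eq_mul_left (by positivity : 0 < q' * m + 1) (by linarith)
    omega
  have hb2 : b ≠ 2 := by
    rintro rfl
    exact absurd hodd (by decide)
  have hb3 : 3 ≤ b := by
    obtain ⟨k, rfl⟩ := hodd
    omega
  -- (q - 1) ∣ (b - 2)
  have hdv : (q' : ℤ) ∣ ((b : ℤ) - 2) := by
    refine ⟨2 * m * b - m - (q' * m + b), ?_⟩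
    have : ((2 * (q' * m) * b + 2 : ℕ) : ℤ) = (((q' * m + b) * (q' + 1) : ℕ) : ℤ) := by rw [h]
    push_cast at this
    linarith
  have hb4 : q' + 2 ≤ b := by
    have h5 : (q' : ℤ) ≤ (b : ℤ) - 2 := Int.le_of_dvd (by omega) hdv
    omega
  have hz : (2 * (q' * m : ℤ) - (q' + 1)) * (2 * b - (q' + 1)) = (q' + 1) ^ 2 - 4 := by
    have : ((2 * (q' * m) * b + 2 : ℕ) : ℤ) = (((q' * m + b) * (q' + 1) : ℕ) : ℤ) := by rw [h]
    push_cast at this
    nlinarith
  have hq'z : (3 : ℤ) ≤ q' := by exact_mod_cast hq'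
  have hb4z : (q' : ℤ) + 2 ≤ b := by exact_mod_cast hb4
  have hm1 : m = 1 := by
    by_contra hne
    have hm2 : (2 : ℤ) ≤ m := by
      have : 2 ≤ m := by omega
      exact_mod_cast this
    have h6 : (3 * q' - 1 : ℤ) ≤ 2 * (q' * m : ℤ) - (q' + 1) := by nlinarith
    have h7 : (q' + 3 : ℤ) ≤ 2 * b - (q' + 1) := by linarith
    nlinarith
  subst hm1
  refine ⟨by ring, ?_⟩
  have h8 : (q' - 1 : ℤ) * (2 * b - (q' + 1)) = (q' - 1) * (q' + 3) := by
    push_cast at hz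
    linear_combination hz
  have h9 : (2 * b - (q' + 1) : ℤ) = q' + 3 := mul_left_cancel₀ (by intro h0; linarith) h8
  have h10 : (b : ℤ) = q' + 1 + 1 := by linarith
  exact_mod_cast h10

lemma arith_both {a b q D : ℕ} (ha : 1 ≤ a) (hb : 1 ≤ b) (hq : 1 ≤ q) (hAD : a * b = (q - 1) + D)
    (h3 : 2 * D = ((a - 1) + (b - 1)) * q) : 2 * a * b + 2 = (a + b) * q := by
  obtain ⟨a', rfl⟩ : ∃ a', a = a' + 1 := ⟨a - 1, by omega⟩
  obtain ⟨b', rfl⟩ : ∃ b', b = b' + 1 := ⟨b - 1, by omega⟩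
  obtain ⟨q', rfl⟩ : ∃ q', q = q' + 1 := ⟨q - 1, by omega⟩
  simp only [Nat.add_sub_cancel] at *
  nlinarith

/-- `2^n-1` and `2^n+1` both prime powers. -/
lemma two_pow_case {n p r α β : ℕ} (hp : p.Prime) (hr : r.Prime) (hn : 2 ≤ n)
    (h1 : 2 ^ n - 1 = p ^ α) (h2 : 2 ^ n + 1 = r ^ β) : 2 ^ n = 4 ∨ 2 ^ n = 8 := by
  have h3lt : 4 ≤ 2 ^ n := by
    calc 4 = 2 ^ 2 := by norm_num
      _ ≤ 2 ^ n := Nat.pow_le_pow_right (by norm_num) hn
  rcases Nat.even_or_odd' n with ⟨m, rfl | rfl⟩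
  · -- n even : 3 | 2^n - 1
    left
    have hm : 1 ≤ m := by omega
    obtain ⟨w, hw⟩ : ∃ w, w = 2 ^ m := ⟨_, rfl⟩
    have hw2 : 2 ≤ w := by
      rw [hw]
      calc 2 = 2 ^ 1 := by norm_num
        _ ≤ 2 ^ m := Nat.pow_le_pow_right (by norm_num) hm
    have hsq : 2 ^ (2 * m) = w * w := by rw [hw, pow_mul', pow_two]
    have h3 : 3 ∣ 2 ^ (2 * m) - 1 := by
      have : 2 ^ (2 * m) % 3 = 1 := by
        rw [pow_mul, Nat.pow_mod]
        norm_num
      omega
    rw [h1] at h3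
    have hp3 : p = 3 := ((Nat.prime_dvd_prime_iff_eq Nat.prime_three hp).mp (Nat.prime_three.dvd_of_dvd_pow h3)).symm
    subst hp3
    rw [hsq] at h1 ⊢
    obtain ⟨w', rfl⟩ : ∃ w', w = w' + 1 := ⟨w - 1, by omega⟩
    have h4 : (w' + 1) * (w' + 1) - 1 = w' * (w' + 2) := by
      have : (w' + 1) * (w' + 1) = w' * (w' + 2) + 1 := by ring
      omega
    rw [h4] at h1
    have hd1 : w' ∣ 3 ^ α := ⟨_, h1.symm⟩
    have hd2 : w' + 2 ∣ 3 ^ α := ⟨_, by rw [← h1]; ring⟩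
    obtain ⟨i, -, hi⟩ := (Nat.dvd_prime_pow Nat.prime_three).mp hd1
    obtain ⟨j, -, hj⟩ := (Nat.dvd_prime_pow Nat.prime_three).mp hd2
    have hi0 : i = 0 := by
      by_contra hne
      have hj0 : j ≠ 0 := by
        rintro rfl
        simp at hj
      have h5 : 3 ∣ w' := by rw [hi]; exact dvd_pow_self 3 hne
      have h6 : 3 ∣ w' + 2 := by rw [hj]; exact dvd_pow_self 3 hj0
      omega
    subst hi0
    simp at hi
    subst hi
    norm_num
  · -- n odd
    right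
    have hm : 1 ≤ m := by omega
    have h8 : 8 ∣ 2 ^ (2 * m + 1) := pow_dvd_pow 2 (by omega : 3 ≤ 2 * m + 1)
    have h3 : 3 ∣ 2 ^ (2 * m + 1) + 1 := by
      have : 2 ^ (2 * m + 1) % 3 = 2 := by
        rw [pow_succ, pow_mul, Nat.mul_mod, Nat.pow_mod]
        norm_num
      omega
    rw [h2] at h3
    have hr3 : r = 3 := ((Nat.prime_dvd_prime_iff_eq Nat.prime_three hr).mp (Nat.prime_three.dvd_of_dvd_pow h3)).symm
    subst hr3
    -- β is even
    rcases Nat.even_or_odd' β with ⟨j, rfl | rfl⟩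
    · set x := 3 ^ j with hx
      have hsq : 3 ^ (2 * j) = x * x := by rw [pow_mul', pow_two]
      rw [hsq] at h2
      have hx1 : 1 ≤ x := Nat.one_le_pow _ _ (by norm_num)
      obtain ⟨x', hx'⟩ : ∃ x', x = x' + 1 := ⟨x - 1, by omega⟩
      rw [hx'] at h2
      have h4 : 2 ^ (2 * m + 1) = x' * (x' + 2) := by
        have : (x' + 1) * (x' + 1) = x' * (x' + 2) + 1 := by ring
        omega
      have hd1 : x' ∣ 2 ^ (2 * m + 1) := ⟨_, h4⟩
      have hd2 : x' + 2 ∣ 2 ^ (2 * m + 1) := ⟨_, by rw [h4]; ring⟩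
      obtain ⟨u, -, hu⟩ := (Nat.dvd_prime_pow Nat.prime_two).mp hd1
      obtain ⟨v, -, hv⟩ := (Nat.dvd_prime_pow Nat.prime_two).mp hd2
      have hu1 : u = 1 := by
        by_contra hne
        rcases Nat.lt_or_ge u 1 with hlt | hge
        · have : u = 0 := by omega
          subst this
          simp at hu
          subst hu
          -- x = 2, a power of 3
          have hx2 : x = 2 := hx'
          have : 3 ∣ x ∨ x = 1 := by
            rcases Nat.eq_zero_or_pos j with h0 | h0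
            · right; rw [hx, h0]; norm_num
            · left; rw [hx]; exact dvd_pow_self 3 h0.ne'
          omega
        · have hu2 : 2 ≤ u := by omega
          have h5 : 4 ∣ x' := by
            rw [hu]; exact pow_dvd_pow 2 hu2
          have hv2 : 2 ≤ v := by
            by_contra hv'
            have : v = 0 ∨ v = 1 := by omega
            rcases this with rfl | rfl
            · simp at hv
            · simp at hv
              have : 0 < 2 ^ u := by positivity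
              omega
          have h6 : 4 ∣ x' + 2 := by
            rw [hv]; exact pow_dvd_pow 2 hv2
          omega
      subst hu1
      simp at hu
      subst hu
      rw [h4]
    · exfalso
      have h5 : 3 ^ (2 * j + 1) % 8 = 3 := by
        rw [pow_succ, pow_mul, Nat.mul_mod, Nat.pow_mod]
        norm_num
      omega

end Cfsg.Agent.H12.A5
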