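import Mathlib
import Cfsg.Agent.Lib.H19.CyclicSylow
import Cfsg.Agent.Lib.H17.N22a

set_option autoImplicit false

namespace Cfsg.Agent.H12.A5

open Subgroup

structure Hyp (G : Type*) [Group G] : Prop where
  prime : ∀ x : G, x ≠ 1 → (orderOf x).Prime
  conj : ∀ x y : G, x ≠ 1 → orderOf x = orderOf y → ∃ σ : G ≃* G, σ x = y

variable {G : Type*} [Group G]

/-- centralizer abbreviation -/
abbrev C (x : G) : Subgroup G := Subgroup.centralizer ({x} : Set G)

lemma mem_C {x y : G} : y ∈ C x ↔ x * y = y * x := by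
  rw [Subgroup.mem_centralizer_iff]
  constructor
  · intro h; exact h x rfl
  · intro h u hu
    rw [Set.mem_singleton_iff.mp hu]; exact h

lemma self_mem_C (x : G) : x ∈ C x := mem_C.mpr rfl

lemma Hyp.not_comm (H : Hyp G) {x y : G} (hx : x ≠ 1) (hy : y ≠ 1) (hne : orderOf x ≠ orderOf y) :
    x * y ≠ y * x := by
  intro he
  have hc : Commute x y := he
  have hpx := H.prime x hx
  have hpy := H.prime y hy
  have hcop : (orderOf x).Coprime (orderOf y) := (Nat.coprime_primes hpx hpy).mpr hne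
  have hord : orderOf (x * y) = orderOf x * orderOf y := hc.orderOf_mul_eq_mul_orderOf_of_coprime hcop
  have hxy : x * y ≠ 1 := by
    intro h
    rw [h, orderOf_one] at hord
    exact hpx.ne_one (Nat.eq_one_of_mul_eq_one_right hord.symm)
  have := H.prime _ hxy
  rw [hord] at this
  exact Nat.not_prime_mul hpx.ne_one hpy.ne_one this

variable [Finite G]

lemma Hyp.cent_isP (H : Hyp G) {x : G} (hx : x ≠ 1) : IsPGroup (orderOf x) (C x) := by
  have hps := H.prime x hx
  haveI : Fact (orderOf x).Prime := ⟨hps⟩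
  apply IsPGroup.of_card
  apply Nat.eq_prime_pow_of_unique_prime_dvd (Nat.card_pos).ne'
  intro r hr hrd
  by_contra hrs
  haveI : Fact r.Prime := ⟨hr⟩
  obtain ⟨y0, hy0⟩ := exists_prime_orderOf_dvd_card' r hrd
  have hyo : orderOf (y0 : G) = r := by rw [Subgroup.orderOf_coe, hy0]
  have hy1 : (y0 : G) ≠ 1 := fun h => by
    rw [h, orderOf_one] at hyo
    exact hr.ne_one hyo.symm
  exact H.not_comm hx hy1 (by rw [hyo]; exact Ne.symm hrs) (mem_C.mp y0.2)

lemma Hyp.order_of_mem (H : Hyp G) {s : ℕ} [Fact s.Prime] {A : Subgroup G} (hA : IsPGroup s A) {x : G}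
    (hx : x ∈ A) (hx1 : x ≠ 1) : orderOf x = s := by
  obtain ⟨k, hk⟩ := hA ⟨x, hx⟩
  have h1 : x ^ s ^ k = 1 := by
    have := congrArg Subtype.val hk
    simpa using this
  have h2 : orderOf x ∣ s ^ k := orderOf_dvd_of_pow_eq_one h1
  have hp := H.prime x hx1
  have hs : s.Prime := Fact.out
  exact (Nat.prime_dvd_prime_iff_eq hp hs).mp (hp.dvd_of_dvd_pow h2)

lemma Hyp.pow_of_mem (H : Hyp G) {s : ℕ} [Fact s.Prime] {A : Subgroup G} (hA : IsPGroup s A) {x : G}
    (hx : x ∈ A) : x ^ s = 1 := by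
  by_cases hx1 : x = 1
  · rw [hx1, one_pow]
  · rw [← H.order_of_mem hA hx hx1]; exact pow_orderOf_eq_one x

lemma ne_one_of_order {x : G} {s : ℕ} (hs : s.Prime) (hx : orderOf x = s) : x ≠ 1 := fun h => by
  rw [h, orderOf_one] at hx
  exact hs.ne_one hx.symm

lemma card_C_aut (σ : G ≃* G) (z : G) : Nat.card (C z) = Nat.card (C (σ z)) := by
  apply Nat.card_congr
  refine ⟨fun w => ⟨σ w, ?_⟩, fun w => ⟨σ.symm w, ?_⟩, ?_, ?_⟩
  · have := mem_C.mp w.2
    apply mem_C.mpr
    rw [← map_mul, this, map_mul]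
  · have := mem_C.mp w.2
    apply mem_C.mpr
    apply σ.injective
    simp [this]
  · intro w; apply Subtype.ext; simp
  · intro w; apply Subtype.ext; simp

/-- A nontrivial element of the centre of a Sylow subgroup has that Sylow as centralizer. -/
lemma Hyp.exists_central (H : Hyp G) {s : ℕ} [Fact s.Prime] (hs : s ∣ Nat.card G) (S : Sylow s G) :
    ∃ z : G, z ∈ (S : Subgroup G) ∧ z ≠ 1 ∧ orderOf z = s ∧ C z = (S : Subgroup G) := by
  have hsne := S.ne_bot_of_dvd_card hs
  haveI : Nontrivial (S : Subgroup G) := (Subgroup.nontrivial_iff_ne_bot _).mpr hsne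
  haveI := S.2.center_nontrivial
  obtain ⟨z, hz⟩ : ∃ z : Subgroup.center (S : Subgroup G), z ≠ 1 := exists_ne 1
  have hz1 : ((z : (S : Subgroup G)) : G) ≠ 1 := by
    intro h
    apply hz
    apply Subtype.ext
    apply Subtype.ext
    simpa using h
  have hord := H.order_of_mem S.2 (z : (S : Subgroup G)).2 hz1
  refine ⟨_, (z : (S : Subgroup G)).2, hz1, hord, ?_⟩
  have hle : (S : Subgroup G) ≤ C ((z : (S : Subgroup G)) : G) := by
    intro w hw
    apply mem_C.mpr
    have := (Subgroup.mem_center_iff.mp z.2) ⟨w, hw⟩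
    exact (congrArg Subtype.val this).symm
  have hp : IsPGroup s (C ((z : (S : Subgroup G)) : G)) := by
    have := H.cent_isP hz1
    rwa [hord] at this
  exact (S.3 hp hle)

lemma Hyp.cent_sylow (H : Hyp G) {s : ℕ} [Fact s.Prime] {x : G} (hx : orderOf x = s) :
    ∃ S : Sylow s G, (S : Subgroup G) = C x := by
  have hs : s.Prime := Fact.out
  have hx1 := ne_one_of_order hs hx
  have hsd : s ∣ Nat.card G := by rw [← hx]; exact orderOf_dvd_natCard x
  have hp : IsPGroup s (C x) := by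
    have := H.cent_isP hx1
    rwa [hx] at this
  obtain ⟨S, hS⟩ := hp.exists_le_sylow
  refine ⟨S, ?_⟩
  obtain ⟨z, hzS, hz1, hzo, hzC⟩ := H.exists_central hsd S
  obtain ⟨σ, hσ⟩ := H.conj z x hz1 (by rw [hzo, hx])
  apply (Subgroup.eq_of_le_of_card_ge hS _).symm
  rw [← hσ, ← card_C_aut, hzC]

lemma card_sylow_eq {s : ℕ} [Fact s.Prime] (S S' : Sylow s G) : Nat.card S = Nat.card S' := by
  rw [S.card_eq_multiplicity, S'.card_eq_multiplicity]

lemma Hyp.card_C (H : Hyp G) {s : ℕ} [Fact s.Prime] {x : G} (hx : orderOf x = s) (S : Sylow s G) :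
    Nat.card (C x) = Nat.card S := by
  obtain ⟨S', hS'⟩ := H.cent_sylow hx
  rw [← hS']
  exact card_sylow_eq S' S

/-- All Sylow `s`-subgroups are abelian. -/
def AbS (G : Type*) [Group G] (s : ℕ) : Prop := ∀ S : Sylow s G, ∀ a ∈ (S : Subgroup G), ∀ b ∈ (S : Subgroup G), a * b = b * a

lemma Hyp.cent_eq (H : Hyp G) {s : ℕ} [Fact s.Prime] (hab : AbS G s) (S : Sylow s G) {x : G}
    (hx : x ∈ (S : Subgroup G)) (hx1 : x ≠ 1) : C x = (S : Subgroup G) := by
  have hord := H.order_of_mem S.2 hx hx1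
  have hp : IsPGroup s (C x) := by
    have := H.cent_isP hx1
    rwa [hord] at this
  apply S.3 hp
  intro w hw
  exact mem_C.mpr (hab S x hx w hw)

lemma Hyp.sylow_unique (H : Hyp G) {s : ℕ} [Fact s.Prime] (hab : AbS G s) {S S' : Sylow s G} {x : G}
    (hx : x ∈ (S : Subgroup G)) (hx' : x ∈ (S' : Subgroup G)) (hx1 : x ≠ 1) : S = S' :=
  Sylow.ext ((H.cent_eq hab S hx hx1).symm.trans (H.cent_eq hab S' hx' hx1))

lemma absyl_two (H : Hyp G) : AbS G 2 := by
  intro S a ha b hb
  have h1 := H.pow_of_mem S.2 ha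
  have h2 := H.pow_of_mem S.2 hb
  have h3 := H.pow_of_mem S.2 (S.1.mul_mem ha hb)
  have h4 : a⁻¹ = a := by
    rw [inv_eq_iff_mul_eq_one, ← pow_two]; exact h1
  have h5 : b⁻¹ = b := by
    rw [inv_eq_iff_mul_eq_one, ← pow_two]; exact h2
  have h6 : (a * b)⁻¹ = a * b := by
    rw [inv_eq_iff_mul_eq_one, ← pow_two]; exact h3
  rw [mul_inv_rev, h4, h5] at h6
  exact h6.symm

open Finset in
/-- the number of elements of order `s`. -/
theorem Hyp.card_O (H : Hyp G) [Fintype G] [DecidableEq G] {s : ℕ} [Fact s.Prime] (hab : AbS G s)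
    (S₀ : Sylow s G) :
    (univ.filter (fun x : G => orderOf x = s)).card = Nat.card (Sylow s G) * (Nat.card S₀ - 1) := by
  classical
  haveI : Fintype (Sylow s G) := Fintype.ofFinite _
  have hs : s.Prime := Fact.out
  let F : Sylow s G → Finset G := fun S => univ.filter (fun x => x ∈ (S : Subgroup G) ∧ x ≠ 1)
  have hunion : (univ.filter (fun x : G => orderOf x = s)) = univ.biUnion F := by
    ext x
    simp only [mem_filter, mem_univ, true_and, mem_biUnion, F]
    constructor
    · intro hx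
      obtain ⟨S, hS⟩ := H.cent_sylow hx
      exact ⟨S, by rw [hS]; exact self_mem_C x, ne_one_of_order hs hx⟩
    · rintro ⟨S, hxS, hx1⟩
      exact H.order_of_mem S.2 hxS hx1
  have hdis : ((univ : Finset (Sylow s G)) : Set (Sylow s G)).PairwiseDisjoint F := by
    intro S _ S' _ hne
    rw [Function.onFun, Finset.disjoint_left]
    intro x hx hx'
    simp only [mem_filter, mem_univ, true_and, F] at hx hx'
    exact hne (H.sylow_unique hab hx.1 hx'.1 hx.2)
  have hcardF : ∀ S : Sylow s G, (F S).card = Nat.card S₀ - 1 := by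
    intro S
    have h1 : (F S) = (univ.filter (fun x => x ∈ (S : Subgroup G))).erase 1 := by
      ext x
      simp [F, and_comm]
    rw [h1, card_erase_of_mem (by simp [Subgroup.one_mem]), card_sylow_eq S₀ S]
    congr 1
    rw [Nat.card_eq_fintype_card, Fintype.card_subtype]
  rw [hunion, card_biUnion hdis, sum_congr rfl (fun S _ => hcardF S), sum_const, card_univ, smul_eq_mul,
    Nat.card_eq_fintype_card (α := Sylow s G)]

end Cfsg.Agent.H12.A5
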