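import Cfsg.Agent.Lib.H12.A5Aut1

set_option autoImplicit false

namespace Cfsg.Agent.H12.A5

open Subgroup

variable {G : Type*} [Group G] [Finite G]

lemma inv_of_order_two {t : G} (ht : orderOf t = 2) : t * t = 1 := by
  rw [← pow_two, ← ht]; exact pow_orderOf_eq_one t

lemma inv_eq_self {t : G} (ht : orderOf t = 2) : t⁻¹ = t :=
  inv_eq_of_mul_eq_one_left (inv_of_order_two ht)

lemma conj_of_odd {t u : G} (ht : t * t = 1) (hu : u * u = 1) (hodd : Odd (orderOf (t * u))) :
    ∃ g : G, g * t * g⁻¹ = u := by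
  obtain ⟨k, hk⟩ := hodd
  set x := t * u with hx
  have h1 : x ^ (2 * k + 1) = 1 := by rw [← hk]; exact pow_orderOf_eq_one x
  have hti : t⁻¹ = t := inv_eq_of_mul_eq_one_left ht
  have hui : u⁻¹ = u := inv_eq_of_mul_eq_one_left hu
  have h2 : t * x * t = x⁻¹ := by
    rw [hx, mul_inv_rev, hti, hui]
    calc t * (t * u) * t = (t * t) * u * t := by group
      _ = u * t := by rw [ht, one_mul]
  have h3 : ∀ n : ℕ, t * (x ^ n)⁻¹ * t = x ^ n := by
    intro n
    induction n with
    | zero => simpa using ht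
    | succ n ih =>
      calc t * (x ^ (n + 1))⁻¹ * t = (t * (x ^ n)⁻¹ * t) * (t * x⁻¹ * t) := by
            rw [pow_succ', mul_inv_rev]
            have : t * ((x ^ n)⁻¹ * x⁻¹) * t = t * (x ^ n)⁻¹ * (t * t) * x⁻¹ * t := by
              rw [ht]; group
            rw [this]
            group
        _ = x ^ n * x := by
            rw [ih]
            congr 1
            have h4 := congrArg (fun w => w⁻¹) h2
            simp only [mul_inv_rev, inv_inv, hti] at h4
            rw [← mul_assoc] at h4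
            exact h4
        _ = x ^ (n + 1) := (pow_succ x n).symm
  refine ⟨x ^ k, ?_⟩
  have h5 : x ^ k * t * (x ^ k)⁻¹ = x ^ k * (t * (x ^ k)⁻¹ * t) * t := by
    calc x ^ k * t * (x ^ k)⁻¹ = x ^ k * (t * (x ^ k)⁻¹ * (t * t)) := by rw [ht]; group
      _ = _ := by group
  rw [h5, h3]
  have h6 : x ^ k * x ^ k = x⁻¹ := by
    rw [← pow_add, ← two_mul]
    apply eq_inv_of_mul_eq_one_left
    rw [← pow_succ]
    exact h1
  rw [h6, hx, mul_inv_rev, hti, hui, mul_assoc, ht, mul_one]

lemma Hyp.not_comm_two (H : Hyp G) {t u : G} (ht : orderOf t = 2) (hu : orderOf u = 2) (hne : t * u ≠ u * t) :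
    Odd (orderOf (t * u)) ∧ t * u ≠ 1 := by
  have h2 : t * u ≠ 1 := by
    intro h
    apply hne
    have : u = t⁻¹ := eq_inv_of_mul_eq_one_right h
    rw [this, inv_eq_self ht]
  have hp := H.prime _ h2
  refine ⟨?_, h2⟩
  rcases hp.eq_two_or_odd' with h | h
  · exfalso
    apply hne
    have h3 : (t * u) * (t * u) = 1 := inv_of_order_two h
    have hti := inv_eq_self ht
    have hui := inv_eq_self hu
    have h4 : t * u = (t * u)⁻¹ := eq_inv_of_mul_eq_one_left h3
    rw [mul_inv_rev, hti, hui] at h4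
    exact h4
  · exact h

lemma Hyp.mem_two (H : Hyp G) {t : G} (ht : orderOf t = 2) {S : Sylow 2 G} (hS : C t = (S : Subgroup G)) (u : G)
    (hu : u ∈ (S : Subgroup G)) : t * u = u * t := by
  rw [← hS] at hu
  exact mem_C.mp hu

lemma Hyp.invol_conj (H : Hyp G) (hnn : ∃ S S' : Sylow 2 G, S ≠ S') {t u : G} (ht : orderOf t = 2) (hu : orderOf u = 2) :
    ∃ g : G, g * t * g⁻¹ = u := by
  haveI : Fact (Nat.Prime 2) := ⟨Nat.prime_two⟩
  have hab := absyl_two H
  have hne1 : ∀ {x : G}, orderOf x = 2 → x ≠ 1 := fun hx => ne_one_of_order Nat.prime_two hx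
  -- two involutions in distinct Sylows are conjugate
  have hdist : ∀ {x y : G} {S S' : Sylow 2 G}, orderOf x = 2 → orderOf y = 2 → x ∈ (S : Subgroup G) → y ∈ (S' : Subgroup G) → S ≠ S' →
      ∃ g : G, g * x * g⁻¹ = y := by
    intro x y S S' hx hy hxS hyS' hne
    apply conj_of_odd (inv_of_order_two hx) (inv_of_order_two hy)
    refine (H.not_comm_two hx hy ?_).1
    intro hcomm
    have hyS : y ∈ (S : Subgroup G) := by
      rw [← H.cent_eq hab S hxS (hne1 hx)]
      exact mem_C.mpr hcomm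
    exact hne (H.sylow_unique hab hyS hyS' (hne1 hy))
  obtain ⟨S₁, hS₁⟩ := H.cent_sylow ht
  obtain ⟨S₂, hS₂⟩ := H.cent_sylow hu
  have htS : t ∈ (S₁ : Subgroup G) := by rw [hS₁]; exact self_mem_C t
  have huS : u ∈ (S₂ : Subgroup G) := by rw [hS₂]; exact self_mem_C u
  by_cases h12 : S₁ = S₂
  · -- go through a third
    obtain ⟨S, S', hSS⟩ := hnn
    obtain ⟨S₃, hS₃⟩ : ∃ S₃ : Sylow 2 G, S₃ ≠ S₁ := by
      by_cases h : S = S₁
      · exact ⟨S', fun h' => hSS (h.trans h'.symm)⟩
      · exact ⟨S, h⟩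
    have hd : 2 ∣ Nat.card G := by rw [← ht]; exact orderOf_dvd_natCard t
    obtain ⟨w, hwS, hw1, hwo, -⟩ := H.exists_central hd S₃
    obtain ⟨g₁, hg₁⟩ := hdist ht hwo htS hwS (Ne.symm hS₃)
    obtain ⟨g₂, hg₂⟩ := hdist hwo hu hwS huS (by rw [← h12]; exact hS₃)
    refine ⟨g₂ * g₁, ?_⟩
    rw [← hg₂, ← hg₁]
    group
  · exact hdist ht hu htS huS h12

open Finset in
/-- class-size count. -/
theorem card_class_mul [Fintype G] [DecidableEq G] (t : G) (X : Finset G) (h1 : ∀ g : G, g * t * g⁻¹ ∈ X)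
    (h2 : ∀ u ∈ X, ∃ g : G, g * t * g⁻¹ = u) : X.card * Nat.card (C t) = Nat.card G := by
  classical
  have hfib : ∀ u ∈ X, (univ.filter (fun g : G => g * t * g⁻¹ = u)).card = Nat.card (C t) := by
    intro u hu
    obtain ⟨g₀, hg₀⟩ := h2 u hu
    rw [Nat.card_eq_fintype_card (α := C t), ← Fintype.card_subtype]
    apply Fintype.card_congr
    refine ⟨fun g => ⟨g₀⁻¹ * g, ?_⟩, fun c => ⟨g₀ * c, ?_⟩, ?_, ?_⟩
    · apply mem_C.mpr
      have hg := g.2
      have h3 : (g : G) * t * (g : G)⁻¹ = g₀ * t * g₀⁻¹ := by rw [hg₀]; exact hg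
      have h4 : (g₀⁻¹ * (g : G)) * t * (g₀⁻¹ * (g : G))⁻¹ = t := by
        calc (g₀⁻¹ * (g : G)) * t * (g₀⁻¹ * (g : G))⁻¹ = g₀⁻¹ * ((g : G) * t * (g : G)⁻¹) * g₀ := by group
          _ = t := by rw [h3]; group
      have h5 : (g₀⁻¹ * (g : G)) * t = t * (g₀⁻¹ * (g : G)) := by
        calc (g₀⁻¹ * (g : G)) * t = ((g₀⁻¹ * (g : G)) * t * (g₀⁻¹ * (g : G))⁻¹) * (g₀⁻¹ * (g : G)) := by group
          _ = _ := by rw [h4]
      exact h5.symm
    · have hc := mem_C.mp c.2
      show g₀ * (c : G) * t * (g₀ * (c : G))⁻¹ = u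
      have : g₀ * (c : G) * t * (g₀ * (c : G))⁻¹ = g₀ * ((c : G) * t) * (c : G)⁻¹ * g₀⁻¹ := by group
      rw [this, ← hc]
      rw [← hg₀]
      group
    · intro g; apply Subtype.ext; simp
    · intro c; apply Subtype.ext; simp
  have := card_eq_sum_card_fiberwise (f := fun g : G => g * t * g⁻¹) (s := univ) (t := X)
    (fun g _ => h1 g)
  rw [card_univ, sum_congr rfl hfib, sum_const, smul_eq_mul] at this
  rw [Nat.card_eq_fintype_card (α := G)]
  exact this.symm

open Finset

section Counting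

variable [Fintype G] [DecidableEq G]

/-- the involutions -/
noncomputable abbrev II (G : Type*) [Group G] [Fintype G] [DecidableEq G] : Finset G := univ.filter (fun x : G => orderOf x = 2)

/-- the number of involutions -/
theorem Hyp.card_II (H : Hyp G) (hnn : ∃ S S' : Sylow 2 G, S ≠ S') (S₀ : Sylow 2 G) (hd : 2 ∣ Nat.card G) :
    (II G).card * Nat.card S₀ = Nat.card G := by
  haveI : Fact (Nat.Prime 2) := ⟨Nat.prime_two⟩
  obtain ⟨t, -, -, hto, htC⟩ := H.exists_central hd S₀
  have := card_class_mul t (II G) (by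
    intro g
    simp only [II, mem_filter, mem_univ, true_and]
    rw [← MulAut.conj_apply, MulEquiv.orderOf_eq]
    exact hto) (by
    intro u hu
    simp only [II, mem_filter, mem_univ, true_and] at hu
    exact H.invol_conj hnn hto hu)
  rw [htC] at this
  exact this

/-- the set of "non-commuting pairs". -/
noncomputable abbrev Pairs (G : Type*) [Group G] [Fintype G] [DecidableEq G] : Finset (G × G) :=
  (II G ×ˢ II G).filter (fun z => z.1 * z.2 ≠ z.2 * z.1)

theorem Hyp.card_pairs (H : Hyp G) (S₀ : Sylow 2 G) :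
    (Pairs G).card = (II G).card * ((II G).card - (Nat.card S₀ - 1)) := by
  classical
  haveI : Fact (Nat.Prime 2) := ⟨Nat.prime_two⟩
  have hab := absyl_two H
  have hfib : ∀ t ∈ II G, ((Pairs G).filter (fun z => z.1 = t)).card = (II G).card - (Nat.card S₀ - 1) := by
    intro t ht
    have hto : orderOf t = 2 := by simpa [II] using ht
    obtain ⟨S, hS⟩ := H.cent_sylow hto
    -- bijection with the complement
    have h1 : ((Pairs G).filter (fun z => z.1 = t)).card = ((II G).filter (fun u => t * u ≠ u * t)).card := by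
      apply card_nbij' (fun z => z.2) (fun u => (t, u))
      · intro z hz
        simp only [Pairs, coe_filter, mem_filter, mem_product, Set.mem_setOf_eq] at hz ⊢
        obtain ⟨⟨⟨h1, h2⟩, h3⟩, h4⟩ := hz
        subst h4
        exact ⟨h2, h3⟩
      · intro u hu
        simp only [Pairs, coe_filter, mem_filter, mem_product, Set.mem_setOf_eq] at hu ⊢
        have ht' : orderOf t = 2 := hto
        exact ⟨⟨⟨⟨mem_univ _, ht'⟩, hu.1⟩, hu.2⟩, trivial⟩
      · intro z hz
        simp only [Pairs, coe_filter, mem_filter, mem_product, Set.mem_setOf_eq] at hz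
        ext
        · exact hz.2.symm
        · rfl
      · intro u _
        rfl
    rw [h1]
    have h2 : (II G).filter (fun u => t * u ≠ u * t) = (II G) \ (univ.filter (fun u => u ∈ (S : Subgroup G) ∧ u ≠ 1)) := by
      ext u
      simp only [mem_filter, mem_sdiff, mem_univ, true_and, II, not_and, not_not]
      constructor
      · rintro ⟨h3, h4⟩
        refine ⟨h3, fun h5 => absurd ?_ h4⟩
        rw [hS] at h5
        exact mem_C.mp h5
      · rintro ⟨h3, h4⟩
        refine ⟨h3, fun h5 => ?_⟩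
        have h6 : u ∈ (S : Subgroup G) := by
          rw [hS]; exact mem_C.mpr h5
        exact (ne_one_of_order Nat.prime_two h3) (h4 h6)
    rw [h2, card_sdiff_of_subset]
    · congr 1
      have h1 : (univ.filter (fun u : G => u ∈ (S : Subgroup G) ∧ u ≠ 1)) = (univ.filter (fun x => x ∈ (S : Subgroup G))).erase 1 := by
        ext x
        simp [and_comm]
      rw [h1, card_erase_of_mem (by simp [Subgroup.one_mem]), card_sylow_eq S₀ S]
      congr 1
      rw [Nat.card_eq_fintype_card, Fintype.card_subtype]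
    · intro u hu
      simp only [mem_filter, mem_univ, true_and, II] at hu ⊢
      exact H.order_of_mem S.2 hu.1 hu.2
  have := card_eq_sum_card_fiberwise (f := fun z : G × G => z.1) (s := Pairs G) (t := II G)
    (fun z hz => by
      simp only [Pairs, coe_filter, mem_filter, mem_product, Set.mem_setOf_eq] at hz
      simpa [II] using hz.1.1)
  rw [this, sum_congr rfl hfib, sum_const, smul_eq_mul]

/-- The involutions inverting `x`. -/
noncomputable abbrev JJ (x : G) : Finset G := (II G).filter (fun t => t * x * t = x⁻¹)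

theorem Hyp.card_pairs_fiber (H : Hyp G) :
    (Pairs G).card = ∑ x ∈ univ.filter (fun x : G => x ≠ 1 ∧ orderOf x ≠ 2), (JJ x).card := by
  have hmaps : ∀ z ∈ Pairs G, z.1 * z.2 ∈ univ.filter (fun x : G => x ≠ 1 ∧ orderOf x ≠ 2) := by
    intro z hz
    simp only [Pairs, II, mem_filter, mem_product, mem_univ, true_and] at hz
    obtain ⟨⟨h1, h2⟩, h3⟩ := hz
    obtain ⟨h4, h5⟩ := H.not_comm_two h1 h2 h3
    simp only [mem_filter, mem_univ, true_and]
    refine ⟨h5, fun h6 => ?_⟩
    rw [h6] at h4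
    exact (by decide : ¬ Odd 2) h4
  rw [card_eq_sum_card_fiberwise hmaps]
  apply sum_congr rfl
  intro x hx
  simp only [mem_filter, mem_univ, true_and] at hx
  apply card_nbij' (fun z => z.1) (fun t => (t, t * x))
  · intro z hz
    simp only [Pairs, II, JJ, coe_filter, mem_filter, mem_product, mem_univ, true_and, Set.mem_setOf_eq] at hz ⊢
    obtain ⟨⟨⟨h1, h2⟩, h3⟩, h4⟩ := hz
    refine ⟨h1, ?_⟩
    rw [← h4, mul_inv_rev, inv_eq_self h1, inv_eq_self h2]
    have := inv_of_order_two h1
    calc z.1 * (z.1 * z.2) * z.1 = (z.1 * z.1) * z.2 * z.1 := by group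
      _ = _ := by rw [this, one_mul]
  · intro t ht
    simp only [Pairs, II, JJ, coe_filter, mem_filter, mem_product, mem_univ, true_and, Set.mem_setOf_eq] at ht ⊢
    obtain ⟨h1, h2⟩ := ht
    have htt := inv_of_order_two h1
    have hu2 : (t * x) * (t * x) = 1 := by
      calc (t * x) * (t * x) = (t * x * t) * x := by group
        _ = 1 := by rw [h2]; simp
    have hu1 : t * x ≠ 1 := by
      intro h
      have hxt : x = t := by
        have : x = t⁻¹ := eq_inv_of_mul_eq_one_right h
        rw [this, inv_eq_self h1]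
      rw [hxt] at hx
      exact hx.2 h1
    have hxe : t * (t * x) = x := by
      calc t * (t * x) = (t * t) * x := by group
        _ = x := by rw [htt, one_mul]
    refine ⟨⟨⟨h1, ?_⟩, ?_⟩, hxe⟩
    · apply orderOf_eq_prime _ hu1
      rw [pow_two]; exact hu2
    · rw [hxe]
      intro hcomm
      -- x = t x t = x⁻¹
      have h3 : x = x⁻¹ := by rw [← h2]; exact hcomm
      have h4 : x ^ 2 = 1 := by
        rw [pow_two]
        nth_rw 1 [h3]
        simp
      exact hx.2 (orderOf_eq_prime h4 hx.1)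
  · intro z hz
    simp only [Pairs, II, coe_filter, mem_filter, mem_product, mem_univ, true_and, Set.mem_setOf_eq] at hz
    obtain ⟨⟨⟨h1, h2⟩, h3⟩, h4⟩ := hz
    ext
    · rfl
    · show z.1 * x = z.2
      rw [← h4]
      calc z.1 * (z.1 * z.2) = (z.1 * z.1) * z.2 := by group
        _ = z.2 := by rw [inv_of_order_two h1, one_mul]
  · intro t _
    rfl

end Counting

end Cfsg.Agent.H12.A5
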