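import Cfsg.Agent.Lib.H12.A5Aut2

set_option autoImplicit false

namespace Cfsg.Agent.H12.A5

open Subgroup

variable {G : Type*} [Group G] [Finite G]

lemma mem_norm_iff {S : Subgroup G} {g : G} :
    g ∈ Subgroup.normalizer (S : Set G) ↔ ∀ w, w ∈ S ↔ g * w * g⁻¹ ∈ S :=
  Subgroup.mem_normalizer_iff

lemma inv_on (H : Hyp G) {s : ℕ} [Fact s.Prime] (hs : s ≠ 2) (S : Sylow s G) {t : G} (ht : orderOf t = 2)
    (htN : t ∈ Subgroup.normalizer ((S : Subgroup G) : Set G)) :
    ∀ c ∈ (S : Subgroup G), t * c * t = c⁻¹ := by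
  have htt := inv_of_order_two ht
  have hti := inv_eq_self ht
  have hconj : ∀ c ∈ (S : Subgroup G), t * c * t ∈ (S : Subgroup G) := by
    intro c hc
    have := (mem_norm_iff.mp htN c).mp hc
    rwa [hti] at this
  let f : ↥(S : Subgroup G) → ↥(S : Subgroup G) := fun c =>
    ⟨(c : G)⁻¹ * (t * c * t), (S : Subgroup G).mul_mem ((S : Subgroup G).inv_mem c.2) (hconj c c.2)⟩
  have hf : Function.Injective f := by
    intro c d hcd
    have h1 : (c : G)⁻¹ * (t * c * t) = (d : G)⁻¹ * (t * d * t) := congrArg Subtype.val hcd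
    have h2 : ((d : G) * (c : G)⁻¹) * t = t * ((d : G) * (c : G)⁻¹) := by
      have h3 : (d : G) * ((c : G)⁻¹ * (t * c * t)) * t = (d : G) * ((d : G)⁻¹ * (t * d * t)) * t := by rw [h1]
      have h4 : (d : G) * ((c : G)⁻¹ * (t * c * t)) * t = (d : G) * (c : G)⁻¹ * t * c * (t * t) := by group
      have h5 : (d : G) * ((d : G)⁻¹ * (t * d * t)) * t = t * d * (t * t) := by group
      rw [h4, h5, htt, mul_one, mul_one] at h3
      calc ((d : G) * (c : G)⁻¹) * t = ((d : G) * (c : G)⁻¹ * t * c) * (c : G)⁻¹ := by group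
        _ = (t * d) * (c : G)⁻¹ := by rw [h3]
        _ = _ := by group
    by_contra hne
    have hw : (d : G) * (c : G)⁻¹ ≠ 1 := by
      intro h
      apply hne
      apply Subtype.ext
      exact (mul_inv_eq_one.mp h).symm
    have hwm : (d : G) * (c : G)⁻¹ ∈ (S : Subgroup G) := (S : Subgroup G).mul_mem d.2 ((S : Subgroup G).inv_mem c.2)
    have hwo := H.order_of_mem S.2 hwm hw
    exact H.not_comm hw (ne_one_of_order Nat.prime_two ht) (by rw [hwo, ht]; exact hs) h2
  have hs' := (Finite.injective_iff_surjective.mp hf)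
  intro c hc
  obtain ⟨w, hw⟩ := hs' ⟨c, hc⟩
  have hwc : c = (w : G)⁻¹ * (t * w * t) := (congrArg Subtype.val hw).symm
  rw [hwc, mul_inv_rev, mul_inv_rev, mul_inv_rev, hti, inv_inv]
  calc t * ((w : G)⁻¹ * (t * w * t)) * t = t * (w : G)⁻¹ * t * w * (t * t) := by group
    _ = t * (w : G)⁻¹ * t * w := by rw [htt, mul_one]
    _ = _ := by group

lemma comm_of_inv_on {S : Subgroup G} {t : G} (ht : t * t = 1) (h : ∀ c ∈ S, t * c * t = c⁻¹) :
    ∀ a ∈ S, ∀ b ∈ S, a * b = b * a := by
  intro a ha b hb
  have h1 := h (a * b) (S.mul_mem ha hb)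
  have h2 : t * (a * b) * t = (t * a * t) * (t * b * t) := by
    calc t * (a * b) * t = t * a * b * t := by group
      _ = t * a * (t * t) * b * t := by rw [ht, mul_one]
      _ = _ := by group
  rw [h2, h a ha, h b hb, mul_inv_rev] at h1
  have h3 := congrArg (fun w => w⁻¹) h1
  simp only [mul_inv_rev, inv_inv] at h3
  exact h3.symm

/-- `s` is real: an involution inverts some element of order `s`. -/
def Rl (G : Type*) [Group G] (s : ℕ) : Prop :=
  ∃ x t : G, orderOf x = s ∧ orderOf t = 2 ∧ t * x * t = x⁻¹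

lemma Rl.all (H : Hyp G) {s : ℕ} (hs : s.Prime) (hR : Rl G s) {y : G} (hy : orderOf y = s) :
    ∃ t : G, orderOf t = 2 ∧ t * y * t = y⁻¹ := by
  obtain ⟨x, t, hx, ht, hxt⟩ := hR
  obtain ⟨σ, hσ⟩ := H.conj x y (ne_one_of_order hs hx) (by rw [hx, hy])
  refine ⟨σ t, by rw [MulEquiv.orderOf_eq]; exact ht, ?_⟩
  rw [← hσ, ← map_mul, ← map_mul, hxt, map_inv]

omit [Finite G] in
lemma comm_conj {t x w : G} (ht : t * t = 1) (h : x * w = w * x) :
    (t * x * t) * (t * w * t) = (t * w * t) * (t * x * t) := by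
  have h1 : (t * x * t) * (t * w * t) = t * x * (t * t) * w * t := by group
  have h2 : (t * w * t) * (t * x * t) = t * w * (t * t) * x * t := by group
  rw [h1, h2, ht, mul_one, mul_one, mul_assoc t x w, mul_assoc t w x, h]

omit [Finite G] in
lemma comm_inv {x w : G} (h : x * w = w * x) : x⁻¹ * w = w * x⁻¹ := by
  calc x⁻¹ * w = x⁻¹ * (w * x) * x⁻¹ := by group
    _ = x⁻¹ * (x * w) * x⁻¹ := by rw [h]
    _ = _ := by group

lemma inv_mem_norm_C {x t : G} (ht : t * t = 1) (h : t * x * t = x⁻¹) :
    t ∈ Subgroup.normalizer ((C x : Subgroup G) : Set G) := by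
  have hti : t⁻¹ = t := inv_eq_of_mul_eq_one_left ht
  apply mem_norm_iff.mpr
  intro w
  rw [hti]
  simp only [mem_C]
  constructor
  · intro hw
    have h1 := comm_conj ht hw
    rw [h] at h1
    have h2 := comm_inv h1
    rwa [inv_inv] at h2
  · intro hw
    have h1 := comm_conj ht hw
    have h2 : t * (t * w * t) * t = w := by
      calc t * (t * w * t) * t = (t * t) * w * (t * t) := by group
        _ = w := by rw [ht, one_mul, mul_one]
    rw [h, h2] at h1
    have h3 := comm_inv h1
    rwa [inv_inv] at h3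

section Real

variable {s : ℕ} [Fact s.Prime]

/-- `Rl` implies abelian Sylows. -/
lemma Rl.absyl (H : Hyp G) (hs : s ≠ 2) (hR : Rl G s) : AbS G s := by
  have hsp : s.Prime := Fact.out
  obtain ⟨x₀, t₀, hx₀, ht₀, -⟩ := id hR
  have hd : s ∣ Nat.card G := by rw [← hx₀]; exact orderOf_dvd_natCard x₀
  intro S
  obtain ⟨z, hzS, hz1, hzo, hzC⟩ := H.exists_central hd S
  obtain ⟨t, ht, htz⟩ := hR.all H hsp hzo
  have htN := inv_mem_norm_C (inv_of_order_two ht) htz
  rw [hzC] at htN
  exact comm_of_inv_on (inv_of_order_two ht) (inv_on H hs S ht htN)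

variable [Fintype G] [DecidableEq G]

/-- Size of `JJ x` for real `s`. -/
lemma Rl.card_JJ (H : Hyp G) (hs : s ≠ 2) (hR : Rl G s) {x : G} (hx : orderOf x = s) (S₀ : Sylow s G) :
    (JJ x).card = Nat.card S₀ := by
  classical
  have hsp : s.Prime := Fact.out
  have hab := hR.absyl H hs
  obtain ⟨t, ht, htx⟩ := hR.all H hsp hx
  have htt := inv_of_order_two ht
  obtain ⟨S, hS⟩ := H.cent_sylow hx
  have hx1 := ne_one_of_order hsp hx
  have htN := inv_mem_norm_C htt htx
  rw [← hS] at htN
  have hinv := inv_on H hs S ht htN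
  rw [← card_sylow_eq S S₀, Nat.card_eq_fintype_card, ← Fintype.card_coe (JJ x)]
  apply Fintype.card_congr
  refine ⟨fun u => ⟨t * u, ?_⟩, fun c => ⟨t * c, ?_⟩, ?_, ?_⟩
  · have hu := u.2
    simp only [JJ, II, Finset.mem_filter, Finset.mem_univ, true_and] at hu
    show t * (u : G) ∈ (S : Subgroup G)
    rw [hS]
    apply mem_C.mpr
    have h2 := hu.2
    have huu := inv_of_order_two hu.1
    have h3 : (u : G) * x = x⁻¹ * u := by
      calc (u : G) * x = (u : G) * x * (u * u) := by rw [huu, mul_one]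
        _ = ((u : G) * x * u) * u := by group
        _ = _ := by rw [h2]
    have h4 : t * x⁻¹ = x * t := by
      calc t * x⁻¹ = t * (t * x * t) := by rw [htx]
        _ = (t * t) * x * t := by group
        _ = _ := by rw [htt, one_mul]
    calc x * (t * (u : G)) = (x * t) * u := by group
      _ = (t * x⁻¹) * u := by rw [h4]
      _ = t * (x⁻¹ * u) := by group
      _ = t * ((u : G) * x) := by rw [h3]
      _ = _ := by group
  · have hc := (c : ↥(S : Subgroup G)).2
    have hc2 := hinv c hc
    have hcx : x * (c : G) = c * x := by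
      have hc' : (c : G) ∈ C x := by rw [← hS]; exact hc
      exact mem_C.mp hc'
    have h5 : t * (c : G) * (t * c) = 1 := by
      calc t * (c : G) * (t * c) = (t * (c : G) * t) * c := by group
        _ = 1 := by rw [hc2]; simp
    have h6 : t * (c : G) ≠ 1 := by
      intro h
      have h7 : (c : G) = t := by
        have : (c : G) = t⁻¹ := eq_inv_of_mul_eq_one_right h
        rw [this, inv_eq_self ht]
      have h8 : t ∈ (S : Subgroup G) := h7 ▸ hc
      have h9 := H.order_of_mem S.2 h8 (ne_one_of_order Nat.prime_two ht)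
      rw [ht] at h9
      exact hs h9.symm
    simp only [JJ, II, Finset.mem_filter, Finset.mem_univ, true_and]
    refine ⟨orderOf_eq_prime (by rw [pow_two]; exact h5) h6, ?_⟩
    calc t * (c : G) * x * (t * c) = t * ((c : G) * x) * (t * c) := by group
      _ = t * (x * c) * (t * c) := by rw [hcx]
      _ = (t * x * t) * (t * (c : G) * t) * c := by
          calc t * (x * (c : G)) * (t * c) = t * x * c * t * c := by group
            _ = t * x * (t * t) * c * t * c := by rw [htt, mul_one]
            _ = _ := by group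
      _ = x⁻¹ * ((c : G))⁻¹ * c := by rw [htx, hc2]
      _ = x⁻¹ := by group
  · intro u
    apply Subtype.ext
    show t * (t * (u : G)) = u
    rw [← mul_assoc, htt, one_mul]
  · intro c
    apply Subtype.ext
    show t * (t * (c : G)) = c
    rw [← mul_assoc, htt, one_mul]

omit [Finite G] [Fact (Nat.Prime s)] in
lemma mem_JJ {x u : G} : u ∈ JJ x ↔ orderOf u = 2 ∧ u * x * u = x⁻¹ := by
  simp [JJ, II]

/-- Elements of the normalizer. -/
lemma Rl.mem_norm_cases (H : Hyp G) (hs : s ≠ 2) (hR : Rl G s) {x : G} (hx : orderOf x = s)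
    (S : Sylow s G) (hS : (S : Subgroup G) = C x) {g : G}
    (hg : g ∈ Subgroup.normalizer ((S : Subgroup G) : Set G)) : g ∈ (S : Subgroup G) ∨ g ∈ JJ x := by
  classical
  have hsp : s.Prime := Fact.out
  by_cases hg1 : g = 1
  · left; rw [hg1]; exact (S : Subgroup G).one_mem
  have hℓ := H.prime g hg1
  have hxS : x ∈ (S : Subgroup G) := by rw [hS]; exact self_mem_C x
  by_cases h1 : orderOf g = s
  · left
    have := Cfsg.Agent.H19.mem_sylow_of_mem_normalizer S (k := 1) (a := g) (by rw [pow_one]; exact h1) hg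
    exact this
  by_cases h2 : orderOf g = 2
  · right
    have h3 := inv_on H hs S h2 hg x hxS
    simp only [JJ, II, Finset.mem_filter, Finset.mem_univ, true_and]
    exact ⟨h2, h3⟩
  exfalso
  obtain ⟨t, ht, htx⟩ := hR.all H hsp hx
  haveI : Fact (orderOf g).Prime := ⟨hℓ⟩
  have hmapmem : ∀ u ∈ JJ x, g * u * g⁻¹ ∈ JJ x := by
    intro u hu
    simp only [JJ, II, Finset.mem_filter, Finset.mem_univ, true_and] at hu ⊢
    have h3 : orderOf (g * u * g⁻¹) = 2 := by
      rw [← MulAut.conj_apply, MulEquiv.orderOf_eq]; exact hu.1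
    refine ⟨h3, ?_⟩
    apply inv_on H hs S h3 _ x hxS
    have huN := inv_mem_norm_C (inv_of_order_two hu.1) hu.2
    rw [← hS] at huN
    exact (Subgroup.normalizer _).mul_mem ((Subgroup.normalizer _).mul_mem hg huN) ((Subgroup.normalizer _).inv_mem hg)
  let f : (JJ x) → (JJ x) := fun u => ⟨g * u * g⁻¹, hmapmem u u.2⟩
  have hfit : ∀ (n : ℕ) (u : JJ x), ((f^[n] u : JJ x) : G) = g ^ n * u * (g ^ n)⁻¹ := by
    intro n
    induction n with
    | zero => intro u; simp
    | succ n ih =>
      intro u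
      rw [Function.iterate_succ_apply', pow_succ']
      show g * ((f^[n] u : JJ x) : G) * g⁻¹ = _
      rw [ih]
      group
  have hf : f^[orderOf g] = id := by
    funext u
    apply Subtype.ext
    rw [hfit, pow_orderOf_eq_one]
    simp
  have hcount := Cfsg.Agent.H17.N22.fix_count f hf
  have hcard : Nat.card (JJ x) = Nat.card S := by
    rw [Nat.card_eq_fintype_card, Fintype.card_coe]
    exact hR.card_JJ H hs hx S
  have hnd : ¬ (orderOf g ∣ Nat.card (JJ x)) := by
    rw [hcard]
    intro hd
    obtain ⟨k, hk⟩ := IsPGroup.iff_card.mp S.2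
    rw [hk] at hd
    have := hℓ.dvd_of_dvd_pow hd
    exact h1 ((Nat.prime_dvd_prime_iff_eq hℓ hsp).mp this)
  have hfix : Nat.card {u // f u = u} ≠ 0 := by
    intro h0
    apply hnd
    have := hcount
    rw [h0] at this
    exact (Nat.modEq_zero_iff_dvd.mp this)
  haveI : Finite {u // f u = u} := inferInstance
  obtain ⟨⟨u, huf⟩⟩ : Nonempty {u // f u = u} := (Nat.card_pos_iff.mp (Nat.pos_of_ne_zero hfix)).1
  have h5 : g * (u : G) * g⁻¹ = u := congrArg Subtype.val huf
  have h6 : g * (u : G) = u * g := by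
    calc g * (u : G) = (g * (u : G) * g⁻¹) * g := by group
      _ = _ := by rw [h5]
  have huo : orderOf (u : G) = 2 := by
    have hu := u.2
    simp only [JJ, II, Finset.mem_filter, Finset.mem_univ, true_and] at hu
    exact hu.1
  exact H.not_comm hg1 (ne_one_of_order Nat.prime_two huo) (by rw [huo]; exact h2) h6

/-- Order of the normalizer. -/
lemma Rl.card_norm (H : Hyp G) (hs : s ≠ 2) (hR : Rl G s) (S : Sylow s G) :
    Nat.card (Subgroup.normalizer ((S : Subgroup G) : Set G)) = 2 * Nat.card S := by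
  classical
  have hsp : s.Prime := Fact.out
  obtain ⟨x₀, -, hx₀, -, -⟩ := id hR
  have hd : s ∣ Nat.card G := by rw [← hx₀]; exact orderOf_dvd_natCard x₀
  obtain ⟨x, hxS, hx1, hx, hC⟩ := H.exists_central hd S
  have hS : (S : Subgroup G) = C x := hC.symm
  have hset : (Finset.univ.filter (fun g : G => g ∈ Subgroup.normalizer ((S : Subgroup G) : Set G))) =
      (Finset.univ.filter (fun g : G => g ∈ (S : Subgroup G))) ∪ JJ x := by
    ext g
    rw [Finset.mem_union, Finset.mem_filter, Finset.mem_filter]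
    simp only [Finset.mem_univ, true_and]
    constructor
    · intro hg
      exact hR.mem_norm_cases H hs hx S hS hg
    · rintro (hg | hg)
      · exact Subgroup.le_normalizer hg
      · rw [mem_JJ] at hg
        have := inv_mem_norm_C (inv_of_order_two hg.1) hg.2
        rw [← hS] at this
        exact this
  have hdis : Disjoint (Finset.univ.filter (fun g : G => g ∈ (S : Subgroup G))) (JJ x) := by
    rw [Finset.disjoint_left]
    intro g hg hg'
    simp only [JJ, II, Finset.mem_filter, Finset.mem_univ, true_and] at hg hg'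
    have := H.order_of_mem S.2 hg (ne_one_of_order Nat.prime_two hg'.1)
    rw [hg'.1] at this
    exact hs this.symm
  rw [Nat.card_eq_fintype_card, Fintype.card_subtype, hset, Finset.card_union_of_disjoint hdis,
    hR.card_JJ H hs hx S, two_mul]
  congr 1
  rw [Nat.card_eq_fintype_card, Fintype.card_subtype]

/-- The number of Sylow `s`-subgroups. -/
lemma Rl.card_sylow (H : Hyp G) (hs : s ≠ 2) (hR : Rl G s) (S : Sylow s G) :
    Nat.card (Sylow s G) * (2 * Nat.card S) = Nat.card G := by
  rw [← hR.card_norm H hs S, S.card_eq_index_normalizer]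
  exact Subgroup.index_mul_card (Subgroup.normalizer ((S : Subgroup G) : Set G))

/-- The number of elements of order `s`. -/
lemma Rl.card_O (H : Hyp G) (hs : s ≠ 2) (hR : Rl G s) (S : Sylow s G) :
    (2 * Nat.card S) * (Finset.univ.filter (fun x : G => orderOf x = s)).card = (Nat.card S - 1) * Nat.card G := by
  rw [H.card_O (hR.absyl H hs) S, ← hR.card_sylow H hs S]
  ring

/-- The sum over real elements. -/
lemma Rl.sum_JJ (H : Hyp G) (hs : s ≠ 2) (hR : Rl G s) (S : Sylow s G) :
    2 * ∑ x ∈ Finset.univ.filter (fun x : G => orderOf x = s), (JJ x).card = (Nat.card S - 1) * Nat.card G := by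
  rw [← hR.card_O H hs S]
  have : ∑ x ∈ Finset.univ.filter (fun x : G => orderOf x = s), (JJ x).card =
      ∑ x ∈ Finset.univ.filter (fun x : G => orderOf x = s), Nat.card S := by
    apply Finset.sum_congr rfl
    intro x hx
    simp only [Finset.mem_filter, Finset.mem_univ, true_and] at hx
    exact hR.card_JJ H hs hx S
  rw [this, Finset.sum_const, smul_eq_mul]
  ring

omit [Finite G] in
/-- The sum over nonreal elements. -/
lemma not_Rl_sum_JJ (hR : ¬ Rl G s) :
    ∑ x ∈ Finset.univ.filter (fun x : G => orderOf x = s), (JJ x).card = 0 := by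
  apply Finset.sum_eq_zero
  intro x hx
  simp only [Finset.mem_filter, Finset.mem_univ, true_and] at hx
  rw [Finset.card_eq_zero, Finset.eq_empty_iff_forall_notMem]
  intro t ht
  simp only [JJ, II, Finset.mem_filter, Finset.mem_univ, true_and] at ht
  exact hR ⟨x, t, hx, ht.1, ht.2⟩

end Real

end Cfsg.Agent.H12.A5
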