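import Cfsg.Agent.Lib.H12.A5Aut3

set_option autoImplicit false

namespace Cfsg.Agent.H12.A5

open Subgroup

/-- Two primes whose subgroups all have "self-contained" normalizers cannot coexist. -/
theorem lemmaX {H : Type*} [Group H] [Finite H] {s s' : ℕ} [Fact s.Prime] [Fact s'.Prime] (hne : s ≠ s')
    (hs : s ∣ Nat.card H) (hs' : s' ∣ Nat.card H)
    (hab : ∀ P : Sylow s H, ∀ a ∈ (P : Subgroup H), ∀ b ∈ (P : Subgroup H), a * b = b * a)
    (hN : ∀ R : Subgroup H, R ≠ ⊥ → IsPGroup s R → IsPGroup s (Subgroup.normalizer (R : Set H)))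
    (hN' : ∀ R : Subgroup H, R ≠ ⊥ → IsPGroup s' R → IsPGroup s' (Subgroup.normalizer (R : Set H))) : False := by
  have hsp : s.Prime := Fact.out
  have hsp' : s'.Prime := Fact.out
  obtain ⟨P⟩ : Nonempty (Sylow s H) := inferInstance
  have hPne : (P : Subgroup H) ≠ ⊥ := P.ne_bot_of_dvd_card hs
  have hNP : Subgroup.normalizer ((P : Subgroup H) : Set H) = (P : Subgroup H) :=
    (P.3 (hN P hPne P.2) Subgroup.le_normalizer)
  have hcen : Subgroup.normalizer ((P : Set H)) ≤ Subgroup.centralizer (P : Set H) := by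
    intro w hw
    have hwP : w ∈ (P : Subgroup H) := by
      have h1 : w ∈ Subgroup.normalizer ((P : Subgroup H) : Set H) := hw
      rwa [hNP] at h1
    rw [Subgroup.mem_centralizer_iff]
    intro u hu
    exact hab P u hu w hwP
  let φ := MonoidHom.transferSylow P hcen
  have hc := MonoidHom.ker_transferSylow_isComplement' P hcen
  set K := φ.ker with hK
  have hcard : Nat.card K * Nat.card (P : Subgroup H) = Nat.card H := hc.card_mul
  obtain ⟨k, hk⟩ := IsPGroup.iff_card.mp P.2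
  have hs'K : s' ∣ Nat.card K := by
    rw [← hcard, hk] at hs'
    rcases (Nat.Prime.dvd_mul hsp').mp hs' with h | h
    · exact h
    · exact absurd ((Nat.prime_dvd_prime_iff_eq hsp' hsp).mp (hsp'.dvd_of_dvd_pow h)).symm hne
  obtain ⟨Q⟩ : Nonempty (Sylow s' K) := inferInstance
  have hQne : (Q : Subgroup K) ≠ ⊥ := Q.ne_bot_of_dvd_card hs'K
  have hQ'ne : (Q : Subgroup K).map K.subtype ≠ ⊥ := by
    intro h
    apply hQne
    exact (Subgroup.map_eq_bot_iff_of_injective _ K.subtype_injective).mp h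
  have hQ'p : IsPGroup s' ((Q : Subgroup K).map K.subtype) := Q.2.map K.subtype
  have hNQ := hN' _ hQ'ne hQ'p
  have hsup := Sylow.normalizer_sup_eq_top Q
  have hle : Subgroup.normalizer (((Q : Subgroup K).map K.subtype : Subgroup H) : Set H) ≤ K := by
    intro y hy
    obtain ⟨m, hm⟩ := hNQ ⟨y, hy⟩
    have h1 : y ^ s' ^ m = 1 := congrArg Subtype.val hm
    obtain ⟨m', hm'⟩ := P.2 (φ y)
    have h2 : (φ y) ^ s' ^ m = 1 := by rw [← map_pow, h1, map_one]
    have h3 : orderOf (φ y) ∣ s' ^ m := orderOf_dvd_of_pow_eq_one h2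
    have h4 : orderOf (φ y) ∣ s ^ m' := orderOf_dvd_of_pow_eq_one hm'
    have hcop : Nat.Coprime (s' ^ m) (s ^ m') :=
      Nat.Coprime.pow _ _ ((Nat.coprime_primes hsp' hsp).mpr (Ne.symm hne))
    have h5 : orderOf (φ y) = 1 := Nat.eq_one_of_dvd_coprimes hcop h3 h4
    rw [orderOf_eq_one_iff] at h5
    exact h5
  have htop : K = ⊤ := by
    rw [← hsup]
    exact (le_sup_of_le_right le_rfl).antisymm' (sup_le hle le_rfl) |>.symm ▸ rfl
  have hK1 : Nat.card K = Nat.card H := by rw [htop]; exact Subgroup.card_top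
  rw [hK1] at hcard
  have hP1 : Nat.card (P : Subgroup H) = 1 := by
    have hpos : 0 < Nat.card H := Nat.card_pos
    exact Nat.eq_of_mul_eq_mul_left hpos (by rw [hcard, mul_one])
  exact hPne ((Subgroup.card_eq_one).mp hP1)

variable {G : Type*} [Group G] [Finite G]

section
variable [Fintype G] [DecidableEq G]

/-- Elements normalizing a Sylow 2-subgroup and moving an `s`-element inside a Sylow `s`-subgroup. -/
lemma norm_elem (H : Hyp G) {s : ℕ} [Fact s.Prime] (hs : s ≠ 2) (hR : Rl G s) (T : Sylow 2 G) {x y : G}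
    (hx : orderOf x = s) (hxT : x ∈ Subgroup.normalizer ((T : Subgroup G) : Set G))
    (hyT : y ∈ Subgroup.normalizer ((T : Subgroup G) : Set G))
    (S : Sylow s G) (hxS : x ∈ (S : Subgroup G)) (hyS : y * x * y⁻¹ ∈ (S : Subgroup G)) : y ^ s = 1 := by
  haveI : Fact (Nat.Prime 2) := ⟨Nat.prime_two⟩
  have hsp : s.Prime := Fact.out
  have hab := hR.absyl H hs
  have hx1 := ne_one_of_order hsp hx
  have hCx := H.cent_eq hab S hxS hx1
  have hz1 : y * x * y⁻¹ ≠ 1 := by
    intro h
    apply hx1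
    have : x = y⁻¹ * (y * x * y⁻¹) * y := by group
    rw [this, h]; group
  have hCz := H.cent_eq hab S hyS hz1
  have hyN : y ∈ Subgroup.normalizer ((S : Subgroup G) : Set G) := by
    apply mem_norm_iff.mpr
    intro w
    constructor
    · intro hw
      rw [← hCz]
      apply mem_C.mpr
      have hw' : x * w = w * x := by
        rw [← hCx] at hw
        exact mem_C.mp hw
      calc (y * x * y⁻¹) * (y * w * y⁻¹) = y * (x * w) * y⁻¹ := by group
        _ = y * (w * x) * y⁻¹ := by rw [hw']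
        _ = _ := by group
    · intro hw
      rw [← hCz] at hw
      rw [← hCx]
      apply mem_C.mpr
      have hw' := mem_C.mp hw
      have h1 : y * (x * w) * y⁻¹ = y * (w * x) * y⁻¹ := by
        calc y * (x * w) * y⁻¹ = (y * x * y⁻¹) * (y * w * y⁻¹) := by group
          _ = (y * w * y⁻¹) * (y * x * y⁻¹) := hw'
          _ = _ := by group
      exact mul_left_cancel (mul_right_cancel h1)
  rcases hR.mem_norm_cases H hs hx S hCx.symm hyN with hy | hy
  · exact H.pow_of_mem S.2 hy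
  exfalso
  rw [mem_JJ] at hy
  have hyTm : y ∈ (T : Subgroup G) :=
    Cfsg.Agent.H19.mem_sylow_of_mem_normalizer T (k := 1) (a := y) (by rw [pow_one]; exact hy.1) hyT
  have h2 : x * y * x⁻¹ ∈ (T : Subgroup G) := (mem_norm_iff.mp hxT y).mp hyTm
  have h3 : y * (x * y * x⁻¹) ∈ (T : Subgroup G) := (T : Subgroup G).mul_mem hyTm h2
  have h4 : y * (x * y * x⁻¹) = x⁻¹ * x⁻¹ := by
    calc y * (x * y * x⁻¹) = (y * x * y) * x⁻¹ := by group
      _ = _ := by rw [hy.2]
  rw [h4] at h3
  have h5 : x * x ∈ (T : Subgroup G) := by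
    have := (T : Subgroup G).inv_mem h3
    simpa using this
  have hw1 : x * x ≠ 1 := by
    intro h
    have h6 : orderOf x ∣ 2 := orderOf_dvd_of_pow_eq_one (by rw [pow_two]; exact h)
    rw [hx] at h6
    exact hs ((Nat.prime_dvd_prime_iff_eq hsp Nat.prime_two).mp h6)
  have hwo := H.order_of_mem T.2 h5 hw1
  exact H.not_comm hw1 hx1 (by rw [hwo, hx]; exact Ne.symm hs) (by group)

/-- The normalizer in `N(T)` of a nontrivial `s`-subgroup is an `s`-group. -/
lemma normH (H : Hyp G) {s : ℕ} [Fact s.Prime] (hs : s ≠ 2) (hR : Rl G s) (T : Sylow 2 G)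
    (R : Subgroup (Subgroup.normalizer ((T : Subgroup G) : Set G))) (hR1 : R ≠ ⊥) (hRp : IsPGroup s R) :
    IsPGroup s (Subgroup.normalizer (R : Set (Subgroup.normalizer ((T : Subgroup G) : Set G)))) := by
  have hsp : s.Prime := Fact.out
  obtain ⟨x, hxR, hx1⟩ := (Subgroup.bot_or_exists_ne_one R).resolve_left hR1
  set Rt : Subgroup G := R.map (Subgroup.normalizer ((T : Subgroup G) : Set G)).subtype with hRt
  have hRtp : IsPGroup s Rt := hRp.map _
  have hxt : ((x : G)) ∈ Rt := ⟨x, hxR, rfl⟩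
  have hx1' : (x : G) ≠ 1 := fun h => hx1 (Subtype.ext h)
  have hxo : orderOf (x : G) = s := H.order_of_mem hRtp hxt hx1'
  obtain ⟨S, hS⟩ := hRtp.exists_le_sylow
  intro y
  refine ⟨1, ?_⟩
  apply Subtype.ext
  apply Subtype.ext
  rw [pow_one]
  show ((y : _) : G) ^ s = 1
  have hyR : (y : _) * x * (y : _)⁻¹ ∈ R := (mem_norm_iff.mp y.2 x).mp hxR
  have hyRt : (((y : _) : G)) * x * ((y : _) : G)⁻¹ ∈ (S : Subgroup G) := hS ⟨_, hyR, rfl⟩
  exact norm_elem H hs hR T hxo x.2 y.1.2 S (hS hxt) hyRt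

/-- `s` and `s'` cannot both divide the order of `N(T)`. -/
theorem not_both (H : Hyp G) {s s' : ℕ} [Fact s.Prime] [Fact s'.Prime] (hs : s ≠ 2) (hs' : s' ≠ 2) (hne : s ≠ s')
    (hR : Rl G s) (hR' : Rl G s') (T : Sylow 2 G)
    (hd : s ∣ Nat.card (Subgroup.normalizer ((T : Subgroup G) : Set G)))
    (hd' : s' ∣ Nat.card (Subgroup.normalizer ((T : Subgroup G) : Set G))) : False := by
  refine lemmaX hne hd hd' ?_ (normH H hs hR T) (normH H hs' hR' T)
  intro P a ha b hb
  have hPt : IsPGroup s ((P : Subgroup _).map (Subgroup.normalizer ((T : Subgroup G) : Set G)).subtype) := P.2.map _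
  obtain ⟨S, hS⟩ := hPt.exists_le_sylow
  have := hR.absyl H hs S a (hS ⟨a, ha, rfl⟩) b (hS ⟨b, hb, rfl⟩)
  exact Subtype.ext this

end

end Cfsg.Agent.H12.A5
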