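import Cfsg.Agent.Lib.H12.A5Aut4
import Cfsg.Agent.Lib.H15.ChzFour2

set_option autoImplicit false

namespace Cfsg.Agent.H12.A5

open Subgroup

variable {G : Type*} [Group G] [Finite G]

section
variable [Fintype G] [DecidableEq G]

lemma stab_two (H : Hyp G) {T T' : Sylow 2 G} (hne : T ≠ T') {u : G} (hu : u ∈ (T : Subgroup G))
    (hs : u • T' = T') : u = 1 := by
  haveI : Fact (Nat.Prime 2) := ⟨Nat.prime_two⟩
  by_contra hu1
  have hN : u ∈ Subgroup.normalizer ((T' : Subgroup G) : Set G) := Sylow.smul_eq_iff_mem_normalizer.mp hs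
  have ho := H.order_of_mem T.2 hu hu1
  have hm : u ∈ (T' : Subgroup G) := Cfsg.Agent.H19.mem_sylow_of_mem_normalizer T' (k := 1) (a := u) (by rw [pow_one]; exact ho) hN
  exact hne (H.sylow_unique (absyl_two H) hu hm hu1)

/-- The Sylow subgroup is regular on the other Sylow subgroups. -/
lemma trans_two (H : Hyp G) {T₀ : Sylow 2 G} (hn : Nat.card T₀ = Nat.card (Sylow 2 G) - 1) {T₁ T₂ : Sylow 2 G}
    (h1 : T₁ ≠ T₀) (h2 : T₂ ≠ T₀) : ∃ u ∈ (T₀ : Subgroup G), u • T₁ = T₂ := by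
  classical
  haveI : Fact (Nat.Prime 2) := ⟨Nat.prime_two⟩
  have hfix : ∀ u ∈ (T₀ : Subgroup G), u • T₀ = T₀ := fun u hu =>
    Sylow.smul_eq_iff_mem_normalizer.mpr (Subgroup.le_normalizer hu)
  let f : ↥(T₀ : Subgroup G) → {S : Sylow 2 G // S ≠ T₀} := fun u => ⟨(u : G) • T₁, by
    intro h
    apply h1
    have := congrArg (fun S => (u : G)⁻¹ • S) h
    simp only [inv_smul_smul] at this
    rw [this, hfix _ ((T₀ : Subgroup G).inv_mem u.2)]⟩
  have hinj : Function.Injective f := by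
    intro u v huv
    have h3 : (u : G) • T₁ = (v : G) • T₁ := congrArg Subtype.val huv
    have h4 : ((v : G)⁻¹ * u) • T₁ = T₁ := by
      rw [mul_smul, h3, inv_smul_smul]
    have h5 := stab_two H (Ne.symm h1) ((T₀ : Subgroup G).mul_mem ((T₀ : Subgroup G).inv_mem v.2) u.2) h4
    apply Subtype.ext
    exact (inv_mul_eq_one.mp h5).symm
  have hcard : Nat.card {S : Sylow 2 G // S ≠ T₀} ≤ Nat.card T₀ := by
    rw [hn]
    haveI : Fintype (Sylow 2 G) := Fintype.ofFinite _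
    rw [Nat.card_eq_fintype_card, Nat.card_eq_fintype_card, Fintype.card_subtype_compl]
    simp
  have hbij := hinj.bijective_of_nat_card_le hcard
  obtain ⟨u, hu⟩ := hbij.2 ⟨T₂, h2⟩
  exact ⟨u, u.2, congrArg Subtype.val hu⟩

/-- A nonidentity element fixes at most 2 Sylow 2-subgroups. -/
lemma three_pt (H : Hyp G) {T₀ T₁ T₂ : Sylow 2 G} (hn : Nat.card T₀ = Nat.card (Sylow 2 G) - 1)
    (h10 : T₁ ≠ T₀) (h20 : T₂ ≠ T₀) (h12 : T₁ ≠ T₂) {g : G} (h0 : g • T₀ = T₀) (h1 : g • T₁ = T₁) (h2 : g • T₂ = T₂) :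
    g = 1 := by
  haveI : Fact (Nat.Prime 2) := ⟨Nat.prime_two⟩
  by_contra hg1
  have hN0 : g ∈ Subgroup.normalizer ((T₀ : Subgroup G) : Set G) := Sylow.smul_eq_iff_mem_normalizer.mp h0
  have hN1 : g ∈ Subgroup.normalizer ((T₁ : Subgroup G) : Set G) := Sylow.smul_eq_iff_mem_normalizer.mp h1
  by_cases ho : orderOf g = 2
  · have hm0 : g ∈ (T₀ : Subgroup G) := Cfsg.Agent.H19.mem_sylow_of_mem_normalizer T₀ (k := 1) (a := g) (by rw [pow_one]; exact ho) hN0
    have hm1 : g ∈ (T₁ : Subgroup G) := Cfsg.Agent.H19.mem_sylow_of_mem_normalizer T₁ (k := 1) (a := g) (by rw [pow_one]; exact ho) hN1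
    exact h10 (H.sylow_unique (absyl_two H) hm1 hm0 hg1)
  obtain ⟨u, hu, hut⟩ := trans_two H hn h10 h20
  have hu1 : u ≠ 1 := by
    intro h
    rw [h, one_smul] at hut
    exact h12 hut
  have huo := H.order_of_mem T₀.2 hu hu1
  have hw : g * u * g⁻¹ ∈ (T₀ : Subgroup G) := (mem_norm_iff.mp hN0 u).mp hu
  have h3 : (g * u * g⁻¹) • T₁ = u • T₁ := by
    have h4 : g⁻¹ • T₁ = T₁ := by
      conv_lhs => rw [← h1]
      rw [inv_smul_smul]
    rw [mul_smul, mul_smul, h4, hut, h2]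
  have h5 : (u⁻¹ * (g * u * g⁻¹)) • T₁ = T₁ := by
    rw [mul_smul, h3, inv_smul_smul]
  have h6 := stab_two H (Ne.symm h10) ((T₀ : Subgroup G).mul_mem ((T₀ : Subgroup G).inv_mem hu) hw) h5
  have h7 : g * u * g⁻¹ = u := (inv_mul_eq_one.mp h6).symm
  have h8 : g * u = u * g := by
    calc g * u = (g * u * g⁻¹) * g := by group
      _ = _ := by rw [h7]
  exact H.not_comm hg1 hu1 (by rw [huo]; exact ho) h8

/-- There is no `q = 8` example. -/
theorem no_q8 (H : Hyp G) (T₀ : Sylow 2 G) (hT : Nat.card T₀ = 8) (hn₂ : Nat.card (Sylow 2 G) = 9)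
    (hN : Nat.card G = 504) (hR : Rl G 3) [Fact (Nat.Prime 3)] (P : Sylow 3 G) (hP : Nat.card P = 9) : False := by
  classical
  haveI : Fact (Nat.Prime 2) := ⟨Nat.prime_two⟩
  haveI : Fintype (Sylow 2 G) := Fintype.ofFinite _
  have hn : Nat.card T₀ = Nat.card (Sylow 2 G) - 1 := by rw [hT, hn₂]
  have hnorm : Nat.card (Subgroup.normalizer ((T₀ : Subgroup G) : Set G)) = 56 := by
    have h1 := Subgroup.index_mul_card (Subgroup.normalizer ((T₀ : Subgroup G) : Set G))
    have h2 := T₀.card_eq_index_normalizer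
    rw [hN] at h1
    have h3 : (Subgroup.normalizer ((T₀ : Subgroup G) : Set G)).index = 9 := by
      rw [← hn₂, h2]
      rfl
    rw [h3] at h1
    omega
  have hC := hR.card_O H (by norm_num) P
  rw [hP, hN] at hC
  have hO : (Finset.univ.filter (fun x : G => orderOf x = 3)).card = 224 := by omega
  -- the elements of order 3 do not stabilize T₀
  have hst : ∀ x : G, orderOf x = 3 → x • T₀ ≠ T₀ := by
    intro x hx h
    have hm : x ∈ Subgroup.normalizer ((T₀ : Subgroup G) : Set G) := Sylow.smul_eq_iff_mem_normalizer.mp h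
    have h1 : orderOf (⟨x, hm⟩ : Subgroup.normalizer ((T₀ : Subgroup G) : Set G)) = 3 := by
      rw [← Subgroup.orderOf_coe]; exact hx
    have h2 := orderOf_dvd_natCard (⟨x, hm⟩ : Subgroup.normalizer ((T₀ : Subgroup G) : Set G))
    rw [h1, hnorm] at h2
    omega
  have hinv3 : ∀ x : G, orderOf x = 3 → x * x = x⁻¹ := by
    intro x hx
    have h3 : x ^ 3 = 1 := by rw [← hx]; exact pow_orderOf_eq_one x
    apply eq_inv_of_mul_eq_one_left
    rw [← h3, pow_succ, pow_two]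
  have hord_inv : ∀ x : G, orderOf x = 3 → orderOf x⁻¹ = 3 := by
    intro x hx
    rw [orderOf_inv, hx]
  have hinj : Set.InjOn (fun x : G => ((x • T₀, x⁻¹ • T₀) : Sylow 2 G × Sylow 2 G))
      (Finset.univ.filter (fun x : G => orderOf x = 3) : Finset G) := by
    intro x hx x' hx' he
    simp only [Finset.coe_filter, Finset.mem_univ, true_and, Set.mem_setOf_eq] at hx hx'
    have he1 : x • T₀ = x' • T₀ := congrArg Prod.fst he
    have he2 : x⁻¹ • T₀ = x'⁻¹ • T₀ := congrArg Prod.snd he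
    have hd1 : x • T₀ ≠ T₀ := hst x hx
    have hd2 : x⁻¹ • T₀ ≠ T₀ := hst _ (hord_inv x hx)
    have hd3 : x • T₀ ≠ x⁻¹ • T₀ := by
      intro h
      apply hst _ (hord_inv x hx)
      have h1 := congrArg (fun S => x • S) h
      simp only [smul_inv_smul] at h1
      rw [← mul_smul, hinv3 x hx] at h1
      exact h1
    have h0 : (x⁻¹ * x') • T₀ = T₀ := by rw [mul_smul, ← he1, inv_smul_smul]
    have h1 : (x⁻¹ * x') • (x • T₀) = x • T₀ := by
      have h5 : x⁻¹ * x⁻¹ = x := by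
        rw [← hinv3 x hx]
        have h3 : x ^ 3 = 1 := by rw [← hx]; exact pow_orderOf_eq_one x
        calc x * x * (x * x) = (x * x * x) * x := by group
          _ = x := by rw [← pow_two, ← pow_succ, h3, one_mul]
      calc (x⁻¹ * x') • (x • T₀) = x⁻¹ • (x' • (x' • T₀)) := by rw [he1, mul_smul]
        _ = x⁻¹ • ((x' * x') • T₀) := by rw [mul_smul]
        _ = x⁻¹ • (x'⁻¹ • T₀) := by rw [hinv3 x' hx']
        _ = x⁻¹ • (x⁻¹ • T₀) := by rw [he2]
        _ = (x⁻¹ * x⁻¹) • T₀ := by rw [mul_smul]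
        _ = x • T₀ := by rw [h5]
    have h2 : (x⁻¹ * x') • (x⁻¹ • T₀) = x⁻¹ • T₀ := by
      calc (x⁻¹ * x') • (x⁻¹ • T₀) = x⁻¹ • (x' • (x'⁻¹ • T₀)) := by rw [mul_smul, he2]
        _ = x⁻¹ • T₀ := by rw [smul_inv_smul]
    have := three_pt H hn hd1 hd2 hd3 h0 h1 h2
    exact (inv_mul_eq_one.mp this)
  have hle := Finset.card_le_card_of_injOn (s := Finset.univ.filter (fun x : G => orderOf x = 3))
    (t := (Finset.univ : Finset (Sylow 2 G × Sylow 2 G))) _ (fun _ _ => Finset.mem_univ _) hinj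
  rw [hO, Finset.card_univ, Fintype.card_prod, ← Nat.card_eq_fintype_card, hn₂] at hle
  omega

/-- The Klein case. -/
theorem q4_iso (H : Hyp G) (T₀ : Sylow 2 G) (hT : Nat.card T₀ = 4) (hnn : ∃ S S' : Sylow 2 G, S ≠ S') :
    Nonempty (G ≃* alternatingGroup (Fin 5)) := by
  haveI : Fact (Nat.Prime 2) := ⟨Nat.prime_two⟩
  have K : Cfsg.Agent.H15.ChzFour.KleinTI G := by
    refine ⟨?_, ?_, ?_, ?_⟩
    · intro P w hw hw1
      exact H.cent_eq (absyl_two H) P hw hw1
    · intro P c hc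
      exact H.pow_of_mem P.2 hc
    · intro P
      rw [← hT]
      exact card_sylow_eq P T₀
    · intro α
      obtain ⟨S, S', hSS⟩ := hnn
      by_cases h : S = α
      · exact ⟨S', fun h' => hSS (h.trans h'.symm)⟩
      · exact ⟨S, h⟩
  exact K.iso_alternating

end

end Cfsg.Agent.H12.A5
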