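import Cfsg.Agent.Lib.H12.A5Aut5
import Cfsg.Agent.Lib.H12.A5Arith

set_option autoImplicit false

namespace Cfsg.Agent.H12.A5

open Subgroup

variable {G : Type*} [Group G] [Finite G]

lemma three_le_card {s : ℕ} [Fact s.Prime] (hs2 : s ≠ 2) (S : Sylow s G) (hd : s ∣ Nat.card G) :
    3 ≤ Nat.card S := by
  have hs : s.Prime := Fact.out
  obtain ⟨k, hk⟩ := IsPGroup.iff_card.mp S.2
  have hne := S.ne_bot_of_dvd_card hd
  have hk0 : k ≠ 0 := by
    rintro rfl
    apply hne
    rw [pow_zero] at hk
    exact Subgroup.card_eq_one.mp hk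
  have h1 : s ≤ s ^ k := Nat.le_self_pow hk0 s
  have h2 : 3 ≤ s := by
    have := hs.two_le
    omega
  rw [hk]
  omega

lemma card_factor {p r : ℕ} [Fact p.Prime] [Fact r.Prime] (hp2 : p ≠ 2) (hr2 : r ≠ 2) (hpr : p ≠ r)
    (hprime : ∀ l : ℕ, l.Prime → l ∣ Nat.card G → l = 2 ∨ l = p ∨ l = r)
    (T : Sylow 2 G) (P : Sylow p G) (R : Sylow r G) [Fact (Nat.Prime 2)] :
    Nat.card G = Nat.card T * (Nat.card P * Nat.card R) := by
  have hN0 : Nat.card G ≠ 0 := Nat.card_pos.ne'
  rw [T.card_eq_multiplicity, P.card_eq_multiplicity, R.card_eq_multiplicity]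
  have h1 := Nat.factorization_prod_pow_eq_self hN0
  have hsub : (Nat.card G).factorization.support ⊆ ({2, p, r} : Finset ℕ) := by
    intro l hl
    rw [Nat.support_factorization, Nat.mem_primeFactors] at hl
    have := hprime l hl.1 hl.2.1
    simpa using this
  rw [Finsupp.prod_of_support_subset _ hsub _ (fun i _ => pow_zero i)] at h1
  rw [Finset.prod_insert (by simp [Ne.symm hp2, Ne.symm hr2]), Finset.prod_insert (by simpa using hpr),
    Finset.prod_singleton] at h1
  exact h1.symm

section
variable [Fintype G] [DecidableEq G]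

/-- Both primes real. -/
theorem core_real (H : Hyp G) {p r : ℕ} [Fact p.Prime] [Fact r.Prime] (hp2 : p ≠ 2) (hr2 : r ≠ 2)
    (hRr : Rl G r) [Fact (Nat.Prime 2)] (T : Sylow 2 G) (P : Sylow p G) (R : Sylow r G)
    (hN : Nat.card G = Nat.card T * (Nat.card P * Nat.card R))
    (hn₂ : Nat.card P * Nat.card R = Nat.card (Sylow 2 G) * (Nat.card T - 1))
    (h : 2 * Nat.card P * Nat.card R + 2 = (Nat.card P + Nat.card R) * Nat.card T)
    (hdiv : (Nat.card T - 1) ∣ Nat.card P)
    (hnn : ∃ S S' : Sylow 2 G, S ≠ S') (hT1 : Nat.card T ≠ 1) (ha3 : 3 ≤ Nat.card P) (hb3 : 3 ≤ Nat.card R) :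
    Nonempty (G ≃* alternatingGroup (Fin 5)) := by
  have hpp : p.Prime := Fact.out
  have hrp : r.Prime := Fact.out
  obtain ⟨n, hn⟩ := IsPGroup.iff_card.mp T.2
  obtain ⟨α, hα⟩ := IsPGroup.iff_card.mp P.2
  obtain ⟨β, hβ⟩ := IsPGroup.iff_card.mp R.2
  have hn0 : n ≠ 0 := by
    rintro rfl
    exact hT1 (by rw [hn, pow_zero])
  have hn1 : n ≠ 1 := by
    rintro rfl
    rw [hn, pow_one] at h
    generalize Nat.card P = a at *
    generalize Nat.card R = b at *
    nlinarith
  have hn2 : 2 ≤ n := by omega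
  have hq4 : 4 ≤ Nat.card T := by
    rw [hn]
    calc 4 = 2 ^ 2 := by norm_num
      _ ≤ 2 ^ n := Nat.pow_le_pow_right (by norm_num) hn2
  have hodd : Odd (Nat.card R) := by
    rw [hβ]
    exact (hrp.odd_of_ne_two hr2).pow
  obtain ⟨h1, h2⟩ := arith_two hq4 hdiv (by omega) hodd h
  have hcase := two_pow_case hpp hrp hn2 (by rw [← hn, ← h1, hα]) (by rw [← hn, ← h2, hβ])
  rw [← hn] at hcase
  rcases hcase with h4 | h8
  · exact q4_iso H T h4 hnn
  · exfalso
    rw [h8] at h1 h2 hn₂ hN
    rw [h1, h2] at hn₂ hN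
    have hr3 : r = 3 := by
      have h3 : r ∣ 3 ^ 2 := by
        have : r ∣ r ^ β := by
          apply dvd_pow_self
          rintro rfl
          rw [pow_zero] at hβ
          omega
        rw [← hβ, h2] at this
        exact this
      exact (Nat.prime_dvd_prime_iff_eq hrp Nat.prime_three).mp (hrp.dvd_of_dvd_pow h3)
    subst hr3
    exact no_q8 H T h8 (by omega) (by omega) hRr R (by omega)

/-- Core theorem. -/
theorem main_core (H : Hyp G) {p r : ℕ} [Fact p.Prime] [Fact r.Prime] (hp2 : p ≠ 2) (hr2 : r ≠ 2) (hpr : p ≠ r)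
    (hprime : ∀ l : ℕ, l.Prime → l ∣ Nat.card G → l = 2 ∨ l = p ∨ l = r)
    (hd2 : 2 ∣ Nat.card G) (hdp : p ∣ Nat.card G) (hdr : r ∣ Nat.card G)
    (hnn : ∃ S S' : Sylow 2 G, S ≠ S') : Nonempty (G ≃* alternatingGroup (Fin 5)) := by
  classical
  haveI : Fact (Nat.Prime 2) := ⟨Nat.prime_two⟩
  have hpp : p.Prime := Fact.out
  have hrp : r.Prime := Fact.out
  obtain ⟨T⟩ : Nonempty (Sylow 2 G) := inferInstance
  obtain ⟨P⟩ : Nonempty (Sylow p G) := inferInstance
  obtain ⟨R⟩ : Nonempty (Sylow r G) := inferInstance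
  have hN := card_factor hp2 hr2 hpr hprime T P R
  have ha3 := three_le_card hp2 P hdp
  have hb3 := three_le_card hr2 R hdr
  have hT1 : Nat.card T ≠ 1 := by
    intro h
    exact (T.ne_bot_of_dvd_card hd2) (Subgroup.card_eq_one.mp h)
  obtain ⟨n, hn⟩ := IsPGroup.iff_card.mp T.2
  obtain ⟨α, hα⟩ := IsPGroup.iff_card.mp P.2
  obtain ⟨β, hβ⟩ := IsPGroup.iff_card.mp R.2
  have hq2 : 2 ≤ Nat.card T := by
    have : 0 < Nat.card T := Nat.card_pos
    omega
  have hII := H.card_II hnn T hd2
  have hA : (II G).card = Nat.card P * Nat.card R := by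
    rw [hN, mul_comm] at hII
    exact Nat.eq_of_mul_eq_mul_left (by omega) hII
  have hn₂' : (II G).card = Nat.card (Sylow 2 G) * (Nat.card T - 1) := H.card_O (absyl_two H) T
  have hn2 : 2 ≤ Nat.card (Sylow 2 G) := by
    obtain ⟨S, S', hSS⟩ := hnn
    haveI : Nontrivial (Sylow 2 G) := ⟨⟨S, S', hSS⟩⟩
    exact Finite.one_lt_card
  have hn₂ : Nat.card P * Nat.card R = Nat.card (Sylow 2 G) * (Nat.card T - 1) := by rw [← hA, hn₂']
  have hpairs := H.card_pairs T
  have hfib := H.card_pairs_fiber
  have hsplit : (Finset.univ.filter (fun x : G => x ≠ 1 ∧ orderOf x ≠ 2)) =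
      (Finset.univ.filter (fun x : G => orderOf x = p)) ∪ (Finset.univ.filter (fun x : G => orderOf x = r)) := by
    ext x
    simp only [Finset.mem_filter, Finset.mem_univ, true_and, Finset.mem_union]
    constructor
    · rintro ⟨h1, h2⟩
      have hl := H.prime x h1
      rcases hprime _ hl (orderOf_dvd_natCard x) with h | h | h
      · exact absurd h h2
      · exact Or.inl h
      · exact Or.inr h
    · rintro (h | h)
      · exact ⟨ne_one_of_order hpp h, by rw [h]; exact hp2⟩
      · exact ⟨ne_one_of_order hrp h, by rw [h]; exact hr2⟩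
  have hdis : Disjoint (Finset.univ.filter (fun x : G => orderOf x = p)) (Finset.univ.filter (fun x : G => orderOf x = r)) := by
    rw [Finset.disjoint_left]
    intro x hx hx'
    simp only [Finset.mem_filter, Finset.mem_univ, true_and] at hx hx'
    exact hpr (hx.symm.trans hx')
  rw [hsplit, Finset.sum_union hdis] at hfib
  rw [hfib, hA] at hpairs
  set q := Nat.card T with hq
  set a := Nat.card P with ha
  set b := Nat.card R with hb
  set A := a * b with hAdef
  have hAgt : q - 1 < A := by
    rw [hn₂]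
    have : 1 ≤ q - 1 := by omega
    nlinarith
  have hApos : 0 < A := by omega
  set D := A - (q - 1) with hD
  have hDpos : 0 < D := by omega
  have hNA : Nat.card G = q * A := hN
  by_cases hRp : Rl G p
  · have hsp := hRp.sum_JJ H hp2 P
    by_cases hRr : Rl G r
    · have hsr := hRr.sum_JJ H hr2 R
      rw [← ha, hNA] at hsp
      rw [← hb, hNA] at hsr
      have h2 : 2 * (A * D) = ((a - 1) + (b - 1)) * (q * A) := by
        rw [← hpairs]
        rw [mul_add, hsp, hsr]
        ring
      have h3 : 2 * D = ((a - 1) + (b - 1)) * q := by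
        have h4 : A * (2 * D) = A * (((a - 1) + (b - 1)) * q) := by
          calc A * (2 * D) = 2 * (A * D) := by ring
            _ = _ := by rw [h2]; ring
        exact Nat.eq_of_mul_eq_mul_left hApos h4
      have hfin : 2 * a * b + 2 = (a + b) * q :=
        arith_both (by omega) (by omega) (by omega) (by omega) h3
      have hNT : Nat.card (Subgroup.normalizer ((T : Subgroup G) : Set G)) = q * (q - 1) := by
        have h5 := Subgroup.index_mul_card (Subgroup.normalizer ((T : Subgroup G) : Set G))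
        have h6 : (Subgroup.normalizer ((T : Subgroup G) : Set G)).index = Nat.card (Sylow 2 G) := T.card_eq_index_normalizer.symm
        rw [h6, hNA, hn₂] at h5
        have h7 : Nat.card (Sylow 2 G) * Nat.card (Subgroup.normalizer ((T : Subgroup G) : Set G)) =
            Nat.card (Sylow 2 G) * (q * (q - 1)) := by
          rw [h5]; ring
        exact Nat.eq_of_mul_eq_mul_left (by omega) h7
      have hdNT : ∀ s, s ∣ q - 1 → s ∣ Nat.card (Subgroup.normalizer ((T : Subgroup G) : Set G)) := by
        intro s hs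
        rw [hNT]
        exact hs.trans (Dvd.intro_left _ rfl)
      have hqdiv : (q - 1) ∣ a * b := by
        rw [← hAdef, hn₂]
        exact Dvd.intro_left _ rfl
      by_cases hp' : p ∣ q - 1
      · by_cases hr' : r ∣ q - 1
        · exact (not_both H hp2 hr2 hpr hRp hRr T (hdNT p hp') (hdNT r hr')).elim
        · have hcop : Nat.Coprime (q - 1) b := by
            rw [hβ]
            exact Nat.Coprime.pow_right _ ((Nat.Prime.coprime_iff_not_dvd hrp).mpr hr').symm
          have hdiv := hcop.dvd_of_dvd_mul_right hqdiv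
          exact core_real H hp2 hr2 hRr T P R hN hn₂ hfin hdiv hnn hT1 ha3 hb3
      · have hcop : Nat.Coprime (q - 1) a := by
          rw [hα]
          exact Nat.Coprime.pow_right _ ((Nat.Prime.coprime_iff_not_dvd hpp).mpr hp').symm
        have hdiv := hcop.dvd_of_dvd_mul_left hqdiv
        refine core_real H hr2 hp2 hRp T R P ?_ ?_ ?_ hdiv hnn hT1 hb3 ha3
        · rw [hNA, hAdef]; ring
        · show b * a = _
          rw [mul_comm b a]
          exact hn₂
        · show 2 * b * a + 2 = (b + a) * q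
          rw [add_comm b a, ← hfin]
          ring
    · exfalso
      have h0 := not_Rl_sum_JJ (s := r) hRr
      rw [← ha, hNA] at hsp
      rw [h0, add_zero] at hpairs
      have h2 : 2 * (A * D) = (a - 1) * (q * A) := by
        rw [← hpairs, hsp]
      have h3 : 2 * D = (a - 1) * q := by
        have h4 : A * (2 * D) = A * ((a - 1) * q) := by
          calc A * (2 * D) = 2 * (A * D) := by ring
            _ = _ := by rw [h2]; ring
        exact Nat.eq_of_mul_eq_mul_left hApos h4
      refine arith_one ha3 hb3 hq2 ?_ hAgt h3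
      rw [← hAdef, hn₂]
      exact Dvd.intro_left _ rfl
  · exfalso
    have h0 := not_Rl_sum_JJ (s := p) hRp
    rw [h0, zero_add] at hpairs
    by_cases hRr : Rl G r
    · have hsr := hRr.sum_JJ H hr2 R
      rw [← hb, hNA] at hsr
      have h2 : 2 * (A * D) = (b - 1) * (q * A) := by
        rw [← hpairs, hsr]
      have h3 : 2 * D = (b - 1) * q := by
        have h4 : A * (2 * D) = A * ((b - 1) * q) := by
          calc A * (2 * D) = 2 * (A * D) := by ring
            _ = _ := by rw [h2]; ring
        exact Nat.eq_of_mul_eq_mul_left hApos h4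
      refine arith_one (a := b) (b := a) hb3 ha3 hq2 ?_ ?_ ?_
      · rw [mul_comm b a, ← hAdef, hn₂]
        exact Dvd.intro_left _ rfl
      · rw [mul_comm b a]
        exact hAgt
      · rw [mul_comm b a]
        exact h3
    · have h1 := not_Rl_sum_JJ (s := r) hRr
      rw [h1] at hpairs
      have : 0 < A * D := Nat.mul_pos hApos hDpos
      omega

end

end Cfsg.Agent.H12.A5
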