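import Cfsg.Agent.Lib.H06.OddPGroup
import Cfsg.Agent.Lib.H01.Basic
import Cfsg.Agent.Lib.H19.AutFrattini

/-! `p`-group lemmas towards the `H`-subgroup criteria for normal `p`-complements (helper12):
a coprime element fixing the solutions of `x ^ q = 1` centralizes; separation by maximal
subgroups modulo the Frattini subgroup; an eigenvalue lemma. -/

set_option autoImplicit false
set_option linter.unusedSectionVars false
set_option linter.unusedVariables false

namespace Cfsg.Agent.H12.Asaad

open Cfsg.Agent.H06 Cfsg.Agent.H01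

variable {G : Type*} [Group G]

/-- Class two power map, with `q` a multiple of `p` and `p ∣ C(q,2)`. -/
theorem mul_pow_q_of_class_two {p q : ℕ} (hq1 : p ∣ q) (hq2 : p ∣ q.choose 2) {x z c : G}
    (hc : c = z * x * z⁻¹ * x⁻¹) (hcx : c * x = x * c) (hcz : c * z = z * c)
    (hzp : z ^ p * x = x * z ^ p) : (x * z) ^ q = x ^ q * z ^ q := by
  have h1 := pow_mul_of_central_comm hc hcx hcz p
  have hcp : c ^ p = 1 := by
    rw [hzp] at h1
    have h2 : x * z ^ p = (c ^ p * x) * z ^ p := h1
    have h3 := mul_right_cancel h2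
    have h4 : c ^ p * x = 1 * x := by rw [one_mul]; exact h3.symm
    exact mul_right_cancel h4
  obtain ⟨k, hk⟩ := hq2
  rw [mul_pow_of_central_comm hc hcx hcz q, hk, pow_mul, hcp, one_pow, mul_one]

/-- Let `D` be a `p`-subgroup, `a` an element of order coprime to `p` leaving `D` invariant and fixing
every `x ∈ D` with `x ^ q = 1`, where `p ∣ q` and `p ∣ C(q,2)` (`q = p` for `p` odd, `q = 4` for
`p = 2`). Then `a` centralizes `D`. -/
theorem centralizes_of_fix_q [Finite G] {p q : ℕ} [Fact p.Prime] (hq1 : p ∣ q) (hq2 : p ∣ q.choose 2)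
    {a : G} (hcop : (orderOf a).Coprime p) :
    ∀ (n : ℕ) (D : Subgroup G), Nat.card D = n → IsPGroup p D → (∀ x ∈ D, a * x * a⁻¹ ∈ D) →
      (∀ x ∈ D, x ^ q = 1 → a * x = x * a) → ∀ x ∈ D, a * x = x * a := by
  have hp : p.Prime := Fact.out
  intro n
  induction n using Nat.strong_induction_on with
  | _ n ih =>
    intro D hn hD hinv hfix x hx
    by_cases hbot : D = ⊥
    · subst hbot
      rw [Subgroup.mem_bot] at hx
      simp [hx]
    have hcopD : (orderOf a).Coprime (Nat.card D) := by
      obtain ⟨k, hk⟩ := IsPGroup.iff_card.mp hD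
      rw [hk]
      exact Nat.Coprime.pow_right k hcop
    -- Φ
    have hΦlt : Nat.card (phiSub p D) < n := by
      rw [← hn]
      exact card_lt_of_lt (lt_of_le_of_ne (phiSub_le p D) (phiSub_ne hD hbot))
    have hΦfix : ∀ f ∈ phiSub p D, a * f = f * a :=
      ih _ hΦlt (phiSub p D) rfl (hD.to_le (phiSub_le p D))
        (fun y hy => phiSub_invariant p D hinv hy)
        (fun y hy hyp => hfix y (phiSub_le p D hy) hyp)
    have hyD : x⁻¹ * (a * x * a⁻¹) ∈ D := D.mul_mem (D.inv_mem hx) (hinv x hx)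
    have hycomm : ∀ u ∈ D, ∀ f ∈ phiSub p D, (u⁻¹ * (a * u * a⁻¹)) * f = f * (u⁻¹ * (a * u * a⁻¹)) :=
      fun u hu f hf => commute_of_conj_fix (hΦfix f hf) (hΦfix _ (phiSub_conj_mem p D hu hf))
    set T : Subgroup G := D ⊓ Subgroup.centralizer (phiSub p D : Set G) with hTdef
    by_cases hT : T = D
    · -- Φ is central in D
      have hcentral : ∀ f ∈ phiSub p D, ∀ d ∈ D, f * d = d * f := by
        intro f hf d hd
        have : d ∈ T := by rw [hT]; exact hd
        exact Subgroup.mem_centralizer_iff.mp this.2 f hf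
      set w := a * x * a⁻¹ with hw
      have hwD : w ∈ D := hinv x hx
      have hcmem : w * x⁻¹ * w⁻¹ * (x⁻¹)⁻¹ ∈ phiSub p D :=
        comm_mem_phiSub p D hwD (D.inv_mem hx)
      have hqmem : x ^ q ∈ phiSub p D := by
        obtain ⟨r, rfl⟩ := hq1
        rw [pow_mul]
        exact Subgroup.pow_mem _ (pow_mem_phiSub p D hx) r
      have hwp : w ^ q = x ^ q := by
        have h1 : w ^ q = a * x ^ q * a⁻¹ := by rw [hw, conj_pow]
        rw [h1, hΦfix _ hqmem]; group
      have hpow : (x⁻¹ * w) ^ q = (x⁻¹) ^ q * w ^ q :=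
        mul_pow_q_of_class_two hq1 hq2 rfl (hcentral _ hcmem _ (D.inv_mem hx))
          (hcentral _ hcmem _ hwD) (hcentral _ (pow_mem_phiSub p D hwD) _ (D.inv_mem hx))
      have hy1 : (x⁻¹ * w) ^ q = 1 := by
        rw [hpow, hwp, inv_pow, inv_mul_cancel]
      exact conj_eq_of_stable hyD hcopD (hfix _ hyD hy1)
    · have hTlt : T < D := lt_of_le_of_ne inf_le_left hT
      have hTcard : Nat.card T < n := by rw [← hn]; exact card_lt_of_lt hTlt
      have hTfix := ih _ hTcard T rfl (hD.to_le inf_le_left)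
        (fun y hy => by
          refine Subgroup.mem_inf.mpr ⟨hinv y hy.1, Subgroup.mem_centralizer_iff.mpr ?_⟩
          intro f hf
          have h1 : f * y = y * f := Subgroup.mem_centralizer_iff.mp hy.2 f hf
          have h2 := hΦfix f hf
          have h3 : a⁻¹ * f = f * a⁻¹ := Commute.inv_left h2
          calc f * (a * y * a⁻¹) = (f * a) * y * a⁻¹ := by group
            _ = (a * f) * y * a⁻¹ := by rw [h2]
            _ = a * (f * y) * a⁻¹ := by group
            _ = a * (y * f) * a⁻¹ := by rw [h1]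
            _ = a * y * (f * a⁻¹) := by group
            _ = a * y * (a⁻¹ * f) := by rw [h3]
            _ = a * y * a⁻¹ * f := by group)
        (fun y hy hyp => hfix y hy.1 hyp)
      have hyT : x⁻¹ * (a * x * a⁻¹) ∈ T := by
        refine Subgroup.mem_inf.mpr ⟨hyD, Subgroup.mem_centralizer_iff.mpr ?_⟩
        intro f hf
        exact (hycomm x hx f hf).symm
      exact conj_eq_of_stable hyD hcopD (hTfix _ hyT)

/-- In a finite `p`-group: if every maximal subgroup containing `y` contains `z`, then `z` is a power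
of `y` modulo the Frattini subgroup. -/
theorem exists_pow_of_forall_coatom {R : Type*} [Group R] [Finite R] {p : ℕ} [Fact p.Prime]
    (hR : IsPGroup p R) {y z : R} (h : ∀ M : Subgroup R, IsCoatom M → y ∈ M → z ∈ M) :
    ∃ c : ℕ, z * (y ^ c)⁻¹ ∈ frattini R := by
  classical
  have hp : p.Prime := Fact.out
  have hcomm := commutator_le_frattini_of_isPGroup hR
  have hpow := pow_mem_frattini_of_isPGroup hR
  -- normal subgroups above Φ
  have hnorm : ∀ M : Subgroup R, frattini R ≤ M → M.Normal := by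
    intro M hM
    constructor
    intro n hn g
    have h1 : g * n * g⁻¹ * n⁻¹ ∈ frattini R := hcomm (by
      rw [_root_.commutator_def]
      exact Subgroup.commutator_mem_commutator (Subgroup.mem_top g) (Subgroup.mem_top n))
    have h2 := M.mul_mem (hM h1) hn
    simpa using h2
  by_contra hno
  set A : Subgroup R := Subgroup.zpowers y ⊔ frattini R with hA
  have hzA : z ∉ A := by
    intro hz
    rw [hA, Subgroup.mem_sup_of_normal_right] at hz
    obtain ⟨u, hu, f, hf, rfl⟩ := hz
    obtain ⟨hfin⟩ : Nonempty (Fintype R) := ⟨Fintype.ofFinite R⟩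
    have hu' : u ∈ Submonoid.powers y := (mem_powers_iff_mem_zpowers).mpr hu
    obtain ⟨c, rfl⟩ := hu'
    apply hno
    refine ⟨c, ?_⟩
    have : y ^ c * f * (y ^ c)⁻¹ = (y ^ c) * f * (y ^ c)⁻¹ := rfl
    rw [this]
    exact (inferInstance : (frattini R).Normal).conj_mem f hf _
  let S : Set (Subgroup R) := {M | A ≤ M ∧ z ∉ M}
  obtain ⟨M, hM⟩ := S.toFinite.exists_maximal ⟨A, le_rfl, hzA⟩
  have hΦM : frattini R ≤ M := le_trans le_sup_right hM.1.1
  haveI hMn : M.Normal := hnorm M hΦM
  have hyM : y ∈ M := hM.1.1 (Subgroup.mem_sup_left (Subgroup.mem_zpowers y))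
  -- `z` lies in everything strictly above `M`
  have hab : ∀ N : Subgroup R, M < N → z ∈ N := by
    intro N hN
    by_contra hzN
    have : N ∈ S := ⟨hM.1.1.trans hN.le, hzN⟩
    exact absurd (hM.2 this hN.le) (not_le_of_gt hN)
  have hco : IsCoatom M := by
    refine ⟨fun htop => hM.1.2 (htop ▸ Subgroup.mem_top z), ?_⟩
    intro N hN
    rw [eq_top_iff]
    intro r _
    by_cases hrM : r ∈ M
    · exact hN.le hrM
    have hzN := hab N hN
    have hlt : M < Subgroup.zpowers r ⊔ M := by
      refine lt_of_le_of_ne le_sup_right ?_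
      intro he
      exact hrM (he ▸ Subgroup.mem_sup_left (Subgroup.mem_zpowers r))
    have hzM := hab _ hlt
    rw [Subgroup.mem_sup_of_normal_right] at hzM
    obtain ⟨u, hu, μ, hμ, hz⟩ := hzM
    obtain ⟨i, rfl⟩ := Subgroup.mem_zpowers_iff.mp hu
    have hri : r ^ i ∈ N := by
      have : r ^ i = z * μ⁻¹ := by rw [← hz]; group
      rw [this]
      exact N.mul_mem hzN (N.inv_mem (hN.le hμ))
    have hrp : r ^ p ∈ N := hN.le (hΦM (hpow r))
    have hpi : ¬ (p : ℤ) ∣ i := by
      rintro ⟨j, rfl⟩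
      have : r ^ ((p : ℤ) * j) ∈ M := by
        rw [zpow_mul, zpow_natCast]
        exact M.zpow_mem (hΦM (hpow r)) j
      apply hM.1.2
      rw [← hz]
      exact M.mul_mem this hμ
    have hcop : IsCoprime i (p : ℤ) := by
      have h1 : Prime (p : ℤ) := Nat.prime_iff_prime_int.mp hp
      exact ((Prime.coprime_iff_not_dvd h1).mpr hpi).symm
    obtain ⟨a, b, hab⟩ := hcop
    have : r = (r ^ i) ^ a * (r ^ p) ^ b := by
      rw [← zpow_natCast r p, ← zpow_mul, ← zpow_mul, ← zpow_add]
      have : i * a + (p : ℤ) * b = 1 := by rw [← hab]; ring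
      rw [this, zpow_one]
    rw [this]
    exact N.mul_mem (N.zpow_mem hri a) (N.zpow_mem hrp b)
  exact hM.1.2 (h M hco hyM)

/-- Eigenvalue lemma: `β` acts on `q(A)` preserving the kernel of `q`; if `q(β y)` is a power `c`
of `q(y)`, `q(y) ^ p = 1` and `β^m y = y`, where `m > 0` is prime to `p - 1`, then `q(β y) = q(y)`. -/
theorem eigen_fix {A V : Type*} [Group A] [Group V] {p : ℕ} [Fact p.Prime] (β : A →* A) (q : A →* V)
    (h1 : ∀ u, q u = 1 → q (β u) = 1) {y : A} {c m : ℕ} (hc : q (β y) = q y ^ c)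
    (hp : q y ^ p = 1) (hm : β^[m] y = y) (hm0 : 0 < m) (hcop : m.Coprime (p - 1)) :
    q (β y) = q y := by
  have hpp : p.Prime := Fact.out
  have hit : ∀ i : ℕ, q (β^[i] y) = q y ^ c ^ i := by
    intro i
    induction i with
    | zero => simp
    | succ i ih =>
      rw [Function.iterate_succ_apply']
      set w := β^[i] y with hw
      have h2 : q (w⁻¹ * y ^ c ^ i) = 1 := by
        rw [map_mul, map_inv, ih, map_pow, inv_mul_cancel]
      have h3 := h1 _ h2
      rw [map_mul, map_mul, map_inv, map_inv, map_pow, map_pow, hc, inv_mul_eq_one] at h3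
      rw [h3, ← pow_mul, pow_succ']
  by_cases hy1 : q y = 1
  · rw [hy1]
    exact h1 y hy1
  have hord : orderOf (q y) = p := orderOf_eq_prime hp hy1
  have h2 := hit m
  rw [hm] at h2
  have h3 : (1 : ℕ) ≡ c ^ m [MOD p] := by
    rw [← hord]
    apply pow_eq_pow_iff_modEq.mp
    rw [pow_one]
    exact h2
  haveI : Fact p.Prime := ⟨hpp⟩
  have h4 : (c : ZMod p) ^ m = 1 := by
    have := (ZMod.natCast_eq_natCast_iff _ _ _).mpr h3
    push_cast at this
    exact this.symm
  have hc0 : (c : ZMod p) ≠ 0 := by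
    intro h0
    rw [h0, zero_pow hm0.ne'] at h4
    exact zero_ne_one h4
  have h5 : (c : ZMod p) ^ (p - 1) = 1 := ZMod.pow_card_sub_one_eq_one hc0
  have h6 : (c : ZMod p) = 1 := by
    have := pow_gcd_eq_one.mpr ⟨h4, h5⟩
    rwa [Nat.Coprime.gcd_eq_one hcop, pow_one] at this
  have h7 : c ≡ 1 [MOD p] := by
    apply (ZMod.natCast_eq_natCast_iff _ _ _).mp
    push_cast
    exact h6
  rw [hc]
  have h8 : q y ^ c = q y ^ 1 := by
    apply pow_eq_pow_iff_modEq.mpr
    rw [hord]
    exact h7
  rw [h8, pow_one]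

end Cfsg.Agent.H12.Asaad
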