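import Cfsg.Agent.Lib.H12.Asaad
import Cfsg.Agent.Lib.H20.TameFusion
import Cfsg.Agent.Lib.H01.Fusion

/-! `H`-subgroups (`g E g⁻¹ ∩ N(E) ≤ E`) of a Sylow subgroup for the smallest prime (helper12). -/

set_option autoImplicit false
set_option linter.unusedSectionVars false
set_option linter.unusedVariables false

namespace Cfsg.Agent.H12.Asaad

open Cfsg Cfsg.Agent.H06 Cfsg.Agent.H01 Cfsg.Agent.H09 Cfsg.Agent.H19 Cfsg.Agent.H20

variable {G : Type*} [Group G] [Finite G] {p : ℕ} [hpf : Fact p.Prime]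

set_option quotPrecheck false in
local notation:max "𝐍" T:max => Subgroup.normalizer ((T : Subgroup G) : Set G)
set_option quotPrecheck false in
local notation:65 T:66 " ⋆ " g:66 => Subgroup.map (MulAut.conj g).toMonoidHom T

/-- The hypothesis: the relevant subgroups `E` of `P` are `H`-subgroups. -/
def HypE (P : Subgroup G) (e : ℕ) : Prop :=
  ∀ E : Subgroup G, E ≤ P → (Nat.card E = e ∨ (e = 2 ∧ Nat.card E = 4)) →
    ∀ g : G, (E ⋆ g) ⊓ 𝐍 E ≤ E

/-- Elements which lie in some relevant subgroup inside every large subgroup containing them. -/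
def Small (e : ℕ) (y : G) : Prop := orderOf y ≤ e ∨ (e = 2 ∧ orderOf y = 4)

theorem small_conj {e : ℕ} {y : G} (g : G) (h : Small e y) : Small e (g * y * g⁻¹) := by
  unfold Small at *
  rwa [orderOf_conj_eq']

theorem le_normalizer_of_H {P E : Subgroup G} (hP : IsPGroup p P) (hEP : E ≤ P)
    (hE : ∀ g : G, (E ⋆ g) ⊓ 𝐍 E ≤ E) : P ≤ 𝐍 E := by
  by_contra hno
  set T : Subgroup G := P ⊓ 𝐍 E with hT
  have hTP : T < P := lt_of_le_of_ne inf_le_left (fun h => hno (by rw [← h]; exact inf_le_right))
  have h1 := lt_inf_normalizer hP hTP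
  obtain ⟨u, hu, huT⟩ := SetLike.exists_of_lt h1
  have hET : E ≤ T := le_inf hEP (le_normalizer_self E)
  have h2 : (E ⋆ u) ≤ 𝐍 E := by
    rw [map_conj_le_iff]
    intro t ht
    have := (Subgroup.mem_normalizer_iff.1 hu.2 t).1 (hET ht)
    exact this.2
  have h3 : (E ⋆ u) ≤ E := (le_inf le_rfl h2).trans (hE u)
  have h4 : (E ⋆ u) = E := eq_of_le_of_card_le h3 (by rw [card_map_conj])
  exact huT ⟨hu.1, mem_normalizer_of_map_conj_eq h4⟩

theorem conj_mem_of_H {P E : Subgroup G} (hP : IsPGroup p P) (hEP : E ≤ P)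
    (hE : ∀ g : G, (E ⋆ g) ⊓ 𝐍 E ≤ E) {y g : G} (hy : y ∈ E) (hg : g * y * g⁻¹ ∈ P) :
    g * y * g⁻¹ ∈ E :=
  hE g ⟨conj_mem_map g hy, le_normalizer_of_H hP hEP hE hg⟩

/-- A subgroup of prime power order between two subgroups of a `p`-group. -/
theorem exists_between {M H : Subgroup G} (hM : IsPGroup p M) (hHM : H ≤ M) {k : ℕ}
    (h1 : Nat.card H ≤ p ^ k) (h2 : p ^ k ≤ Nat.card M) :
    ∃ E : Subgroup G, H ≤ E ∧ E ≤ M ∧ Nat.card E = p ^ k := by
  have hp : p.Prime := hpf.out
  obtain ⟨l, hl⟩ := IsPGroup.iff_card.mp hM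
  have hkl : k ≤ l := by
    rw [hl] at h2
    exact (Nat.pow_le_pow_iff_right hp.one_lt).mp h2
  have hHp : IsPGroup p H := hM.to_le hHM
  obtain ⟨j, hj⟩ := IsPGroup.iff_card.mp hHp
  have hjk : j ≤ k := by
    rw [hj] at h1
    exact (Nat.pow_le_pow_iff_right hp.one_lt).mp h1
  have hc : Nat.card (H.subgroupOf M) = p ^ j := by
    rw [← hj]
    exact Nat.card_congr (Subgroup.subgroupOfEquivOfLe hHM).toEquiv
  obtain ⟨K, hK, hHK⟩ := Sylow.exists_subgroup_card_pow_prime_le (G := M) p
    (by rw [hl]; exact pow_dvd_pow p hkl) (H.subgroupOf M) hc hjk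
  refine ⟨K.map M.subtype, ?_, Subgroup.map_subtype_le K, ?_⟩
  · intro x hx
    exact ⟨⟨x, hHM hx⟩, hHK (Subgroup.mem_subgroupOf.2 hx), rfl⟩
  · rw [Subgroup.card_map_of_injective M.subtype_injective, hK]

theorem line {P : Subgroup G} (hP : IsPGroup p P) {k : ℕ} (hE : HypE P (p ^ k)) {M : Subgroup G}
    (hMP : M ≤ P) (hM : p ^ k ≤ Nat.card M) {y g : G} (hy : y ∈ M) (hs : Small (p ^ k) y)
    (hg : g * y * g⁻¹ ∈ P) : g * y * g⁻¹ ∈ M := by
  rcases hs with hs | ⟨h2, h4⟩
  · obtain ⟨E, h1, h3, h5⟩ := exists_between (H := Subgroup.zpowers y) (hP.to_le hMP)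
      (Subgroup.zpowers_le.2 hy) (by rwa [Nat.card_zpowers]) hM
    exact h3 (conj_mem_of_H hP (h3.trans hMP) (hE E (h3.trans hMP) (Or.inl h5))
      (h1 (Subgroup.mem_zpowers y)) hg)
  · have hzM : Subgroup.zpowers y ≤ M := Subgroup.zpowers_le.2 hy
    exact hzM (conj_mem_of_H hP (hzM.trans hMP)
      (hE _ (hzM.trans hMP) (Or.inr ⟨h2, by rw [Nat.card_zpowers, h4]⟩))
      (Subgroup.mem_zpowers y) hg)

/-- Maximal subgroups of a subgroup `R ≤ P` with `|R| > p^k` are still large. -/
theorem card_coatom_ge {R : Subgroup G} (hR : IsPGroup p R) {k : ℕ} (hk : p ^ k < Nat.card R)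
    {M : Subgroup R} (hM : IsCoatom M) : p ^ k ≤ Nat.card (M.map R.subtype) := by
  have hp : p.Prime := hpf.out
  obtain ⟨l, hl⟩ := IsPGroup.iff_card.mp hR
  have hkl : k < l := by
    rw [hl] at hk
    exact (Nat.pow_lt_pow_iff_right hp.one_lt).mp hk
  rw [Subgroup.card_map_of_injective R.subtype_injective]
  obtain ⟨-, hi⟩ := isCoatom_normal_index hR hM
  have h1 := M.card_mul_index
  rw [hi, hl] at h1
  obtain ⟨m, rfl⟩ : ∃ m, l = m + 1 := ⟨l - 1, by omega⟩
  rw [pow_succ] at h1
  have h2 : Nat.card M = p ^ m := Nat.eq_of_mul_eq_mul_right hp.pos h1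
  rw [h2]
  exact Nat.pow_le_pow_right hp.pos (by omega)

/-- The line property inside `R`: maximal subgroups of `R` containing a small `y` contain
its conjugates lying in `R`. -/
theorem coatom_line {P R : Subgroup G} (hP : IsPGroup p P) {k : ℕ} (hE : HypE P (p ^ k))
    (hRP : R ≤ P) (hk : p ^ k < Nat.card R) {y z : R} {g : G} (hs : Small (p ^ k) (y : G))
    (hz : (z : G) = g * y * g⁻¹) (M : Subgroup R) (hM : IsCoatom M) (hyM : y ∈ M) : z ∈ M := by
  have h1 : g * (y : G) * g⁻¹ ∈ M.map R.subtype :=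
    line hP hE ((Subgroup.map_subtype_le M).trans hRP) (card_coatom_ge (hP.to_le hRP) hk hM)
      ⟨y, hyM, rfl⟩ hs (by rw [← hz]; exact hRP z.2)
  obtain ⟨w, hw, he⟩ := h1
  have : w = z := Subtype.ext (by rw [hz]; exact he)
  exact this ▸ hw

/-- The power `q`. -/
theorem exists_q {k : ℕ} (hk : 0 < k) :
    ∃ q : ℕ, p ∣ q ∧ p ∣ q.choose 2 ∧ ∀ y : G, y ^ q = 1 → Small (p ^ k) y := by
  have hp : p.Prime := hpf.out
  by_cases hp2 : p = 2
  · subst hp2
    refine ⟨4, by norm_num, by decide, ?_⟩
    intro y hy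
    have h1 : orderOf y ∣ 2 ^ 2 := orderOf_dvd_of_pow_eq_one hy
    obtain ⟨i, hi, hi2⟩ := (Nat.dvd_prime_pow Nat.prime_two).mp h1
    by_cases hk1 : k = 1
    · subst hk1
      interval_cases i
      · left; rw [hi2]; try norm_num
      · left; rw [hi2]; try norm_num
      · right; exact ⟨by norm_num, by rw [hi2]; norm_num⟩
    · left
      rw [hi2]
      exact Nat.pow_le_pow_right (by norm_num) (by omega)
  · refine ⟨p, dvd_rfl, hp.dvd_choose_self (by norm_num) (lt_of_le_of_ne hp.two_le (Ne.symm hp2)), ?_⟩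
    intro y hy
    left
    have h1 : orderOf y ≤ p := Nat.le_of_dvd hp.pos (orderOf_dvd_of_pow_eq_one hy)
    exact h1.trans (Nat.le_self_pow hk.ne' p)

theorem iter_conj {B : Subgroup G} {x : G} (hx : x ∈ 𝐍 B) (n : ℕ) (u : B) :
    (((B.normalizerMonoidHom ⟨x, hx⟩ : MulAut B).toMonoidHom : B →* B)^[n] u : G) =
      x ^ n * u * (x ^ n)⁻¹ := by
  induction n with
  | zero => simp
  | succ n ih =>
    rw [Function.iterate_succ_apply']
    show x * ((((B.normalizerMonoidHom ⟨x, hx⟩ : MulAut B).toMonoidHom : B →* B)^[n] u : B) : G) * x⁻¹ = _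
    rw [ih, pow_succ']
    group

theorem centralizes_of_cyclic {Z : Subgroup G} (hZ : IsPGroup p Z) (hc : IsCyclic Z) {x : G}
    (hx1 : (orderOf x).Coprime p) (hx2 : (orderOf x).Coprime (p - 1))
    (hinv : ∀ u ∈ Z, x * u * x⁻¹ ∈ Z) : ∀ u ∈ Z, x * u = u * x := by
  classical
  have hp : p.Prime := hpf.out
  have hxN : x ∈ 𝐍 Z := mem_normalizer_of_map_conj_eq
    (eq_of_le_of_card_le (map_conj_le_iff.2 hinv) (by rw [card_map_conj]))
  set ψ : MulAut Z := Z.normalizerMonoidHom ⟨x, hxN⟩ with hψ
  have h1 : orderOf ψ ∣ orderOf x := by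
    have := orderOf_map_dvd Z.normalizerMonoidHom (⟨x, hxN⟩ : 𝐍 Z)
    rwa [Subgroup.orderOf_mk] at this
  haveI : Finite (MulAut Z) := inferInstance
  have h2 : orderOf ψ ∣ Nat.card (MulAut Z) := orderOf_dvd_natCard ψ
  have h3 : (orderOf x).Coprime (Nat.card (MulAut Z)) := by
    rw [hc.card_mulAut]
    obtain ⟨j, hj⟩ := IsPGroup.iff_card.mp hZ
    rcases Nat.eq_zero_or_pos j with h0 | h0
    · rw [hj, h0, pow_zero, Nat.totient_one]
      exact Nat.coprime_one_right _
    · rw [hj, Nat.totient_prime_pow hp h0]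
      exact (Nat.Coprime.pow_right _ hx1).mul_right hx2
  have h4 : orderOf ψ = 1 := Nat.eq_one_of_dvd_coprimes h3 h1 h2
  have h5 : ψ = 1 := orderOf_eq_one_iff.mp h4
  intro u hu
  have h6 : ψ ⟨u, hu⟩ = ⟨u, hu⟩ := by rw [h5]; rfl
  have h7 : x * u * x⁻¹ = u := congrArg Subtype.val h6
  rw [mul_inv_eq_iff_eq_mul] at h7
  exact h7

/-- **Lemma L.** -/
theorem centralizes_of_line {P : Subgroup G} (hP : IsPGroup p P) {k : ℕ} (hk0 : 0 < k)
    (hE : HypE P (p ^ k)) {x : G} (hx1 : (orderOf x).Coprime p) (hx2 : (orderOf x).Coprime (p - 1)) :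
    ∀ (n : ℕ) (R : Subgroup G), Nat.card R = n → R ≤ P → p ^ k < Nat.card R →
      (∀ u ∈ R, x * u * x⁻¹ ∈ R) → ∀ u ∈ R, x * u = u * x := by
  classical
  have hp : p.Prime := hpf.out
  intro n
  induction n using Nat.strong_induction_on with
  | _ n ih =>
    intro R hn hRP hRk hinv
    have hRp : IsPGroup p R := hP.to_le hRP
    obtain ⟨q, hq1, hq2, hq3⟩ := exists_q (G := G) (p := p) hk0
    have hfin : (∀ y ∈ R, Small (p ^ k) y → x * y = y * x) → ∀ u ∈ R, x * u = u * x := fun hfix =>
      centralizes_of_fix_q hq1 hq2 hx1 _ R rfl hRp hinv (fun y hy hyq => hfix y hy (hq3 y hyq))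
    set L : Subgroup G := Subgroup.closure {y | y ∈ R ∧ Small (p ^ k) y} with hL
    have hLR : L ≤ R := (Subgroup.closure_le _).mpr (fun y hy => hy.1)
    have hsL : ∀ y ∈ R, Small (p ^ k) y → y ∈ L := fun y hy hs => Subgroup.subset_closure ⟨hy, hs⟩
    have hLinv : ∀ u ∈ L, x * u * x⁻¹ ∈ L := by
      intro u hu
      have : L ≤ L.comap (MulAut.conj x).toMonoidHom := by
        refine (Subgroup.closure_le _).mpr ?_
        rintro y ⟨hy, hs⟩
        exact hsL _ (hinv y hy) (small_conj x hs)
      exact this hu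
    -- elements of orders at most `p^k`
    have hsmall_of_card : ∀ E : Subgroup G, Nat.card E ≤ p ^ k → ∀ z ∈ E, Small (p ^ k) z := by
      intro E hE' z hz
      left
      have h1 : orderOf (⟨z, hz⟩ : E) ∣ Nat.card E := orderOf_dvd_natCard _
      rw [Subgroup.orderOf_mk] at h1
      exact (Nat.le_of_dvd Nat.card_pos h1).trans hE'
    by_cases hLeq : L = R
    · -- `R` is generated by small elements
      have hxN : x ∈ 𝐍 R := mem_normalizer_of_map_conj_eq
        (eq_of_le_of_card_le (map_conj_le_iff.2 hinv) (by rw [card_map_conj]))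
      set ψ : MulAut R := R.normalizerMonoidHom ⟨x, hxN⟩ with hψ
      have hψv : ∀ u : R, ((ψ u : R) : G) = x * u * x⁻¹ := fun u => rfl
      have ho : orderOf ψ ∣ orderOf x := by
        have := orderOf_map_dvd R.normalizerMonoidHom (⟨x, hxN⟩ : 𝐍 R)
        rwa [Subgroup.orderOf_mk] at this
      have hcopR : (orderOf ψ).Coprime (Nat.card R) := by
        obtain ⟨l, hl⟩ := IsPGroup.iff_card.mp hRp
        rw [hl]
        exact Nat.Coprime.pow_right _ (Nat.Coprime.coprime_dvd_left ho hx1)
      -- the equalizer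
      set Q := QuotientGroup.mk' (frattini R) with hQ
      let f₁ : R →* R ⧸ frattini R := Q.comp ψ.toMonoidHom
      let S : Subgroup R := MonoidHom.eqLocus f₁ Q
      have hsS : ∀ y : R, Small (p ^ k) (y : G) → y ∈ S := by
        intro y hs
        obtain ⟨c, hc⟩ := exists_pow_of_forall_coatom hRp (y := y) (z := ψ y)
          (coatom_line hP hE hRP hRk hs (hψv y))
        have hc' : Q (ψ y) = Q y ^ c := by
          have h1 : Q (ψ y * (y ^ c)⁻¹) = 1 := (QuotientGroup.eq_one_iff _).mpr hc
          rw [map_mul, map_inv, map_pow, mul_inv_eq_one] at h1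
          exact h1
        have hpy : Q y ^ p = 1 := by
          rw [← map_pow]
          exact (QuotientGroup.eq_one_iff _).mpr (pow_mem_frattini_of_isPGroup hRp y)
        have hker : ∀ u : R, Q u = 1 → Q (ψ.toMonoidHom u) = 1 := by
          intro u hu
          have h1 : u ∈ frattini R := (QuotientGroup.eq_one_iff _).mp hu
          apply (QuotientGroup.eq_one_iff _).mpr
          rw [mem_frattini_iff] at h1 ⊢
          intro M hM
          have h2 : M.comap ψ.toMonoidHom ∈ {M' : Subgroup R | IsCoatom M'} := by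
            have := (MulEquiv.mapSubgroup ψ.symm).isCoatom_iff  M
            constructor
            · intro htop
              apply hM.1
              rw [eq_top_iff]
              intro r _
              have h3 : ψ.symm r ∈ M.comap ψ.toMonoidHom := htop ▸ Subgroup.mem_top _
              simpa using h3
            · intro N hN
              have h3 : M < N.comap ψ.symm.toMonoidHom := by
                refine lt_of_le_of_ne ?_ ?_
                · intro r hr
                  have : ψ.symm r ∈ M.comap ψ.toMonoidHom := by simpa using hr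
                  have h4 : ψ.symm r ∈ N := hN.le this
                  exact h4
                · intro he
                  apply (ne_of_lt hN)
                  ext r
                  constructor
                  · exact fun hr => hN.le hr
                  · intro hr
                    have h4 : ψ r ∈ N.comap ψ.symm.toMonoidHom := by simpa using hr
                    rw [← he] at h4
                    exact h4
              have h4 := hM.2 _ h3
              rw [eq_top_iff]
              intro r _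
              have h5 : ψ r ∈ N.comap ψ.symm.toMonoidHom := h4 ▸ Subgroup.mem_top _
              simpa using h5
          exact h1 _ h2
        have hmx : (ψ.toMonoidHom : R →* R)^[orderOf x] y = y := by
          apply Subtype.ext
          rw [iter_conj hxN, pow_orderOf_eq_one]
          group
        exact eigen_fix (p := p) ψ.toMonoidHom Q hker hc' hpy hmx (orderOf_pos x) hx2
      have hLS : L ≤ S.map R.subtype := by
        refine (Subgroup.closure_le _).mpr ?_
        rintro y ⟨hy, hs⟩
        exact ⟨⟨y, hy⟩, hsS ⟨y, hy⟩ hs, rfl⟩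
      have hall : ∀ u : R, ψ u * u⁻¹ ∈ frattini R := by
        intro u
        obtain ⟨w, hw, he⟩ := hLS (by rw [hLeq]; exact u.2)
        have : w = u := Subtype.ext he
        subst this
        have h1 : Q (ψ w) = Q w := hw
        apply (QuotientGroup.eq_one_iff _).mp
        show Q _ = 1
        rw [map_mul, map_inv, h1, mul_inv_cancel]
      have hψ1 : ψ = 1 := aut_eq_one_of_frattini ψ hcopR hall
      intro u hu
      have h6 : ψ ⟨u, hu⟩ = ⟨u, hu⟩ := by rw [hψ1]; rfl
      have h7 : x * u * x⁻¹ = u := congrArg Subtype.val h6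
      rw [mul_inv_eq_iff_eq_mul] at h7
      exact h7
    · have hLlt : L < R := lt_of_le_of_ne hLR hLeq
      apply hfin
      by_cases hLk : p ^ k < Nat.card L
      · -- induction
        have hc : Nat.card L < n := by rw [← hn]; exact card_lt_of_lt' hLlt
        have := ih _ hc L rfl (hLR.trans hRP) hLk hLinv
        exact fun y hy hs => this y (hsL y hy hs)
      · -- `L` is small, hence cyclic
        have hLk' : Nat.card L ≤ p ^ k := not_lt.mp hLk
        obtain ⟨E, hLE, hER, hEc⟩ := exists_between hRp hLR hLk' hRk.le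
        have hEL : E ≤ L := fun z hz => hsL z (hER hz) (hsmall_of_card E hEc.le z hz)
        have hLc : Nat.card L = p ^ k := by
          rw [le_antisymm hLE hEL]
          exact hEc
        obtain ⟨y, hyR, hyL⟩ := SetLike.exists_of_lt hLlt
        have hys : ¬ Small (p ^ k) y := fun hs => hyL (hsL y hyR hs)
        have hyo : p ^ k < orderOf y := by
          by_contra h
          exact hys (Or.inl (not_lt.mp h))
        have hzp : IsPGroup p (Subgroup.zpowers y) := hRp.to_le (Subgroup.zpowers_le.2 hyR)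
        obtain ⟨E', -, hE'z, hE'c⟩ := exists_between (H := ⊥) hzp bot_le
          (by rw [Subgroup.card_bot]; exact Nat.one_le_pow k p hp.pos)
          (by rw [Nat.card_zpowers]; exact hyo.le)
        have hE'L : E' ≤ L := fun z hz =>
          hsL z ((Subgroup.zpowers_le.2 hyR) (hE'z hz)) (hsmall_of_card E' hE'c.le z hz)
        have hE'eq : E' = L := eq_of_le_of_card_le hE'L (by rw [hLc, hE'c])
        have hLz : L ≤ Subgroup.zpowers y := hE'eq ▸ hE'z
        have hcyc : IsCyclic L := isCyclic_of_injective (Subgroup.inclusion hLz)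
          (Subgroup.inclusion_injective hLz)
        have := centralizes_of_cyclic (hRp.to_le hLR) hcyc hx1 hx2 hLinv
        exact fun y hy hs => this y (hsL y hy hs)

end Cfsg.Agent.H12.Asaad
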