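import Cfsg.Agent.Lib.H12.Asaad2

/-! The normal `p`-complement criterion for `H`-subgroups and the smallest prime (helper12). -/

set_option autoImplicit false
set_option linter.unusedSectionVars false
set_option linter.unusedVariables false

namespace Cfsg.Agent.H12.Asaad

open Cfsg Cfsg.Agent.H06 Cfsg.Agent.H01 Cfsg.Agent.H09 Cfsg.Agent.H19 Cfsg.Agent.H20
open scoped commutatorElement

variable {G : Type*} [Group G] [Finite G] {p : ℕ} [hpf : Fact p.Prime]

set_option quotPrecheck false in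
local notation:max "𝐍" T:max => Subgroup.normalizer ((T : Subgroup G) : Set G)
set_option quotPrecheck false in
local notation:65 T:66 " ⋆ " g:66 => Subgroup.map (MulAut.conj g).toMonoidHom T

/-- `t ^ (p ^ a)` has order prime to `p` and `p - 1` when `p` is the smallest prime. -/
theorem exists_pow_coprime (hmin : ∀ q : ℕ, q.Prime → q ∣ Nat.card G → p ≤ q) (t : G) :
    ∃ a : ℕ, (orderOf (t ^ p ^ a)).Coprime p ∧ (orderOf (t ^ p ^ a)).Coprime (p - 1) := by
  have hp : p.Prime := hpf.out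
  obtain ⟨a, m, hm, he⟩ := Nat.exists_eq_pow_mul_and_not_dvd (orderOf_pos t).ne' p hp.ne_one
  refine ⟨a, ?_⟩
  have hord : orderOf (t ^ p ^ a) = m := by
    rw [orderOf_pow_of_dvd (pow_ne_zero _ hp.ne_zero) (by rw [he]; exact dvd_mul_right _ _), he]
    exact Nat.mul_div_cancel_left _ (pow_pos hp.pos a)
  rw [hord]
  refine ⟨((Nat.Prime.coprime_iff_not_dvd hp).mpr hm).symm, ?_⟩
  apply Nat.Coprime.symm
  apply Nat.coprime_of_dvd
  intro r hr hr1 hr2
  have hdm : m ∣ Nat.card G := by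
    rw [← hord]
    exact orderOf_dvd_natCard _
  have h1 := hmin r hr (hr2.trans hdm)
  have h2 : r ≤ p - 1 := Nat.le_of_dvd (Nat.sub_pos_of_lt hp.one_lt) hr1
  have h3 := hp.one_lt
  omega

/-- Local structure for large `B`. -/
theorem exists_mul_centralizer {P : Subgroup G} (hP : IsPGroup p P) {k : ℕ} (hk0 : 0 < k)
    (hE : HypE P (p ^ k)) (hmin : ∀ q : ℕ, q.Prime → q ∣ Nat.card G → p ≤ q)
    {B : Subgroup G} (hBP : B ≤ P) (hB : p ^ k < Nat.card B)
    (htame : ¬ p ∣ (P ⊓ 𝐍 B).relIndex (𝐍 B)) {t : G} (ht : t ∈ 𝐍 B) :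
    ∃ u ∈ P ⊓ 𝐍 B, ∃ c ∈ 𝐍 B, (∀ b ∈ B, c * b = b * c) ∧ t = u * c := by
  classical
  have hp : p.Prime := hpf.out
  set X : Subgroup G := 𝐍 B with hX
  -- the centralizer, inside `X`
  let C : Subgroup X := (Subgroup.centralizer (B : Set G)).subgroupOf X
  have hCn : C.Normal := by
    constructor
    rintro ⟨c, hcX⟩ hc ⟨g, hgX⟩
    rw [Subgroup.mem_subgroupOf, Subgroup.mem_centralizer_iff] at hc ⊢
    intro b hb
    have h1 : g⁻¹ * b * g⁻¹⁻¹ ∈ B := (Subgroup.mem_normalizer_iff.1 (X.inv_mem hgX) b).1 hb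
    have h2 := hc _ h1
    show b * (g * c * g⁻¹) = (g * c * g⁻¹) * b
    have h3 : (g⁻¹ * b * g⁻¹⁻¹) * c = c * (g⁻¹ * b * g⁻¹⁻¹) := h2
    calc b * (g * c * g⁻¹) = g * ((g⁻¹ * b * g⁻¹⁻¹) * c) * g⁻¹ := by group
      _ = g * (c * (g⁻¹ * b * g⁻¹⁻¹)) * g⁻¹ := by rw [h3]
      _ = (g * c * g⁻¹) * b := by group
  -- the quotient is a `p`-group
  have hQ : IsPGroup p (X ⧸ C) := by
    intro y
    obtain ⟨⟨s, hs⟩, rfl⟩ := QuotientGroup.mk_surjective y
    obtain ⟨a, h1, h2⟩ := exists_pow_coprime hmin s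
    refine ⟨a, ?_⟩
    rw [← QuotientGroup.mk_pow, QuotientGroup.eq_one_iff]
    rw [Subgroup.mem_subgroupOf, Subgroup.mem_centralizer_iff]
    intro b hb
    have hsa : s ^ p ^ a ∈ X := X.pow_mem hs _
    have := centralizes_of_line hP hk0 hE h1 h2 _ B rfl hBP hB
      (fun u hu => (Subgroup.mem_normalizer_iff.1 hsa u).1 hu) b hb
    exact this.symm
  obtain ⟨n, hn⟩ := IsPGroup.iff_card.mp hQ
  let S : Subgroup X := (P ⊓ X).subgroupOf X
  set H : Subgroup X := S ⊔ C with hH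
  have hH1 : H.index ∣ S.index := Subgroup.index_dvd_of_le le_sup_left
  have hH2 : H.index ∣ p ^ n := by
    rw [← hn]
    exact Subgroup.index_dvd_of_le (le_sup_right : C ≤ H)
  have hH3 : H.index = 1 := by
    obtain ⟨i, -, hi⟩ := (Nat.dvd_prime_pow hp).mp hH2
    rcases Nat.eq_zero_or_pos i with h0 | h0
    · rw [hi, h0, pow_zero]
    · exfalso
      apply htame
      have h1 : p ∣ H.index := by
        rw [hi]
        exact dvd_pow_self p h0.ne'
      exact h1.trans hH1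
  have hHtop : H = ⊤ := Subgroup.index_eq_one.mp hH3
  have hmem : (⟨t, ht⟩ : X) ∈ S ⊔ C := by
    rw [← hH, hHtop]
    trivial
  rw [Subgroup.mem_sup_of_normal_right] at hmem
  obtain ⟨u, hu, c, hc, he⟩ := hmem
  refine ⟨u, Subgroup.mem_subgroupOf.mp hu, c, c.2, ?_, ?_⟩
  · intro b hb
    have := Subgroup.mem_centralizer_iff.mp (Subgroup.mem_subgroupOf.mp hc) b hb
    exact this.symm
  · exact (congrArg Subtype.val he).symm

/-- Focal estimate for small `B`. -/
theorem focal_small {P : Subgroup G} (hP : IsPGroup p P) {k : ℕ}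
    (hE : HypE P (p ^ k)) (hPk : p ^ k < Nat.card P)
    {B : Subgroup G} (hBP : B ≤ P) (hB : Nat.card B ≤ p ^ k) {x : G} (hx : x ∈ 𝐍 B)
    {j : ℕ} (hxj : x ^ p ^ j = 1) {a : G} (ha : a ∈ B) :
    a⁻¹ * (x * a * x⁻¹) ∈ (frattini P).map P.subtype := by
  classical
  have hp : p.Prime := hpf.out
  have hsmall : ∀ z ∈ B, Small (p ^ k) z := by
    intro z hz
    left
    have h1 : orderOf (⟨z, hz⟩ : B) ∣ Nat.card B := orderOf_dvd_natCard _
    rw [Subgroup.orderOf_mk] at h1
    exact (Nat.le_of_dvd Nat.card_pos h1).trans hB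
  set β : MulAut B := B.normalizerMonoidHom ⟨x, hx⟩ with hβ
  have hβv : ∀ u : B, ((β u : B) : G) = x * u * x⁻¹ := fun u => rfl
  let Q : P →* P ⧸ frattini P := QuotientGroup.mk' (frattini P)
  let inc : B →* P := Subgroup.inclusion hBP
  let q : B →* P ⧸ frattini P := Q.comp inc
  have hker : ∀ u : B, q u = 1 → q (β.toMonoidHom u) = 1 := by
    intro u hu
    have h1 : inc u ∈ frattini P := (QuotientGroup.eq_one_iff _).mp hu
    apply (QuotientGroup.eq_one_iff _).mpr
    rw [mem_frattini_iff] at h1 ⊢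
    intro M hM
    exact coatom_line hP hE le_rfl hPk (y := inc u) (z := inc (β u)) (g := x)
      (hsmall u u.2) (hβv u) M hM (h1 M hM)
  let a' : B := ⟨a, ha⟩
  obtain ⟨c, hc⟩ := exists_pow_of_forall_coatom hP (y := inc a') (z := inc (β a'))
    (coatom_line hP hE le_rfl hPk (hsmall a ha) (hβv a'))
  have hc' : q (β.toMonoidHom a') = q a' ^ c := by
    have h1 : Q (inc (β a') * (inc a' ^ c)⁻¹) = 1 := (QuotientGroup.eq_one_iff _).mpr hc
    rw [map_mul, map_inv, map_pow, mul_inv_eq_one] at h1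
    exact h1
  have hpy : q a' ^ p = 1 := by
    rw [← map_pow]
    exact (QuotientGroup.eq_one_iff _).mpr (by
      have := pow_mem_frattini_of_isPGroup hP (inc a')
      rwa [← map_pow] at this)
  have hmx : (β.toMonoidHom : B →* B)^[p ^ j] a' = a' := by
    apply Subtype.ext
    rw [iter_conj hx, hxj]
    group
  have hcop : (p ^ j).Coprime (p - 1) := by
    apply Nat.Coprime.pow_left
    rw [Nat.Prime.coprime_iff_not_dvd hp]
    exact Nat.not_dvd_of_pos_of_lt (Nat.sub_pos_of_lt hp.one_lt) (Nat.sub_lt hp.pos one_pos)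
  have hfix := eigen_fix (p := p) β.toMonoidHom q hker hc' hpy hmx (pow_pos hp.pos j) hcop
  have h1 : (inc a')⁻¹ * inc (β a') ∈ frattini P := by
    apply QuotientGroup.eq.mp
    exact hfix.symm
  exact ⟨_, h1, rfl⟩

theorem comm_mem_frattini_map {P : Subgroup G} (hP : IsPGroup p P) {a u : G} (ha : a ∈ P) (hu : u ∈ P) :
    a⁻¹ * (u * a * u⁻¹) ∈ (frattini P).map P.subtype := by
  have h1 : (⟨a, ha⟩ : P)⁻¹ * ((⟨u, hu⟩ : P) * ⟨a, ha⟩ * (⟨u, hu⟩ : P)⁻¹) ∈ frattini P := by
    apply commutator_le_frattini_of_isPGroup hP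
    have : (⟨a, ha⟩ : P)⁻¹ * ((⟨u, hu⟩ : P) * ⟨a, ha⟩ * (⟨u, hu⟩ : P)⁻¹) =
        ⁅(⟨a, ha⟩ : P)⁻¹, (⟨u, hu⟩ : P)⁆ := by
      rw [commutatorElement_def]; group
    rw [this, _root_.commutator_def]
    exact Subgroup.commutator_mem_commutator (Subgroup.mem_top _) (Subgroup.mem_top _)
  exact ⟨_, h1, rfl⟩

/-- Focal estimate for large `B`. -/
theorem focal_large {P : Subgroup G} (hP : IsPGroup p P) {k : ℕ} (hk0 : 0 < k)
    (hE : HypE P (p ^ k)) (hmin : ∀ q : ℕ, q.Prime → q ∣ Nat.card G → p ≤ q)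
    {B : Subgroup G} (hBP : B ≤ P) (hB : p ^ k < Nat.card B)
    (htame : ¬ p ∣ (P ⊓ 𝐍 B).relIndex (𝐍 B)) {t : G} (ht : t ∈ 𝐍 B) {a : G} (ha : a ∈ B) :
    a⁻¹ * (t * a * t⁻¹) ∈ (frattini P).map P.subtype := by
  obtain ⟨u, hu, c, hc, hcb, rfl⟩ := exists_mul_centralizer hP hk0 hE hmin hBP hB htame ht
  have : (u * c) * a * (u * c)⁻¹ = u * a * u⁻¹ := by
    have h1 : c * a * c⁻¹ = a := by rw [hcb a ha]; group
    calc (u * c) * a * (u * c)⁻¹ = u * (c * a * c⁻¹) * u⁻¹ := by group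
      _ = u * a * u⁻¹ := by rw [h1]
  rw [this]
  exact comm_mem_frattini_map hP (hBP ha) hu.1

/-- **Fusion.** -/
theorem fusion (P : Sylow p G) {k : ℕ} (hk0 : 0 < k) (hE : HypE (P : Subgroup G) (p ^ k))
    (hPk : p ^ k < Nat.card (P : Subgroup G)) (hmin : ∀ q : ℕ, q.Prime → q ∣ Nat.card G → p ≤ q)
    (g : G) {a : G} (ha : a ∈ (P : Subgroup G)) (hg : g * a * g⁻¹ ∈ (P : Subgroup G)) :
    a⁻¹ * (g * a * g⁻¹) ∈ (frattini (P : Subgroup G)).map (P : Subgroup G).subtype := by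
  have hP : IsPGroup p (P : Subgroup G) := P.isPGroup'
  have hsys := focalCtl_sys ((frattini (P : Subgroup G)).map (P : Subgroup G).subtype)
  have key := tame_control P hsys
    (by
      intro t ht a ha
      refine focal_large hP hk0 hE hmin le_rfl hPk ?_ ht ha
      have h1 : ((P : Subgroup G) ⊓ 𝐍 (P : Subgroup G)) = (P : Subgroup G) :=
        inf_eq_left.mpr (le_normalizer_self _)
      rw [h1]
      intro hd
      exact P.not_dvd_index (hd.trans (Subgroup.relIndex_dvd_index_of_le (le_normalizer_self _)))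
      )
    (by
      intro Q hne htame x hx hxo a ha
      by_cases hB : p ^ k < Nat.card (((P : Subgroup G) ⊓ (Q : Subgroup G) : Subgroup G))
      · exact focal_large hP hk0 hE hmin inf_le_left hB htame.1 hx ha
      · obtain ⟨j, hj⟩ := hxo
        exact focal_small hP hE hPk inf_le_left (not_lt.mp hB) hx (by rw [← hj, pow_orderOf_eq_one]) ha)
    g
  apply key
  refine ⟨ha, mem_map_conj.mpr ?_⟩
  simpa using hg

/-- The abstract conclusion: fusion modulo the Frattini subgroup. -/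
theorem npc_of_focal_frattini (P : Sylow p G)
    (hf : ∀ (g a : G), a ∈ (P : Subgroup G) → g * a * g⁻¹ ∈ (P : Subgroup G) →
      a⁻¹ * (g * a * g⁻¹) ∈ (frattini (P : Subgroup G)).map (P : Subgroup G).subtype) :
    HasNormalPComplement p G := by
  classical
  have hp : p.Prime := hpf.out
  have hfoc : (P : Subgroup G) ⊓ ⁅(⊤ : Subgroup G), (⊤ : Subgroup G)⁆ ≤
      (frattini (P : Subgroup G)).map (P : Subgroup G).subtype :=
    focal_sub (H := ⊤) le_top P.isPGroup' (by
        rw [Subgroup.relIndex_top_right]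
        exact P.not_dvd_index)
      (Subgroup.map_subtype_le _)
      (fun b hb z _ hz => hf z b hb hz)
  -- `N`
  set n : ℕ := (P : Subgroup G).index with hn
  let φ : G →* Abelianization G := (powMonoidHom n).comp Abelianization.of
  let N : Subgroup G := φ.ker
  haveI hNn : N.Normal := MonoidHom.normal_ker φ
  obtain ⟨l, hl⟩ := IsPGroup.iff_card.mp P.isPGroup'
  have hGc : Nat.card G = p ^ l * n := by
    rw [← hl, hn, Subgroup.card_mul_index]
  have hQ : IsPGroup p (G ⧸ N) := by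
    intro y
    obtain ⟨y, rfl⟩ := QuotientGroup.mk_surjective y
    refine ⟨l, ?_⟩
    rw [← QuotientGroup.mk_pow, QuotientGroup.eq_one_iff]
    show φ (y ^ p ^ l) = 1
    show (Abelianization.of (y ^ p ^ l)) ^ n = 1
    rw [map_pow, ← pow_mul, ← hGc, ← map_pow, pow_card_eq_one', map_one]
  have hNP : N ⊓ (P : Subgroup G) ≤ (frattini (P : Subgroup G)).map (P : Subgroup G).subtype := by
    rintro z ⟨hzN, hzP⟩
    apply hfoc
    refine ⟨hzP, ?_⟩
    have h1 : (Abelianization.of z) ^ n = 1 := hzN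
    have h2 : z ^ p ^ l = 1 := by
      have : (⟨z, hzP⟩ : (P : Subgroup G)) ^ p ^ l = 1 := by
        rw [← hl]
        exact pow_card_eq_one'
      exact congrArg Subtype.val this
    have h3 : (Abelianization.of z) ^ p ^ l = 1 := by rw [← map_pow, h2, map_one]
    have hcop : Nat.Coprime n (p ^ l) :=
      Nat.Coprime.pow_right _ ((Nat.Prime.coprime_iff_not_dvd hp).mpr P.not_dvd_index).symm
    have h4 : (Abelianization.of z) = 1 := by
      have := pow_gcd_eq_one.mpr ⟨h1, h3⟩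
      rwa [hcop, pow_one] at this
    have h5 : z ∈ commutator G := by
      have := (QuotientGroup.eq_one_iff z).mp h4
      exact this
    rwa [_root_.commutator_def] at h5
  exact hasNormalPComplement_of_quotient N hNn hQ (tate_main P _ N hNn rfl hNP)

/-- **The `H`-subgroup criterion** (non-cyclic part). -/
theorem npc_of_H (P : Sylow p G) {D : Subgroup G} (hD : D ≤ (P : Subgroup G)) (h1 : 1 < Nat.card D)
    (h2 : Nat.card D < Nat.card (P : Subgroup G))
    (hmin : ∀ q : ℕ, q.Prime → q ∣ Nat.card G → p ≤ q)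
    (hE : HypE (P : Subgroup G) (Nat.card D)) : HasNormalPComplement p G := by
  have hDp : IsPGroup p D := P.isPGroup'.to_le hD
  obtain ⟨k, hk⟩ := IsPGroup.iff_card.mp hDp
  have hk0 : 0 < k := by
    rcases Nat.eq_zero_or_pos k with h0 | h0
    · rw [hk, h0, pow_zero] at h1
      exact absurd h1 (lt_irrefl 1)
    · exact h0
  rw [hk] at h2 hE
  exact npc_of_focal_frattini P (fun g a ha hg => fusion P hk0 hE h2 hmin g ha hg)

end Cfsg.Agent.H12.Asaad
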