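import Cfsg.Agent.Lib.H12.Asaad3
import Cfsg.Agent.Lib.H02.SuperSolv5

/-! Normal `p`-subgroups whose subgroups of a fixed order are normal: the action is
`p`-by-(abelian of exponent dividing `p - 1`) (helper12). -/

set_option autoImplicit false
set_option linter.unusedSectionVars false
set_option linter.unusedVariables false

namespace Cfsg.Agent.H12.Asaad

open Cfsg Cfsg.Agent.H06 Cfsg.Agent.H01 Cfsg.Agent.H09 Cfsg.Agent.H19 Cfsg.Agent.H20
open scoped commutatorElement

theorem exists_eigen_add {W : Type*} [AddCommGroup W] [Finite W] [Nontrivial W] (p : ℕ) [hpf : Fact p.Prime]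
    [Module (ZMod p) W] (f : Module.End (ZMod p) W) (hfp : f ^ p = f) :
    ∃ v : W, v ≠ 0 ∧ ∃ c : ℕ, f v = c • v := by
  classical
  have hp : p.Prime := hpf.out
  haveI : Module.Finite (ZMod p) W := Module.Finite.of_finite
  have h0 : Polynomial.aeval f (Polynomial.X ^ p - Polynomial.X : Polynomial (ZMod p)) = 0 := by
    simp [hfp]
  have hint : IsIntegral (ZMod p) f := Algebra.IsIntegral.isIntegral f
  have hd : minpoly (ZMod p) f ∣ (Polynomial.X ^ p - Polynomial.X : Polynomial (ZMod p)) :=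
    minpoly.dvd _ _ h0
  have hsplit : (Polynomial.X ^ p - Polynomial.X : Polynomial (ZMod p)).Splits := by
    have := FiniteField.splits_X_pow_card_sub_X p (K := ZMod p)
    simpa using this
  have hne : (Polynomial.X ^ p - Polynomial.X : Polynomial (ZMod p)) ≠ 0 :=
    FiniteField.X_pow_card_sub_X_ne_zero _ hp.one_lt
  have hsm : (minpoly (ZMod p) f).Splits := hsplit.of_dvd hne hd
  obtain ⟨μ, hμ⟩ := hsm.exists_eval_eq_zero (by
    have := minpoly.degree_pos hint
    exact this.ne')
  have hev : Module.End.HasEigenvalue f μ := Module.End.hasEigenvalue_of_isRoot hμ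
  obtain ⟨v, hv⟩ := hev.exists_hasEigenvector
  refine ⟨v, hv.2, μ.val, ?_⟩
  have h1 := hv.apply_eq_smul
  rw [h1]
  conv_lhs => rw [← ZMod.natCast_zmod_val μ]
  exact Nat.cast_smul_eq_nsmul _ _ _

theorem exists_eigen_add' {W : Type*} [AddCommGroup W] [Finite W] [Nontrivial W] (p : ℕ) [hpf : Fact p.Prime]
    (hexp : ∀ x : W, p • x = 0) (τ : W →+ W) (hτ : ∀ v, τ^[p] v = τ v) :
    ∃ v : W, v ≠ 0 ∧ ∃ c : ℕ, τ v = c • v := by
  letI : Module (ZMod p) W := AddCommGroup.zmodModule (n := p) hexp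
  let f : Module.End (ZMod p) W := AddMonoidHom.toZModLinearMap p τ
  have hf : ∀ (n : ℕ) (v : W), (f ^ n) v = τ^[n] v := by
    intro n v
    induction n with
    | zero => rfl
    | succ n ih =>
      rw [pow_succ', Module.End.mul_apply, ih, Function.iterate_succ_apply']
      rfl
  have hfp : f ^ p = f := by
    ext v
    rw [hf, hτ]
    rfl
  exact exists_eigen_add p f hfp

theorem exists_eigen {V : Type*} [CommGroup V] [Finite V] [Nontrivial V] {p : ℕ} [hpf : Fact p.Prime]
    (hexp : ∀ v : V, v ^ p = 1) (τ : V →* V)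
    (hτ : ∀ v, τ^[p] v = τ v) : ∃ b : V, b ≠ 1 ∧ ∃ c : ℕ, τ b = b ^ c := by
  haveI : Nontrivial (Additive V) := inferInstanceAs (Nontrivial V)
  have hit : ∀ (n : ℕ) (v : Additive V), (MonoidHom.toAdditive τ)^[n] v =
      Additive.ofMul (τ^[n] (Additive.toMul v)) := by
    intro n v
    induction n with
    | zero => rfl
    | succ n ih =>
      rw [Function.iterate_succ_apply', ih, Function.iterate_succ_apply']
      rfl
  obtain ⟨v, hv, c, hc⟩ := exists_eigen_add' p (W := Additive V) (fun x => by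
      show Additive.ofMul ((Additive.toMul x) ^ p) = 0
      rw [hexp]; rfl) (MonoidHom.toAdditive τ) (fun v => by
      rw [hit, hτ]; rfl)
  refine ⟨Additive.toMul v, fun h => hv (by
      have : v = Additive.ofMul (Additive.toMul v) := rfl
      rw [this, h]; rfl), c, ?_⟩
  exact congrArg Additive.toMul hc

section

variable {X : Type*} [Group X] [Finite X] {p : ℕ} [hpf : Fact p.Prime]

set_option quotPrecheck false in
local notation:max "𝐍" T:max => Subgroup.normalizer ((T : Subgroup X) : Set X)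
set_option quotPrecheck false in
local notation:65 T:66 " ⋆ " g:66 => Subgroup.map (MulAut.conj g).toMonoidHom T

/-- `p`-part removal. -/
theorem exists_pow_coprime_p (t : X) : ∃ a : ℕ, (orderOf (t ^ p ^ a)).Coprime p := by
  have hp : p.Prime := hpf.out
  obtain ⟨a, m, hm, he⟩ := Nat.exists_eq_pow_mul_and_not_dvd (orderOf_pos t).ne' p hp.ne_one
  refine ⟨a, ?_⟩
  have hord : orderOf (t ^ p ^ a) = m := by
    rw [orderOf_pow_of_dvd (pow_ne_zero _ hp.ne_zero) (by rw [he]; exact dvd_mul_right _ _), he]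
    exact Nat.mul_div_cancel_left _ (pow_pos hp.pos a)
  rw [hord]
  exact ((Nat.Prime.coprime_iff_not_dvd hp).mpr hm).symm

/-- If small elements do not generate `R` and generate a small subgroup, they generate a cyclic one. -/
theorem closure_small_cyclic {R L : Subgroup X} (hRp : IsPGroup p R) {k : ℕ} (hRk : p ^ k < Nat.card R)
    (hL : L = Subgroup.closure {y | y ∈ R ∧ Small (p ^ k) y}) (hLlt : L < R)
    (hLk : Nat.card L ≤ p ^ k) : IsCyclic L := by
  have hp : p.Prime := hpf.out
  have hLR : L ≤ R := hLlt.le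
  have hsL : ∀ y ∈ R, Small (p ^ k) y → y ∈ L := fun y hy hs => by
    rw [hL]; exact Subgroup.subset_closure ⟨hy, hs⟩
  have hsmall_of_card : ∀ E : Subgroup X, Nat.card E ≤ p ^ k → ∀ z ∈ E, Small (p ^ k) z := by
    intro E hE' z hz
    left
    have h1 : orderOf (⟨z, hz⟩ : E) ∣ Nat.card E := orderOf_dvd_natCard _
    rw [Subgroup.orderOf_mk] at h1
    exact (Nat.le_of_dvd Nat.card_pos h1).trans hE'
  obtain ⟨E, hLE, hER, hEc⟩ := exists_between hRp hLR hLk hRk.le
  have hEL : E ≤ L := fun z hz => hsL z (hER hz) (hsmall_of_card E hEc.le z hz)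
  have hLc : Nat.card L = p ^ k := by
    rw [le_antisymm hLE hEL]
    exact hEc
  obtain ⟨y, hyR, hyL⟩ := SetLike.exists_of_lt hLlt
  have hys : ¬ Small (p ^ k) y := fun hs => hyL (hsL y hyR hs)
  have hyo : p ^ k < orderOf y := by
    by_contra h
    exact hys (Or.inl (not_lt.mp h))
  have hzp : IsPGroup p (Subgroup.zpowers y) := hRp.to_le (Subgroup.zpowers_le.2 hyR)
  obtain ⟨E', -, hE'z, hE'c⟩ := exists_between (H := ⊥) hzp bot_le
    (by rw [Subgroup.card_bot]; exact Nat.one_le_pow k p hp.pos)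
    (by rw [Nat.card_zpowers]; exact hyo.le)
  have hE'L : E' ≤ L := fun z hz =>
    hsL z ((Subgroup.zpowers_le.2 hyR) (hE'z hz)) (hsmall_of_card E' hE'c.le z hz)
  have hE'eq : E' = L := eq_of_le_of_card_le hE'L (by rw [hLc, hE'c])
  have hLz : L ≤ Subgroup.zpowers y := hE'eq ▸ hE'z
  exact isCyclic_of_injective (Subgroup.inclusion hLz) (Subgroup.inclusion_injective hLz)

/-- Existence of a normal subgroup, containing all small elements, on whose Frattini quotient `X` acts
diagonally. -/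
theorem exists_diag {N : Subgroup X} (hNp : IsPGroup p N) {k : ℕ} (hE : HypE N (p ^ k)) :
    ∀ (n : ℕ) (R : Subgroup X), Nat.card R = n → R ≤ N → R.Normal → p ^ k < Nat.card R →
      ∃ Z : Subgroup X, Z ≤ R ∧ Z.Normal ∧ (∀ y ∈ R, Small (p ^ k) y → y ∈ Z) ∧
        ∃ T : Set X, Subgroup.closure T = Z ∧ ∀ y ∈ T, ∀ g : X, ∃ c : ℕ,
          (g * y * g⁻¹) * (y ^ c)⁻¹ ∈ (frattini Z).map Z.subtype := by
  classical
  intro n
  induction n using Nat.strong_induction_on with
  | _ n ih =>
    intro R hn hRN hRn hRk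
    have hRp : IsPGroup p R := hNp.to_le hRN
    set L : Subgroup X := Subgroup.closure {y | y ∈ R ∧ Small (p ^ k) y} with hL
    have hLR : L ≤ R := (Subgroup.closure_le _).mpr (fun y hy => hy.1)
    have hsL : ∀ y ∈ R, Small (p ^ k) y → y ∈ L := fun y hy hs => Subgroup.subset_closure ⟨hy, hs⟩
    have hLn : L.Normal := by
      constructor
      intro u hu g
      have : L ≤ L.comap (MulAut.conj g).toMonoidHom := by
        refine (Subgroup.closure_le _).mpr ?_
        rintro y ⟨hy, hs⟩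
        exact hsL _ (hRn.conj_mem y hy g) (small_conj g hs)
      exact this hu
    by_cases hLeq : L = R
    · refine ⟨R, le_rfl, hRn, fun y hy _ => hy, {y | y ∈ R ∧ Small (p ^ k) y}, ?_, ?_⟩
      · rw [← hL, hLeq]
      · rintro y ⟨hy, hs⟩ g
        have hgy := hRn.conj_mem y hy g
        obtain ⟨c, hc⟩ := exists_pow_of_forall_coatom hRp (y := (⟨y, hy⟩ : R))
          (z := (⟨g * y * g⁻¹, hgy⟩ : R))
          (coatom_line hNp hE hRN hRk hs rfl)
        exact ⟨c, _, hc, rfl⟩
    · have hLlt : L < R := lt_of_le_of_ne hLR hLeq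
      by_cases hLk : p ^ k < Nat.card L
      · have hc : Nat.card L < n := by rw [← hn]; exact card_lt_of_lt' hLlt
        obtain ⟨Z, hZL, hZn, hZs, T, hT⟩ := ih _ hc L rfl (hLR.trans hRN) hLn hLk
        exact ⟨Z, hZL.trans hLR, hZn, fun y hy hs => hZs y (hsL y hy hs) hs, T, hT⟩
      · have hcyc := closure_small_cyclic hRp hRk hL hLlt (not_lt.mp hLk)
        obtain ⟨⟨z, hzL⟩, hgen⟩ := IsCyclic.exists_generator (α := L)
        have hzpow : Subgroup.zpowers z = L := by
          apply le_antisymm (Subgroup.zpowers_le.2 hzL)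
          intro u hu
          obtain ⟨i, hi⟩ := Subgroup.mem_zpowers_iff.mp (hgen ⟨u, hu⟩)
          have := congrArg Subtype.val hi
          simp only [Subgroup.coe_zpow] at this
          rw [← this]
          exact Subgroup.zpow_mem_zpowers _ _
        refine ⟨L, hLR, hLn, hsL, {z}, ?_, ?_⟩
        · rw [← hzpow, Subgroup.zpowers_eq_closure]
        · rintro y rfl g
          have h1 : g * y * g⁻¹ ∈ Subgroup.zpowers y := by
            rw [hzpow]
            exact hLn.conj_mem y hzL g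
          have h2 : g * y * g⁻¹ ∈ Submonoid.powers y := (mem_powers_iff_mem_zpowers).mpr h1
          obtain ⟨c, hc⟩ := h2
          refine ⟨c, ?_⟩
          rw [← hc, mul_inv_cancel]
          exact one_mem _

section action

variable (Z : Subgroup X) [hZ : Z.Normal]

/-- Conjugation preserves congruence modulo `Φ(Z)`. -/
theorem q_sigma (g : X) {u v : Z} (h : (QuotientGroup.mk' (frattini Z)) u = (QuotientGroup.mk' (frattini Z)) v) :
    (QuotientGroup.mk' (frattini Z)) (MulAut.conjNormal g u) =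
      (QuotientGroup.mk' (frattini Z)) (MulAut.conjNormal g v) := by
  have h1 : u⁻¹ * v ∈ frattini Z := QuotientGroup.eq.mp h
  have hchar : (frattini Z).Characteristic := inferInstance
  have h2 : MulAut.conjNormal g (u⁻¹ * v) ∈ frattini Z :=
    (Subgroup.characteristic_iff_comap_eq.mp hchar (MulAut.conjNormal g)).ge h1
  rw [map_mul, map_inv] at h2
  exact QuotientGroup.eq.mpr h2

/-- The kernel of the action of `X` on the Frattini quotient of `Z`. -/
def actO : Subgroup X where
  carrier := {g | ∀ u : Z, (QuotientGroup.mk' (frattini Z)) (MulAut.conjNormal g u) =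
    (QuotientGroup.mk' (frattini Z)) u}
  one_mem' := by
    intro u
    simp
  mul_mem' := by
    intro g h hg hh u
    rw [map_mul, MulAut.mul_apply, hg, hh]
  inv_mem' := by
    intro g hg u
    have := hg ((MulAut.conjNormal g⁻¹) u)
    rw [← MulAut.mul_apply, ← map_mul, mul_inv_cancel, map_one, MulAut.one_apply] at this
    exact this.symm

theorem actO_normal : (actO Z).Normal := by
  constructor
  intro g hg h u
  have h1 := hg ((MulAut.conjNormal h⁻¹) u)
  have h2 := q_sigma Z h h1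
  have e1 : (MulAut.conjNormal (h * g * h⁻¹) : MulAut Z) u =
      MulAut.conjNormal h (MulAut.conjNormal g (MulAut.conjNormal h⁻¹ u)) := by
    rw [map_mul, map_mul]; rfl
  have e2 : (MulAut.conjNormal h : MulAut Z) (MulAut.conjNormal h⁻¹ u) = u := by
    rw [← MulAut.mul_apply, ← map_mul, mul_inv_cancel, map_one, MulAut.one_apply]
  show (QuotientGroup.mk' (frattini Z)) ((MulAut.conjNormal (h * g * h⁻¹) : MulAut Z) u) = _
  rw [e1, h2, e2]

theorem eq_of_closure {Q : Type*} [Group Q] {T : Set X} (hT : Subgroup.closure T = Z)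
    (f₁ f₂ : Z →* Q) (h : ∀ y : Z, (y : X) ∈ T → f₁ y = f₂ y) (u : Z) : f₁ u = f₂ u := by
  have hTZ : ∀ y ∈ T, y ∈ Z := fun y hy => by
    rw [← hT]; exact Subgroup.subset_closure hy
  have hle : Subgroup.closure T ≤ (MonoidHom.eqLocus f₁ f₂).map Z.subtype := by
    refine (Subgroup.closure_le _).mpr ?_
    intro y hy
    exact ⟨⟨y, hTZ y hy⟩, h ⟨y, hTZ y hy⟩ hy, rfl⟩
  obtain ⟨w, hw, he⟩ := hle (by rw [hT]; exact u.2)
  have : w = u := Subtype.ext he
  rw [← this]
  exact hw

variable {Z}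

/-- Translation of the diagonal hypothesis. -/
theorem q_pow_of_diag {y : Z} {g : X} {c : ℕ}
    (h : (g * (y : X) * g⁻¹) * ((y : X) ^ c)⁻¹ ∈ (frattini Z).map Z.subtype) :
    (QuotientGroup.mk' (frattini Z)) (MulAut.conjNormal g y) =
      (QuotientGroup.mk' (frattini Z)) y ^ c := by
  obtain ⟨w, hw, he⟩ := h
  have h1 : w = MulAut.conjNormal g y * (y ^ c)⁻¹ := Subtype.ext he
  have h2 : (QuotientGroup.mk' (frattini Z)) (MulAut.conjNormal g y * (y ^ c)⁻¹) = 1 :=
    (QuotientGroup.eq_one_iff _).mpr (h1 ▸ hw)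
  rw [map_mul, map_inv, map_pow, mul_inv_eq_one] at h2
  exact h2

theorem q_comp {y : Z} {g h : X} {c d : ℕ}
    (hc : (QuotientGroup.mk' (frattini Z)) (MulAut.conjNormal g y) =
      (QuotientGroup.mk' (frattini Z)) y ^ c)
    (hd : (QuotientGroup.mk' (frattini Z)) (MulAut.conjNormal h y) =
      (QuotientGroup.mk' (frattini Z)) y ^ d) :
    (QuotientGroup.mk' (frattini Z)) (MulAut.conjNormal g (MulAut.conjNormal h y)) =
      (QuotientGroup.mk' (frattini Z)) y ^ (c * d) := by
  have h1 : (QuotientGroup.mk' (frattini Z)) (MulAut.conjNormal h y) =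
      (QuotientGroup.mk' (frattini Z)) (y ^ d) := by rw [hd, map_pow]
  rw [q_sigma Z g h1, map_pow, map_pow, hc, ← pow_mul]

theorem comm_mem_actO {T : Set X} (hT : Subgroup.closure T = Z)
    (hd : ∀ y ∈ T, ∀ g : X, ∃ c : ℕ, (g * y * g⁻¹) * (y ^ c)⁻¹ ∈ (frattini Z).map Z.subtype)
    (g h : X) : g * h * g⁻¹ * h⁻¹ ∈ actO Z := by
  set q := QuotientGroup.mk' (frattini Z) with hq
  have key : ∀ u : Z, (q.comp (MulAut.conjNormal (g * h) : MulAut Z).toMonoidHom) u =
      (q.comp (MulAut.conjNormal (h * g) : MulAut Z).toMonoidHom) u := by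
    apply eq_of_closure Z hT
    intro y hy
    obtain ⟨c, hc⟩ := hd y hy g
    obtain ⟨d, hd'⟩ := hd y hy h
    have hc' := q_pow_of_diag hc
    have hd'' := q_pow_of_diag hd'
    have e1 : (MulAut.conjNormal (g * h) : MulAut Z) y =
        MulAut.conjNormal g (MulAut.conjNormal h y) := by rw [map_mul]; rfl
    have e2 : (MulAut.conjNormal (h * g) : MulAut Z) y =
        MulAut.conjNormal h (MulAut.conjNormal g y) := by rw [map_mul]; rfl
    show q ((MulAut.conjNormal (g * h) : MulAut Z) y) = q ((MulAut.conjNormal (h * g) : MulAut Z) y)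
    rw [e1, e2, q_comp hc' hd'', q_comp hd'' hc', mul_comm]
  intro u
  have h1 := key ((MulAut.conjNormal (h * g)⁻¹) u)
  have e1 : (MulAut.conjNormal (g * h * g⁻¹ * h⁻¹) : MulAut Z) u =
      MulAut.conjNormal (g * h) (MulAut.conjNormal (h * g)⁻¹ u) := by
    rw [← MulAut.mul_apply, ← map_mul]
    congr 2
    group
  have e2 : (MulAut.conjNormal (h * g) : MulAut Z) (MulAut.conjNormal (h * g)⁻¹ u) = u := by
    rw [← MulAut.mul_apply, ← map_mul, mul_inv_cancel, map_one, MulAut.one_apply]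
  show q ((MulAut.conjNormal (g * h * g⁻¹ * h⁻¹) : MulAut Z) u) = q u
  rw [e1]
  have h2 : q ((MulAut.conjNormal (g * h) : MulAut Z) (MulAut.conjNormal (h * g)⁻¹ u)) =
      q ((MulAut.conjNormal (h * g) : MulAut Z) (MulAut.conjNormal (h * g)⁻¹ u)) := h1
  rw [h2, e2]

theorem pow_mem_actO (hZp : IsPGroup p Z) {T : Set X} (hT : Subgroup.closure T = Z)
    (hd : ∀ y ∈ T, ∀ g : X, ∃ c : ℕ, (g * y * g⁻¹) * (y ^ c)⁻¹ ∈ (frattini Z).map Z.subtype)
    (g : X) : g ^ (p - 1) ∈ actO Z := by
  have hp : p.Prime := hpf.out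
  set q := QuotientGroup.mk' (frattini Z) with hq
  have key : ∀ u : Z, (q.comp (MulAut.conjNormal (g ^ (p - 1)) : MulAut Z).toMonoidHom) u = q u := by
    apply eq_of_closure Z hT
    intro y hy
    obtain ⟨c, hc⟩ := hd y hy g
    have hc' := q_pow_of_diag hc
    have hit : ∀ n : ℕ, q ((MulAut.conjNormal (g ^ n) : MulAut Z) y) = q y ^ c ^ n := by
      intro n
      induction n with
      | zero => simp
      | succ n ih =>
        have e1 : (MulAut.conjNormal (g ^ (n + 1)) : MulAut Z) y =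
            MulAut.conjNormal g (MulAut.conjNormal (g ^ n) y) := by
          rw [pow_succ', map_mul]; rfl
        have h1 : q ((MulAut.conjNormal (g ^ n) : MulAut Z) y) = q (y ^ c ^ n) := by
          rw [ih, map_pow]
        rw [e1, q_sigma Z g h1, map_pow, map_pow, hc', ← pow_mul, pow_succ']
    have hpy : q y ^ p = 1 := by
      rw [← map_pow]
      exact (QuotientGroup.eq_one_iff _).mpr (pow_mem_frattini_of_isPGroup hZp y)
    show q ((MulAut.conjNormal (g ^ (p - 1)) : MulAut Z) y) = q y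
    rw [hit]
    by_cases hqy : q y = 1
    · rw [hqy, one_pow]
    have hord : orderOf (q y) = p := orderOf_eq_prime hpy hqy
    have hpc : ¬ p ∣ c := by
      rintro ⟨s, rfl⟩
      have h1 : q ((MulAut.conjNormal g : MulAut Z) y) = q 1 := by
        rw [hc', pow_mul, hpy, one_pow, map_one]
      have h2 := q_sigma Z g⁻¹ h1
      have e2 : (MulAut.conjNormal g⁻¹ : MulAut Z) (MulAut.conjNormal g y) = y := by
        rw [← MulAut.mul_apply, ← map_mul, inv_mul_cancel, map_one, MulAut.one_apply]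
      rw [e2, map_one, map_one] at h2
      exact hqy h2
    have hc0 : (c : ZMod p) ≠ 0 := by
      rwa [Ne, ZMod.natCast_eq_zero_iff]
    have h5 : (c : ZMod p) ^ (p - 1) = 1 := ZMod.pow_card_sub_one_eq_one hc0
    have h7 : c ^ (p - 1) ≡ 1 [MOD p] := by
      apply (ZMod.natCast_eq_natCast_iff _ _ _).mp
      push_cast
      exact h5
    have h8 : q y ^ c ^ (p - 1) = q y ^ 1 := by
      apply pow_eq_pow_iff_modEq.mpr
      rw [hord]
      exact h7
    rw [h8, pow_one]
  intro u
  exact key u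

/-- The `p'`-part of an element acting trivially on `Z/Φ(Z)` centralizes `Z`. -/
theorem centralizes_of_mem_actO (hZp : IsPGroup p Z) {x : X} (hx : x ∈ actO Z)
    (hcop : (orderOf x).Coprime p) (u : X) (hu : u ∈ Z) : x * u = u * x := by
  set ψ : MulAut Z := MulAut.conjNormal x with hψ
  have ho : orderOf ψ ∣ orderOf x := orderOf_map_dvd MulAut.conjNormal x
  have hcopZ : (orderOf ψ).Coprime (Nat.card Z) := by
    obtain ⟨l, hl⟩ := IsPGroup.iff_card.mp hZp
    rw [hl]
    exact Nat.Coprime.pow_right _ (Nat.Coprime.coprime_dvd_left ho hcop)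
  have hall : ∀ w : Z, ψ w * w⁻¹ ∈ frattini Z := by
    intro w
    apply (QuotientGroup.eq_one_iff _).mp
    have h1 := hx w
    show (QuotientGroup.mk' (frattini Z)) _ = 1
    rw [map_mul, map_inv, h1, mul_inv_cancel]
  have hψ1 : ψ = 1 := aut_eq_one_of_frattini ψ hcopZ hall
  have h6 : ψ ⟨u, hu⟩ = ⟨u, hu⟩ := by rw [hψ1]; rfl
  have h7 : x * u * x⁻¹ = u := by
    have := congrArg Subtype.val h6
    rwa [hψ, MulAut.conjNormal_apply] at this
  rw [mul_inv_eq_iff_eq_mul] at h7
  exact h7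

end action

/-- The action of `X` on `N`: `p`-by-(abelian of exponent dividing `p - 1`). -/
theorem exists_O {N : Subgroup X} (hN : N.Normal) (hNp : IsPGroup p N) {k : ℕ} (hk0 : 0 < k)
    (hNk : p ^ k < Nat.card N)
    (hF : ∀ F : Subgroup X, F ≤ N → (Nat.card F = p ^ k ∨ (p ^ k = 2 ∧ Nat.card F = 4)) → F.Normal) :
    ∃ O : Subgroup X, O.Normal ∧ (∀ g h : X, g * h * g⁻¹ * h⁻¹ ∈ O) ∧ (∀ g : X, g ^ (p - 1) ∈ O) ∧
      ∀ o ∈ O, ∃ j : ℕ, ∀ u ∈ N, o ^ p ^ j * u = u * o ^ p ^ j := by
  classical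
  have hE : HypE N (p ^ k) := by
    intro E hEN hc g x hx
    have hEn := hF E hEN hc
    obtain ⟨h1, -⟩ := hx
    have h2 := mem_map_conj.mp h1
    have h3 := hEn.conj_mem _ h2 g
    have e : g * (g⁻¹ * x * g) * g⁻¹ = x := by group
    rwa [e] at h3
  obtain ⟨Z, hZN, hZn, hZs, T, hT, hd⟩ := exists_diag hNp hE _ N rfl le_rfl hN hNk
  haveI := hZn
  have hZp : IsPGroup p Z := hNp.to_le hZN
  refine ⟨actO Z, actO_normal Z, comm_mem_actO hT hd, pow_mem_actO hZp hT hd, ?_⟩
  intro o ho
  obtain ⟨a, ha⟩ := exists_pow_coprime_p (p := p) o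
  refine ⟨a, ?_⟩
  have hx : o ^ p ^ a ∈ actO Z := Subgroup.pow_mem _ ho _
  obtain ⟨q, hq1, hq2, hq3⟩ := exists_q (G := X) (p := p) hk0
  exact centralizes_of_fix_q hq1 hq2 ha _ N rfl hNp (fun u hu => hN.conj_mem u hu _)
    (fun y hy hyq => centralizes_of_mem_actO hZp hx ha y (hZs y hy (hq3 y hyq)))

end

end Cfsg.Agent.H12.Asaad
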