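import Cfsg.Agent.Lib.H12.Asaad4

/-! Minimal normal subgroups below `N` have prime order, and the supersolvability criterion
(helper12). -/

set_option autoImplicit false
set_option linter.unusedSectionVars false
set_option linter.unusedVariables false

namespace Cfsg.Agent.H12.Asaad

open Cfsg Cfsg.Agent.H06 Cfsg.Agent.H01 Cfsg.Agent.H09 Cfsg.Agent.H19 Cfsg.Agent.H20 Cfsg.Agent.H02
open scoped commutatorElement

universe u

section

variable {X : Type*} [Group X] [Finite X] {p : ℕ} [hpf : Fact p.Prime]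

theorem conjNormal_iter {A : Subgroup X} [hA : A.Normal] (t : X) (n : ℕ) (v : A) :
    (((MulAut.conjNormal t : MulAut A).toMonoidHom : A →* A)^[n] v : X) = t ^ n * v * (t ^ n)⁻¹ := by
  induction n with
  | zero => simp
  | succ n ih =>
    rw [Function.iterate_succ_apply']
    show t * ((((MulAut.conjNormal t : MulAut A).toMonoidHom : A →* A)^[n] v : A) : X) * t⁻¹ = _
    rw [ih, pow_succ']
    group

theorem eigen_power {A O : Subgroup X} (hA : A.Normal) (hA1 : A ≠ ⊥)
    (hmin : ∀ B : Subgroup X, B.Normal → B ≤ A → B = ⊥ ∨ B = A)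
    (hcomm : ∀ x ∈ A, ∀ z ∈ A, x * z = z * x) (hexp : ∀ x ∈ A, x ^ p = 1)
    (hO : ∀ a ∈ A, ∀ o ∈ O, o * a = a * o)
    (h1 : ∀ g h : X, g * h * g⁻¹ * h⁻¹ ∈ O) (h2 : ∀ g : X, g ^ (p - 1) ∈ O) (t : X) :
    ∃ c : ℕ, ∀ u ∈ A, t * u * t⁻¹ = u ^ c := by
  classical
  have hp : p.Prime := hpf.out
  haveI : Nontrivial A := (Subgroup.nontrivial_iff_ne_bot A).mpr hA1
  let τ : A →* A := (MulAut.conjNormal t : MulAut A).toMonoidHom
  have hτv : ∀ v : A, ((τ v : A) : X) = t * v * t⁻¹ := fun v => rfl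
  have hτ : ∀ v, τ^[p] v = τ v := by
    intro v
    have h3 : τ^[p - 1] v = v := by
      apply Subtype.ext
      rw [conjNormal_iter]
      have := hO v v.2 _ (h2 t)
      rw [this]
      group
    obtain ⟨m, hm⟩ : ∃ m, p = m + 1 := ⟨p - 1, by have := hp.pos; omega⟩
    rw [hm] at h3 ⊢
    rw [Function.iterate_succ_apply']
    simp only [Nat.add_sub_cancel] at h3
    rw [h3]
  have hcommA : ∀ a b : A, a * b = b * a := fun a b => Subtype.ext (hcomm a a.2 b b.2)
  obtain ⟨b, hb1, c, hbc⟩ : ∃ b : A, b ≠ 1 ∧ ∃ c : ℕ, τ b = b ^ c := by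
    letI : CommGroup A := { (inferInstance : Group A) with mul_comm := hcommA }
    exact exists_eigen (fun v => Subtype.ext (hexp v v.2)) τ hτ
  refine ⟨c, ?_⟩
  let B : Subgroup X :=
    { carrier := {u | u ∈ A ∧ t * u * t⁻¹ = u ^ c}
      one_mem' := ⟨A.one_mem, by simp⟩
      mul_mem' := by
        rintro u v ⟨hu, hu'⟩ ⟨hv, hv'⟩
        refine ⟨A.mul_mem hu hv, ?_⟩
        have hc : Commute u v := hcomm u hu v hv
        rw [hc.mul_pow, ← hu', ← hv']
        group
      inv_mem' := by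
        rintro u ⟨hu, hu'⟩
        refine ⟨A.inv_mem hu, ?_⟩
        rw [inv_pow, ← hu']
        group }
  have hBn : B.Normal := by
    constructor
    rintro u ⟨hu, hu'⟩ h
    refine ⟨hA.conj_mem u hu h, ?_⟩
    have hs := h1 t h
    set s := t * h * t⁻¹ * h⁻¹ with hsd
    have e1 : t * (h * u * h⁻¹) * t⁻¹ = s * (h * (t * u * t⁻¹) * h⁻¹) * s⁻¹ := by
      rw [hsd]; group
    rw [e1, hu']
    have h3 : h * u ^ c * h⁻¹ ∈ A := hA.conj_mem _ (A.pow_mem hu c) h
    rw [hO _ h3 s hs, conj_pow]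
    group
  have hBA : B ≤ A := fun u hu => hu.1
  have hbB : (b : X) ∈ B := ⟨b.2, congrArg Subtype.val hbc⟩
  have hBA' : B = A := by
    refine (hmin B hBn hBA).resolve_left ?_
    intro h
    rw [h, Subgroup.mem_bot] at hbB
    exact hb1 (Subtype.ext hbB)
  intro u hu
  rw [← hBA'] at hu
  exact hu.2

theorem fixed_of_pgroup_action {A O N : Subgroup X} (hA : A.Normal) (hA1 : A ≠ ⊥) (hAp : IsPGroup p A)
    (hAN : A ≤ N)
    (h3 : ∀ o ∈ O, ∃ j : ℕ, ∀ u ∈ N, o ^ p ^ j * u = u * o ^ p ^ j) :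
    ∃ a ∈ A, a ≠ 1 ∧ ∀ o ∈ O, o * a = a * o := by
  classical
  have hp : p.Prime := hpf.out
  haveI := hA
  haveI : Nontrivial A := (Subgroup.nontrivial_iff_ne_bot A).mpr hA1
  let ρ : O →* MulAut A := (MulAut.conjNormal : X →* MulAut A).comp O.subtype
  let H : Subgroup (MulAut A) := ρ.range
  have hH : IsPGroup p H := by
    rintro ⟨φ, o, rfl⟩
    obtain ⟨j, hj⟩ := h3 o o.2
    refine ⟨j, ?_⟩
    apply Subtype.ext
    show ρ o ^ p ^ j = 1
    rw [← map_pow]
    ext w
    show (((o : X) ^ p ^ j) * w * ((o : X) ^ p ^ j)⁻¹) = w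
    rw [hj w (hAN w.2)]
    group
  have hcard := hH.card_modEq_card_fixedPoints A
  have hpA : p ∣ Nat.card A := by
    rcases hAp.card_eq_or_dvd with h | h
    · exact absurd h Finite.one_lt_card.ne'
    · exact h
  have hpF : p ∣ Nat.card (MulAction.fixedPoints H A) :=
    (Nat.modEq_zero_iff_dvd.mp (hcard.symm.trans hpA.modEq_zero_nat))
  have h1F : (1 : A) ∈ MulAction.fixedPoints H A := by
    intro φ
    exact map_one (φ : MulAut A)
  haveI : Nonempty (MulAction.fixedPoints H A) := ⟨⟨1, h1F⟩⟩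
  have hlt : 1 < Nat.card (MulAction.fixedPoints H A) := by
    have := Nat.le_of_dvd Nat.card_pos hpF
    have := hp.one_lt
    omega
  haveI : Nontrivial (MulAction.fixedPoints H A) := Finite.one_lt_card_iff_nontrivial.mp hlt
  obtain ⟨⟨a, haF⟩, ha⟩ := exists_ne (⟨1, h1F⟩ : MulAction.fixedPoints H A)
  refine ⟨a, a.2, ?_, ?_⟩
  · intro h
    exact ha (Subtype.ext (Subtype.ext h))
  · intro o ho
    have := haF ⟨ρ ⟨o, ho⟩, ⟨o, ho⟩, rfl⟩
    have h4 : o * (a : X) * o⁻¹ = a := congrArg Subtype.val this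
    rw [mul_inv_eq_iff_eq_mul] at h4
    exact h4

theorem isCyclic_of_minimal_normal {N O A : Subgroup X} (hOn : O.Normal)
    (h1 : ∀ g h : X, g * h * g⁻¹ * h⁻¹ ∈ O) (h2 : ∀ g : X, g ^ (p - 1) ∈ O)
    (h3 : ∀ o ∈ O, ∃ j : ℕ, ∀ u ∈ N, o ^ p ^ j * u = u * o ^ p ^ j)
    (hNp : IsPGroup p N) (hA : A.Normal) (hAN : A ≤ N) (hA1 : A ≠ ⊥)
    (hmin : ∀ B : Subgroup X, B.Normal → B ≤ A → B = ⊥ ∨ B = A) : IsCyclic A := by
  classical
  have hp : p.Prime := hpf.out
  have hAp : IsPGroup p A := hNp.to_le hAN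
  -- elementary abelian
  have hB : phiSub p A = ⊥ := by
    have hn : (phiSub p A).Normal :=
      ⟨fun f hf g => phiSub_invariant p A (fun x hx => hA.conj_mem x hx g) hf⟩
    exact (hmin _ hn (phiSub_le p A)).resolve_right (phiSub_ne hAp hA1)
  have hcomm : ∀ x ∈ A, ∀ z ∈ A, x * z = z * x := by
    intro x hx z hz
    have := comm_mem_phiSub p A hx hz
    rw [hB, Subgroup.mem_bot] at this
    have h4 : x * z * x⁻¹ = z := mul_inv_eq_one.mp this
    rw [mul_inv_eq_iff_eq_mul] at h4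
    exact h4
  have hexp : ∀ x ∈ A, x ^ p = 1 := by
    intro x hx
    have := pow_mem_phiSub p A hx
    rwa [hB, Subgroup.mem_bot] at this
  -- `O` centralizes `A`
  obtain ⟨a₀, ha₀, ha₀1, ha₀O⟩ := fixed_of_pgroup_action hA hA1 hAp hAN h3
  let A₁ : Subgroup X :=
    { carrier := {a | a ∈ A ∧ ∀ o ∈ O, o * a = a * o}
      one_mem' := ⟨A.one_mem, by simp⟩
      mul_mem' := by
        rintro u v ⟨hu, hu'⟩ ⟨hv, hv'⟩
        refine ⟨A.mul_mem hu hv, fun o ho => ?_⟩
        rw [← mul_assoc, hu' o ho, mul_assoc, hv' o ho, mul_assoc]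
      inv_mem' := by
        rintro u ⟨hu, hu'⟩
        refine ⟨A.inv_mem hu, fun o ho => ?_⟩
        have := hu' o ho
        have h4 : Commute o u := this
        exact h4.inv_right }
  have hA₁n : A₁.Normal := by
    constructor
    rintro u ⟨hu, hu'⟩ g
    refine ⟨hA.conj_mem u hu g, fun o ho => ?_⟩
    have h4 := hu' _ (hOn.conj_mem o ho g⁻¹)
    have h5 : (g⁻¹ * o * g⁻¹⁻¹) * u = u * (g⁻¹ * o * g⁻¹⁻¹) := h4
    calc o * (g * u * g⁻¹) = g * ((g⁻¹ * o * g⁻¹⁻¹) * u) * g⁻¹ := by group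
      _ = g * (u * (g⁻¹ * o * g⁻¹⁻¹)) * g⁻¹ := by rw [h5]
      _ = (g * u * g⁻¹) * o := by group
  have hA₁A : A₁ = A := by
    refine (hmin A₁ hA₁n (fun u hu => hu.1)).resolve_left ?_
    intro h
    have : a₀ ∈ A₁ := ⟨ha₀, ha₀O⟩
    rw [h, Subgroup.mem_bot] at this
    exact ha₀1 this
  have hO : ∀ a ∈ A, ∀ o ∈ O, o * a = a * o := by
    intro a ha o ho
    rw [← hA₁A] at ha
    exact ha.2 o ho
  have hpow := eigen_power hA hA1 hmin hcomm hexp hO h1 h2
  have hz : (Subgroup.zpowers a₀).Normal := zpowers_normal_of_conj a₀ (fun g => by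
    obtain ⟨c, hc⟩ := hpow g
    rw [hc a₀ ha₀]
    exact Subgroup.pow_mem _ (Subgroup.mem_zpowers a₀) c)
  have hzA : Subgroup.zpowers a₀ = A := by
    refine (hmin _ hz (Subgroup.zpowers_le.2 ha₀)).resolve_left ?_
    intro h
    rw [Subgroup.zpowers_eq_bot] at h
    exact ha₀1 h
  rw [← hzA]
  infer_instance

end

/-- Supersolvability from the action on a normal `p`-subgroup. -/
theorem ss_of_O {p : ℕ} [hpf : Fact p.Prime] :
    ∀ (n : ℕ) (X : Type u) [Group X] [Finite X] (N O : Subgroup X) [N.Normal], Nat.card N = n →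
      IsPGroup p N → IsSupersolvable (X ⧸ N) → O.Normal →
      (∀ g h : X, g * h * g⁻¹ * h⁻¹ ∈ O) → (∀ g : X, g ^ (p - 1) ∈ O) →
      (∀ o ∈ O, ∃ j : ℕ, ∀ u ∈ N, o ^ p ^ j * u = u * o ^ p ^ j) → IsSupersolvable X := by
  intro n
  induction n using Nat.strong_induction_on with
  | _ n ih =>
    intro X _ _ N O hNn hn hNp hss hOn h1 h2 h3
    by_cases hbot : N = ⊥
    · subst hbot
      exact isSupersolvable_of_mulEquiv QuotientGroup.quotientBot hss
    obtain ⟨A, hAN, hAn, hA1, hmin⟩ := exists_minimal_normal_le hNn hbot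
    have hcyc : IsCyclic A := isCyclic_of_minimal_normal hOn h1 h2 h3 hNp hAn hAN hA1 hmin
    haveI := hAn
    apply isSupersolvable_of_cyclic_normal A
    let π : X →* X ⧸ A := QuotientGroup.mk' A
    have hπ : Function.Surjective π := QuotientGroup.mk'_surjective A
    haveI hN' : (N.map π).Normal := Subgroup.Normal.map hNn π hπ
    have hlt : Nat.card (N.map π) < n := by
      rw [← hn]
      classical
      obtain ⟨a, ha1⟩ := (Subgroup.ne_bot_iff_exists_ne_one.mp hA1)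
      let f : N →* N.map π := π.subgroupMap N
      have hfs : Function.Surjective f := π.subgroupMap_surjective N
      have hfi : ¬ Function.Injective f := by
        intro hinj
        have h4 : f ⟨a, hAN a.2⟩ = f 1 := by
          apply Subtype.ext
          show π a = π 1
          rw [map_one]
          exact (QuotientGroup.eq_one_iff _).mpr a.2
        have h5 := hinj h4
        apply ha1
        have h6 : ((⟨a, hAN a.2⟩ : N) : X) = ((1 : N) : X) := congrArg Subtype.val h5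
        exact Subtype.ext h6
      haveI := Fintype.ofFinite N
      haveI := Fintype.ofFinite (N.map π)
      rw [Nat.card_eq_fintype_card, Nat.card_eq_fintype_card]
      exact Fintype.card_lt_of_surjective_not_injective f hfs hfi
    refine ih _ hlt (X ⧸ A) (N.map π) (O.map π) rfl (hNp.map π) ?_ (Subgroup.Normal.map hOn π hπ)
      ?_ ?_ ?_
    · exact isSupersolvable_of_mulEquiv (QuotientGroup.quotientQuotientEquivQuotient A N hAN).symm hss
    · intro g h
      obtain ⟨g, rfl⟩ := hπ g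
      obtain ⟨h, rfl⟩ := hπ h
      exact ⟨_, h1 g h, by simp⟩
    · intro g
      obtain ⟨g, rfl⟩ := hπ g
      exact ⟨_, h2 g, by simp⟩
    · rintro _ ⟨o, ho, rfl⟩
      obtain ⟨j, hj⟩ := h3 o ho
      refine ⟨j, ?_⟩
      rintro _ ⟨u, hu, rfl⟩
      rw [← map_pow, ← map_mul, ← map_mul, hj u hu]

end Cfsg.Agent.H12.Asaad
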