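import Cfsg.Agent.Lib.H12.Asaad5

/-! `H`-subgroup criterion for supersolvability (helper12). -/

set_option autoImplicit false
set_option linter.unusedSectionVars false
set_option linter.unusedVariables false

namespace Cfsg.Agent.H12.Asaad

open Cfsg Cfsg.Agent.H06 Cfsg.Agent.H01 Cfsg.Agent.H09 Cfsg.Agent.H19 Cfsg.Agent.H20 Cfsg.Agent.H02
open scoped commutatorElement

universe u

theorem card_map_of_ker_inf {G H : Type*} [Group G] [Group H] [Finite G] (f : G →* H) (A : Subgroup G)
    (hinj : ∀ x ∈ A, f x = 1 → x = 1) : Nat.card (A.map f) = Nat.card A := by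
  have hb : Function.Bijective (f.subgroupMap A) := by
    refine ⟨?_, f.subgroupMap_surjective A⟩
    rw [injective_iff_map_eq_one]
    rintro ⟨x, hx⟩ h
    exact Subtype.ext (hinj x hx (congrArg Subtype.val h))
  exact (Nat.card_eq_of_bijective _ hb).symm

/-- The hypothesis of the supersolvability criterion. -/
def HypSS {G : Type u} [Group G] (E : Subgroup G) : Prop :=
  ∀ (p : ℕ), p.Prime → ∀ P : Subgroup G, P ≤ E → IsPGroup p P → ¬ p ∣ P.relIndex E → ¬ IsCyclic ↥P →
    ∃ D : Subgroup G, D ≤ P ∧ 1 < Nat.card D ∧ Nat.card D < Nat.card P ∧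
      ∀ F : Subgroup G, F ≤ P → (Nat.card F = Nat.card D ∨ (Nat.card D = 2 ∧ Nat.card F = 4)) →
        ∀ g : G, F.map (MulAut.conj g).toMonoidHom ⊓ Subgroup.normalizer (F : Set G) ≤ F

section

variable {G : Type u} [Group G] [Finite G] {p : ℕ} [hpf : Fact p.Prime]

set_option quotPrecheck false in
local notation:max "𝐍" T:max => Subgroup.normalizer ((T : Subgroup G) : Set G)
set_option quotPrecheck false in
local notation:65 T:66 " ⋆ " g:66 => Subgroup.map (MulAut.conj g).toMonoidHom T

theorem quot_step (E K : Subgroup G) [hEn : E.Normal] [hKn : K.Normal] (hKE : K ≤ E)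
    (hGE : IsSupersolvable (G ⧸ E)) (S : Sylow p E)
    (hdisj : ∀ x ∈ (S : Subgroup E).map E.subtype, x ∈ K → x = 1)
    (hcov : ∀ u ∈ E, ∃ s ∈ (S : Subgroup E).map E.subtype, ∃ k ∈ K, u = s * k)
    (hD : IsCyclic ((S : Subgroup E).map E.subtype) ∨
      ∃ D : Subgroup G, D ≤ (S : Subgroup E).map E.subtype ∧ 1 < Nat.card D ∧
        Nat.card D < Nat.card ((S : Subgroup E).map E.subtype) ∧
        ∀ F : Subgroup G, F ≤ (S : Subgroup E).map E.subtype →
          (Nat.card F = Nat.card D ∨ (Nat.card D = 2 ∧ Nat.card F = 4)) →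
          ∀ g : G, (F ⋆ g) ⊓ 𝐍 F ≤ F) :
    IsSupersolvable (G ⧸ K) := by
  classical
  have hp : p.Prime := hpf.out
  set P : Subgroup G := (S : Subgroup E).map E.subtype with hP
  have hPE : P ≤ E := Subgroup.map_subtype_le _
  have hPp : IsPGroup p P := S.isPGroup'.map _
  let π : G →* G ⧸ K := QuotientGroup.mk' K
  have hπ : Function.Surjective π := QuotientGroup.mk'_surjective K
  have hπ1 : ∀ x, π x = 1 ↔ x ∈ K := fun x => QuotientGroup.eq_one_iff x
  have hEP : E.map π = P.map π := by
    apply le_antisymm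
    · rintro _ ⟨u, hu, rfl⟩
      obtain ⟨s, hs, k, hk, rfl⟩ := hcov u hu
      refine ⟨s, hs, ?_⟩
      rw [map_mul, (hπ1 k).mpr hk, mul_one]
    · exact Subgroup.map_mono hPE
  haveI hN : (E.map π).Normal := Subgroup.Normal.map hEn π hπ
  have hNp : IsPGroup p (E.map π) := by
    rw [hEP]
    exact hPp.map π
  have hinj : ∀ x ∈ P, π x = 1 → x = 1 := fun x hx h1 => hdisj x hx ((hπ1 x).mp h1)
  have hNc : Nat.card (E.map π) = Nat.card P := by
    rw [hEP]
    exact card_map_of_ker_inf π P hinj
  have hss : IsSupersolvable ((G ⧸ K) ⧸ E.map π) :=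
    isSupersolvable_of_mulEquiv (QuotientGroup.quotientQuotientEquivQuotient K E hKE).symm hGE
  rcases hD with hc | ⟨D, hDP, h1, h2, hH⟩
  · haveI : IsCyclic (E.map π) := by
      rw [hEP]
      exact isCyclic_of_surjective (π.subgroupMap P) (π.subgroupMap_surjective P)
    exact isSupersolvable_of_cyclic_normal (E.map π) hss
  · obtain ⟨k, hk⟩ := IsPGroup.iff_card.mp (hPp.to_le hDP)
    have hk0 : 0 < k := by
      rcases Nat.eq_zero_or_pos k with h0 | h0
      · rw [hk, h0, pow_zero] at h1
        exact absurd h1 (lt_irrefl 1)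
      · exact h0
    rw [hk] at h2 hH
    have hF : ∀ F : Subgroup (G ⧸ K), F ≤ E.map π →
        (Nat.card F = p ^ k ∨ (p ^ k = 2 ∧ Nat.card F = 4)) → F.Normal := by
      intro F hFN hcF
      set F₀ : Subgroup G := F.comap π ⊓ P with hF₀
      have hF₀P : F₀ ≤ P := inf_le_right
      have hmap : F₀.map π = F := by
        apply le_antisymm
        · rintro _ ⟨f, hf, rfl⟩
          exact hf.1
        · intro x hx
          have h3 := hFN hx
          rw [hEP] at h3
          obtain ⟨s, hs, rfl⟩ := h3
          exact ⟨s, ⟨hx, hs⟩, rfl⟩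
      have hcard : Nat.card F₀ = Nat.card F := by
        rw [← hmap]
        exact (card_map_of_ker_inf π F₀ (fun x hx => hinj x (hF₀P hx))).symm
      have hH₀ := hH F₀ hF₀P (by rwa [hcard])
      have hPN : P ≤ 𝐍 F₀ := le_normalizer_of_H hPp hF₀P hH₀
      have hNN : 𝐍 P ≤ 𝐍 F₀ := by
        intro n hn
        have h3 : (F₀ ⋆ n) ≤ P := by
          rw [map_conj_le_iff]
          intro t ht
          exact (Subgroup.mem_normalizer_iff.1 hn t).1 (hF₀P ht)
        have h4 : (F₀ ⋆ n) ≤ F₀ := (le_inf le_rfl (h3.trans hPN)).trans (hH₀ n)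
        exact mem_normalizer_of_map_conj_eq (eq_of_le_of_card_le h4 (by rw [card_map_conj]))
      constructor
      intro x hx g
      rw [← hmap] at hx ⊢
      obtain ⟨f, hf, rfl⟩ := hx
      obtain ⟨g, rfl⟩ := hπ g
      have htop := S.normalizer_sup_eq_top
      have hg : g ∈ Subgroup.normalizer ((S : Subgroup E).map E.subtype : Set G) ⊔ E := by
        rw [htop]; trivial
      rw [Subgroup.mem_sup_of_normal_right] at hg
      obtain ⟨n, hn, e, he, rfl⟩ := hg
      obtain ⟨s, hs, k', hk', rfl⟩ := hcov e he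
      have hns : n * s ∈ 𝐍 F₀ := Subgroup.mul_mem _ (hNN hn) (hPN hs)
      refine ⟨(n * s) * f * (n * s)⁻¹, (Subgroup.mem_normalizer_iff.1 hns f).1 hf, ?_⟩
      simp only [map_mul, map_inv, (hπ1 k').mpr hk', mul_one, inv_one]
    obtain ⟨O, hOn, hO1, hO2, hO3⟩ := exists_O hN hNp hk0 (by rw [hNc]; exact h2) hF
    exact ss_of_O _ (G ⧸ K) (E.map π) O rfl hNp hss hOn hO1 hO2 hO3

end

/-- The `H`-subgroup criterion for supersolvability. -/
theorem ss_main : ∀ (n : ℕ) (G : Type u) [Group G] [Finite G] (E : Subgroup G) [E.Normal],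
    Nat.card E = n → IsSupersolvable (G ⧸ E) → HypSS E → IsSupersolvable G := by
  intro n
  induction n using Nat.strong_induction_on with
  | _ n ih =>
    intro G _ _ E hEn hn hss h
    classical
    by_cases hbot : E = ⊥
    · subst hbot
      exact isSupersolvable_of_mulEquiv QuotientGroup.quotientBot hss
    haveI : Nontrivial E := (Subgroup.nontrivial_iff_ne_bot E).mpr hbot
    have hE1 : Nat.card E ≠ 1 := (Finite.one_lt_card (α := E)).ne'
    set p := (Nat.card E).minFac with hpdef
    have hp : p.Prime := Nat.minFac_prime hE1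
    haveI hpf : Fact p.Prime := ⟨hp⟩
    have hmin : ∀ q : ℕ, q.Prime → q ∣ Nat.card E → p ≤ q :=
      fun q hq hd => Nat.minFac_le_of_dvd hq.two_le hd
    -- Sylow data
    have hSyl : ∀ S : Sylow p E, S.1.map E.subtype ≤ E ∧ IsPGroup p (S.1.map E.subtype) ∧
        ¬ p ∣ (S.1.map E.subtype).relIndex E := by
      intro S
      refine ⟨Subgroup.map_subtype_le _, S.isPGroup'.map _, ?_⟩
      have : (S.1.map E.subtype).relIndex E = S.1.index := by
        rw [Subgroup.relIndex]
        congr 1
        exact Subgroup.comap_map_eq_self_of_injective E.subtype_injective _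
      rw [this]
      exact S.not_dvd_index
    obtain ⟨Q⟩ : Nonempty (Sylow p E) := inferInstance
    have hNPC : HasNormalPComplement p E := by
      by_cases hc : IsCyclic (Q : Subgroup E)
      · exact ⟨Q, _, inferInstance, IsCyclic.isComplement' hpdef.symm hc⟩
      · have hc' : ¬ IsCyclic (Q.1.map E.subtype) := by
          intro hc2
          apply hc
          exact isCyclic_of_surjective
            ((Q : Subgroup E).equivMapOfInjective E.subtype E.subtype_injective).symm.toMonoidHom
            (MulEquiv.surjective _)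
        obtain ⟨hQ1, hQ2, hQ3⟩ := hSyl Q
        obtain ⟨D, hDP, hD1, hD2, hD3⟩ := h p hp _ hQ1 hQ2 hQ3 hc'
        have hDE : D ≤ E := hDP.trans hQ1
        have hcD : Nat.card (D.subgroupOf E) = Nat.card D :=
          Nat.card_congr (Subgroup.subgroupOfEquivOfLe hDE).toEquiv
        refine npc_of_H Q (D := D.subgroupOf E) ?_ (by rwa [hcD]) ?_ hmin ?_
        · intro x hx
          obtain ⟨y, hy, hye⟩ := hDP (Subgroup.mem_subgroupOf.mp hx)
          have : y = x := Subtype.ext hye
          exact this ▸ hy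
        · rw [hcD]
          rwa [Subgroup.card_map_of_injective E.subtype_injective] at hD2
        · rw [hcD]
          intro F' hF' hc g y hy
          set F : Subgroup G := F'.map E.subtype with hF
          have hcF : Nat.card F = Nat.card F' := Subgroup.card_map_of_injective E.subtype_injective
          have hFP : F ≤ Q.1.map E.subtype := Subgroup.map_mono hF'
          have h5 := hD3 F hFP (by rwa [hcF]) (g : G)
          have hy1 : (g : G)⁻¹ * y * g ∈ F := by
            have := mem_map_conj.mp hy.1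
            exact ⟨_, this, rfl⟩
          have hy2 : (y : G) ∈ Subgroup.normalizer (F : Set G) := by
            rw [Subgroup.mem_normalizer_iff]
            intro f
            constructor
            · rintro ⟨f', hf', rfl⟩
              exact ⟨_, (Subgroup.mem_normalizer_iff.1 hy.2 f').1 hf', rfl⟩
            · rintro ⟨w, hw, hwe⟩
              have hfE : f ∈ E := by
                have h6 : f = (y : G)⁻¹ * w * y := by
                  have h7 : (w : G) = y * f * (y : G)⁻¹ := hwe
                  rw [h7]; group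
                rw [h6]
                exact E.mul_mem (E.mul_mem (E.inv_mem y.2) w.2) y.2
              refine ⟨⟨f, hfE⟩, ?_, rfl⟩
              apply (Subgroup.mem_normalizer_iff.1 hy.2 ⟨f, hfE⟩).2
              have : y * ⟨f, hfE⟩ * y⁻¹ = w := Subtype.ext hwe.symm
              rw [this]
              exact hw
          have h6 : (y : G) ∈ F := h5 ⟨mem_map_conj.mpr hy1, hy2⟩
          obtain ⟨w, hw, hwe⟩ := h6
          have : w = y := Subtype.ext hwe
          exact this ▸ hw
    obtain ⟨S, K', hK'n, hK'⟩ := hNPC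
    haveI := hK'n
    set K : Subgroup G := K'.map E.subtype with hK
    have hKE : K ≤ E := Subgroup.map_subtype_le _
    have hKmem : ∀ x : G, x ∈ K ↔ x ∈ E ∧ Nat.Coprime (orderOf x) p := by
      intro x
      constructor
      · rintro ⟨y, hy, rfl⟩
        refine ⟨y.2, ?_⟩
        have := (mem_normal_complement_iff S K' hK' y).mp hy
        rwa [← Subgroup.orderOf_coe] at this
      · rintro ⟨hx, hxc⟩
        refine ⟨⟨x, hx⟩, ?_, rfl⟩
        apply (mem_normal_complement_iff S K' hK' ⟨x, hx⟩).mpr
        rw [← Subgroup.orderOf_coe]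
        exact hxc
    have hKn : K.Normal := by
      constructor
      intro z hz g
      rw [hKmem] at hz ⊢
      exact ⟨hEn.conj_mem z hz.1 g, by rw [orderOf_conj_eq']; exact hz.2⟩
    haveI := hKn
    have hdisj : ∀ x ∈ (S : Subgroup E).map E.subtype, x ∈ K → x = 1 := by
      rintro _ ⟨s, hs, rfl⟩ ⟨k, hk, hke⟩
      have hks : k = s := Subtype.ext hke
      subst hks
      have := Subgroup.disjoint_def.mp hK'.disjoint hk hs
      rw [this]
      rfl
    have hcov : ∀ u ∈ E, ∃ s ∈ (S : Subgroup E).map E.subtype, ∃ k ∈ K, u = s * k := by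
      intro u hu
      have h1 : (⟨u, hu⟩ : E) ∈ (S : Subgroup E) ⊔ K' := by
        rw [sup_comm, hK'.sup_eq_top]; trivial
      rw [Subgroup.mem_sup_of_normal_right] at h1
      obtain ⟨s, hs, k, hk, he⟩ := h1
      exact ⟨s, ⟨s, hs, rfl⟩, k, ⟨k, hk, rfl⟩, (congrArg Subtype.val he).symm⟩
    -- `K < E`
    have hKlt : K < E := by
      refine lt_of_le_of_ne hKE ?_
      intro he
      have hdvd : p ∣ Nat.card E := Nat.minFac_dvd _
      obtain ⟨x, hx⟩ := exists_prime_orderOf_dvd_card' p hdvd
      have hxK : (x : G) ∈ K := by rw [he]; exact x.2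
      have h1 := ((hKmem _).mp hxK).2
      rw [Subgroup.orderOf_coe, hx] at h1
      exact hp.one_lt.ne' (by simpa using h1)
    have hKc : Nat.card K < n := by rw [← hn]; exact card_lt_of_lt' hKlt
    have hDS : IsCyclic ((S : Subgroup E).map E.subtype) ∨
      ∃ D : Subgroup G, D ≤ (S : Subgroup E).map E.subtype ∧ 1 < Nat.card D ∧
        Nat.card D < Nat.card ((S : Subgroup E).map E.subtype) ∧
        ∀ F : Subgroup G, F ≤ (S : Subgroup E).map E.subtype →
          (Nat.card F = Nat.card D ∨ (Nat.card D = 2 ∧ Nat.card F = 4)) →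
          ∀ g : G, F.map (MulAut.conj g).toMonoidHom ⊓ Subgroup.normalizer (F : Set G) ≤ F := by
      by_cases hc : IsCyclic ((S : Subgroup E).map E.subtype)
      · exact Or.inl hc
      · obtain ⟨hQ1, hQ2, hQ3⟩ := hSyl S
        exact Or.inr (h p hp _ hQ1 hQ2 hQ3 hc)
    have hGK : IsSupersolvable (G ⧸ K) := quot_step E K hKE hss S hdisj hcov hDS
    refine ih _ hKc G K rfl hGK ?_
    intro r hr R hRK hRp hRi hRc
    refine h r hr R (hRK.trans hKE) hRp ?_ hRc
    have hrp : r ≠ p := by
      rintro rfl
      apply hRc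
      have hRbot : R = ⊥ := by
        rw [eq_bot_iff]
        intro x hx
        obtain ⟨j, hj⟩ := (IsPGroup.iff_orderOf.mp hRp) ⟨x, hx⟩
        rw [Subgroup.orderOf_mk] at hj
        have h1 := ((hKmem x).mp (hRK hx)).2
        rw [hj] at h1
        have h2 : j = 0 := by
          by_contra hj0
          have h3 : p ∣ Nat.gcd (p ^ j) p :=
            Nat.dvd_gcd (dvd_pow_self p hj0) dvd_rfl
          rw [h1] at h3
          exact hr.one_lt.ne' (Nat.dvd_one.mp h3)
        rw [h2, pow_zero, orderOf_eq_one_iff] at hj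
        exact hj
      rw [hRbot]
      infer_instance
    have hmul := Subgroup.relIndex_mul_relIndex R K E hRK hKE
    have hKi : K.relIndex E = Nat.card (S : Subgroup E) := by
      have h1 : K.subgroupOf E = K' :=
        Subgroup.comap_map_eq_self_of_injective E.subtype_injective K'
      rw [Subgroup.relIndex, h1]
      exact (card_complement_eq_index hK'.symm).symm
    obtain ⟨m, hm⟩ := IsPGroup.iff_card.mp S.isPGroup'
    rw [← hmul, hKi, hm]
    intro hd
    rcases (Nat.Prime.dvd_mul hr).mp hd with h1 | h1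
    · exact hRi h1
    · exact hrp ((Nat.prime_dvd_prime_iff_eq hr hp).mp (hr.dvd_of_dvd_pow h1))

end Cfsg.Agent.H12.Asaad
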