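import Cfsg.Agent.Lib.H12.CycAut

set_option autoImplicit false

namespace Cfsg.Agent.H12.CA

open Subgroup

variable {G : Type*} [Group G] [Finite G]

/-- conjugation by `y` on a normal subgroup. -/
abbrev conjP (P : Subgroup G) [P.Normal] (y : G) : P →* P := (MulAut.conjNormal y).toMonoidHom

lemma conjP_coe (P : Subgroup G) [P.Normal] (y : G) (x : P) :
    ((conjP P y x : P) : G) = y * x * y⁻¹ := by
  simp [conjP, MulAut.conjNormal_apply]

lemma conjP_iter_coe (P : Subgroup G) [P.Normal] (y : G) (k : ℕ) (x : P) :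
    (((conjP P y)^[k] x : P) : G) = y ^ k * x * (y ^ k)⁻¹ := by
  induction k with
  | zero => simp
  | succ n ih =>
    rw [Function.iterate_succ_apply', conjP_coe, ih, pow_succ']
    group

theorem B1P {p q : ℕ} [Fact p.Prime] [Fact q.Prime] (hpq : p ≠ q) (P : Subgroup G) [P.Normal]
    (hcomm : ∀ a ∈ P, ∀ b ∈ P, a * b = b * a) (hexp : ∀ a ∈ P, a ^ p = 1) (y : G) (hyq : y ^ q = 1)
    (hfpf : ∀ u ∈ P, y * u * y⁻¹ = u → u = 1) (hord : orderOf (p : ZMod q) = q - 1) :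
    (∀ v w : P, v ≠ 1 → w ≠ 1 → ∃ τ : P ≃* P, τ v = w ∧ ∀ x : P, τ (conjP P y x) = conjP P y (τ x)) ∧
    (∀ k : ℕ, k.Coprime q → ∃ τ : P ≃* P, ∀ x : P, τ (conjP P y x) = (conjP P y)^[k] (τ x)) := by
  letI : CommGroup P := { (inferInstance : Group P) with
    mul_comm := fun a b => Subtype.ext (hcomm a a.2 b b.2) }
  refine B1 (p := p) (q := q) hpq (fun a => Subtype.ext (by simpa using hexp a a.2)) (conjP P y) ?_ ?_ hord
  · intro a
    apply Subtype.ext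
    rw [conjP_iter_coe, hyq]
    simp
  · intro a ha
    apply Subtype.ext
    have := hfpf a a.2 (by rw [← conjP_coe, ha])
    simpa using this

theorem F1P {p q : ℕ} [Fact p.Prime] [Fact q.Prime] (hpq : p ≠ q) (P : Subgroup G) [P.Normal]
    (hcomm : ∀ a ∈ P, ∀ b ∈ P, a * b = b * a) (hexp : ∀ a ∈ P, a ^ p = 1) (hnt : Nontrivial P) (y : G) (hyq : y ^ q = 1)
    (hfpf : ∀ u ∈ P, y * u * y⁻¹ = u → u = 1)
    (hA : ∀ v w : P, v ≠ 1 → w ≠ 1 → ∃ (σ : P ≃* P) (k : ℕ), σ v = w ∧ ∀ x : P, σ (conjP P y x) = (conjP P y)^[k] (σ x))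
    (hB : ∀ k : ℕ, k.Coprime q → ∃ σ : P ≃* P, ∀ x : P, σ (conjP P y x) = (conjP P y)^[k] (σ x)) :
    orderOf (p : ZMod q) = q - 1 := by
  letI : CommGroup P := { (inferInstance : Group P) with
    mul_comm := fun a b => Subtype.ext (hcomm a a.2 b b.2) }
  refine F1 (p := p) (q := q) hpq (fun a => Subtype.ext (by simpa using hexp a a.2)) hnt (conjP P y) ?_ ?_ hA hB
  · intro a
    apply Subtype.ext
    rw [conjP_iter_coe, hyq]
    simp
  · intro a ha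
    apply Subtype.ext
    have := hfpf a a.2 (by rw [← conjP_coe, ha])
    simpa using this

/-- Extending an automorphism of the normal complement to the whole group. -/
theorem ext_aut {q : ℕ} (hq : q.Prime) (P : Subgroup G) [P.Normal] (y : G) (hy : orderOf y = q)
    (hc : P.IsComplement' (Subgroup.zpowers y)) (τ : P ≃* P) (k : ℕ) (hk : k.Coprime q)
    (hτ : ∀ x : P, τ (conjP P y x) = (conjP P y)^[k] (τ x)) :
    ∃ σ : G ≃* G, (∀ u : P, σ u = τ u) ∧ σ y = y ^ k := by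
  classical
  set Q := Subgroup.zpowers y with hQ
  have hdec : ∀ g : G, ∃ u ∈ P, ∃ a ∈ Q, u * a = g := by
    intro g
    obtain ⟨x, hx, -⟩ := hc.existsUnique g
    exact ⟨x.1.1, x.1.2, x.2.1, x.2.2, hx⟩
  have hdis : Disjoint P Q := hc.disjoint
  have huniq : ∀ (u u' : G) (a a' : G), u ∈ P → u' ∈ P → a ∈ Q → a' ∈ Q → u * a = u' * a' → u = u' ∧ a = a' := by
    intro u u' a a' hu hu' ha ha' he
    have h1 : u'⁻¹ * u = a' * a⁻¹ := by
      calc u'⁻¹ * u = u'⁻¹ * (u * a) * a⁻¹ := by group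
        _ = u'⁻¹ * (u' * a') * a⁻¹ := by rw [he]
        _ = a' * a⁻¹ := by group
    have h2 : u'⁻¹ * u ∈ P ⊓ Q := ⟨P.mul_mem (P.inv_mem hu') hu, by rw [h1]; exact Q.mul_mem ha' (Q.inv_mem ha)⟩
    rw [disjoint_iff.mp hdis] at h2
    have h3 : u'⁻¹ * u = 1 := by simpa using h2
    have h4 : a' * a⁻¹ = 1 := by rw [← h1, h3]
    constructor
    · have := mul_left_cancel (a := u'⁻¹) (b := u) (c := u') (by rw [h3]; simp)
      exact this
    · have h5 : a' = a := by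
        calc a' = a' * a⁻¹ * a := by group
          _ = a := by rw [h4, one_mul]
      exact h5.symm
  choose π₁ hπ₁ π₂ hπ₂ hπ using hdec
  let σ₀ : G → G := fun g => (τ ⟨π₁ g, hπ₁ g⟩ : P) * (π₂ g) ^ k
  have hσ₀ : ∀ (u : P) (a : G), a ∈ Q → σ₀ (u * a) = (τ u : P) * a ^ k := by
    intro u a ha
    have h1 := huniq _ _ _ _ (hπ₁ (u * a)) u.2 (hπ₂ (u * a)) ha (hπ _)
    show (τ ⟨π₁ (u * a), hπ₁ _⟩ : P) * (π₂ (u * a)) ^ k = _
    rw [h1.2]
    congr 3
    exact Subtype.ext h1.1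
  -- compatibility
  have hiter : ∀ (i : ℕ) (u : P), τ ((conjP P y)^[i] u) = (conjP P y)^[k * i] (τ u) := by
    intro i
    induction i with
    | zero => intro u; simp
    | succ n ih =>
      intro u
      rw [Function.iterate_succ_apply', hτ, ih, Nat.mul_succ, add_comm, Function.iterate_add_apply]
  have hconjQ : ∀ a ∈ Q, ∀ u : P, ∃ hmem : a * u * a⁻¹ ∈ P, ((τ ⟨a * u * a⁻¹, hmem⟩ : P) : G) = a ^ k * τ u * (a ^ k)⁻¹ := by
    intro a ha u
    have hmem : a * u * a⁻¹ ∈ P := (inferInstance : P.Normal).conj_mem _ u.2 a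
    refine ⟨hmem, ?_⟩
    have ha' : a ∈ Submonoid.powers y := by
      rw [mem_powers_iff_mem_zpowers]; exact ha
    obtain ⟨i, rfl⟩ := ha'
    have h1 : (⟨y ^ i * u * (y ^ i)⁻¹, hmem⟩ : P) = (conjP P y)^[i] u := by
      apply Subtype.ext
      rw [conjP_iter_coe]
    show ((τ ⟨y ^ i * u * (y ^ i)⁻¹, hmem⟩ : P) : G) = _
    rw [h1, hiter, conjP_iter_coe, pow_mul, ← pow_mul, mul_comm, pow_mul]
  have hQcomm : ∀ a ∈ Q, ∀ b ∈ Q, a * b = b * a := by
    intro a ha b hb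
    obtain ⟨m, rfl⟩ := Subgroup.mem_zpowers_iff.mp ha
    obtain ⟨n, rfl⟩ := Subgroup.mem_zpowers_iff.mp hb
    exact ((Commute.refl y).zpow_zpow m n).eq
  have hmul : ∀ g g', σ₀ (g * g') = σ₀ g * σ₀ g' := by
    intro g g'
    set u : P := ⟨π₁ g, hπ₁ g⟩ with hu
    set a := π₂ g with ha
    set u' : P := ⟨π₁ g', hπ₁ g'⟩ with hu'
    set a' := π₂ g' with ha'
    have hg : g = u * a := (hπ g).symm
    have hg' : g' = u' * a' := (hπ g').symm
    have haQ : a ∈ Q := hπ₂ g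
    have ha'Q : a' ∈ Q := hπ₂ g'
    obtain ⟨hmem, hconj⟩ := hconjQ a haQ u'
    have h1 : g * g' = ((u * (⟨a * u' * a⁻¹, hmem⟩ : P) : P) : G) * (a * a') := by
      rw [hg, hg']
      push_cast
      group
    have h2 : σ₀ g = (τ u : P) * a ^ k := by rw [hg]; exact hσ₀ u a haQ
    have h3 : σ₀ g' = (τ u' : P) * a' ^ k := by rw [hg']; exact hσ₀ u' a' ha'Q
    rw [h1, hσ₀ _ _ (Q.mul_mem haQ ha'Q), h2, h3, map_mul]
    push_cast
    rw [hconj]
    have h4 : (a * a') ^ k = a ^ k * a' ^ k := (show Commute a a' from hQcomm a haQ a' ha'Q).mul_pow k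
    rw [h4]
    group
  let σ₁ : G →* G := MonoidHom.mk' σ₀ hmul
  have hinj : Function.Injective σ₁ := by
    rw [injective_iff_map_eq_one]
    intro g hg
    have hgd : g = ((⟨π₁ g, hπ₁ g⟩ : P) : G) * π₂ g := (hπ g).symm
    have h1 : σ₁ g = ((τ ⟨π₁ g, hπ₁ g⟩ : P) : G) * (π₂ g) ^ k := rfl
    rw [h1] at hg
    have haQ : (π₂ g) ^ k ∈ Q := Q.pow_mem (hπ₂ g) k
    have hm : ((τ ⟨π₁ g, hπ₁ g⟩ : P) : G) = ((π₂ g) ^ k)⁻¹ := eq_inv_of_mul_eq_one_left hg
    have h2 : ((τ ⟨π₁ g, hπ₁ g⟩ : P) : G) ∈ P ⊓ Q := ⟨(τ _).2, by rw [hm]; exact Q.inv_mem haQ⟩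
    rw [disjoint_iff.mp hdis] at h2
    have h3 : ((τ ⟨π₁ g, hπ₁ g⟩ : P) : G) = 1 := by simpa using h2
    have h4 : τ ⟨π₁ g, hπ₁ g⟩ = 1 := Subtype.ext h3
    have h5 : (⟨π₁ g, hπ₁ g⟩ : P) = 1 := by
      simpa using h4
    have h6 : (π₂ g) ^ k = 1 := by
      rw [h3, one_mul] at hg
      exact hg
    have h7 : π₂ g = 1 := by
      have hq1 : (π₂ g) ^ q = 1 := by
        have ha' : π₂ g ∈ Q := hπ₂ g
        obtain ⟨m, hm⟩ := Subgroup.mem_zpowers_iff.mp ha'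
        rw [← hm, ← zpow_natCast, ← zpow_mul, mul_comm, zpow_mul, zpow_natCast, ← hy, pow_orderOf_eq_one, one_zpow]
      have hgcd : (π₂ g) ^ (Nat.gcd k q) = 1 := pow_gcd_eq_one.mpr ⟨h6, hq1⟩
      rw [hk.gcd_eq_one] at hgcd
      simpa using hgcd
    rw [hgd, h5, h7]
    simp
  have hbij : Function.Bijective σ₁ := Finite.injective_iff_bijective.mp hinj
  refine ⟨MulEquiv.ofBijective σ₁ hbij, ?_, ?_⟩
  · intro u
    show σ₀ u = _
    have := hσ₀ u 1 Q.one_mem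
    simpa using this
  · show σ₀ y = _
    have := hσ₀ 1 y (Subgroup.mem_zpowers y)
    simpa using this

end Cfsg.Agent.H12.CA
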