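import Cfsg.Agent.Lib.H12.AutOrb3
import Cfsg.Agent.Lib.Lead.Burnside
import Cfsg.Agent.Lib.H13.CoprimeGen2

set_option autoImplicit false

namespace Cfsg.Agent.H12.CA

open Subgroup
open scoped commutatorElement

variable {G : Type*} [Group G] [Finite G]

/-- the class of `x` in the orbit space -/
abbrev omk (x : G) : MulAction.orbitRel.Quotient (MulAut G) G := Quotient.mk'' x

lemma omk_eq {x c : G} (h : omk x = omk c) : ∃ σ : G ≃* G, σ c = x := by
  have h1 := Quotient.eq''.mp h
  have h2 : x ∈ MulAction.orbit (MulAut G) c := h1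
  obtain ⟨σ, hσ⟩ := MulAction.mem_orbit_iff.mp h2
  exact ⟨σ, hσ⟩

lemma omk_of {x c : G} (σ : G ≃* G) (h : σ c = x) : omk x = omk c := by
  apply Quotient.eq''.mpr
  show x ∈ MulAction.orbit (MulAut G) c
  exact MulAction.mem_orbit_iff.mpr ⟨σ, h⟩

lemma phi_inj {a b : G} (ha : a ≠ 1) (hb : b ≠ 1) (hab : ∀ σ : G ≃* G, σ a ≠ b) :
    Function.Injective (![omk 1, omk a, omk b] : Fin 3 → MulAction.orbitRel.Quotient (MulAut G) G) := by
  have h1 : omk (1 : G) ≠ omk a := by
    intro h
    obtain ⟨σ, hσ⟩ := omk_eq h.symm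
    rw [map_one] at hσ
    exact ha hσ.symm
  have h2 : omk (1 : G) ≠ omk b := by
    intro h
    obtain ⟨σ, hσ⟩ := omk_eq h.symm
    rw [map_one] at hσ
    exact hb hσ.symm
  have h3 : omk a ≠ omk b := by
    intro h
    obtain ⟨σ, hσ⟩ := omk_eq h.symm
    exact hab σ hσ
  intro i j hij
  fin_cases i <;> fin_cases j <;> simp_all

lemma orbit_card_three {a b : G} (ha : a ≠ 1) (hb : b ≠ 1) (hab : ∀ σ : G ≃* G, σ a ≠ b)
    (hall : ∀ x : G, x = 1 ∨ (∃ σ : G ≃* G, σ a = x) ∨ (∃ σ : G ≃* G, σ b = x)) :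
    Nat.card (MulAction.orbitRel.Quotient (MulAut G) G) = 3 := by
  have hinj := phi_inj ha hb hab
  have hsurj : Function.Surjective (![omk 1, omk a, omk b] : Fin 3 → MulAction.orbitRel.Quotient (MulAut G) G) := by
    intro c
    obtain ⟨x, rfl⟩ := Quotient.exists_rep c
    rcases hall x with rfl | ⟨σ, hσ⟩ | ⟨σ, hσ⟩
    · exact ⟨0, rfl⟩
    · exact ⟨1, (omk_of σ hσ).symm⟩
    · exact ⟨2, (omk_of σ hσ).symm⟩
  have := Nat.card_congr (Equiv.ofBijective _ ⟨hinj, hsurj⟩)
  simpa using this.symm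

lemma orbit_three_all {a b : G} (h3 : Nat.card (MulAction.orbitRel.Quotient (MulAut G) G) = 3)
    (ha : a ≠ 1) (hb : b ≠ 1) (hab : ∀ σ : G ≃* G, σ a ≠ b) (x : G) :
    x = 1 ∨ (∃ σ : G ≃* G, σ a = x) ∨ (∃ σ : G ≃* G, σ b = x) := by
  have hinj := phi_inj ha hb hab
  have hbij : Function.Bijective (![omk 1, omk a, omk b] : Fin 3 → MulAction.orbitRel.Quotient (MulAut G) G) := by
    apply hinj.bijective_of_nat_card_le
    simp [h3]
  obtain ⟨i, hi⟩ := hbij.2 (omk x)
  fin_cases i
  · left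
    obtain ⟨σ, hσ⟩ := omk_eq (x := x) (c := 1) hi.symm
    rw [map_one] at hσ
    exact hσ.symm
  · right; left
    exact omk_eq (x := x) (c := a) hi.symm
  · right; right
    exact omk_eq (x := x) (c := b) hi.symm

/-- Backward direction. -/
theorem back {p q n : ℕ} [Fact p.Prime] [Fact q.Prime] (hpq : p ≠ q) (hn : 1 ≤ n)
    (hcard : Nat.card G = p ^ n * q)
    (hSyl : ∀ P : Sylow p G, (P : Subgroup G).Normal ∧ Cfsg.IsElementaryAbelian p (P : Subgroup G))
    (hord : orderOf (p : ZMod q) = q - 1)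
    (hfpf : ∀ x y : G, orderOf x = q → orderOf y = p → x * y * x⁻¹ ≠ y) :
    Nat.card (MulAction.orbitRel.Quotient (MulAut G) G) = 3 := by
  classical
  have hp : p.Prime := Fact.out
  have hq : q.Prime := Fact.out
  obtain ⟨P₀⟩ : Nonempty (Sylow p G) := inferInstance
  set P : Subgroup G := (P₀ : Subgroup G) with hPdef
  haveI hPn : P.Normal := (hSyl P₀).1
  have hE := (hSyl P₀).2
  have hcomm : ∀ a ∈ P, ∀ b ∈ P, a * b = b * a := by
    intro a ha b hb
    have := hE.1.is_comm.comm ⟨a, ha⟩ ⟨b, hb⟩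
    exact congrArg Subtype.val this
  have hexp : ∀ a ∈ P, a ^ p = 1 := hE.2
  have hPcard : Nat.card P = p ^ n := by
    have h1 := P₀.card_eq_multiplicity
    rw [hcard] at h1
    have h2 : (p ^ n * q).factorization p = n := by
      rw [Nat.factorization_mul (pow_ne_zero _ hp.ne_zero) hq.ne_zero, Nat.factorization_pow]
      simp [hp.factorization_self, Nat.factorization_eq_zero_of_not_dvd, (Nat.prime_dvd_prime_iff_eq hp hq), hpq]
    rw [h2] at h1
    exact h1
  obtain ⟨y, hy⟩ : ∃ y : G, orderOf y = q := exists_prime_orderOf_dvd_card' q (by rw [hcard]; exact Dvd.intro_left _ rfl)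
  have hyq : y ^ q = 1 := by rw [← hy]; exact pow_orderOf_eq_one y
  have hc : P.IsComplement' (Subgroup.zpowers y) := by
    apply Subgroup.isComplement'_of_coprime
    · rw [hPcard, Nat.card_zpowers, hy, hcard]
    · rw [hPcard, Nat.card_zpowers, hy]
      exact Nat.Coprime.pow_left _ ((Nat.coprime_primes hp hq).mpr hpq)
  have hidx : P.index = q := by
    have h1 := Subgroup.index_mul_card P
    rw [hPcard, hcard, mul_comm] at h1
    exact Nat.eq_of_mul_eq_mul_left (pow_pos hp.pos n) h1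
  have horderP : ∀ u ∈ P, u ≠ 1 → orderOf u = p := fun u hu hu1 => orderOf_eq_prime (hexp u hu) hu1
  have hfpf' : ∀ u ∈ P, y * u * y⁻¹ = u → u = 1 := by
    intro u hu hyu
    by_contra hu1
    exact hfpf y u hy (horderP u hu hu1) hyu
  obtain ⟨hA', hB'⟩ := B1P hpq P hcomm hexp y hyq hfpf' hord
  -- elements outside P
  have hoq : ∀ x : G, x ∉ P → orderOf x = q := by
    intro x hx
    have hxq : x ^ q ∈ P := by rw [← hidx]; exact Subgroup.pow_index_mem P x
    by_cases hx1 : x ^ q = 1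
    · exact orderOf_eq_prime hx1 (fun h => hx (h ▸ P.one_mem))
    exfalso
    have hxp : x ^ p ≠ 1 := by
      intro h
      apply hx
      have hcop : q.Coprime (orderOf x) := by
        have : orderOf x ∣ p := orderOf_dvd_of_pow_eq_one h
        exact Nat.Coprime.coprime_dvd_right this ((Nat.coprime_primes hq hp).mpr (Ne.symm hpq))
      obtain ⟨m, hm⟩ := exists_pow_eq_self_of_coprime hcop
      rw [← hm]
      exact P.pow_mem hxq m
    have h1 : orderOf (x ^ p) = q := by
      apply orderOf_eq_prime _ hxp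
      rw [← pow_mul, mul_comm, pow_mul]
      exact hexp _ hxq
    have h2 : orderOf (x ^ q) = p := horderP _ hxq hx1
    apply hfpf _ _ h1 h2
    have : Commute (x ^ p) (x ^ q) := (Commute.refl x).pow_pow p q
    rw [this.eq]
    group
  have hnt : ∃ v : P, v ≠ 1 := by
    haveI : Nontrivial P := by
      rw [← Finite.one_lt_card_iff_nontrivial, hPcard]
      exact Nat.one_lt_pow (by omega) hp.one_lt
    exact exists_ne 1
  obtain ⟨v₀, hv₀⟩ := hnt
  have hv₀' : (v₀ : G) ≠ 1 := fun h => hv₀ (Subtype.ext h)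
  -- transitivity on P
  have hT1 : ∀ x ∈ P, x ≠ 1 → ∃ σ : G ≃* G, σ v₀ = x := by
    intro x hx hx1
    obtain ⟨τ, h1, h2⟩ := hA' v₀ ⟨x, hx⟩ hv₀ (fun h => hx1 (congrArg Subtype.val h))
    obtain ⟨σ, hσ, -⟩ := ext_aut hq P y hy hc τ 1 (Nat.coprime_one_left q) (by simpa using h2)
    refine ⟨σ, ?_⟩
    rw [hσ, h1]
  -- transitivity on elements of order q
  have hT2 : ∀ x : G, orderOf x = q → ∃ σ : G ≃* G, σ y = x := by
    intro x hx
    have hfact : (Nat.card G).factorization q = 1 := by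
      rw [hcard, Nat.factorization_mul (pow_ne_zero _ hp.ne_zero) hq.ne_zero, Nat.factorization_pow]
      simp [hq.factorization_self, Nat.factorization_eq_zero_of_not_dvd, (Nat.prime_dvd_prime_iff_eq hq hp), hpq.symm]
    let S₁ : Sylow q G := Sylow.ofCard (Subgroup.zpowers y) (by rw [Nat.card_zpowers, hy, hfact, pow_one])
    let S₂ : Sylow q G := Sylow.ofCard (Subgroup.zpowers x) (by rw [Nat.card_zpowers, hx, hfact, pow_one])
    obtain ⟨g, hg⟩ := MulAction.exists_smul_eq G S₁ S₂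
    have hxmem : x ∈ (S₂ : Subgroup G) := Subgroup.mem_zpowers x
    rw [← hg, Sylow.coe_subgroup_smul] at hxmem
    obtain ⟨s, hs, hsx⟩ := (Subgroup.mem_smul_pointwise_iff_exists _ _ _).mp hxmem
    have hs' : s ∈ Subgroup.zpowers y := hs
    have hs2 : s ∈ Submonoid.powers y := by rw [mem_powers_iff_mem_zpowers]; exact hs'
    obtain ⟨i, rfl⟩ := hs2
    have hsxe : g * y ^ i * g⁻¹ = x := by simpa [MulAut.conj_apply] using hsx
    have hicop : i.Coprime q := by
      apply Nat.Coprime.symm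
      rw [Nat.Prime.coprime_iff_not_dvd hq]
      intro hd
      have : y ^ i = 1 := by
        rw [← hy] at hd
        exact orderOf_dvd_iff_pow_eq_one.mp hd
      rw [this] at hsxe
      have hx1 : x = 1 := by simpa using hsxe.symm
      rw [hx1, orderOf_one] at hx
      exact hq.ne_one hx.symm
    obtain ⟨τ, h2⟩ := hB' i hicop
    obtain ⟨σ₁, -, hσ₁⟩ := ext_aut hq P y hy hc τ i hicop h2
    refine ⟨σ₁.trans (MulAut.conj g), ?_⟩
    simp only [MulEquiv.trans_apply, hσ₁, MulAut.conj_apply]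
    exact hsxe
  have hy1 : y ≠ 1 := fun h => by
    rw [h, orderOf_one] at hy
    exact hq.ne_one hy.symm
  apply orbit_card_three (a := (v₀ : G)) (b := y) hv₀' hy1
  · intro σ h
    have h1 : orderOf (σ (v₀ : G)) = p := by
      rw [MulEquiv.orderOf_eq]
      exact horderP _ v₀.2 hv₀'
    rw [h, hy] at h1
    exact hpq h1.symm
  · intro x
    by_cases hx1 : x = 1
    · exact Or.inl hx1
    right
    by_cases hxP : x ∈ P
    · exact Or.inl (hT1 x hxP hx1)
    · exact Or.inr (hT2 x (hoq x hxP))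

/-- Core of the forward direction, with a characteristic `p`-subgroup `D`. -/
theorem core {p q : ℕ} [Fact p.Prime] [Fact q.Prime] (hpq : p ≠ q) {a b : G} (ha : orderOf a = p)
    (hb : orderOf b = q)
    (hall : ∀ x : G, x ≠ 1 → (orderOf x = p ∧ ∃ σ : G ≃* G, σ a = x) ∨ (orderOf x = q ∧ ∃ σ : G ≃* G, σ b = x))
    (D : Subgroup G) [D.Normal] (hDchar : ∀ σ : G ≃* G, ∀ x ∈ D, σ x ∈ D) (hDp : IsPGroup p D)
    (hDne : D ≠ ⊥) :
    ∃ (n : ℕ), 1 ≤ n ∧ Nat.card G = p ^ n * q ∧
      (∀ P : Sylow p G, (P : Subgroup G).Normal ∧ Cfsg.IsElementaryAbelian p (P : Subgroup G)) ∧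
      orderOf (p : ZMod q) = q - 1 ∧
      ∀ x y : G, orderOf x = q → orderOf y = p → x * y * x⁻¹ ≠ y := by
  classical
  have hp : p.Prime := Fact.out
  have hq : q.Prime := Fact.out
  have hDord : ∀ x ∈ D, x ≠ 1 → orderOf x = p := by
    intro x hx hx1
    rcases hall x hx1 with h | h
    · exact h.1
    · exfalso
      obtain ⟨k, hk⟩ := hDp ⟨x, hx⟩
      have h1 : x ^ p ^ k = 1 := by
        have := congrArg Subtype.val hk
        simpa using this
      have h2 : q ∣ p ^ k := by
        rw [← h.1]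
        exact orderOf_dvd_of_pow_eq_one h1
      exact hpq ((Nat.prime_dvd_prime_iff_eq hq hp).mp (hq.dvd_of_dvd_pow h2)).symm
  have hDexp : ∀ x ∈ D, x ^ p = 1 := by
    intro x hx
    by_cases hx1 : x = 1
    · rw [hx1, one_pow]
    · rw [← hDord x hx hx1]; exact pow_orderOf_eq_one x
  have hconjp : ∀ x y : G, orderOf x = p → orderOf y = p → ∃ σ : G ≃* G, σ x = y := by
    intro x y hx hy
    have hne : ∀ z : G, orderOf z = p → z ≠ 1 := fun z hz h => by
      rw [h, orderOf_one] at hz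
      exact hp.ne_one hz.symm
    have hget : ∀ z : G, orderOf z = p → ∃ σ : G ≃* G, σ a = z := by
      intro z hz
      rcases hall z (hne z hz) with h | h
      · exact h.2
      · exfalso
        rw [hz] at h
        exact hpq h.1
    obtain ⟨σ₁, h1⟩ := hget x hx
    obtain ⟨σ₂, h2⟩ := hget y hy
    refine ⟨σ₁.symm.trans σ₂, ?_⟩
    simp [← h1, h2]
  haveI hDnt : Nontrivial D := by
    rw [Subgroup.nontrivial_iff_ne_bot]
    exact hDne
  -- D is commutative
  have hDcomm : ∀ x ∈ D, ∀ w ∈ D, x * w = w * x := by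
    intro x hx w hw
    by_cases hx1 : x = 1
    · rw [hx1, one_mul, mul_one]
    obtain ⟨z, hz⟩ : ∃ z : Subgroup.center D, z ≠ 1 := by
      haveI := hDp.center_nontrivial
      exact exists_ne 1
    have hzne : ((z : D) : G) ≠ 1 := by
      intro h
      apply hz
      apply Subtype.ext
      apply Subtype.ext
      simpa using h
    obtain ⟨σ, hσ⟩ := hconjp _ _ (hDord _ (z : D).2 hzne) (hDord x hx hx1)
    have hw' : σ.symm w ∈ D := hDchar σ.symm w hw
    have hc := (Subgroup.mem_center_iff.mp z.2) ⟨σ.symm w, hw'⟩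
    have hc' : (σ.symm w) * ((z : D) : G) = ((z : D) : G) * σ.symm w := congrArg Subtype.val hc
    have := congrArg σ hc'
    simp only [map_mul, MulEquiv.apply_symm_apply, hσ] at this
    exact this.symm
  obtain ⟨c₀, hc₀⟩ : ∃ c : D, c ≠ 1 := exists_ne 1
  have hc₀' : (c₀ : G) ≠ 1 := fun h => hc₀ (Subtype.ext h)
  have hDall : ∀ x : G, orderOf x = p → x ∈ D := by
    intro x hx
    obtain ⟨σ, hσ⟩ := hconjp _ _ (hDord _ c₀.2 hc₀') hx
    rw [← hσ]
    exact hDchar σ _ c₀.2
  have hnotcomm : ∀ x y : G, orderOf x = q → orderOf y = p → x * y * x⁻¹ ≠ y := by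
    intro x y hx hy he
    have hc : Commute x y := by
      show x * y = y * x
      calc x * y = x * y * x⁻¹ * x := by group
        _ = y * x := by rw [he]
    have hcop : (orderOf x).Coprime (orderOf y) := by
      rw [hx, hy]; exact (Nat.coprime_primes hq hp).mpr (Ne.symm hpq)
    have hord : orderOf (x * y) = q * p := by
      rw [hc.orderOf_mul_eq_mul_orderOf_of_coprime hcop, hx, hy]
    have hne : x * y ≠ 1 := by
      intro h
      rw [h, orderOf_one] at hord
      have := Nat.eq_one_of_mul_eq_one_right hord.symm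
      exact hq.ne_one this
    rcases hall _ hne with h | h
    · rw [hord] at h
      have h1 := h.1
      have : q = 1 := by
        have h2 : q * p = 1 * p := by rw [h1, one_mul]
        exact Nat.eq_of_mul_eq_mul_right hp.pos h2
      exact hq.ne_one this
    · rw [hord] at h
      have h1 := h.1
      have : p = 1 := by
        have h2 : q * p = q * 1 := by rw [h1, mul_one]
        exact Nat.eq_of_mul_eq_mul_left hq.pos h2
      exact hp.ne_one this
  -- Sylow
  have hSyl : ∀ S : Sylow p G, (S : Subgroup G) = D := by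
    intro S
    have hle : (S : Subgroup G) ≤ D := by
      intro x hx
      by_cases hx1 : x = 1
      · rw [hx1]; exact D.one_mem
      apply hDall
      rcases hall x hx1 with h | h
      · exact h.1
      · exfalso
        obtain ⟨k, hk⟩ := S.2 ⟨x, hx⟩
        have h1 : x ^ p ^ k = 1 := by
          have := congrArg Subtype.val hk
          simpa using this
        have h2 : q ∣ p ^ k := by
          rw [← h.1]
          exact orderOf_dvd_of_pow_eq_one h1
        exact hpq ((Nat.prime_dvd_prime_iff_eq hq hp).mp (hq.dvd_of_dvd_pow h2)).symm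
    exact (S.3 hDp hle).symm
  have hElem : Cfsg.IsElementaryAbelian p D :=
    ⟨⟨⟨fun x y => Subtype.ext (hDcomm x x.2 y y.2)⟩⟩, hDexp⟩
  -- D is coprime to q
  obtain ⟨n, hn⟩ := hDp.exists_card_eq
  have hn1 : 1 ≤ n := by
    rcases Nat.eq_zero_or_pos n with h0 | h0
    · exfalso
      rw [h0, pow_zero] at hn
      exact hDne ((Subgroup.card_eq_one).mp hn)
    · exact h0
  have hDcop : (Nat.card D).Coprime q := by
    rw [hn]
    exact Nat.Coprime.pow_left _ ((Nat.coprime_primes hp hq).mpr hpq)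
  -- q² does not divide
  have hq2 : ¬ q ^ 2 ∣ Nat.card G := by
    intro hdvd
    obtain ⟨E, hE⟩ := Sylow.exists_subgroup_card_pow_prime q hdvd
    have hEp : IsPGroup q E := IsPGroup.of_card hE
    have hEcomm : ∀ x y : E, x * y = y * x := IsPGroup.commutative_of_card_eq_prime_sq hE
    have hEord : ∀ x ∈ E, x ≠ 1 → orderOf x = q := by
      intro x hx hx1
      rcases hall x hx1 with h | h
      · exfalso
        obtain ⟨k, hk⟩ := hEp ⟨x, hx⟩
        have h1 : x ^ q ^ k = 1 := by
          have := congrArg Subtype.val hk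
          simpa using this
        have h2 : p ∣ q ^ k := by
          rw [← h.1]
          exact orderOf_dvd_of_pow_eq_one h1
        exact hpq ((Nat.prime_dvd_prime_iff_eq hp hq).mp (hp.dvd_of_dvd_pow h2))
      · exact h.1
    have hEexp : ∀ x ∈ E, x ^ q = 1 := by
      intro x hx
      by_cases hx1 : x = 1
      · rw [hx1, one_pow]
      · rw [← hEord x hx hx1]; exact pow_orderOf_eq_one x
    have hEelem : Cfsg.IsElementaryAbelian q E :=
      ⟨⟨⟨fun x y => hEcomm x y⟩⟩, hEexp⟩
    have hEne : E ≠ ⊥ := by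
      intro h
      rw [h, Subgroup.card_bot] at hE
      have : q ^ 2 ≠ 1 := by
        have := Nat.one_lt_pow (n := 2) (by norm_num) hq.one_lt
        omega
      exact this hE.symm
    obtain ⟨U₀, hU₀, hco, hfix⟩ := Cfsg.Agent.H13.exists_coatom_fixed (p := q) hEelem hEne hDne hDcop
      (by
        rw [Subgroup.normalizer_eq_top_iff.mpr inferInstance]
        exact le_top)
    -- U₀ is nontrivial
    have hU₀ne : U₀ ≠ ⊥ := by
      rintro rfl
      obtain ⟨e, he⟩ : ∃ e : E, orderOf e = q := exists_prime_orderOf_dvd_card' q (by rw [hE]; exact dvd_pow_self q (by norm_num))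
      have hz : (⊥ : Subgroup G).subgroupOf E < Subgroup.zpowers e := by
        rw [Subgroup.bot_subgroupOf]
        apply bot_lt_iff_ne_bot.mpr
        intro h
        rw [Subgroup.zpowers_eq_bot] at h
        rw [h, orderOf_one] at he
        exact hq.ne_one he.symm
      have h2 := hco.2 _ hz
      have h3 : Nat.card (Subgroup.zpowers e) = Nat.card E := by rw [h2, Subgroup.card_top]
      rw [Nat.card_zpowers, he, hE] at h3
      have : q ^ 1 = q ^ 2 := by simpa using h3
      have := Nat.pow_right_injective hq.two_le this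
      omega
    obtain ⟨e, heU, he1⟩ := (Subgroup.ne_bot_iff_exists_ne_one.mp hU₀ne) |> fun ⟨e, he⟩ => (⟨(e : G), e.2, fun h => he (Subtype.ext h)⟩ : ∃ e : G, e ∈ U₀ ∧ e ≠ 1)
    obtain ⟨u, hu⟩ := Subgroup.ne_bot_iff_exists_ne_one.mp hfix
    have hu1 : (u : G) ≠ 1 := fun h => hu (Subtype.ext h)
    have huD : (u : G) ∈ D := u.2.1
    have huC : (u : G) ∈ Subgroup.centralizer (U₀ : Set G) := u.2.2
    have hcomme := Subgroup.mem_centralizer_iff.mp huC e heU
    apply hnotcomm e u (hEord e (hU₀ heU) he1) (hDord u huD hu1)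
    rw [hcomme]
    group
  -- cardinality
  obtain ⟨S₀⟩ : Nonempty (Sylow p G) := inferInstance
  have hS₀ := hSyl S₀
  have hidxnd : ¬ p ∣ D.index := by
    rw [← hS₀]; exact S₀.not_dvd_index
  have hcardG : D.index * p ^ n = Nat.card G := by
    rw [← hn]; exact Subgroup.index_mul_card D
  have hqdvd : q ∣ Nat.card G := by
    rw [← hb]; exact orderOf_dvd_natCard b
  have hidx : D.index = q := by
    have hq1 : q ∣ D.index := by
      rw [← hcardG] at hqdvd
      rcases (Nat.Prime.dvd_mul hq).mp hqdvd with h | h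
      · exact h
      · exact absurd ((Nat.prime_dvd_prime_iff_eq hq hp).mp (hq.dvd_of_dvd_pow h)) (Ne.symm hpq)
    obtain ⟨m, hm⟩ := hq1
    have hm1 : m = 1 := by
      by_contra hne
      obtain ⟨r, hr, hrm⟩ := Nat.exists_prime_and_dvd hne
      have hrG : r ∣ Nat.card G := by
        rw [← hcardG, hm]
        exact Dvd.dvd.mul_right (Dvd.dvd.mul_left hrm q) _
      haveI : Fact r.Prime := ⟨hr⟩
      obtain ⟨x, hx⟩ := exists_prime_orderOf_dvd_card' r hrG
      have hx1 : x ≠ 1 := fun h => by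
        rw [h, orderOf_one] at hx
        exact hr.ne_one hx.symm
      rcases hall x hx1 with h | h
      · have : r = p := by rw [← hx, h.1]
        apply hidxnd
        rw [hm, ← this]
        exact Dvd.dvd.mul_left hrm q
      · have : r = q := by rw [← hx, h.1]
        apply hq2
        rw [← hcardG, hm, pow_two]
        rw [this] at hrm
        exact Dvd.dvd.mul_right (mul_dvd_mul_left q hrm) _
    rw [hm, hm1, mul_one]
  have hcard : Nat.card G = p ^ n * q := by
    rw [← hcardG, hidx, mul_comm]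
  refine ⟨n, hn1, hcard, ?_, ?_, hnotcomm⟩
  · intro P
    rw [hSyl P]
    exact ⟨inferInstance, hElem⟩
  -- primitive root
  have hbq : b ^ q = 1 := by rw [← hb]; exact pow_orderOf_eq_one b
  have hc : D.IsComplement' (Subgroup.zpowers b) := by
    apply Subgroup.isComplement'_of_coprime
    · rw [hn, Nat.card_zpowers, hb, hcard]
    · rw [Nat.card_zpowers, hb]
      exact hDcop
  have hrestr : ∀ (σ₀ : G ≃* G) (k : ℕ), (∃ u ∈ D, σ₀ b = u * b ^ k) →
      ∃ σ : D ≃* D, (∀ x : D, (σ x : G) = σ₀ x) ∧ ∀ x : D, σ (conjP D b x) = (conjP D b)^[k] (σ x) := by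
    intro σ₀ k hu
    obtain ⟨u, huD, hu⟩ := hu
    let σ : D ≃* D :=
      { toFun := fun x => ⟨σ₀ x, hDchar σ₀ x x.2⟩
        invFun := fun x => ⟨σ₀.symm x, hDchar σ₀.symm x x.2⟩
        left_inv := fun x => Subtype.ext (by simp)
        right_inv := fun x => Subtype.ext (by simp)
        map_mul' := fun x y => Subtype.ext (by simp) }
    refine ⟨σ, fun x => rfl, ?_⟩
    intro x
    apply Subtype.ext
    rw [conjP_iter_coe]
    show σ₀ ((conjP D b x : D) : G) = b ^ k * σ₀ x * (b ^ k)⁻¹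
    rw [conjP_coe, map_mul, map_mul, map_inv, hu]
    have hmem : b ^ k * σ₀ x * (b ^ k)⁻¹ ∈ D := (inferInstance : D.Normal).conj_mem _ (hDchar σ₀ x x.2) _
    have hcm := hDcomm u huD _ hmem
    calc u * b ^ k * σ₀ ↑x * (u * b ^ k)⁻¹
        = u * (b ^ k * σ₀ ↑x * (b ^ k)⁻¹) * u⁻¹ := by group
      _ = (b ^ k * σ₀ ↑x * (b ^ k)⁻¹) * u * u⁻¹ := by rw [hcm]
      _ = _ := by group
  apply F1P hpq D hDcomm hDexp hDnt b hbq
  · intro u hu hcom
    by_contra hu1
    exact hnotcomm b u hb (hDord u hu hu1) hcom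
  · intro v w hv hw
    have hv' : (v : G) ≠ 1 := fun h => hv (Subtype.ext h)
    have hw' : (w : G) ≠ 1 := fun h => hw (Subtype.ext h)
    obtain ⟨σ₀, hσ₀⟩ := hconjp _ _ (hDord _ v.2 hv') (hDord _ w.2 hw')
    obtain ⟨x, hx, -⟩ := hc.existsUnique (σ₀ b)
    have hx2 : (x.2 : G) ∈ Submonoid.powers b := by
      rw [mem_powers_iff_mem_zpowers]
      exact x.2.2
    obtain ⟨k, hk⟩ := hx2
    obtain ⟨σ, h1, h2⟩ := hrestr σ₀ k ⟨x.1, x.1.2, by
      rw [← hx]
      show _ = (x.1 : G) * b ^ k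
      have hk' : b ^ k = (x.2 : G) := hk
      rw [hk']⟩
    refine ⟨σ, k, ?_, h2⟩
    apply Subtype.ext
    rw [h1, hσ₀]
  · intro k hk
    have hordk : orderOf (b ^ k) = q := by
      rw [Nat.Coprime.orderOf_pow (by rw [hb]; exact hk.symm), hb]
    have hne : b ^ k ≠ 1 := fun h => by
      rw [h, orderOf_one] at hordk
      exact hq.ne_one hordk.symm
    rcases hall _ hne with h | h
    · exfalso
      rw [hordk] at h
      exact hpq h.1.symm
    · obtain ⟨σ₀, hσ₀⟩ := h.2
      obtain ⟨σ, -, h2⟩ := hrestr σ₀ k ⟨1, D.one_mem, by rw [hσ₀, one_mul]⟩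
      exact ⟨σ, h2⟩

/-- An abstract version of the forward direction using the derived subgroup. -/
theorem core2 {p q : ℕ} [Fact p.Prime] [Fact q.Prime] (hpq : p ≠ q) {a b : G} (ha : orderOf a = p)
    (hb : orderOf b = q)
    (hall : ∀ x : G, x ≠ 1 → (orderOf x = p ∧ ∃ σ : G ≃* G, σ a = x) ∨ (orderOf x = q ∧ ∃ σ : G ≃* G, σ b = x))
    (hlt : commutator G ≠ ⊤) (hne : commutator G ≠ ⊥) (c : G) (hc : c ∈ commutator G) (hco : orderOf c = p) :
    ∃ (n : ℕ), 1 ≤ n ∧ Nat.card G = p ^ n * q ∧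
      (∀ P : Sylow p G, (P : Subgroup G).Normal ∧ Cfsg.IsElementaryAbelian p (P : Subgroup G)) ∧
      orderOf (p : ZMod q) = q - 1 ∧
      ∀ x y : G, orderOf x = q → orderOf y = p → x * y * x⁻¹ ≠ y := by
  have hp : p.Prime := Fact.out
  have hq : q.Prime := Fact.out
  have hchar : ∀ σ : G ≃* G, ∀ x ∈ commutator G, σ x ∈ commutator G := by
    intro σ x hx
    have := (Subgroup.characteristic_iff_map_le.mp (inferInstance : (commutator G).Characteristic)) σ
    exact this ⟨x, hx, rfl⟩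
  have hne1 : ∀ z : G, ∀ {r : ℕ}, r.Prime → orderOf z = r → z ≠ 1 := fun z r hr hz h => by
    rw [h, orderOf_one] at hz
    exact hr.ne_one hz.symm
  apply core hpq ha hb hall (commutator G) hchar _ hne
  -- p-group
  apply IsPGroup.of_card
  apply Nat.eq_prime_pow_of_unique_prime_dvd (Nat.card_pos).ne'
  intro r hr hrd
  by_contra hrp
  haveI : Fact r.Prime := ⟨hr⟩
  obtain ⟨d, hd⟩ := exists_prime_orderOf_dvd_card' r hrd
  have hd' : orderOf (d : G) = r := by rw [Subgroup.orderOf_coe, hd]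
  have hd1 : (d : G) ≠ 1 := hne1 _ hr hd'
  have hdq : orderOf (d : G) = q := by
    rcases hall _ hd1 with h | h
    · exact absurd (hd'.symm.trans h.1) hrp
    · exact h.1
  apply hlt
  rw [eq_top_iff]
  intro x _
  by_cases hx1 : x = 1
  · rw [hx1]; exact Subgroup.one_mem _
  rcases hall x hx1 with h | h
  · obtain ⟨σ, hσ⟩ := h.2
    have h1 : c ≠ 1 := hne1 c hp hco
    rcases hall c h1 with h2 | h2
    · obtain ⟨σ₂, hσ₂⟩ := h2.2
      have : x = (σ₂.symm.trans σ) c := by simp [← hσ₂, hσ]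
      rw [this]
      exact hchar _ c hc
    · exact absurd (hco.symm.trans h2.1) hpq
  · obtain ⟨σ, hσ⟩ := h.2
    rcases hall _ hd1 with h2 | h2
    · exact absurd (hdq.symm.trans h2.1) hpq.symm
    · obtain ⟨σ₂, hσ₂⟩ := h2.2
      have : x = (σ₂.symm.trans σ) (d : G) := by simp [← hσ₂, hσ]
      rw [this]
      exact hchar _ _ d.2

theorem forward (hnpp : ¬ IsPrimePow (Nat.card G)) (hnt : Nat.card G ≠ 1)
    (h3 : Nat.card (MulAction.orbitRel.Quotient (MulAut G) G) = 3) :
    ∃ (p q n : ℕ) (_ : Fact p.Prime) (_ : Fact q.Prime), p ≠ q ∧ 1 ≤ n ∧ Nat.card G = p ^ n * q ∧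
      (∀ P : Sylow p G, (P : Subgroup G).Normal ∧ Cfsg.IsElementaryAbelian p (P : Subgroup G)) ∧
      orderOf (p : ZMod q) = q - 1 ∧
      ∀ x y : G, orderOf x = q → orderOf y = p → x * y * x⁻¹ ≠ y := by
  classical
  have hNpos : Nat.card G ≠ 0 := Nat.card_pos.ne'
  set p := (Nat.card G).minFac with hpdef
  have hp : p.Prime := Nat.minFac_prime hnt
  haveI : Fact p.Prime := ⟨hp⟩
  have hpd : p ∣ Nat.card G := Nat.minFac_dvd _
  obtain ⟨q, hq, hqp, hqd⟩ : ∃ q : ℕ, q.Prime ∧ q ≠ p ∧ q ∣ Nat.card G := by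
    by_contra hcon
    push Not at hcon
    apply hnpp
    have h1 := Nat.eq_prime_pow_of_unique_prime_dvd hNpos (fun {d} hd hdd => by
      by_contra hne
      exact hcon d hd hne hdd)
    rw [h1]
    apply hp.isPrimePow.pow
    intro h0
    rw [h0, pow_zero] at h1
    exact hnt h1
  haveI : Fact q.Prime := ⟨hq⟩
  obtain ⟨a, ha⟩ := exists_prime_orderOf_dvd_card' p hpd
  obtain ⟨b, hb⟩ := exists_prime_orderOf_dvd_card' q hqd
  have hne1 : ∀ z : G, ∀ {r : ℕ}, r.Prime → orderOf z = r → z ≠ 1 := fun z r hr hz h => by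
    rw [h, orderOf_one] at hz
    exact hr.ne_one hz.symm
  have ha1 := hne1 a hp ha
  have hb1 := hne1 b hq hb
  have hab : ∀ σ : G ≃* G, σ a ≠ b := by
    intro σ h
    have := MulEquiv.orderOf_eq σ a
    rw [h, ha, hb] at this
    exact hqp this
  have hall0 := orbit_three_all h3 ha1 hb1 hab
  have hall : ∀ x : G, x ≠ 1 → (orderOf x = p ∧ ∃ σ : G ≃* G, σ a = x) ∨ (orderOf x = q ∧ ∃ σ : G ≃* G, σ b = x) := by
    intro x hx
    rcases hall0 x with h | ⟨σ, hσ⟩ | ⟨σ, hσ⟩
    · exact absurd h hx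
    · left
      refine ⟨?_, σ, hσ⟩
      rw [← hσ, MulEquiv.orderOf_eq, ha]
    · right
      refine ⟨?_, σ, hσ⟩
      rw [← hσ, MulEquiv.orderOf_eq, hb]
  have hall' : ∀ x : G, x ≠ 1 → (orderOf x = q ∧ ∃ σ : G ≃* G, σ b = x) ∨ (orderOf x = p ∧ ∃ σ : G ≃* G, σ a = x) :=
    fun x hx => (hall x hx).symm
  -- solvable by Burnside
  have hprimes : ∀ r : ℕ, r.Prime → r ∣ Nat.card G → r = p ∨ r = q := by
    intro r hr hrd
    haveI : Fact r.Prime := ⟨hr⟩
    obtain ⟨x, hx⟩ := exists_prime_orderOf_dvd_card' r hrd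
    rcases hall x (hne1 x hr hx) with h | h
    · exact Or.inl (hx.symm.trans h.1)
    · exact Or.inr (hx.symm.trans h.1)
  have hsol : Group.IsSolvable G := by
    obtain ⟨A, m, hm, hA⟩ := Nat.exists_eq_pow_mul_and_not_dvd hNpos p hp.ne_one
    have hmpos : m ≠ 0 := by
      rintro rfl
      simp at hm
    have hm2 : m = q ^ m.primeFactorsList.length := by
      apply Nat.eq_prime_pow_of_unique_prime_dvd hmpos
      intro d hd hdm
      rcases hprimes d hd (by rw [hA]; exact Dvd.dvd.mul_left hdm _) with h | h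
      · exact absurd (h ▸ hdm) hm
      · exact h
    exact Cfsg.Agent.Lead.burnside_two_prime p q A _ hp hq (by rw [hA]; congr 1)
  haveI : Nontrivial G := ⟨⟨a, 1, ha1⟩⟩
  have hlt : commutator G ≠ ⊤ := (Group.IsSolvable.commutator_lt_top_of_nontrivial G).ne
  have hne : commutator G ≠ ⊥ := by
    intro hbot
    have hc : Commute a b := by
      show a * b = b * a
      have h1 : ⁅a, b⁆ ∈ commutator G := Subgroup.commutator_mem_commutator (Subgroup.mem_top a) (Subgroup.mem_top b)
      rw [hbot, Subgroup.mem_bot, commutatorElement_eq_one_iff_mul_comm] at h1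
      exact h1
    have hcop : (orderOf a).Coprime (orderOf b) := by
      rw [ha, hb]; exact (Nat.coprime_primes hp hq).mpr (Ne.symm hqp)
    have hord : orderOf (a * b) = p * q := by
      rw [hc.orderOf_mul_eq_mul_orderOf_of_coprime hcop, ha, hb]
    have hx1 : a * b ≠ 1 := by
      intro h
      rw [h, orderOf_one] at hord
      exact hp.ne_one (Nat.eq_one_of_mul_eq_one_right hord.symm)
    rcases hall _ hx1 with h | h
    · rw [hord] at h
      have h2 : p * q = p * 1 := by rw [h.1, mul_one]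
      exact hq.ne_one (Nat.eq_of_mul_eq_mul_left hp.pos h2)
    · rw [hord] at h
      have h2 : p * q = 1 * q := by rw [h.1, one_mul]
      exact hp.ne_one (Nat.eq_of_mul_eq_mul_right hq.pos h2)
  -- a prime in the derived subgroup
  have hcard1 : Nat.card (commutator G) ≠ 1 := fun h => hne (Subgroup.card_eq_one.mp h)
  obtain ⟨r, hr, hrd⟩ := Nat.exists_prime_and_dvd hcard1
  haveI : Fact r.Prime := ⟨hr⟩
  obtain ⟨c, hc⟩ := exists_prime_orderOf_dvd_card' r hrd
  have hc' : orderOf (c : G) = r := by rw [Subgroup.orderOf_coe, hc]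
  have hr2 : r = p ∨ r = q := hprimes r hr ((Dvd.dvd.trans hrd (Subgroup.card_subgroup_dvd_card _)))
  rcases hr2 with h | h
  · rw [h] at hc'
    obtain ⟨n, h1, h2, h3', h4, h5⟩ := core2 (p := p) (q := q) (Ne.symm hqp) ha hb hall hlt hne c c.2 hc'
    exact ⟨p, q, n, ⟨hp⟩, ⟨hq⟩, Ne.symm hqp, h1, h2, h3', h4, h5⟩
  · rw [h] at hc'
    obtain ⟨n, h1, h2, h3', h4, h5⟩ := core2 (p := q) (q := p) hqp hb ha hall' hlt hne c c.2 hc'
    exact ⟨q, p, n, ⟨hq⟩, ⟨hp⟩, hqp, h1, h2, h3', h4, h5⟩

end Cfsg.Agent.H12.CA
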