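import Mathlib
import Cfsg.Agent.Lib.H14.GT
import Cfsg.Agent.Lib.H18.Syl

/-! A Frobenius criterion relative to a strongly closed subgroup: it suffices to test the normalizers of
the subgroups `U ≤ D` with `C_D(U) ≤ U`. -/

set_option autoImplicit false
set_option linter.unusedSectionVars false
set_option linter.unusedVariables false

namespace Cfsg.Agent.H12

open Cfsg Cfsg.Agent.H13 Cfsg.Agent.H14

universe u

/-- The statement to be proved by induction on the order. -/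
def CFStmt (p : ℕ) (m : ℕ) : Prop :=
  ∀ (G : Type u) [Group G] [Finite G], Nat.card G < m → ∀ (P : Sylow p G) (D : Subgroup G),
    IsStronglyClosed D (P : Subgroup G) →
    (∀ U : Subgroup G, U ≤ D → D ⊓ Subgroup.centralizer (U : Set G) ≤ U →
      FC p (Subgroup.normalizer (U : Set G))) → FrobCond p G

section
variable {G : Type u} [Group G] [Finite G] {p : ℕ} [hp : Fact p.Prime]

theorem fc_of_CFIH (hIH : CFStmt.{u} p (Nat.card G)) {H S D₁ : Subgroup G} (hH : H ≠ ⊤)
    (hSH : S ≤ H) (hSp : IsPGroup p S) (hS : ¬ p ∣ S.relIndex H) (hD₁S : D₁ ≤ S)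
    (hcl : ∀ x ∈ D₁, ∀ h ∈ H, h * x * h⁻¹ ∈ S → h * x * h⁻¹ ∈ D₁)
    (hfc : ∀ U : Subgroup G, U ≤ D₁ → D₁ ⊓ Subgroup.centralizer (U : Set G) ≤ U →
      FC p (H ⊓ Subgroup.normalizer (U : Set G))) : FC p H := by
  apply FC_of_frobCond
  have hcard : Nat.card H < Nat.card G := by
    have hlt : H < ⊤ := lt_top_iff_ne_top.mpr hH
    have h1 := card_lt_of_lt hlt
    rwa [Subgroup.card_top] at h1
  have hpg : IsPGroup p (S.subgroupOf H) := hSp.comap_subtype
  let P' : Sylow p H := hpg.toSylow hS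
  let D' : Subgroup H := D₁.subgroupOf H
  have hD'S : D' ≤ (P' : Subgroup H) := by
    intro x hx
    exact Subgroup.mem_subgroupOf.mpr (hD₁S (Subgroup.mem_subgroupOf.mp hx))
  have hcl' : IsStronglyClosed D' (P' : Subgroup H) := by
    refine ⟨hD'S, fun x hx g hg => ?_⟩
    have h1 : (g : G) * x * (g : G)⁻¹ ∈ S := Subgroup.mem_subgroupOf.mp hg
    exact Subgroup.mem_subgroupOf.mpr
      (hcl x (Subgroup.mem_subgroupOf.mp hx) g g.2 h1)
  refine hIH H hcard P' D' hcl' ?_
  intro U' hU' hU'c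
  set U : Subgroup G := U'.map H.subtype with hU
  have hUD : U ≤ D₁ := by
    rintro _ ⟨x, hx, rfl⟩
    exact Subgroup.mem_subgroupOf.mp (hU' hx)
  have hUc : D₁ ⊓ Subgroup.centralizer (U : Set G) ≤ U := by
    rintro x ⟨hx1, hx2⟩
    have hxH : x ∈ H := hSH (hD₁S hx1)
    have h1 : (⟨x, hxH⟩ : H) ∈ D' ⊓ Subgroup.centralizer (U' : Set H) := by
      refine ⟨Subgroup.mem_subgroupOf.mpr hx1, Subgroup.mem_centralizer_iff.mpr ?_⟩
      intro u hu
      apply Subtype.ext
      exact (Subgroup.mem_centralizer_iff.mp hx2) _ ⟨u, hu, rfl⟩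
    have h2 := hU'c h1
    exact ⟨_, h2, rfl⟩
  have hfcU := hfc U hUD hUc
  apply FC_of_frobCond
  let f : Subgroup.normalizer (U' : Set H) →* ↥(H ⊓ Subgroup.normalizer (U : Set G)) :=
    { toFun := fun k => ⟨k.1.1, k.1.2, Subgroup.le_normalizer_map H.subtype ⟨k.1, k.2, rfl⟩⟩
      map_one' := rfl
      map_mul' := fun _ _ => rfl }
  have hf : Function.Injective f := by
    intro a b h
    have h1 : a.1.1 = b.1.1 := congrArg (fun x => x.1) h
    exact Subtype.ext (Subtype.ext h1)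
  exact frobCond_of_injective f hf (frobCond_of_FC hfcU)

theorem normalizer_sup_mem {A B : Subgroup G} {g : G} (hA : g ∈ Subgroup.normalizer (A : Set G))
    (hB : g ∈ Subgroup.normalizer (B : Set G)) : g ∈ Subgroup.normalizer ((A ⊔ B : Subgroup G) : Set G) := by
  apply mem_normalizer_of_map_conj_le
  rw [Subgroup.map_sup, map_conj_eq_of_mem_normalizer hA, map_conj_eq_of_mem_normalizer hB]

theorem exists_pow_coprime (g : G) : ∃ a : ℕ, (orderOf (g ^ p ^ a)).Coprime p := by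
  have hpp : p.Prime := hp.out
  obtain ⟨a, m, hnd, hm⟩ := Nat.exists_eq_pow_mul_and_not_dvd (orderOf_pos g).ne' p hpp.ne_one
  refine ⟨a, ?_⟩
  have hm0 : m ≠ 0 := by
    rintro rfl
    simp at hnd
  have h1 : orderOf g / m = p ^ a := by
    rw [hm]
    exact Nat.mul_div_cancel _ (Nat.pos_of_ne_zero hm0)
  have h2 := orderOf_pow_orderOf_div (x := g) (n := m) (orderOf_pos g).ne' ⟨p ^ a, by rw [hm, mul_comm]⟩
  rw [h1] at h2
  rw [h2]
  exact ((Nat.Prime.coprime_iff_not_dvd hpp).mpr hnd).symm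

theorem npc_of_contains (L : Subgroup G) (hLc : (Nat.card L).Coprime p)
    (hall : ∀ g : G, (orderOf g).Coprime p → g ∈ L) : HasNormalPComplement p G := by
  have hpp : p.Prime := hp.out
  have hord : ∀ x ∈ L, (orderOf x).Coprime p := by
    intro x hx
    exact Nat.Coprime.coprime_dvd_left (Subgroup.orderOf_dvd_natCard L hx) hLc
  haveI hn : L.Normal := by
    refine ⟨fun x hx g => hall _ ?_⟩
    have e : orderOf (g * x * g⁻¹) = orderOf x := H14.orderOf_conj_eq g x
    rw [e]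
    exact hord x hx
  rw [npc_iff]
  refine ⟨L, hn, hLc, ?_⟩
  have hpg : IsPGroup p (G ⧸ L) := by
    intro q
    obtain ⟨g, rfl⟩ := QuotientGroup.mk_surjective q
    obtain ⟨a, ha⟩ := exists_pow_coprime (p := p) g
    refine ⟨a, ?_⟩
    rw [← QuotientGroup.mk_pow, QuotientGroup.eq_one_iff]
    exact hall _ ha
  obtain ⟨k, hk⟩ := IsPGroup.iff_card.mp hpg
  exact ⟨k, hk⟩

/-- The Frattini step: elements of order prime to `p` go into `N`. -/
theorem frattini_step (P : Sylow p G) {D : Subgroup G} (hD : IsStronglyClosed D (P : Subgroup G))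
    (N : Subgroup G) [hN : N.Normal]
    (h : ∀ g ∈ Subgroup.normalizer ((D ⊓ N : Subgroup G) : Set G), (orderOf g).Coprime p → g ∈ N) :
    ∀ g : G, (orderOf g).Coprime p → g ∈ N := by
  intro g hg
  have hpp : p.Prime := hp.out
  have hle : Subgroup.normalizer (((P : Subgroup G) ⊓ N : Subgroup G) : Set G) ≤
      Subgroup.normalizer ((D ⊓ N : Subgroup G) : Set G) := by
    intro u hu
    apply mem_normalizer_of_map_conj_le
    rintro _ ⟨x, ⟨hx1, hx2⟩, rfl⟩
    have h1 : u * x * u⁻¹ ∈ (P : Subgroup G) ⊓ N :=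
      (Subgroup.mem_normalizer_iff.mp hu x).mp ⟨hD.1 hx1, hx2⟩
    exact ⟨hD.2 x hx1 u h1.1, h1.2⟩
  have htop := Cfsg.Agent.H18.frattini_inf P N
  have hgmem : g ∈ (Subgroup.normalizer (((P : Subgroup G) ⊓ N : Subgroup G) : Set G) ⊔ N : Subgroup G) := by
    rw [htop]; trivial
  have hmul := Subgroup.mul_normal (Subgroup.normalizer (((P : Subgroup G) ⊓ N : Subgroup G) : Set G)) N
  have hgmem' : g ∈ ((Subgroup.normalizer (((P : Subgroup G) ⊓ N : Subgroup G) : Set G) ⊔ N : Subgroup G) : Set G) := hgmem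
  rw [hmul] at hgmem'
  obtain ⟨u, hu, n, hn, rfl⟩ := Set.mem_mul.mp hgmem'
  obtain ⟨a, ha⟩ := exists_pow_coprime (p := p) u
  have h1 : u ^ p ^ a ∈ N := h _ (Subgroup.pow_mem _ (hle hu) _) ha
  -- work in the quotient
  have h2 : ((u * n : G) : G ⧸ N) ^ p ^ a = 1 := by
    rw [QuotientGroup.mk_mul, (QuotientGroup.eq_one_iff n).mpr hn, mul_one, ← QuotientGroup.mk_pow,
      QuotientGroup.eq_one_iff]
    exact h1
  have h3 : ((u * n : G) : G ⧸ N) ^ orderOf (u * n) = 1 := by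
    rw [← QuotientGroup.mk_pow, pow_orderOf_eq_one]
    rfl
  have h4 := orderOf_dvd_of_pow_eq_one h2
  have h5 := orderOf_dvd_of_pow_eq_one h3
  have h6 : Nat.Coprime (p ^ a) (orderOf (u * n)) := Nat.Coprime.pow_left _ hg.symm
  have h7 := Nat.eq_one_of_dvd_coprimes h6 h4 h5
  have h8 : ((u * n : G) : G ⧸ N) = 1 := orderOf_eq_one_iff.mp h7
  exact (QuotientGroup.eq_one_iff _).mp h8

theorem le_sylow_of_normal {T : Subgroup G} (hT : IsPGroup p T) (hn : T.Normal) (P : Sylow p G) :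
    T ≤ (P : Subgroup G) := by
  obtain ⟨Q, hQ⟩ := hT.exists_le_sylow
  obtain ⟨g, rfl⟩ := MulAction.exists_smul_eq G Q P
  intro x hx
  have h1 : g⁻¹ * x * g⁻¹⁻¹ ∈ (Q : Subgroup G) := hQ (hn.conj_mem x hx g⁻¹)
  rw [Sylow.coe_subgroup_smul, Subgroup.mem_pointwise_smul_iff_inv_smul_mem]
  simpa [MulAut.smul_def] using h1

end

end Cfsg.Agent.H12
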