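import Cfsg.Agent.Lib.H12.CentricFrob

/-! The induction step of the relative Frobenius criterion. -/

set_option autoImplicit false
set_option linter.unusedSectionVars false
set_option linter.unusedVariables false

namespace Cfsg.Agent.H12

open Cfsg Cfsg.Agent.H13 Cfsg.Agent.H14

universe u

section
variable {G : Type u} [Group G] [Finite G] {p : ℕ} [hp : Fact p.Prime]

/-- Step 1: subgroups of `D` not inside the normal core of `D`. -/
theorem cf_step1 (hIH : CFStmt.{u} p (Nat.card G)) (P : Sylow p G) {D : Subgroup G}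
    (hD : IsStronglyClosed D (P : Subgroup G))
    (hyp : ∀ U : Subgroup G, U ≤ D → D ⊓ Subgroup.centralizer (U : Set G) ≤ U →
      FC p (Subgroup.normalizer (U : Set G))) :
    ∀ (k : ℕ) (Q : Subgroup G), Nat.card G - Nat.card Q = k → Q ≤ D → ¬ Q ≤ D.normalCore →
      FC p (Subgroup.normalizer (Q : Set G)) := by
  intro k
  induction k using Nat.strong_induction_on with
  | _ k ih =>
    intro Q hk hQD hQV
    have hDP := hD.1
    have hPD := sylow_le_normalizer_of_closed hD
    obtain ⟨y, hyT, hyt⟩ := exists_tame P (P.isPGroup'.to_le (hQD.trans hDP))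
    apply FC.of_conj y
    rw [← normalizer_conj]
    set Q₁ := Q.map (MulAut.conj y).toMonoidHom with hQ₁
    have hQ₁D : Q₁ ≤ D := by
      rintro _ ⟨x, hx, rfl⟩
      exact hD.2 x (hQD hx) y (hyT ⟨x, hx, rfl⟩)
    have hQ₁V : ¬ Q₁ ≤ D.normalCore := by
      intro h
      apply hQV
      intro x hx
      have h1 : y * x * y⁻¹ ∈ D.normalCore := h ⟨x, hx, rfl⟩
      have h2 := (Subgroup.normalCore_normal D).conj_mem _ h1 y⁻¹
      have e : y⁻¹ * (y * x * y⁻¹) * y⁻¹⁻¹ = x := by group
      rwa [e] at h2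
    have hcardQ₁ : Nat.card Q₁ = Nat.card Q := card_map_conj y Q
    by_cases hc : D ⊓ Subgroup.centralizer (Q₁ : Set G) ≤ Q₁
    · exact hyp Q₁ hQ₁D hc
    have hH : Subgroup.normalizer (Q₁ : Set G) ≠ ⊤ := fun h =>
      hQ₁V (by
        haveI := Subgroup.normalizer_eq_top_iff.mp h
        exact Subgroup.normal_le_normalCore.mpr hQ₁D)
    refine fc_of_CFIH hIH hH (S := (P : Subgroup G) ⊓ Subgroup.normalizer (Q₁ : Set G))
      (D₁ := D ⊓ Subgroup.normalizer (Q₁ : Set G)) inf_le_right (P.isPGroup'.to_le inf_le_left) hyt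
      (inf_le_inf_right _ hDP) ?_ ?_
    · intro x hx h hh hmem
      exact ⟨hD.2 x hx.1 h hmem.1, hmem.2⟩
    · intro U hU hUc
      have hUH : U ≤ Subgroup.normalizer (Q₁ : Set G) := hU.trans inf_le_right
      have hUD : U ≤ D := hU.trans inf_le_left
      set R := U ⊔ Q₁ with hR
      have hRD : R ≤ D := sup_le hUD hQ₁D
      have hRV : ¬ R ≤ D.normalCore := fun h => hQ₁V (le_sup_right.trans h)
      have hUQ : ¬ U ≤ Q₁ := by
        intro h
        apply hc
        rintro x ⟨hx1, hx2⟩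
        have hxN : x ∈ Subgroup.normalizer (Q₁ : Set G) :=
          Subgroup.centralizer_le_normalizer _ hx2
        have hxC : x ∈ Subgroup.centralizer (U : Set G) := Subgroup.centralizer_le h hx2
        exact h (hUc ⟨⟨hx1, hxN⟩, hxC⟩)
      have hlt : Q₁ < R := by
        refine lt_of_le_of_ne le_sup_right ?_
        intro h
        apply hUQ
        rw [h]
        exact le_sup_left
      have hcard := card_lt_of_lt hlt
      have hRG : Nat.card R ≤ Nat.card G := Subgroup.card_le_card_group R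
      have hfcR := ih (Nat.card G - Nat.card R) (by omega) R rfl hRD hRV
      refine FC.mono ?_ hfcR
      rintro g ⟨hg1, hg2⟩
      exact normalizer_sup_mem hg2 hg1

/-- If the core of `D` is central, every element of order prime to `p` normalizing a normal `p`-subgroup
centralizes it. -/
theorem cf_chain (P : Sylow p G) {D : Subgroup G} (hD : IsStronglyClosed D (P : Subgroup G))
    (hcen : ∀ v ∈ D.normalCore, ∀ g : G, g * v = v * g)
    (hfcD : FC p (Subgroup.normalizer (D : Set G)))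
    {T : Subgroup G} (hT : IsPGroup p T) (hTn : T.Normal) {g : G} (hg : (orderOf g).Coprime p) :
    g ∈ Subgroup.centralizer (T : Set G) := by
  have hpp : p.Prime := hp.out
  have hDP := hD.1
  have hPD := sylow_le_normalizer_of_closed hD
  have hTP : T ≤ (P : Subgroup G) := le_sylow_of_normal hT hTn P
  set V₀ := D.normalCore with hV₀
  haveI hV₀n : V₀.Normal := Subgroup.normalCore_normal D
  have hV₀p : IsPGroup p V₀ := P.isPGroup'.to_le ((Subgroup.normalCore_le D).trans hDP)
  -- the kernel of the action on `T / V₀`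
  let Tb : Subgroup (G ⧸ V₀) := T.map (QuotientGroup.mk' V₀)
  haveI : Tb.Normal := hTn.map _ (QuotientGroup.mk'_surjective V₀)
  let N₁ : Subgroup G := (Subgroup.centralizer (Tb : Set (G ⧸ V₀))).comap (QuotientGroup.mk' V₀)
  haveI hN₁ : N₁.Normal := inferInstance
  have hN₁mem : ∀ u : G, u ∈ N₁ ↔ ∀ t ∈ T, u * t * u⁻¹ * t⁻¹ ∈ V₀ := by
    intro u
    constructor
    · intro hu t ht
      have h1 : ((QuotientGroup.mk' V₀) t) * ((QuotientGroup.mk' V₀) u) =
          ((QuotientGroup.mk' V₀) u) * ((QuotientGroup.mk' V₀) t) :=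
        Subgroup.mem_centralizer_iff.mp hu _ ⟨t, ht, rfl⟩
      rw [← QuotientGroup.eq_one_iff]
      have e : ((u * t * u⁻¹ * t⁻¹ : G) : G ⧸ V₀) =
          ((QuotientGroup.mk' V₀) u) * ((QuotientGroup.mk' V₀) t) * ((QuotientGroup.mk' V₀) u)⁻¹ *
            ((QuotientGroup.mk' V₀) t)⁻¹ := rfl
      rw [e, ← h1]
      group
    · intro hu
      refine Subgroup.mem_centralizer_iff.mpr ?_
      rintro _ ⟨t, ht, rfl⟩
      have h1 := (QuotientGroup.eq_one_iff _).mpr (hu t ht)
      have e : ((u * t * u⁻¹ * t⁻¹ : G) : G ⧸ V₀) =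
          ((QuotientGroup.mk' V₀) u) * ((QuotientGroup.mk' V₀) t) * ((QuotientGroup.mk' V₀) u)⁻¹ *
            ((QuotientGroup.mk' V₀) t)⁻¹ := rfl
      rw [e] at h1
      have h2 : (QuotientGroup.mk' V₀) u * (QuotientGroup.mk' V₀) t =
          (QuotientGroup.mk' V₀) t * (QuotientGroup.mk' V₀) u := by
        have h3 := mul_inv_eq_one.mp h1
        exact mul_inv_eq_iff_eq_mul.mp h3
      exact h2.symm
  -- `D` lies in `N₁`
  have hDT : D ⊓ T ≤ V₀ := by
    haveI : (D ⊓ T).Normal := by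
      refine ⟨fun x hx u => ?_⟩
      have h1 : u * x * u⁻¹ ∈ T := hTn.conj_mem x hx.2 u
      exact ⟨hD.2 x hx.1 u (hTP h1), h1⟩
    exact Subgroup.normal_le_normalCore.mpr inf_le_left
  have hDN : D ≤ N₁ := by
    intro d hd
    rw [hN₁mem]
    intro t ht
    apply hDT
    constructor
    · have h1 : t * d⁻¹ * t⁻¹ ∈ D :=
        (Subgroup.mem_normalizer_iff.mp (hPD (hTP ht)) d⁻¹).mp (D.inv_mem hd)
      have e : d * t * d⁻¹ * t⁻¹ = d * (t * d⁻¹ * t⁻¹) := by group
      rw [e]
      exact D.mul_mem hd h1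
    · have h1 : d * t * d⁻¹ ∈ T := hTn.conj_mem t ht d
      exact T.mul_mem h1 (T.inv_mem ht)
  have hinf : D ⊓ N₁ = D := inf_eq_left.mpr hDN
  have hgN₁ : g ∈ N₁ := by
    refine frattini_step P hD N₁ ?_ g hg
    rw [hinf]
    intro u hu huc
    have h1 : u ∈ Subgroup.centralizer (T : Set G) :=
      hfcD T hT (fun t ht => hPD (hTP ht)) u hu
        (by rw [Subgroup.normalizer_eq_top_iff.mpr hTn]; trivial) huc
    rw [hN₁mem]
    intro t ht
    have h2 : t * u = u * t := Subgroup.mem_centralizer_iff.mp h1 t ht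
    have e : u * t * u⁻¹ * t⁻¹ = 1 := by
      rw [← h2]
      group
    rw [e]
    exact V₀.one_mem
  -- conclude
  refine Subgroup.mem_centralizer_iff.mpr fun t ht => ?_
  have hw := (hN₁mem g).mp hgN₁ t ht
  set w := g * t * g⁻¹ * t⁻¹ with hwdef
  have hgt : g * t * g⁻¹ = w * t := by rw [hwdef]; group
  have hk : ∀ k : ℕ, g ^ k * t * (g ^ k)⁻¹ = w ^ k * t := by
    intro k
    induction k with
    | zero => simp
    | succ k ih =>
      have e : g ^ (k + 1) * t * (g ^ (k + 1))⁻¹ = g * (g ^ k * t * (g ^ k)⁻¹) * g⁻¹ := by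
        rw [pow_succ', _root_.mul_inv_rev]
        group
      rw [e, ih]
      have h1 : g * (w ^ k * t) * g⁻¹ = (g * w ^ k * g⁻¹) * (g * t * g⁻¹) := by group
      have h2 : g * w ^ k * g⁻¹ = w ^ k := by
        rw [hcen _ (V₀.pow_mem hw k) g]
        group
      rw [h1, h2, hgt, pow_succ]
      exact (mul_assoc _ _ _).symm
  have h1 := hk (orderOf g)
  rw [pow_orderOf_eq_one] at h1
  simp only [one_mul, inv_one, mul_one] at h1
  have h2 : w ^ orderOf g = 1 := by
    have h3 : w ^ orderOf g * t = t := h1.symm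
    exact mul_eq_right.mp h3
  obtain ⟨j, hj⟩ := hV₀p ⟨w, hw⟩
  have hj' : w ^ p ^ j = 1 := congrArg Subtype.val hj
  have h3 := Nat.eq_one_of_dvd_coprimes (Nat.Coprime.pow_left j hg.symm) (orderOf_dvd_of_pow_eq_one hj')
    (orderOf_dvd_of_pow_eq_one h2)
  have h4 : w = 1 := orderOf_eq_one_iff.mp h3
  rw [h4, one_mul] at hgt
  exact (mul_inv_eq_iff_eq_mul.mp hgt).symm

/-- The induction step. -/
theorem cf_step (hIH : CFStmt.{u} p (Nat.card G)) (P : Sylow p G) {D : Subgroup G}
    (hD : IsStronglyClosed D (P : Subgroup G))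
    (hyp : ∀ U : Subgroup G, U ≤ D → D ⊓ Subgroup.centralizer (U : Set G) ≤ U →
      FC p (Subgroup.normalizer (U : Set G))) : FrobCond p G := by
  classical
  have hpp : p.Prime := hp.out
  have hDP := hD.1
  have hPD := sylow_le_normalizer_of_closed hD
  set V₀ := D.normalCore with hV₀
  haveI hV₀n : V₀.Normal := Subgroup.normalCore_normal D
  have hV₀D : V₀ ≤ D := Subgroup.normalCore_le D
  have hV₀p : IsPGroup p V₀ := P.isPGroup'.to_le (hV₀D.trans hDP)
  have hV₀top : ∀ u : G, u ∈ Subgroup.normalizer (V₀ : Set G) := by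
    intro u
    rw [Subgroup.normalizer_eq_top_iff.mpr hV₀n]
    trivial
  by_cases hc1 : D ⊓ Subgroup.centralizer (V₀ : Set G) ≤ V₀
  · have h := hyp V₀ hV₀D hc1
    rw [Subgroup.normalizer_eq_top_iff.mpr hV₀n] at h
    exact FC_top_iff.mp h
  have step1 := cf_step1 hIH P hD hyp
  have hfc1 : ∀ Q : Subgroup G, Q ≤ D → ¬ Q ≤ V₀ → FC p (Subgroup.normalizer (Q : Set G)) :=
    fun Q h1 h2 => step1 _ Q rfl h1 h2
  set C' : Subgroup G := Subgroup.centralizer (V₀ : Set G) with hC'
  haveI hC'n : C'.Normal := Subgroup.normal_centralizer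
  have hfcX := hfc1 (D ⊓ C') inf_le_left hc1
  have hV₀NX : V₀ ≤ Subgroup.normalizer ((D ⊓ C' : Subgroup G) : Set G) := by
    intro v hv
    apply mem_normalizer_of_map_conj_le
    rintro _ ⟨x, ⟨hx1, hx2⟩, rfl⟩
    exact ⟨(Subgroup.mem_normalizer_iff.mp (hPD (hDP (hV₀D hv))) x).mp hx1, hC'n.conj_mem x hx2 v⟩
  have hp'C : ∀ g : G, (orderOf g).Coprime p → g ∈ C' := by
    apply frattini_step P hD C'
    intro u hu huc
    exact hfcX V₀ hV₀p hV₀NX u hu (hV₀top u) huc
  by_cases hCtop : C' = ⊤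
  swap
  · have hfcC : FC p C' := by
      refine fc_of_CFIH hIH hCtop (S := (P : Subgroup G) ⊓ C') (D₁ := D ⊓ C') inf_le_right
        (P.isPGroup'.to_le inf_le_left) ?_ (inf_le_inf_right _ hDP) ?_ ?_
      · intro h
        apply P.not_dvd_index
        have h2 : ((P : Subgroup G) ⊓ C').relIndex C' = (P : Subgroup G).relIndex C' :=
          Subgroup.inf_relIndex_right _ _
        rw [h2] at h
        exact h.trans (Cfsg.Agent.H18.relIndex_dvd_index_of_normal_right _ C')
      · intro x hx h hh hmem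
        exact ⟨hD.2 x hx.1 h hmem.1, hmem.2⟩
      · intro U hU hUc
        set R := U ⊔ V₀ with hR
        have hRD : R ≤ D := sup_le (hU.trans inf_le_left) hV₀D
        have hRc : D ⊓ Subgroup.centralizer (R : Set G) ≤ R := by
          rintro x ⟨hx1, hx2⟩
          have h1 : x ∈ C' := Subgroup.centralizer_le (le_sup_right : V₀ ≤ R) hx2
          have h2 : x ∈ Subgroup.centralizer (U : Set G) := Subgroup.centralizer_le (le_sup_left : U ≤ R) hx2
          exact (le_sup_left : U ≤ R) (hUc ⟨⟨hx1, h1⟩, h2⟩)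
        refine FC.mono ?_ (hyp R hRD hRc)
        rintro g ⟨hg1, hg2⟩
        exact normalizer_sup_mem hg2 (hV₀top g)
    have hnpc := hasNormalPComplement_of_frobCond (frobCond_of_FC hfcC)
    obtain ⟨N₀, hN₀, hcop, k, hk⟩ := npc_iff.mp hnpc
    apply frobCond_of_hasNormalPComplement
    refine npc_of_contains (N₀.map C'.subtype) ?_ ?_
    · rwa [Subgroup.card_map_of_injective C'.subtype_injective]
    · intro g hg
      have hgC := hp'C g hg
      refine ⟨⟨g, hgC⟩, ?_, rfl⟩
      have hq : Nat.card (↥C' ⧸ N₀) = p ^ k := hk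
      have h1 : ((⟨g, hgC⟩ : C') : C' ⧸ N₀) ^ p ^ k = 1 := by
        rw [← hq]
        exact pow_card_eq_one'
      have h2 : ((⟨g, hgC⟩ : C') : C' ⧸ N₀) ^ orderOf g = 1 := by
        rw [← QuotientGroup.mk_pow]
        have h3 : (⟨g, hgC⟩ : C') ^ orderOf g = 1 := Subtype.ext (pow_orderOf_eq_one g)
        rw [h3]
        rfl
      have h3 := Nat.eq_one_of_dvd_coprimes (Nat.Coprime.pow_left k hg.symm)
        (orderOf_dvd_of_pow_eq_one h1) (orderOf_dvd_of_pow_eq_one h2)
      exact (QuotientGroup.eq_one_iff _).mp (orderOf_eq_one_iff.mp h3)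
  -- `V₀` is central
  have hcen : ∀ v ∈ D.normalCore, ∀ g : G, g * v = v * g := by
    intro v hv g
    have h1 : g ∈ C' := by
      rw [hCtop]
      trivial
    exact (Subgroup.mem_centralizer_iff.mp h1 v hv).symm
  have hDV : ¬ D ≤ V₀ := fun h => hc1 (inf_le_left.trans h)
  have hfcD := hfc1 D le_rfl hDV
  intro Q hQ g hg hgc
  set T' := Q ⊔ V₀ with hT'
  have hT'p : IsPGroup p T' := IsPGroup.to_sup_of_normal_right hQ hV₀p
  have hgT' : g ∈ Subgroup.normalizer (T' : Set G) := normalizer_sup_mem hg (hV₀top g)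
  have hgoal : g ∈ Subgroup.centralizer (T' : Set G) → g ∈ Subgroup.centralizer (Q : Set G) :=
    fun h => Subgroup.centralizer_le (le_sup_left : Q ≤ T') h
  apply hgoal
  by_cases hT'n : T'.Normal
  · exact cf_chain P hD hcen hfcD hT'p hT'n hgc
  obtain ⟨y, hyT, hyt⟩ := exists_tame P hT'p
  have hfc1' : FC p (Subgroup.normalizer (T' : Set G)) := by
    apply FC.of_conj y
    rw [← normalizer_conj]
    set T₁ := T'.map (MulAut.conj y).toMonoidHom with hT₁
    have hH : Subgroup.normalizer (T₁ : Set G) ≠ ⊤ := by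
      intro h
      apply hT'n
      haveI hn := Subgroup.normalizer_eq_top_iff.mp h
      refine ⟨fun x hx u => ?_⟩
      have h1 : y * x * y⁻¹ ∈ T₁ := ⟨x, hx, rfl⟩
      have h2 := hn.conj_mem _ h1 (y * u * y⁻¹)
      have e : y * u * y⁻¹ * (y * x * y⁻¹) * (y * u * y⁻¹)⁻¹ = y * (u * x * u⁻¹) * y⁻¹ := by group
      rw [e] at h2
      have h3 := mem_map_conj.mp h2
      have e2 : y⁻¹ * (y * (u * x * u⁻¹) * y⁻¹) * y = u * x * u⁻¹ := by group
      rwa [e2] at h3
    have hV₀T₁ : V₀ ≤ T₁ := by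
      intro v hv
      rw [hT₁, mem_map_conj]
      have h1 := hV₀n.conj_mem v hv y⁻¹
      have e : y⁻¹ * v * y⁻¹⁻¹ = y⁻¹ * v * y := by group
      rw [e] at h1
      exact (le_sup_right : V₀ ≤ T') h1
    have hT₁N : ∀ t ∈ T₁, ∀ x ∈ D, t * x * t⁻¹ ∈ D := fun t ht x hx =>
      (Subgroup.mem_normalizer_iff.mp (hPD (hyT ht)) x).mp hx
    obtain ⟨d, hdD, hdN, hdV⟩ : ∃ d ∈ D, d ∈ Subgroup.normalizer (T₁ : Set G) ∧ d ∉ V₀ := by
      by_cases hDT : D ≤ T₁
      · obtain ⟨d, hd, hdV⟩ := SetLike.not_le_iff_exists.mp hDV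
        exact ⟨d, hd, Subgroup.le_normalizer (hDT hd), hdV⟩
      · let L : Subgroup G :=
          { carrier := {x | ∃ d ∈ D, ∃ t ∈ T₁, x = d * t}
            mul_mem' := by
              rintro _ _ ⟨d, hd, t, ht, rfl⟩ ⟨d', hd', t', ht', rfl⟩
              refine ⟨d * (t * d' * t⁻¹), D.mul_mem hd (hT₁N t ht d' hd'), t * t', T₁.mul_mem ht ht', ?_⟩
              group
            one_mem' := ⟨1, D.one_mem, 1, T₁.one_mem, by simp⟩
            inv_mem' := by
              rintro _ ⟨d, hd, t, ht, rfl⟩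
              refine ⟨t⁻¹ * d⁻¹ * t⁻¹⁻¹, hT₁N _ (T₁.inv_mem ht) _ (D.inv_mem hd), t⁻¹, T₁.inv_mem ht, ?_⟩
              group }
        have hLP : L ≤ (P : Subgroup G) := by
          rintro _ ⟨d, hd, t, ht, rfl⟩
          exact Subgroup.mul_mem _ (hDP hd) (hyT ht)
        have hT₁L : T₁ ≤ L := fun t ht => ⟨1, D.one_mem, t, ht, by simp⟩
        have hDL : D ≤ L := fun x hx => ⟨x, hx, 1, T₁.one_mem, by simp⟩
        have hne : T₁ ≠ L := by
          intro h
          apply hDT
          rw [h]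
          exact hDL
        obtain ⟨x, hxL, hxT, hxN⟩ := exists_mem_normalizer_of_pgroup (P.isPGroup'.to_le hLP) hT₁L hne
        obtain ⟨d, hd, t, ht, rfl⟩ := hxL
        refine ⟨d, hd, ?_, ?_⟩
        · have h1 := Subgroup.mul_mem _ hxN (Subgroup.inv_mem _ (Subgroup.le_normalizer ht))
          have e : d * t * t⁻¹ = d := by group
          rwa [e] at h1
        · intro hdV
          exact hxT (T₁.mul_mem (hV₀T₁ hdV) ht)
    refine fc_of_CFIH hIH hH (S := (P : Subgroup G) ⊓ Subgroup.normalizer (T₁ : Set G))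
      (D₁ := D ⊓ Subgroup.normalizer (T₁ : Set G)) inf_le_right (P.isPGroup'.to_le inf_le_left) hyt
      (inf_le_inf_right _ hDP) ?_ ?_
    · intro x hx h hh hmem
      exact ⟨hD.2 x hx.1 h hmem.1, hmem.2⟩
    · intro U hU hUc
      have hUV : ¬ U ≤ V₀ := by
        intro h
        have hdC : d ∈ Subgroup.centralizer (U : Set G) := by
          refine Subgroup.mem_centralizer_iff.mpr fun u hu => ?_
          exact (hcen u (h hu) d).symm
        exact hdV (h (hUc ⟨⟨hdD, hdN⟩, hdC⟩))
      exact FC.mono inf_le_right (hfc1 U (hU.trans inf_le_left) hUV)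
  exact hfc1' T' hT'p Subgroup.le_normalizer g hgT' hgT' hgc

end

theorem cf_all {p : ℕ} [hp : Fact p.Prime] : ∀ m : ℕ, CFStmt.{u} p m := by
  intro m
  induction m with
  | zero =>
    intro G _ _ h
    omega
  | succ m ih =>
    intro G _ _ h P D hD hfc
    refine cf_step ?_ P hD hfc
    intro G' _ _ h' P' D' hD' hfc'
    exact ih G' (by omega) P' D' hD' hfc'

/-- The relative Frobenius criterion. -/
theorem centric_frobenius {G : Type u} [Group G] [Finite G] {p : ℕ} [hp : Fact p.Prime] (P : Sylow p G)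
    {D : Subgroup G} (hD : IsStronglyClosed D (P : Subgroup G))
    (h : ∀ U : Subgroup G, U ≤ D → D ⊓ Subgroup.centralizer (U : Set G) ≤ U →
      HasNormalPComplement p ↥(Subgroup.normalizer (U : Set G))) :
    HasNormalPComplement p G :=
  hasNormalPComplement_of_frobCond (cf_all (Nat.card G + 1) G (by omega) P D hD
    (fun U hU hUc => FC_of_frobCond (frobCond_of_hasNormalPComplement (h U hU hUc))))

end Cfsg.Agent.H12
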