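import Mathlib

set_option autoImplicit false

namespace Cfsg.Agent.H12.CA

open Polynomial

section L1

variable {p q : ℕ} [Fact p.Prime] [Fact q.Prime]
variable {V : Type*} [AddCommGroup V] [Module (ZMod p) V]

lemma aeval_cyclotomic_eq_zero (Y : Module.End (ZMod p) V) (hYq : Y ^ q = 1)
    (hfpf : ∀ v, Y v = v → v = 0) :
    aeval Y (cyclotomic q (ZMod p)) = 0 := by
  rw [cyclotomic_prime]
  simp only [map_sum, map_pow, aeval_X]
  have h := mul_geom_sum Y q
  rw [hYq, sub_self] at h
  ext v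
  apply hfpf
  have h2 := congrArg (fun T : Module.End (ZMod p) V => T v) h
  simp only [Module.End.mul_apply, LinearMap.sub_apply, Module.End.one_apply, LinearMap.zero_apply] at h2
  exact sub_eq_zero.mp h2

/-- the cyclic submodule -/
def S (Y : Module.End (ZMod p) V) (v : V) : Submodule (ZMod p) V :=
  Submodule.span (ZMod p) (Set.range fun i : ℕ => (Y ^ i) v)

lemma self_mem_S (Y : Module.End (ZMod p) V) (v : V) : v ∈ S Y v :=
  Submodule.subset_span ⟨0, by simp⟩

lemma S_invariant (Y : Module.End (ZMod p) V) (v x : V) (hx : x ∈ S Y v) : Y x ∈ S Y v := by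
  induction hx using Submodule.span_induction with
  | mem x hx =>
    obtain ⟨i, rfl⟩ := hx
    exact Submodule.subset_span ⟨i + 1, by simp [pow_succ']⟩
  | zero => simp
  | add x y _ _ hx hy => simpa using Submodule.add_mem _ hx hy
  | smul a x _ hx => simpa using Submodule.smul_mem _ a hx

lemma S_pow_invariant (Y : Module.End (ZMod p) V) (v x : V) (hx : x ∈ S Y v) (i : ℕ) :
    (Y ^ i) x ∈ S Y v := by
  induction i with
  | zero => simpa using hx
  | succ n ih =>
    rw [pow_succ', Module.End.mul_apply]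
    exact S_invariant Y v _ ih

lemma aeval_mem_S (Y : Module.End (ZMod p) V) (v : V) (r : (ZMod p)[X]) :
    (aeval Y r) v ∈ S Y v := by
  induction r using Polynomial.induction_on' with
  | add a b ha hb => simpa using Submodule.add_mem _ ha hb
  | monomial n a =>
    rw [aeval_monomial]
    have : (algebraMap (ZMod p) (Module.End (ZMod p) V) a * Y ^ n) v = a • ((Y ^ n) v) := by
      simp [Module.algebraMap_end_apply]
    rw [this]
    exact Submodule.smul_mem _ a (Submodule.subset_span ⟨n, rfl⟩)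

lemma S_le_of_mem (Y : Module.End (ZMod p) V) (v u : V) (hu : u ∈ S Y v) : S Y u ≤ S Y v := by
  apply Submodule.span_le.mpr
  rintro _ ⟨i, rfl⟩
  exact S_pow_invariant Y v u hu i

lemma S_le_of_invariant (Y : Module.End (ZMod p) V) (W : Submodule (ZMod p) V)
    (hW : ∀ x ∈ W, Y x ∈ W) (v : V) (hv : v ∈ W) : S Y v ≤ W := by
  apply Submodule.span_le.mpr
  rintro _ ⟨i, rfl⟩
  show (Y ^ i) v ∈ W
  induction i with
  | zero => simpa using hv
  | succ n ih =>
    rw [pow_succ', Module.End.mul_apply]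
    exact hW _ ih

lemma sigma_pow (Y : Module.End (ZMod p) V) (σ : V ≃ₗ[ZMod p] V) (k : ℕ)
    (hσ : ∀ x, σ (Y x) = (Y ^ k) (σ x)) (i : ℕ) (x : V) :
    σ ((Y ^ i) x) = ((Y ^ k) ^ i) (σ x) := by
  induction i generalizing x with
  | zero => simp
  | succ n ih =>
    rw [pow_succ, Module.End.mul_apply, ih, hσ, pow_succ, Module.End.mul_apply]

lemma sigma_aeval (Y : Module.End (ZMod p) V) (σ : V ≃ₗ[ZMod p] V) (k : ℕ)
    (hσ : ∀ x, σ (Y x) = (Y ^ k) (σ x)) (r : (ZMod p)[X]) (x : V) :
    σ ((aeval Y r) x) = (aeval (Y ^ k) r) (σ x) := by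
  induction r using Polynomial.induction_on' with
  | add a b ha hb => simp [map_add, ha, hb]
  | monomial n a =>
    rw [aeval_monomial, aeval_monomial]
    have h1 : (algebraMap (ZMod p) (Module.End (ZMod p) V) a * Y ^ n) x = a • ((Y ^ n) x) := by
      simp [Module.algebraMap_end_apply]
    have h2 : (algebraMap (ZMod p) (Module.End (ZMod p) V) a * (Y ^ k) ^ n) (σ x) =
        a • (((Y ^ k) ^ n) (σ x)) := by
      simp [Module.algebraMap_end_apply]
    rw [h1, h2, map_smul, sigma_pow Y σ k hσ]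

lemma S_map_le (Y : Module.End (ZMod p) V) (σ : V ≃ₗ[ZMod p] V) (k : ℕ)
    (hσ : ∀ x, σ (Y x) = (Y ^ k) (σ x)) (v x : V) (hx : x ∈ S Y v) : σ x ∈ S Y (σ v) := by
  induction hx using Submodule.span_induction with
  | mem x hx =>
    obtain ⟨i, rfl⟩ := hx
    show σ ((Y ^ i) v) ∈ _
    rw [sigma_pow Y σ k hσ, ← pow_mul]
    exact Submodule.subset_span ⟨k * i, rfl⟩
  | zero => simp
  | add x y _ _ hx hy => simpa using Submodule.add_mem _ hx hy
  | smul a x _ hx => simpa using Submodule.smul_mem _ a hx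

lemma card_S_le [Finite V] (Y : Module.End (ZMod p) V) (σ : V ≃ₗ[ZMod p] V) (k : ℕ)
    (hσ : ∀ x, σ (Y x) = (Y ^ k) (σ x)) (v : V) :
    Nat.card (S Y v) ≤ Nat.card (S Y (σ v)) := by
  apply Nat.card_le_card_of_injective (fun x : S Y v => (⟨σ x, S_map_le Y σ k hσ v x x.2⟩ : S Y (σ v)))
  intro a b hab
  have : σ a = σ b := congrArg Subtype.val hab
  exact Subtype.ext (σ.injective this)

lemma eq_of_le_of_card_le [Finite V] {A B : Submodule (ZMod p) V} (h : A ≤ B)
    (hc : Nat.card B ≤ Nat.card A) : A = B := by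
  have hinj : Function.Injective (Submodule.inclusion h) := Submodule.inclusion_injective h
  have hbij := hinj.bijective_of_nat_card_le hc
  apply le_antisymm h
  intro x hx
  obtain ⟨y, hy⟩ := hbij.2 ⟨x, hx⟩
  have : (y : V) = x := congrArg Subtype.val hy
  rw [← this]
  exact y.2

theorem prim_root [Finite V] (hpq : p ≠ q) (Y : Module.End (ZMod p) V) (hYq : Y ^ q = 1)
    (hfpf : ∀ v, Y v = v → v = 0) (hV : Nontrivial V)
    (hA : ∀ v w : V, v ≠ 0 → w ≠ 0 → ∃ (σ : V ≃ₗ[ZMod p] V) (k : ℕ), σ v = w ∧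
      ∀ x, σ (Y x) = (Y ^ k) (σ x))
    (hB : ∀ k : ℕ, k.Coprime q → ∃ σ : V ≃ₗ[ZMod p] V, ∀ x, σ (Y x) = (Y ^ k) (σ x)) :
    orderOf (p : ZMod q) = q - 1 := by
  classical
  have hpr : p.Prime := Fact.out
  have hqr : q.Prime := Fact.out
  haveI : Module.Finite (ZMod p) V := Module.Finite.of_finite
  haveI hne : NeZero ((q : ℕ) : ZMod p) := ⟨by
    intro h0
    rw [ZMod.natCast_eq_zero_iff] at h0
    exact hpq ((Nat.prime_dvd_prime_iff_eq hpr hqr).mp h0)⟩
  set Φ := cyclotomic q (ZMod p) with hΦ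
  have hΦY : aeval Y Φ = 0 := aeval_cyclotomic_eq_zero Y hYq hfpf
  have hint : IsIntegral (ZMod p) Y := Algebra.IsIntegral.isIntegral Y
  set g := minpoly (ZMod p) Y with hg
  have hgΦ : g ∣ Φ := minpoly.dvd _ _ hΦY
  have hgmon : g.Monic := minpoly.monic hint
  haveI : Nontrivial (Module.End (ZMod p) V) := inferInstance
  have hgpos : 0 < g.natDegree := minpoly.natDegree_pos hint
  -- g divides g(X^k)
  have hcomp : ∀ k : ℕ, k.Coprime q → g ∣ g.comp (X ^ k) := by
    intro k hk
    obtain ⟨σ, hσ⟩ := hB k hk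
    apply minpoly.dvd
    rw [aeval_comp]
    simp only [map_pow, aeval_X]
    ext x
    obtain ⟨x', rfl⟩ := σ.surjective x
    have := sigma_aeval Y σ k hσ g x'
    rw [← this, minpoly.aeval]
    simp
  obtain ⟨f, hfirr, hfg⟩ := exists_irreducible_of_natDegree_pos hgpos
  haveI : Fact (Irreducible f) := ⟨hfirr⟩
  set K := AdjoinRoot f
  set lam : K := AdjoinRoot.root f with hlam
  have haev : ∀ r : (ZMod p)[X], f ∣ r → aeval lam r = 0 := by
    intro r hr
    obtain ⟨s, rfl⟩ := hr
    rw [map_mul]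
    have : aeval lam f = 0 := by
      rw [aeval_def]
      exact AdjoinRoot.eval₂_root f
    rw [this, zero_mul]
  have hprim : IsPrimitiveRoot lam q := by
    haveI : NeZero ((q : ℕ) : K) := by
      have h1 : ((q : ℕ) : K) = algebraMap (ZMod p) K (q : ZMod p) := by simp
      rw [h1]
      exact ⟨fun h0 => hne.out ((algebraMap (ZMod p) K).injective (by simpa using h0))⟩
    rw [← isRoot_cyclotomic_iff]
    have h2 : aeval lam Φ = 0 := haev Φ (hfg.trans hgΦ)
    rw [hΦ, aeval_def, ← eval_map, map_cyclotomic] at h2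
    exact h2
  have hroots : ∀ k : ℕ, k.Coprime q → aeval (lam ^ k) g = 0 := by
    intro k hk
    have h3 := haev _ (hfg.trans (hcomp k hk))
    rw [aeval_comp] at h3
    simpa using h3
  -- degree bound
  have hdeg : q - 1 ≤ g.natDegree := by
    have hgK : (g.map (algebraMap (ZMod p) K)) ≠ 0 := (hgmon.map _).ne_zero
    have hsub : (Finset.Ico 1 q).image (fun k => lam ^ k) ⊆ (g.map (algebraMap (ZMod p) K)).roots.toFinset := by
      intro x hx
      obtain ⟨k, hk, rfl⟩ := Finset.mem_image.mp hx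
      rw [Multiset.mem_toFinset, mem_roots hgK, IsRoot, eval_map, ← aeval_def]
      have hk' := Finset.mem_Ico.mp hk
      apply hroots
      exact Nat.Coprime.symm ((Nat.Prime.coprime_iff_not_dvd hqr).mpr (Nat.not_dvd_of_pos_of_lt hk'.1 hk'.2))
    have hcard : ((Finset.Ico 1 q).image (fun k => lam ^ k)).card = q - 1 := by
      rw [Finset.card_image_of_injOn]
      · simp
      · intro a ha b hb hab
        have ha' := Finset.mem_Ico.mp (Finset.mem_coe.mp ha)
        have hb' := Finset.mem_Ico.mp (Finset.mem_coe.mp hb)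
        exact hprim.pow_inj ha'.2 hb'.2 hab
    calc q - 1 = _ := hcard.symm
      _ ≤ _ := Finset.card_le_card hsub
      _ ≤ Multiset.card (g.map (algebraMap (ZMod p) K)).roots := Multiset.toFinset_card_le _
      _ ≤ (g.map (algebraMap (ZMod p) K)).natDegree := card_roots' _
      _ = g.natDegree := natDegree_map _
  have hΦmon : Φ.Monic := cyclotomic.monic q _
  have hΦdeg : Φ.natDegree = q - 1 := by
    rw [hΦ, natDegree_cyclotomic, Nat.totient_prime hqr]
  have hgeq : g = Φ := (eq_of_monic_of_dvd_of_natDegree_le hgmon hΦmon hgΦ (by rw [hΦdeg]; exact hdeg)).symm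
  -- degree of irreducible factor is the order
  have hfΦ : f ∣ Φ := hfg.trans hgΦ
  have hcop : p.Coprime q := (Nat.coprime_primes hpr hqr).mpr hpq
  have hcardK : Fintype.card (ZMod p) = p ^ 1 := by simp [ZMod.card]
  have hdf := natDegree_of_dvd_cyclotomic_of_irreducible hcardK hcop hfΦ hfirr
  have horder : orderOf (ZMod.unitOfCoprime _ (hcop.pow_left 1)) = orderOf (p : ZMod q) := by
    rw [← orderOf_units]
    simp
  rw [horder] at hdf
  rw [← hdf]
  obtain ⟨h, hh⟩ := hfΦ
  have hh0 : h ≠ 0 := by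
    rintro rfl
    rw [mul_zero] at hh
    exact hΦmon.ne_zero hh
  have hf0 : f ≠ 0 := hfirr.ne_zero
  have hdegsum : Φ.natDegree = f.natDegree + h.natDegree := by
    rw [hh, natDegree_mul hf0 hh0]
  by_contra hne2
  have hhpos : 0 < h.natDegree := by
    rw [hΦdeg] at hdegsum
    omega
  have hfpos : 0 < f.natDegree := hfirr.natDegree_pos
  have hsep : (f * h).Separable := by
    rw [← hh]
    exact separable_cyclotomic q (ZMod p)
  obtain ⟨a, b, hab⟩ := hsep.isCoprime
  set F := aeval Y f with hF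
  set H := aeval Y h with hH
  have hFH : F * H = 0 := by
    rw [hF, hH, ← map_mul, ← hh, hΦY]
  have hHF : H * F = 0 := by
    rw [hF, hH, ← map_mul, mul_comm, ← hh, hΦY]
  have hdisj : ∀ x, F x = 0 → H x = 0 → x = 0 := by
    intro x h1 h2
    have h3 := congrArg (fun r => (aeval Y r) x) hab
    simp only [map_add, map_mul, aeval_one, LinearMap.add_apply, Module.End.mul_apply, Module.End.one_apply] at h3
    rw [← hF, ← hH, h1, h2] at h3
    simpa using h3.symm
  have hFinv : ∀ x, F x = 0 → F (Y x) = 0 := by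
    intro x hx
    have : F * Y = Y * F := by
      have h4 : aeval Y (f * X) = aeval Y (X * f) := by rw [mul_comm]
      simpa [hF] using h4
    have h5 := congrArg (fun T : Module.End (ZMod p) V => T x) this
    simp only [Module.End.mul_apply] at h5
    rw [h5, hx, map_zero]
  -- W₁ ≠ 0
  obtain ⟨v₁, hv₁, hv₁0⟩ : ∃ v, F v = 0 ∧ v ≠ 0 := by
    by_contra hcon
    push Not at hcon
    have hinj : ∀ x, F x = 0 → x = 0 := hcon
    have hH0 : H = 0 := by
      ext x
      apply hinj
      have := congrArg (fun T : Module.End (ZMod p) V => T x) hFH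
      simpa using this
    have hdvd : g ∣ h := minpoly.dvd _ _ hH0
    have := natDegree_le_of_dvd hdvd hh0
    rw [hgeq] at this
    omega
  obtain ⟨v₂, hv₂, hv₂0⟩ : ∃ v, H v = 0 ∧ v ≠ 0 := by
    by_contra hcon
    push Not at hcon
    have hinj : ∀ x, H x = 0 → x = 0 := hcon
    have hF0 : F = 0 := by
      ext x
      apply hinj
      have := congrArg (fun T : Module.End (ZMod p) V => T x) hHF
      simpa using this
    have hdvd : g ∣ f := minpoly.dvd _ _ hF0
    have := natDegree_le_of_dvd hdvd hf0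
    rw [hgeq] at this
    omega
  set w := v₁ + v₂ with hw
  have hw0 : w ≠ 0 := by
    intro h0
    have hv : v₂ = -v₁ := by
      rw [hw] at h0
      exact (eq_neg_of_add_eq_zero_right h0)
    apply hv₁0
    apply hdisj
    · exact hv₁
    · rw [hv, map_neg, neg_eq_zero] at hv₂
      exact hv₂
  set u := H v₁ with hu
  have hu' : u = H w := by
    rw [hw, map_add, hv₂, add_zero]
  have hu0 : u ≠ 0 := fun h0 => hv₁0 (hdisj v₁ hv₁ h0)
  have hcardeq : ∀ a b : V, a ≠ 0 → b ≠ 0 → Nat.card (S Y a) ≤ Nat.card (S Y b) := by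
    intro a b ha hb
    obtain ⟨σ, k, hσ, hσ2⟩ := hA a b ha hb
    rw [← hσ]
    exact card_S_le Y σ k hσ2 a
  have hSuw : S Y u = S Y w := eq_of_le_of_card_le
    (S_le_of_mem Y w u (by rw [hu']; exact aeval_mem_S Y w h)) (hcardeq w u hw0 hu0)
  have hSuv : S Y u = S Y v₁ := eq_of_le_of_card_le
    (S_le_of_mem Y v₁ u (aeval_mem_S Y v₁ h)) (hcardeq v₁ u hv₁0 hu0)
  have hwmem : w ∈ S Y v₁ := by
    rw [← hSuv, hSuw]
    exact self_mem_S Y w
  have hW₁ : S Y v₁ ≤ LinearMap.ker F :=
    S_le_of_invariant Y _ (fun x hx => hFinv x hx) v₁ hv₁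
  have hv₂W : v₂ ∈ S Y v₁ := by
    have := Submodule.sub_mem _ hwmem (self_mem_S Y v₁)
    simpa [hw] using this
  exact hv₂0 (hdisj v₂ (hW₁ hv₂W) hv₂)

end L1

section Gen

lemma exists_semilinear {K V : Type*} [Field K] [AddCommGroup V] [Module K V] (s : K ≃+* K) :
    ∃ τ : V ≃+ V, ∀ (r : K) (x : V), τ (r • x) = s r • τ x := by
  classical
  let b := Module.Basis.ofVectorSpace K V
  let m : (Module.Basis.ofVectorSpaceIndex K V →₀ K) ≃+ (Module.Basis.ofVectorSpaceIndex K V →₀ K) :=
    Finsupp.mapRange.addEquiv s.toAddEquiv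
  refine ⟨b.repr.toAddEquiv.trans (m.trans b.repr.symm.toAddEquiv), ?_⟩
  intro r x
  simp only [AddEquiv.trans_apply]
  have h1 : b.repr.toAddEquiv (r • x) = r • b.repr x := by simp
  have h2 : m (r • b.repr x) = s r • m (b.repr x) := by
    ext i
    simp [m]
  rw [h1, h2]
  simp

lemma exists_linear_transit {K V : Type*} [Field K] [AddCommGroup V] [Module K V] {v w : V}
    (hv : v ≠ 0) (hw : w ≠ 0) :
    ∃ τ : V ≃+ V, τ v = w ∧ ∀ (r : K) (x : V), τ (r • x) = r • τ x := by
  classical
  have h1 : LinearIndepOn K id ({v} : Set V) := LinearIndepOn.singleton (v := id) hv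
  have h2 : LinearIndepOn K id ({w} : Set V) := LinearIndepOn.singleton (v := id) hw
  let b₁ := Module.Basis.extend h1
  let b₂ := Module.Basis.extend h2
  let e₀ := b₁.indexEquiv b₂
  have hv' : v ∈ h1.extend (Set.subset_univ _) := Module.Basis.subset_extend h1 rfl
  have hw' : w ∈ h2.extend (Set.subset_univ _) := Module.Basis.subset_extend h2 rfl
  let iv : h1.extend (Set.subset_univ _) := ⟨v, hv'⟩
  let iw : h2.extend (Set.subset_univ _) := ⟨w, hw'⟩
  let e := e₀.trans (Equiv.swap (e₀ iv) iw)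
  have he : e iv = iw := by simp [e]
  let τ := b₁.equiv b₂ e
  refine ⟨τ.toAddEquiv, ?_, fun r x => by simp⟩
  have : τ (b₁ iv) = b₂ (e iv) := Module.Basis.equiv_apply _ _ _ _
  rw [he] at this
  have h3 : b₁ iv = v := Module.Basis.extend_apply_self h1 iv
  have h4 : b₂ iw = w := Module.Basis.extend_apply_self h2 iw
  rw [h3, h4] at this
  exact this

end Gen

section L2

variable {p q : ℕ} [Fact p.Prime] [Fact q.Prime]
variable {V : Type*} [AddCommGroup V] [Module (ZMod p) V]

theorem irreducible_cyclotomic_of_prim (hpq : p ≠ q) (hord : orderOf (p : ZMod q) = q - 1) :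
    Irreducible (cyclotomic q (ZMod p)) := by
  have hpr : p.Prime := Fact.out
  have hqr : q.Prime := Fact.out
  have hcop : p.Coprime q := (Nat.coprime_primes hpr hqr).mpr hpq
  have hcardK : Fintype.card (ZMod p) = p ^ 1 := by simp [ZMod.card]
  apply irreducible_of_dvd_cyclotomic_of_natDegree hcardK hcop (dvd_refl _)
  have horder : orderOf (ZMod.unitOfCoprime _ (hcop.pow_left 1)) = orderOf (p : ZMod q) := by
    rw [← orderOf_units]
    simp
  rw [horder, hord, natDegree_cyclotomic, Nat.totient_prime hqr]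

/-- the field action. -/
noncomputable def fieldAct (Y : Module.End (ZMod p) V) (hΦ : aeval Y (cyclotomic q (ZMod p)) = 0) :
    AdjoinRoot (cyclotomic q (ZMod p)) →+* Module.End (ZMod p) V :=
  Ideal.Quotient.lift (Ideal.span {cyclotomic q (ZMod p)}) (aeval Y : (ZMod p)[X] →ₐ[ZMod p] _).toRingHom (by
    intro a ha
    obtain ⟨c, rfl⟩ := Ideal.mem_span_singleton'.mp ha
    show aeval Y (c * cyclotomic q (ZMod p)) = 0
    rw [map_mul, hΦ, mul_zero])

lemma fieldAct_root (Y : Module.End (ZMod p) V) (hΦ : aeval Y (cyclotomic q (ZMod p)) = 0) :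
    fieldAct Y hΦ (AdjoinRoot.root _) = Y := by
  show (aeval Y : (ZMod p)[X] →ₐ[ZMod p] _) X = Y
  simp

theorem semi_exists (hpq : p ≠ q) (Y : Module.End (ZMod p) V) (hYq : Y ^ q = 1)
    (hfpf : ∀ v, Y v = v → v = 0) (hord : orderOf (p : ZMod q) = q - 1) :
    (∀ v w : V, v ≠ 0 → w ≠ 0 → ∃ τ : V ≃+ V, τ v = w ∧ ∀ x, τ (Y x) = Y (τ x)) ∧
    (∀ k : ℕ, k.Coprime q → ∃ τ : V ≃+ V, ∀ x, τ (Y x) = (Y ^ k) (τ x)) := by
  classical
  have hpr : p.Prime := Fact.out
  have hqr : q.Prime := Fact.out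
  haveI hne : NeZero ((q : ℕ) : ZMod p) := ⟨by
    intro h0
    rw [ZMod.natCast_eq_zero_iff] at h0
    exact hpq ((Nat.prime_dvd_prime_iff_eq hpr hqr).mp h0)⟩
  have hirr := irreducible_cyclotomic_of_prim (p := p) (q := q) hpq hord
  haveI : Fact (Irreducible (cyclotomic q (ZMod p))) := ⟨hirr⟩
  have hΦY := aeval_cyclotomic_eq_zero Y hYq hfpf
  let K := AdjoinRoot (cyclotomic q (ZMod p))
  let ρ : K →+* Module.End (ZMod p) V := fieldAct Y hΦY
  have hρ : ρ (AdjoinRoot.root _) = Y := fieldAct_root Y hΦY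
  letI : Module K V := Module.compHom V ρ
  have hsmul : ∀ (r : K) (x : V), r • x = ρ r x := fun _ _ => rfl
  constructor
  · intro v w hv hw
    obtain ⟨τ, h1, h2⟩ := exists_linear_transit (K := K) hv hw
    refine ⟨τ, h1, ?_⟩
    intro x
    have := h2 (AdjoinRoot.root _) x
    rwa [hsmul, hsmul, hρ] at this
  · intro k hk
    -- the field automorphism
    have hmon : (cyclotomic q (ZMod p)).Monic := cyclotomic.monic q _
    haveI := hmon.finite_adjoinRoot
    haveI : Finite K := Module.finite_of_finite (ZMod p)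
    have hprim : IsPrimitiveRoot (AdjoinRoot.root (cyclotomic q (ZMod p))) q := by
      haveI : NeZero ((q : ℕ) : K) := by
        have h1 : ((q : ℕ) : K) = algebraMap (ZMod p) K (q : ZMod p) := by simp
        rw [h1]
        exact ⟨fun h0 => hne.out ((algebraMap (ZMod p) K).injective (by simpa using h0))⟩
      rw [← isRoot_cyclotomic_iff]
      have h2 : eval₂ (algebraMap (ZMod p) K) (AdjoinRoot.root _) (cyclotomic q (ZMod p)) = 0 :=
        AdjoinRoot.eval₂_root _
      rwa [← eval_map, map_cyclotomic] at h2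
    have hprimk : IsPrimitiveRoot ((AdjoinRoot.root (cyclotomic q (ZMod p))) ^ k) q :=
      hprim.pow_of_coprime k hk
    have hroot : eval₂ (algebraMap (ZMod p) K) ((AdjoinRoot.root (cyclotomic q (ZMod p))) ^ k)
        (cyclotomic q (ZMod p)) = 0 := by
      haveI : NeZero ((q : ℕ) : K) := by
        have h1 : ((q : ℕ) : K) = algebraMap (ZMod p) K (q : ZMod p) := by simp
        rw [h1]
        exact ⟨fun h0 => hne.out ((algebraMap (ZMod p) K).injective (by simpa using h0))⟩
      rw [← eval_map, map_cyclotomic]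
      exact isRoot_cyclotomic_iff.mpr hprimk
    let s₀ : K →+* K := AdjoinRoot.lift (algebraMap (ZMod p) K) _ hroot
    have hs₀ : s₀ (AdjoinRoot.root _) = (AdjoinRoot.root _) ^ k := AdjoinRoot.lift_root hroot
    have hbij : Function.Bijective s₀ :=
      Finite.injective_iff_bijective.mp s₀.injective
    let s : K ≃+* K := RingEquiv.ofBijective s₀ hbij
    obtain ⟨τ, hτ⟩ := exists_semilinear (K := K) (V := V) s
    refine ⟨τ, ?_⟩
    intro x
    have := hτ (AdjoinRoot.root _) x
    have h3 : s (AdjoinRoot.root _) = (AdjoinRoot.root _) ^ k := hs₀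
    rw [h3, hsmul, hsmul, hρ, map_pow, hρ] at this
    exact this

end L2

section L3

variable {p q : ℕ} [Fact p.Prime] [Fact q.Prime]
variable {A : Type*} [CommGroup A]

/-- The additive version of `f` as a `ZMod p`-linear endomorphism. -/
private abbrev mkMod (hexp : ∀ a : A, a ^ p = 1) : Module (ZMod p) (Additive A) :=
  AddCommGroup.zmodModule (n := p) (by
    intro x
    have := hexp (Additive.toMul x)
    exact congrArg Additive.ofMul this)

theorem F1_aux [Finite A] [Module (ZMod p) (Additive A)] (hpq : p ≠ q) (hnt : Nontrivial A) (f : A →* A)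
    (hfq : ∀ a, f^[q] a = a) (hfpf : ∀ a, f a = a → a = 1)
    (hA : ∀ v w : A, v ≠ 1 → w ≠ 1 → ∃ (σ : A ≃* A) (k : ℕ), σ v = w ∧ ∀ x, σ (f x) = f^[k] (σ x))
    (hB : ∀ k : ℕ, k.Coprime q → ∃ σ : A ≃* A, ∀ x, σ (f x) = f^[k] (σ x)) :
    orderOf (p : ZMod q) = q - 1 := by
  let Y : Module.End (ZMod p) (Additive A) := (MonoidHom.toAdditive f).toZModLinearMap p
  have hY : ∀ x : Additive A, Y x = Additive.ofMul (f (Additive.toMul x)) := fun _ => rfl
  have hYk : ∀ (k : ℕ) (x : Additive A), (Y ^ k) x = Additive.ofMul (f^[k] (Additive.toMul x)) := by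
    intro k
    induction k with
    | zero => intro x; simp
    | succ n ih =>
      intro x
      rw [pow_succ', Module.End.mul_apply, ih, hY, Function.iterate_succ_apply']
      rfl
  have hconv : ∀ (σ : A ≃* A), ∃ σ' : Additive A ≃ₗ[ZMod p] Additive A, ∀ x, σ' x = Additive.ofMul (σ (Additive.toMul x)) := by
    intro σ
    let g : Additive A →+ Additive A := MonoidHom.toAdditive σ.toMonoidHom
    let g' : Additive A →+ Additive A := MonoidHom.toAdditive σ.symm.toMonoidHom
    refine ⟨LinearEquiv.ofLinear (g.toZModLinearMap p) (g'.toZModLinearMap p) ?_ ?_, fun _ => rfl⟩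
    · ext x
      show Additive.ofMul (σ (σ.symm (Additive.toMul x))) = x
      simp
    · ext x
      show Additive.ofMul (σ.symm (σ (Additive.toMul x))) = x
      simp
  apply prim_root (V := Additive A) hpq Y
  · ext x
    rw [hYk, hfq]
    simp
  · intro v hv
    have : f (Additive.toMul v) = Additive.toMul v := congrArg Additive.toMul hv
    exact congrArg Additive.ofMul (hfpf _ this)
  · exact inferInstance
  · intro v w hv hw
    obtain ⟨σ, k, h1, h2⟩ := hA (Additive.toMul v) (Additive.toMul w) hv hw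
    obtain ⟨σ', hσ'⟩ := hconv σ
    refine ⟨σ', k, ?_, ?_⟩
    · rw [hσ', h1]; rfl
    · intro x
      rw [hYk, hσ', hσ', hY]
      simp only [toMul_ofMul]
      rw [h2]
  · intro k hk
    obtain ⟨σ, h2⟩ := hB k hk
    obtain ⟨σ', hσ'⟩ := hconv σ
    refine ⟨σ', ?_⟩
    intro x
    rw [hYk, hσ', hσ', hY]
    simp only [toMul_ofMul]
    rw [h2]

theorem F1 [Finite A] (hpq : p ≠ q) (hexp : ∀ a : A, a ^ p = 1) (hnt : Nontrivial A) (f : A →* A)
    (hfq : ∀ a, f^[q] a = a) (hfpf : ∀ a, f a = a → a = 1)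
    (hA : ∀ v w : A, v ≠ 1 → w ≠ 1 → ∃ (σ : A ≃* A) (k : ℕ), σ v = w ∧ ∀ x, σ (f x) = f^[k] (σ x))
    (hB : ∀ k : ℕ, k.Coprime q → ∃ σ : A ≃* A, ∀ x, σ (f x) = f^[k] (σ x)) :
    orderOf (p : ZMod q) = q - 1 :=
  letI := mkMod (p := p) hexp
  F1_aux hpq hnt f hfq hfpf hA hB

theorem B1_aux [Module (ZMod p) (Additive A)] (hpq : p ≠ q) (f : A →* A)
    (hfq : ∀ a, f^[q] a = a) (hfpf : ∀ a, f a = a → a = 1)
    (hord : orderOf (p : ZMod q) = q - 1) :
    (∀ v w : A, v ≠ 1 → w ≠ 1 → ∃ τ : A ≃* A, τ v = w ∧ ∀ x, τ (f x) = f (τ x)) ∧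
    (∀ k : ℕ, k.Coprime q → ∃ τ : A ≃* A, ∀ x, τ (f x) = f^[k] (τ x)) := by
  let Y : Module.End (ZMod p) (Additive A) := (MonoidHom.toAdditive f).toZModLinearMap p
  have hY : ∀ x : Additive A, Y x = Additive.ofMul (f (Additive.toMul x)) := fun _ => rfl
  have hYk : ∀ (k : ℕ) (x : Additive A), (Y ^ k) x = Additive.ofMul (f^[k] (Additive.toMul x)) := by
    intro k
    induction k with
    | zero => intro x; simp
    | succ n ih =>
      intro x
      rw [pow_succ', Module.End.mul_apply, ih, hY, Function.iterate_succ_apply']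
      rfl
  have hmain := semi_exists (V := Additive A) hpq Y (by
      ext x
      rw [hYk, hfq]
      simp) (by
      intro v hv
      have : f (Additive.toMul v) = Additive.toMul v := congrArg Additive.toMul hv
      exact congrArg Additive.ofMul (hfpf _ this)) hord
  have hconv : ∀ τ : Additive A ≃+ Additive A, ∃ τ' : A ≃* A, ∀ x, τ' x = Additive.toMul (τ (Additive.ofMul x)) := by
    intro τ
    refine ⟨{ toFun := fun x => Additive.toMul (τ (Additive.ofMul x)),
              invFun := fun x => Additive.toMul (τ.symm (Additive.ofMul x)),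
              left_inv := fun x => by simp,
              right_inv := fun x => by simp,
              map_mul' := fun x y => by
                show Additive.toMul (τ (Additive.ofMul x + Additive.ofMul y)) = _
                rw [map_add]
                rfl }, fun _ => rfl⟩
  constructor
  · intro v w hv hw
    obtain ⟨τ, h1, h2⟩ := hmain.1 (Additive.ofMul v) (Additive.ofMul w) hv hw
    obtain ⟨τ', hτ'⟩ := hconv τ
    refine ⟨τ', ?_, ?_⟩
    · rw [hτ', h1]; rfl
    · intro x
      rw [hτ', hτ']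
      have := h2 (Additive.ofMul x)
      rw [hY, hY] at this
      simp only [toMul_ofMul] at this
      rw [this]
      simp
  · intro k hk
    obtain ⟨τ, h2⟩ := hmain.2 k hk
    obtain ⟨τ', hτ'⟩ := hconv τ
    refine ⟨τ', ?_⟩
    intro x
    rw [hτ', hτ']
    have := h2 (Additive.ofMul x)
    rw [hY, hYk] at this
    simp only [toMul_ofMul] at this
    rw [this]
    simp

theorem B1 (hpq : p ≠ q) (hexp : ∀ a : A, a ^ p = 1) (f : A →* A)
    (hfq : ∀ a, f^[q] a = a) (hfpf : ∀ a, f a = a → a = 1)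
    (hord : orderOf (p : ZMod q) = q - 1) :
    (∀ v w : A, v ≠ 1 → w ≠ 1 → ∃ τ : A ≃* A, τ v = w ∧ ∀ x, τ (f x) = f (τ x)) ∧
    (∀ k : ℕ, k.Coprime q → ∃ τ : A ≃* A, ∀ x, τ (f x) = f^[k] (τ x)) :=
  letI := mkMod (p := p) hexp
  B1_aux hpq f hfq hfpf hord

end L3

end Cfsg.Agent.H12.CA
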