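import Mathlib

/-! Involutions and index-two subgroups of dihedral groups of order divisible by 8. -/

namespace Cfsg.Agent.H12.DihInv

open DihedralGroup

variable {m : ℕ} [NeZero m]

/-- Parity on `ZMod m`, `m` even. -/
def par (h2 : 2 ∣ m) : ZMod m →+* ZMod 2 := ZMod.castHom h2 (ZMod 2)

lemma par_one (h2 : 2 ∣ m) : par h2 1 = 1 := map_one _

lemma par_natCast (h2 : 2 ∣ m) (c : ℕ) : par h2 (c : ZMod m) = (c : ZMod 2) := map_natCast _ c

/-- The homomorphism with kernel the rotations. -/
def alpha : DihedralGroup m →* Multiplicative (ZMod 2) where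
  toFun x := match x with
    | r _ => Multiplicative.ofAdd 0
    | sr _ => Multiplicative.ofAdd 1
  map_one' := rfl
  map_mul' := by
    rintro (i | i) (j | j)
    · rfl
    · rfl
    · rfl
    · rw [sr_mul_sr]
      show Multiplicative.ofAdd (0 : ZMod 2) =
        Multiplicative.ofAdd (1 : ZMod 2) * Multiplicative.ofAdd (1 : ZMod 2)
      decide

/-- The homomorphism with kernel `{r even, sr even}`. -/
def beta (h2 : 2 ∣ m) : DihedralGroup m →* Multiplicative (ZMod 2) where
  toFun x := match x with
    | r i => Multiplicative.ofAdd (par h2 i)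
    | sr i => Multiplicative.ofAdd (par h2 i)
  map_one' := by
    show Multiplicative.ofAdd (par h2 0) = 1
    simp
  map_mul' := by
    have key : ∀ a b : ZMod 2, b - a = a + b := by decide
    rintro (i | i) (j | j)
    · show Multiplicative.ofAdd (par h2 (i + j)) = _
      rw [map_add]; rfl
    · show Multiplicative.ofAdd (par h2 (j - i)) = _
      rw [map_sub, key]; rfl
    · show Multiplicative.ofAdd (par h2 (i + j)) = _
      rw [map_add]; rfl
    · show Multiplicative.ofAdd (par h2 (j - i)) = _
      rw [map_sub, key]; rfl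

/-- The homomorphism with kernel `{r even, sr odd}`. -/
def gamma (h2 : 2 ∣ m) : DihedralGroup m →* Multiplicative (ZMod 2) where
  toFun x := match x with
    | r i => Multiplicative.ofAdd (par h2 i)
    | sr i => Multiplicative.ofAdd (par h2 i + 1)
  map_one' := by
    show Multiplicative.ofAdd (par h2 0) = 1
    simp
  map_mul' := by
    have key : ∀ a b : ZMod 2, b - a = a + b := by decide
    have key2 : ∀ a b : ZMod 2, b - a + 1 = a + (b + 1) := by decide
    have key3 : ∀ a b : ZMod 2, a + b + 1 = a + 1 + b := by decide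
    have key4 : ∀ a b : ZMod 2, b - a = a + 1 + (b + 1) := by decide
    rintro (i | i) (j | j)
    · show Multiplicative.ofAdd (par h2 (i + j)) = _
      rw [map_add]; rfl
    · show Multiplicative.ofAdd ((par h2 (j - i) + 1 : ZMod 2)) =
        Multiplicative.ofAdd ((par h2 i + (par h2 j + 1) : ZMod 2))
      rw [map_sub (par h2) j i, key2]
    · show Multiplicative.ofAdd ((par h2 (i + j) + 1 : ZMod 2)) =
        Multiplicative.ofAdd ((par h2 i + 1 + par h2 j : ZMod 2))
      rw [map_add (par h2) i j, key3]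
    · show Multiplicative.ofAdd (par h2 (j - i)) =
        Multiplicative.ofAdd ((par h2 i + 1 + (par h2 j + 1) : ZMod 2))
      rw [map_sub, key4]

@[simp] lemma alpha_r (i : ZMod m) : alpha (r i) = 1 := rfl
@[simp] lemma alpha_sr (i : ZMod m) : alpha (sr i) = Multiplicative.ofAdd 1 := rfl
lemma beta_r (h2 : 2 ∣ m) (i : ZMod m) : beta h2 (r i) = Multiplicative.ofAdd (par h2 i) := rfl
lemma beta_sr (h2 : 2 ∣ m) (i : ZMod m) : beta h2 (sr i) = Multiplicative.ofAdd (par h2 i) := rfl
lemma gamma_r (h2 : 2 ∣ m) (i : ZMod m) : gamma h2 (r i) = Multiplicative.ofAdd (par h2 i) := rfl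
lemma gamma_sr (h2 : 2 ∣ m) (i : ZMod m) :
    gamma h2 (sr i) = Multiplicative.ofAdd (par h2 i + 1) := rfl

lemma ofAdd_one_ne : (Multiplicative.ofAdd (1 : ZMod 2)) ≠ 1 := by decide

lemma surj_of_ne {X : Type*} [Group X] (f : X →* Multiplicative (ZMod 2)) (x : X) (hx : f x ≠ 1) :
    Function.Surjective f := by
  have h : ∀ y : Multiplicative (ZMod 2), y = 1 ∨ y = Multiplicative.ofAdd 1 := by decide
  intro y
  rcases h y with rfl | rfl
  · exact ⟨1, map_one f⟩
  · refine ⟨x, ?_⟩
    rcases h (f x) with h1 | h1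
    · exact absurd h1 hx
    · exact h1

/-- Solutions of `2 y = 0` in `ZMod (2 t)`. -/
lemma eq_zero_or_half {t : ℕ} (hm : m = 2 * t) (i : ZMod m) (h2 : i + i = 0) :
    i = 0 ∨ i = (t : ZMod m) := by
  by_cases h3 : i = 0
  · exact Or.inl h3
  right
  have hpos : 0 < m := NeZero.pos m
  have hval : i.val < m := ZMod.val_lt i
  have h4 : ((i.val + i.val : ℕ) : ZMod m) = 0 := by
    push_cast
    rw [ZMod.natCast_zmod_val]
    exact h2
  rw [ZMod.natCast_eq_zero_iff] at h4
  have h5 : i.val ≠ 0 := by
    intro h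
    exact h3 ((ZMod.val_eq_zero i).mp h)
  have h6 : i.val + i.val = m := by
    obtain ⟨c, hc⟩ := h4
    have hc1 : c = 1 := by
      have : c * m < 2 * m := by nlinarith
      have hc0 : c ≠ 0 := by
        rintro rfl
        omega
      have : c < 2 := by
        by_contra hh
        have : 2 * m ≤ c * m := Nat.mul_le_mul_right m (by omega)
        omega
      omega
    rw [hc, hc1]
    ring
  have h7 : i.val = t := by omega
  rw [← h7, ZMod.natCast_zmod_val]

/-- Involutions of the dihedral group. -/
lemma involution_cases {t : ℕ} (hm : m = 2 * t) (x : DihedralGroup m) (hx : orderOf x = 2) :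
    x = r (t : ZMod m) ∨ ∃ i, x = sr i := by
  rcases x with i | i
  · left
    have h1 : r (i + i) = 1 := by
      have := pow_orderOf_eq_one (r i)
      rw [hx, pow_two] at this
      simpa using this
    have h2 : i + i = 0 := by
      have h3 : (r (i + i) : DihedralGroup m) = r 0 := h1
      exact r.inj h3
    have h3 : i ≠ 0 := by
      rintro rfl
      have : orderOf (r (0 : ZMod m)) = 1 := by
        rw [orderOf_eq_one_iff]; rfl
      omega
    congr 1
    -- `i + i = 0` in `ZMod (2 t)`
    have hpos : 0 < m := NeZero.pos m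
    have hval : i.val < m := ZMod.val_lt i
    have h4 : ((i.val + i.val : ℕ) : ZMod m) = 0 := by
      push_cast
      rw [ZMod.natCast_zmod_val]
      exact h2
    rw [ZMod.natCast_eq_zero_iff] at h4
    have h5 : i.val ≠ 0 := by
      intro h
      exact h3 ((ZMod.val_eq_zero i).mp h)
    have h6 : i.val + i.val = m := by
      obtain ⟨c, hc⟩ := h4
      have hc1 : c = 1 := by
        have : c * m < 2 * m := by nlinarith
        have hc0 : c ≠ 0 := by
          rintro rfl
          omega
        have : c < 2 := by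
          by_contra hh
          have : 2 * m ≤ c * m := Nat.mul_le_mul_right m (by omega)
          omega
        omega
      rw [hc, hc1]
      ring
    have h7 : i.val = t := by omega
    rw [← h7, ZMod.natCast_zmod_val]
  · right
    exact ⟨i, rfl⟩

lemma conj_sr (c i : ZMod m) : (r c : DihedralGroup m) * sr i * (r c)⁻¹ = sr (i - 2 * c) := by
  rw [inv_r, r_mul_sr, sr_mul_r]
  congr 1
  ring

/-- Even reflections are conjugate to `sr 0`, odd ones to `sr 1`. -/
lemma exists_conj_sr (h2 : 2 ∣ m) (i : ZMod m) :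
    ∃ c : DihedralGroup m, (par h2 i = 0 ∧ c * sr i * c⁻¹ = sr 0) ∨
      (par h2 i = 1 ∧ c * sr i * c⁻¹ = sr 1) := by
  rcases Nat.even_or_odd' i.val with ⟨c, hc | hc⟩
  · refine ⟨r (c : ZMod m), Or.inl ⟨?_, ?_⟩⟩
    · rw [← ZMod.natCast_zmod_val i, par_natCast, hc]
      push_cast
      have : (2 : ZMod 2) = 0 := by decide
      rw [this, zero_mul]
    · rw [conj_sr]
      congr 1
      rw [sub_eq_zero]
      conv_lhs => rw [← ZMod.natCast_zmod_val i, hc]
      push_cast
      ring
  · refine ⟨r (c : ZMod m), Or.inr ⟨?_, ?_⟩⟩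
    · rw [← ZMod.natCast_zmod_val i, par_natCast, hc]
      push_cast
      have : (2 : ZMod 2) = 0 := by decide
      rw [this, zero_mul, zero_add]
    · rw [conj_sr]
      congr 1
      rw [sub_eq_iff_eq_add]
      conv_lhs => rw [← ZMod.natCast_zmod_val i, hc]
      push_cast
      ring

lemma orderOf_sr' (i : ZMod m) : orderOf (sr i : DihedralGroup m) = 2 := orderOf_sr i

/-- `r t` is an involution when `m = 2 t` and `t ≠ 0`. -/
lemma orderOf_r_half {t : ℕ} (hm : m = 2 * t) (ht : 0 < t) :
    orderOf (r (t : ZMod m) : DihedralGroup m) = 2 := by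
  apply orderOf_eq_prime
  · rw [pow_two, r_mul_r]
    have : ((t : ZMod m) + t) = 0 := by
      have h1 : ((t + t : ℕ) : ZMod m) = 0 := by
        rw [ZMod.natCast_eq_zero_iff, hm]
        exact ⟨1, by ring⟩
      simpa using h1
    rw [this]
    rfl
  · intro h
    have h3 : (r (t : ZMod m) : DihedralGroup m) = r 0 := h
    have h4 := r.inj h3
    rw [ZMod.natCast_eq_zero_iff, hm] at h4
    have := Nat.le_of_dvd ht h4
    omega

/-- Generation by the two reflections. -/
lemma closure_sr_zero_one : Subgroup.closure ({sr 0, sr 1} : Set (DihedralGroup m)) = ⊤ := by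
  rw [eq_top_iff]
  rintro x -
  have h0 : (sr 0 : DihedralGroup m) ∈ Subgroup.closure ({sr 0, sr 1} : Set (DihedralGroup m)) :=
    Subgroup.subset_closure (by simp)
  have h1 : (sr 1 : DihedralGroup m) ∈ Subgroup.closure ({sr 0, sr 1} : Set (DihedralGroup m)) :=
    Subgroup.subset_closure (by simp)
  have hr1 : (r 1 : DihedralGroup m) ∈ Subgroup.closure ({sr 0, sr 1} : Set (DihedralGroup m)) := by
    have : (r 1 : DihedralGroup m) = sr 0 * sr 1 := by
      rw [sr_mul_sr]
      simp
    rw [this]
    exact Subgroup.mul_mem _ h0 h1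
  have hr : ∀ i : ZMod m, (r i : DihedralGroup m) ∈ Subgroup.closure ({sr 0, sr 1} : Set (DihedralGroup m)) := by
    intro i
    have : (r i : DihedralGroup m) = (r 1) ^ i.val := by
      rw [r_one_pow, ZMod.natCast_zmod_val]
    rw [this]
    exact Subgroup.pow_mem _ hr1 _
  rcases x with i | i
  · exact hr i
  · have : (sr i : DihedralGroup m) = sr 0 * r i := by
      rw [sr_mul_r, zero_add]
    rw [this]
    exact Subgroup.mul_mem _ h0 (hr i)

/-- Commutator producing `r (2 j)`. -/
lemma comm_r_sr (j : ZMod m) :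
    (r j : DihedralGroup m) * sr 0 * (r j)⁻¹ * (sr 0)⁻¹ = r (2 * j) := by
  rw [conj_sr, inv_sr, sr_mul_sr]
  congr 1
  ring

end Cfsg.Agent.H12.DihInv
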