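import Mathlib
import Cfsg.Agent.Lib.H12.DihInv
import Cfsg.Agent.S0111
import Cfsg.Agent.S1254

/-! Involution classes in finite groups with dihedral Sylow 2-subgroups. -/

namespace Cfsg.Agent.H12.DihClasses

open DihedralGroup Cfsg.Agent.H12.DihInv
open scoped Pointwise

variable {G : Type*} [Group G] [Finite G] (P : Sylow 2 G) {m : ℕ} [NeZero m]
  (e : ↥(P : Subgroup G) ≃* DihedralGroup m)

/-- The embedding of the dihedral group. -/
noncomputable def iota : DihedralGroup m →* G :=
  (P : Subgroup G).subtype.comp e.symm.toMonoidHom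

lemma iota_mem (x : DihedralGroup m) : iota P e x ∈ (P : Subgroup G) := (e.symm x).2

lemma iota_inj : Function.Injective (iota P e) := by
  intro x y h
  exact e.symm.injective (Subtype.ext h)

lemma iota_surj (g : G) (hg : g ∈ (P : Subgroup G)) : ∃ x, iota P e x = g :=
  ⟨e ⟨g, hg⟩, by simp [iota]⟩

lemma orderOf_iota (x : DihedralGroup m) : orderOf (iota P e x) = orderOf x :=
  orderOf_injective _ (iota_inj P e) x

/-- Every involution of `G` is conjugate to an involution of the dihedral Sylow subgroup. -/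
lemma exists_conj_iota (u : G) (hu : orderOf u = 2) :
    ∃ x : DihedralGroup m, orderOf x = 2 ∧ IsConj u (iota P e x) := by
  haveI : Fact (Nat.Prime 2) := ⟨Nat.prime_two⟩
  have hpg : IsPGroup 2 (Subgroup.zpowers u) := by
    rintro ⟨_, z, rfl⟩
    refine ⟨1, ?_⟩
    apply Subtype.ext
    show (u ^ z) ^ 2 ^ 1 = 1
    rw [pow_one, ← zpow_natCast, ← zpow_mul, mul_comm, zpow_mul, zpow_natCast, ← hu,
      pow_orderOf_eq_one, one_zpow]
  obtain ⟨Q, hQ⟩ := hpg.exists_le_sylow
  obtain ⟨g, rfl⟩ := MulAction.exists_smul_eq G P Q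
  have hmem : u ∈ ((g • P : Sylow 2 G) : Subgroup G) := hQ (Subgroup.mem_zpowers u)
  rw [Sylow.coe_subgroup_smul, Subgroup.mem_pointwise_smul_iff_inv_smul_mem] at hmem
  have h1 : g⁻¹ * u * g ∈ (P : Subgroup G) := by
    have h3 : (MulAut.conj g)⁻¹ • u = g⁻¹ * u * g := by
      simp [MulAut.smul_def, MulAut.conj_symm_apply]
    rw [h3] at hmem
    exact hmem
  obtain ⟨x, hx⟩ := iota_surj P e _ h1
  refine ⟨x, ?_, ?_⟩
  · rw [← orderOf_iota P e, hx]
    have : g⁻¹ * u * g = (MulAut.conj g⁻¹) u := by
      simp [MulAut.conj_apply]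
    rw [this, MulEquiv.orderOf_eq, hu]
  · rw [hx]
    rw [isConj_iff]
    exact ⟨g⁻¹, by group⟩

/-- Thompson's transfer lemma, in terms of a homomorphism of the dihedral group to `ℤ/2`. -/
lemma thompson_hom (ψ : DihedralGroup m →* Multiplicative (ZMod 2)) (u : DihedralGroup m)
    (hu : orderOf u = 2) (hψ : ψ u ≠ 1) :
    (∃ M : Subgroup G, M.Normal ∧ M.index = 2 ∧ iota P e u ∉ M) ∨
      ∃ x : DihedralGroup m, ψ x = 1 ∧ orderOf x = 2 ∧ IsConj (iota P e u) (iota P e x) := by
  classical
  let Ψ : ↥(P : Subgroup G) →* Multiplicative (ZMod 2) := ψ.comp e.toMonoidHom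
  let Q : Subgroup G := Ψ.ker.map (P : Subgroup G).subtype
  have hQP : Q ≤ (P : Subgroup G) := by
    rintro _ ⟨x, _, rfl⟩
    exact x.2
  have hQsub : Q.subgroupOf (P : Subgroup G) = Ψ.ker := by
    ext x
    constructor
    · rintro ⟨y, hy, hyx⟩
      have : y = x := Subtype.ext hyx
      rwa [← this]
    · intro hx
      exact ⟨x, hx, rfl⟩
  have hΨs : Function.Surjective Ψ := by
    apply surj_of_ne Ψ (e.symm u)
    show ψ (e (e.symm u)) ≠ 1
    rw [e.apply_symm_apply]
    exact hψ
  have hQi : Q.relIndex (P : Subgroup G) = 2 := by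
    rw [Subgroup.relIndex, hQsub, Subgroup.index_ker, MonoidHom.range_eq_top.mpr hΨs]
    simp
  have huQ : iota P e u ∉ Q := by
    rintro ⟨y, hy, hyx⟩
    have h1 : y = e.symm u := Subtype.ext hyx
    rw [h1] at hy
    apply hψ
    have h2 : Ψ (e.symm u) = 1 := hy
    have h3 : Ψ (e.symm u) = ψ u := by
      show ψ (e (e.symm u)) = ψ u
      rw [e.apply_symm_apply]
    rwa [h3] at h2
  rcases Cfsg.Agent.S0111.result P Q hQP hQi (iota P e u) (by rw [orderOf_iota, hu])
    (iota_mem P e u) huQ with h | ⟨g, hg⟩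
  · exact Or.inl h
  · right
    obtain ⟨y, hy, hyx⟩ := hg
    refine ⟨e y, hy, ?_, ?_⟩
    · rw [← orderOf_iota P e]
      have h1 : iota P e (e y) = g * iota P e u * g⁻¹ := by
        rw [← hyx]
        simp [iota]
      rw [h1]
      have : g * iota P e u * g⁻¹ = (MulAut.conj g) (iota P e u) := by
        simp [MulAut.conj_apply]
      rw [this, MulEquiv.orderOf_eq, orderOf_iota, hu]
    · have h1 : iota P e (e y) = g * iota P e u * g⁻¹ := by
        rw [← hyx]
        simp [iota]
      rw [h1, isConj_iff]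
      exact ⟨g, rfl⟩

/-- If a subgroup contains the images of the two basic reflections, it contains `P`. -/
lemma sylow_le_of_sr (N : Subgroup G) (h0 : iota P e (sr 0) ∈ N) (h1 : iota P e (sr 1) ∈ N) :
    (P : Subgroup G) ≤ N := by
  intro g hg
  obtain ⟨x, rfl⟩ := iota_surj P e g hg
  have hx : x ∈ Subgroup.closure ({sr 0, sr 1} : Set (DihedralGroup m)) := by
    rw [closure_sr_zero_one]
    trivial
  have hle : Subgroup.closure ({sr 0, sr 1} : Set (DihedralGroup m)) ≤ N.comap (iota P e) := by
    rw [Subgroup.closure_le]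
    rintro _ (rfl | rfl)
    · exact h0
    · exact h1
  exact hle hx

/-- Commutators lie in normal subgroups of index `2` or `4`. -/
lemma comm_mem_of_index (N : Subgroup G) [hN : N.Normal] (hi : N.index = 2 ∨ N.index = 4)
    (x y : G) : x * y * x⁻¹ * y⁻¹ ∈ N := by
  haveI : Fact (Nat.Prime 2) := ⟨Nat.prime_two⟩
  have hcomm : IsMulCommutative (G ⧸ N) := by
    rcases hi with h | h
    · have hc : Nat.card (G ⧸ N) = 2 := h
      haveI : IsCyclic (G ⧸ N) := isCyclic_of_prime_card hc
      let _ := IsCyclic.commGroup (α := G ⧸ N)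
      exact ⟨⟨fun a b => mul_comm a b⟩⟩
    · have hc : Nat.card (G ⧸ N) = 2 ^ 2 := by
        show N.index = 2 ^ 2
        rw [h]
        norm_num
      exact IsPGroup.isMulCommutative_of_card_eq_prime_sq hc
  have h1 : ((x * y * x⁻¹ * y⁻¹ : G) : G ⧸ N) = 1 := by
    have := hcomm.is_comm.comm (x : G ⧸ N) (y : G ⧸ N)
    rw [QuotientGroup.mk_mul, QuotientGroup.mk_mul, QuotientGroup.mk_mul, QuotientGroup.mk_inv,
      QuotientGroup.mk_inv, this]
    group
  exact (QuotientGroup.eq_one_iff _).mp h1

lemma iota_conj_sr (x : DihedralGroup m) (y : DihedralGroup m) :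
    IsConj (iota P e y) (iota P e (x * y * x⁻¹)) := by
  rw [isConj_iff]
  exact ⟨iota P e x, by simp⟩

lemma conj_iota_sr (h2 : 2 ∣ m) (i : ZMod m) :
    (par h2 i = 0 ∧ IsConj (iota P e (sr i)) (iota P e (sr 0))) ∨
      (par h2 i = 1 ∧ IsConj (iota P e (sr i)) (iota P e (sr 1))) := by
  obtain ⟨c, hc | hc⟩ := exists_conj_sr h2 i
  · left
    refine ⟨hc.1, ?_⟩
    rw [← hc.2]
    exact iota_conj_sr P e c _
  · right
    refine ⟨hc.1, ?_⟩
    rw [← hc.2]
    exact iota_conj_sr P e c _

/-- The central involution lies in normal subgroups of index `2` or `4`. -/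
lemma z_mem_of_index {t w : ℕ} (ht : t = 2 * w) (N : Subgroup G) [hN : N.Normal]
    (hi : N.index = 2 ∨ N.index = 4) : iota P e (r (t : ZMod m)) ∈ N := by
  have h1 : (r (t : ZMod m) : DihedralGroup m) = r (w : ZMod m) * sr 0 * (r (w : ZMod m))⁻¹ * (sr 0)⁻¹ := by
    rw [comm_r_sr, ht]
    push_cast
    rfl
  rw [h1]
  simp only [map_mul, map_inv]
  exact comm_mem_of_index N hi _ _

/-- No normal subgroup of index two when all reflections are conjugate to the centre. -/
lemma no_index_two {t w : ℕ} (ht : t = 2 * w) (h0 : IsConj (iota P e (sr 0)) (iota P e (r (t : ZMod m))))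
    (h1 : IsConj (iota P e (sr 1)) (iota P e (r (t : ZMod m)))) (N : Subgroup G) (hN : N.Normal) :
    N.index ≠ 2 := by
  intro hi
  haveI : Fact (Nat.Prime 2) := ⟨Nat.prime_two⟩
  have hz := z_mem_of_index P e ht N (Or.inl hi)
  have hc : ∀ y, IsConj y (iota P e (r (t : ZMod m))) → y ∈ N := by
    intro y hy
    obtain ⟨g, hg⟩ := isConj_iff.mp hy.symm
    rw [← hg]
    exact hN.conj_mem _ hz g
  have hle := sylow_le_of_sr P e N (hc _ h0) (hc _ h1)
  have h2 := Subgroup.index_dvd_of_le hle
  rw [hi] at h2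
  exact P.not_dvd_index h2

/-- No normal subgroup of index four when one reflection is conjugate to the centre. -/
lemma no_index_four {t w : ℕ} (ht : t = 2 * w) {c₁ c₂ : ZMod m}
    (hc12 : (c₁ = 0 ∧ c₂ = 1) ∨ (c₁ = 1 ∧ c₂ = 0))
    (h0 : IsConj (iota P e (sr c₁)) (iota P e (r (t : ZMod m)))) (N : Subgroup G) (hN : N.Normal) :
    N.index ≠ 4 := by
  intro hi
  haveI : Fact (Nat.Prime 2) := ⟨Nat.prime_two⟩
  have hz := z_mem_of_index P e ht N (Or.inr hi)
  have hc : iota P e (sr c₁) ∈ N := by
    obtain ⟨g, hg⟩ := isConj_iff.mp h0.symm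
    rw [← hg]
    exact hN.conj_mem _ hz g
  set C := Subgroup.zpowers (iota P e (sr c₂)) with hC
  set N₂ := C ⊔ N with hN₂
  have hc₂ : iota P e (sr c₂) ∈ N₂ :=
    (le_sup_left : C ≤ N₂) (Subgroup.mem_zpowers _)
  have hc₁ : iota P e (sr c₁) ∈ N₂ := (le_sup_right : N ≤ N₂) hc
  have hle : (P : Subgroup G) ≤ N₂ := by
    rcases hc12 with ⟨rfl, rfl⟩ | ⟨rfl, rfl⟩
    · exact sylow_le_of_sr P e N₂ hc₁ hc₂
    · exact sylow_le_of_sr P e N₂ hc₂ hc₁
  have hodd : ¬ 2 ∣ N₂.index := fun h => P.not_dvd_index (h.trans (Subgroup.index_dvd_of_le hle))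
  have hrel : N.relIndex N₂ ∣ 2 := by
    rw [hN₂, Subgroup.relIndex_sup_right]
    have h1 := Subgroup.relIndex_dvd_card N C
    have h2 : Nat.card C = 2 := by
      rw [hC, Nat.card_zpowers, orderOf_iota]
      exact orderOf_sr _
    rwa [h2] at h1
  have hmul := Subgroup.relIndex_mul_index (le_sup_right : N ≤ N₂)
  rw [hi] at hmul
  have hr : N.relIndex N₂ = 1 ∨ N.relIndex N₂ = 2 := (Nat.dvd_prime Nat.prime_two).mp hrel
  rcases hr with h | h
  · rw [h, one_mul] at hmul
    exact hodd (by rw [hmul]; norm_num)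
  · rw [h] at hmul
    have h5 : 2 * N₂.index = 2 * 2 := hmul
    have : N₂.index = 2 := Nat.eq_of_mul_eq_mul_left (by norm_num) h5
    exact hodd (by rw [this])

/-- Thompson's lemma produces a normal subgroup of index two in the two-class situation. -/
lemma exists_index_two (ψ : DihedralGroup m →* Multiplicative (ZMod 2)) {t : ℕ} (hm : m = 2 * t)
    {c₁ c₂ : ZMod m} (hψ : ψ (sr c₂) ≠ 1)
    (hψ' : ∀ i, ψ (sr i) = 1 → IsConj (iota P e (sr i)) (iota P e (sr c₁)))
    (h0 : IsConj (iota P e (sr c₁)) (iota P e (r (t : ZMod m))))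
    (h1 : ¬ IsConj (iota P e (sr c₂)) (iota P e (r (t : ZMod m)))) :
    ∃ M : Subgroup G, M.Normal ∧ M.index = 2 := by
  rcases thompson_hom P e ψ (sr c₂) (orderOf_sr _) hψ with ⟨M, hM, hMi, -⟩ | ⟨x, hx1, hx2, hx3⟩
  · exact ⟨M, hM, hMi⟩
  · exfalso
    apply h1
    rcases involution_cases hm x hx2 with rfl | ⟨i, rfl⟩
    · exact hx3
    · exact hx3.trans ((hψ' i hx1).trans h0)

/-- Two elements of a finite subgroup of order 4. -/
lemma exists_mem_ne_pair (U : Subgroup G) (hU : Nat.card U = 4) (y₁ y₂ : G) :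
    ∃ x ∈ U, x ≠ y₁ ∧ x ≠ y₂ := by
  by_contra hc
  push Not at hc
  have hsub : (U : Set G) ⊆ {y₁, y₂} := by
    intro x hx
    by_cases h : x = y₁
    · exact Or.inl h
    · exact Or.inr (hc x hx h)
  have h1 := Set.ncard_le_ncard hsub (Set.toFinite _)
  have h2 : (U : Set G).ncard = 4 := by
    rw [← hU]
    rfl
  have h3 : ({y₁, y₂} : Set G).ncard ≤ 2 := by
    have h4 := Set.ncard_insert_le y₁ ({y₂} : Set G)
    rw [Set.ncard_singleton] at h4
    exact h4
  omega

/-- Commuting reflections. -/
lemma refl_comm {t : ℕ} (hm : m = 2 * t) (i j : ZMod m)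
    (h : (sr i : DihedralGroup m) * sr j = sr j * sr i) : j = i ∨ j = i + (t : ZMod m) := by
  rw [sr_mul_sr, sr_mul_sr] at h
  have h1 : j - i = i - j := r.inj h
  have h2 : (j - i) + (j - i) = 0 := by
    nth_rw 2 [h1]
    ring
  rcases eq_zero_or_half hm _ h2 with h3 | h3
  · left
    exact sub_eq_zero.mp h3
  · right
    rw [← h3]
    ring

/-- The Klein four condition, if no reflection is conjugate to the central involution. -/
theorem normalizer_klein {t w : ℕ} (hm : m = 2 * t) (ht : t = 2 * w) (hw : 0 < w)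
    (hrefl : ∀ i, ¬ IsConj (iota P e (sr i)) (iota P e (r (t : ZMod m))))
    (U : Subgroup G) (hUP : U ≤ (P : Subgroup G)) (hK : IsKleinFour U) :
    Subgroup.normalizer (U : Set G) =
      Subgroup.centralizer (U : Set G) ⊔ ((P : Subgroup G) ⊓ Subgroup.normalizer (U : Set G)) := by
  classical
  set z := iota P e (r (t : ZMod m)) with hz
  have hexp : ∀ v ∈ U, v * v = 1 := by
    intro v hv
    have h1 : (⟨v, hv⟩ : U) ^ Monoid.exponent U = 1 := Monoid.pow_exponent_eq_one _
    rw [hK.exponent_two, pow_two] at h1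
    exact congrArg Subtype.val h1
  have hcomm : ∀ v ∈ U, ∀ v' ∈ U, v * v' = v' * v := by
    intro v hv v' hv'
    have h1 := hexp _ (U.mul_mem hv hv')
    have h2 := hexp _ hv
    have h3 := hexp _ hv'
    calc v * v' = v * v' * (v' * v * (v' * v)) := by rw [hexp _ (U.mul_mem hv' hv), mul_one]
      _ = v * (v' * v') * v * (v' * v) := by group
      _ = v' * v := by rw [h3, mul_one, h2, one_mul]
  have hcard : Nat.card U = 4 := hK.card_four
  obtain ⟨u₁, hu₁, hu₁1, hu₁z⟩ := exists_mem_ne_pair U hcard 1 z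
  -- `u₁` is a reflection
  have hinv : ∀ v ∈ U, v ≠ 1 → ∃ y : DihedralGroup m, orderOf y = 2 ∧ iota P e y = v := by
    intro v hv hv1
    obtain ⟨y, rfl⟩ := iota_surj P e v (hUP hv)
    refine ⟨y, ?_, rfl⟩
    rw [← orderOf_iota P e]
    apply orderOf_eq_prime
    · rw [pow_two]
      exact hexp _ hv
    · exact hv1
  obtain ⟨x₁, hx₁, rfl⟩ := hinv u₁ hu₁ hu₁1
  obtain ⟨i, rfl⟩ : ∃ i, x₁ = sr i := by
    rcases involution_cases hm x₁ hx₁ with rfl | h
    · exact absurd rfl hu₁z
    · exact h
  set u := iota P e (sr i) with hu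
  have huz : u * z = iota P e (sr (i + (t : ZMod m))) := by
    rw [hu, hz, ← map_mul, sr_mul_r]
  -- the structure of `U`
  have hstruct : ∀ v ∈ U, v = 1 ∨ v = z ∨ v = u ∨ v = u * z := by
    intro v hv
    by_cases hv1 : v = 1
    · exact Or.inl hv1
    right
    obtain ⟨y, hy, rfl⟩ := hinv v hv hv1
    rcases involution_cases hm y hy with rfl | ⟨j, rfl⟩
    · exact Or.inl rfl
    right
    have h1 : (sr i : DihedralGroup m) * sr j = sr j * sr i := by
      apply iota_inj P e
      rw [map_mul, map_mul]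
      exact hcomm _ hu₁ _ hv
    rcases refl_comm hm i j h1 with rfl | rfl
    · exact Or.inl rfl
    · exact Or.inr huz.symm
  obtain ⟨u₂, hu₂, hu₂1, hu₂u⟩ := exists_mem_ne_pair U hcard 1 u
  have hzU : z ∈ U := by
    rcases hstruct u₂ hu₂ with h | h | h | h
    · exact absurd h hu₂1
    · rwa [h] at hu₂
    · exact absurd h hu₂u
    · have h3 : z = u * u₂ := by
        rw [h, ← mul_assoc, hexp _ hu₁, one_mul]
      rw [h3]
      exact U.mul_mem hu₁ hu₂
  have huzU : u * z ∈ U := U.mul_mem hu₁ hzU
  have hz2 : z * z = 1 := hexp _ hzU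
  have hz1 : z ≠ 1 := by
    rw [hz]
    intro h
    have h1 := orderOf_iota P e (r (t : ZMod m))
    rw [h, orderOf_one, orderOf_r_half hm (by omega)] at h1
    omega
  apply le_antisymm
  · intro h hh
    have hconj : ∀ v ∈ U, h * v * h⁻¹ ∈ U := fun v hv => (Subgroup.mem_normalizer_iff.mp hh v).mp hv
    have hne1 : ∀ v, v ≠ 1 → h * v * h⁻¹ ≠ 1 := by
      intro v hv h1
      apply hv
      have : h⁻¹ * (h * v * h⁻¹) * h = v := by group
      rw [← this, h1]
      group
    have hnc : ∀ v, IsConj v (h * v * h⁻¹) := fun v => isConj_iff.mpr ⟨h, rfl⟩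
    have hzfix : h * z * h⁻¹ = z := by
      rcases hstruct _ (hconj z hzU) with h1 | h1 | h1 | h1
      · exact absurd h1 (hne1 z hz1)
      · exact h1
      · exfalso
        apply hrefl i
        have := hnc z
        rw [h1] at this
        exact this.symm
      · exfalso
        apply hrefl (i + (t : ZMod m))
        have := hnc z
        rw [h1, huz] at this
        exact this.symm
    have hufix : h * u * h⁻¹ = u ∨ h * u * h⁻¹ = u * z := by
      rcases hstruct _ (hconj u hu₁) with h1 | h1 | h1 | h1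
      · exact absurd h1 (hne1 u hu₁1)
      · exfalso
        apply hrefl i
        have := hnc u
        rw [h1] at this
        exact this
      · exact Or.inl h1
      · exact Or.inr h1
    -- a criterion for centralising
    have hcent : ∀ k : G, k * z * k⁻¹ = z → k * u * k⁻¹ = u → k ∈ Subgroup.centralizer (U : Set G) := by
      intro k hk1 hk2
      rw [Subgroup.mem_centralizer_iff]
      intro v hv
      have hkz : k * z = z * k := by
        calc k * z = (k * z * k⁻¹) * k := by group
          _ = z * k := by rw [hk1]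
      have hku : k * u = u * k := by
        calc k * u = (k * u * k⁻¹) * k := by group
          _ = u * k := by rw [hk2]
      rcases hstruct v hv with rfl | rfl | rfl | rfl
      · simp
      · exact hkz.symm
      · exact hku.symm
      · rw [mul_assoc, ← hkz, ← mul_assoc, ← hku, mul_assoc]
    rcases hufix with h1 | h1
    · exact (le_sup_left : _ ≤ Subgroup.centralizer (U : Set G) ⊔ _) (hcent h hzfix h1)
    · -- correct by a rotation of order dividing 4
      have h2t : (2 : ZMod m) * (w : ZMod m) = (t : ZMod m) := by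
        rw [ht]
        push_cast
        rfl
      have htt : (t : ZMod m) + t = 0 := by
        have h1 : ((t + t : ℕ) : ZMod m) = 0 := by
          rw [ZMod.natCast_eq_zero_iff, hm]
          exact ⟨1, by ring⟩
        simpa using h1
      have hrot : ∀ c : ZMod m, 2 * c = (t : ZMod m) ∨ 2 * c = -(t : ZMod m) →
          iota P e (r c) * u * (iota P e (r c))⁻¹ = u * z := by
        intro c hc
        rw [hu, ← map_inv, ← map_mul, ← map_mul, conj_sr, huz]
        congr 2
        rcases hc with hc | hc
        · rw [hc, sub_eq_add_neg]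
          congr 1
          linear_combination -htt
        · rw [hc]
          ring
      have hrotz : ∀ c : ZMod m, iota P e (r c) * z * (iota P e (r c))⁻¹ = z := by
        intro c
        rw [hz, ← map_inv, ← map_mul, ← map_mul, inv_r, r_mul_r, r_mul_r]
        congr 2
        ring
      set W := iota P e (r (w : ZMod m)) with hW
      have hWinv : W⁻¹ = iota P e (r (-(w : ZMod m))) := by
        rw [hW, ← map_inv, inv_r]
      -- `W` normalises `U`
      have hWu : W * u * W⁻¹ = u * z := hrot _ (Or.inl h2t)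
      have hWz : W * z * W⁻¹ = z := hrotz _
      have hW'u : W⁻¹ * u * W = u * z := by
        have := hrot (-(w : ZMod m)) (Or.inr (by rw [← h2t]; ring))
        rw [← hWinv, inv_inv] at this
        exact this
      have hW'z : W⁻¹ * z * W = z := by
        have := hrotz (-(w : ZMod m))
        rw [← hWinv, inv_inv] at this
        exact this
      have hWn : W ∈ Subgroup.normalizer (U : Set G) := by
        rw [Subgroup.mem_normalizer_iff]
        have hcase : ∀ (a : G), (a * z * a⁻¹ = z) → (a * u * a⁻¹ = u * z) → ∀ v ∈ U, a * v * a⁻¹ ∈ U := by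
          intro a ha hb v hv
          rcases hstruct v hv with rfl | rfl | rfl | rfl
          · simp
          · rw [ha]
            exact hzU
          · rw [hb]
            exact huzU
          · have : a * (u * z) * a⁻¹ = (a * u * a⁻¹) * (a * z * a⁻¹) := by group
            rw [this, ha, hb, mul_assoc, hz2, mul_one]
            exact hu₁
        intro v
        constructor
        · exact hcase W hWz hWu v
        · intro hv
          have h3 := hcase W⁻¹ (by simpa using hW'z) (by simpa using hW'u) _ hv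
          have h4 : W⁻¹ * (W * v * W⁻¹) * W⁻¹⁻¹ = v := by group
          rwa [h4] at h3
      have hWP : W ∈ (P : Subgroup G) := iota_mem P e _
      have hkey : h * W⁻¹ ∈ Subgroup.centralizer (U : Set G) := by
        apply hcent
        · have : h * W⁻¹ * z * (h * W⁻¹)⁻¹ = h * (W⁻¹ * z * W) * h⁻¹ := by group
          rw [this, hW'z, hzfix]
        · have : h * W⁻¹ * u * (h * W⁻¹)⁻¹ = h * (W⁻¹ * u * W) * h⁻¹ := by group
          rw [this, hW'u]
          have : h * (u * z) * h⁻¹ = (h * u * h⁻¹) * (h * z * h⁻¹) := by group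
          rw [this, h1, hzfix, mul_assoc, hz2, mul_one]
      have : h = (h * W⁻¹) * W := by group
      rw [this]
      exact Subgroup.mul_mem_sup hkey ⟨hWP, hWn⟩
  · apply sup_le
    · exact Subgroup.centralizer_le_normalizer _
    · exact inf_le_right

/-- Counting the classes from a finset of representatives. -/
lemma card_classes (T : Finset (ConjClasses G))
    (h : ∀ C, C ∈ T ↔ ∃ g : G, ConjClasses.mk g = C ∧ orderOf g = 2) :
    Nat.card {C : ConjClasses G // ∃ g : G, ConjClasses.mk g = C ∧ orderOf g = 2} = T.card :=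
  Nat.subtype_card T h

/-- **Involution classes and index two subgroups.** -/
theorem main {G : Type*} [Group G] [Finite G] (P : Sylow 2 G) (n : ℕ) (hn : 3 ≤ n)
    (hdih : Nonempty (↥(P : Subgroup G) ≃* DihedralGroup (2 ^ (n - 1)))) :
    (Nat.card {C : ConjClasses G // ∃ g : G, ConjClasses.mk g = C ∧ orderOf g = 2} = 1 ∧
        ∀ N : Subgroup G, N.Normal → N.index ≠ 2) ∨
      (Nat.card {C : ConjClasses G // ∃ g : G, ConjClasses.mk g = C ∧ orderOf g = 2} = 2 ∧
        (∃ N : Subgroup G, N.Normal ∧ N.index = 2) ∧ ∀ N : Subgroup G, N.Normal → N.index ≠ 4) ∨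
      (Nat.card {C : ConjClasses G // ∃ g : G, ConjClasses.mk g = C ∧ orderOf g = 2} = 3 ∧
        Cfsg.HasNormalPComplement 2 G) := by
  classical
  obtain ⟨e⟩ := hdih
  haveI hF : Fact (Nat.Prime 2) := ⟨Nat.prime_two⟩
  obtain ⟨k, hk⟩ : ∃ k, n = k + 3 := ⟨n - 3, by omega⟩
  subst hk
  have hnk : k + 3 - 1 = k + 2 := by omega
  rw [hnk] at e
  set m := 2 ^ (k + 2) with hmdef
  haveI : NeZero m := ⟨by positivity⟩
  set t := 2 ^ (k + 1) with htdef
  set w := 2 ^ k with hwdef
  have hm : m = 2 * t := by rw [hmdef, htdef]; ring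
  have ht : t = 2 * w := by rw [htdef, hwdef]; ring
  have hw : 0 < w := by positivity
  have h2 : 2 ∣ m := ⟨t, hm⟩
  set z := iota P e (r (t : ZMod m)) with hz
  set a := iota P e (sr 0) with ha
  set b := iota P e (sr 1) with hb
  have hzo : orderOf z = 2 := by
    rw [hz, orderOf_iota, orderOf_r_half hm (by omega)]
  have hao : orderOf a = 2 := by
    rw [ha, orderOf_iota]
    exact orderOf_sr _
  have hbo : orderOf b = 2 := by
    rw [hb, orderOf_iota]
    exact orderOf_sr _
  have hinv : ∀ g : G, orderOf g = 2 → IsConj g z ∨ IsConj g a ∨ IsConj g b := by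
    intro g hg
    obtain ⟨x, hx, hc⟩ := exists_conj_iota P e g hg
    rcases involution_cases hm x hx with rfl | ⟨i, rfl⟩
    · exact Or.inl hc
    · rcases conj_iota_sr P e h2 i with ⟨-, h⟩ | ⟨-, h⟩
      · exact Or.inr (Or.inl (hc.trans h))
      · exact Or.inr (Or.inr (hc.trans h))
  have hmk : ∀ x y : G, ConjClasses.mk x = ConjClasses.mk y ↔ IsConj x y :=
    fun x y => ConjClasses.mk_eq_mk_iff_isConj
  have hpar1 : par h2 (1 : ZMod m) = 1 := par_one h2
  have hbeta1 : DihInv.beta h2 (sr (1 : ZMod m)) ≠ 1 := by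
    rw [DihInv.beta_sr, hpar1]
    exact ofAdd_one_ne
  have hbeta0 : DihInv.beta h2 (sr (0 : ZMod m)) = 1 := by
    rw [DihInv.beta_sr, map_zero]
    rfl
  by_cases hA : IsConj a z <;> by_cases hB : IsConj b z
  · -- one class
    left
    refine ⟨?_, fun N hN => no_index_two P e ht hA hB N hN⟩
    rw [card_classes {ConjClasses.mk z}]
    · simp
    · intro C
      simp only [Finset.mem_singleton]
      constructor
      · rintro rfl
        exact ⟨z, rfl, hzo⟩
      · rintro ⟨g, rfl, hg⟩
        rw [hmk]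
        rcases hinv g hg with h | h | h
        · exact h
        · exact h.trans hA
        · exact h.trans hB
  · -- `a ∼ z`, `b` separate
    right; left
    refine ⟨?_, ?_, fun N hN => no_index_four P e ht (c₁ := 0) (c₂ := 1) (Or.inl ⟨rfl, rfl⟩) hA N hN⟩
    · rw [card_classes {ConjClasses.mk z, ConjClasses.mk b}]
      · rw [Finset.card_pair]
        rw [Ne, hmk]
        exact fun h => hB h.symm
      · intro C
        simp only [Finset.mem_insert, Finset.mem_singleton]
        constructor
        · rintro (rfl | rfl)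
          · exact ⟨z, rfl, hzo⟩
          · exact ⟨b, rfl, hbo⟩
        · rintro ⟨g, rfl, hg⟩
          rcases hinv g hg with h | h | h
          · left; rwa [hmk]
          · left; rw [hmk]; exact h.trans hA
          · right; rwa [hmk]
    · refine exists_index_two P e (DihInv.beta h2) hm (c₁ := 0) (c₂ := 1) hbeta1 ?_ hA hB
      intro i hi
      rw [DihInv.beta_sr] at hi
      rcases conj_iota_sr P e h2 i with ⟨-, h⟩ | ⟨h1, h⟩
      · exact h
      · exfalso
        rw [h1] at hi
        exact ofAdd_one_ne hi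
  · -- `b ∼ z`, `a` separate
    right; left
    refine ⟨?_, ?_, fun N hN => no_index_four P e ht (c₁ := 1) (c₂ := 0) (Or.inr ⟨rfl, rfl⟩) hB N hN⟩
    · rw [card_classes {ConjClasses.mk z, ConjClasses.mk a}]
      · rw [Finset.card_pair]
        rw [Ne, hmk]
        exact fun h => hA h.symm
      · intro C
        simp only [Finset.mem_insert, Finset.mem_singleton]
        constructor
        · rintro (rfl | rfl)
          · exact ⟨z, rfl, hzo⟩
          · exact ⟨a, rfl, hao⟩
        · rintro ⟨g, rfl, hg⟩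
          rcases hinv g hg with h | h | h
          · left; rwa [hmk]
          · right; rwa [hmk]
          · left; rw [hmk]; exact h.trans hB
    · refine exists_index_two P e (DihInv.gamma h2) hm (c₁ := 1) (c₂ := 0) ?_ ?_ hB hA
      · rw [DihInv.gamma_sr, map_zero, zero_add]
        exact ofAdd_one_ne
      · intro i hi
        rw [DihInv.gamma_sr] at hi
        rcases conj_iota_sr P e h2 i with ⟨h1, h⟩ | ⟨-, h⟩
        · exfalso
          rw [h1, zero_add] at hi
          exact ofAdd_one_ne hi
        · exact h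
  · -- three classes
    right; right
    have hrefl : ∀ i, ¬ IsConj (iota P e (sr i)) z := by
      intro i hi
      rcases conj_iota_sr P e h2 i with ⟨-, h⟩ | ⟨-, h⟩
      · exact hA (h.symm.trans hi)
      · exact hB (h.symm.trans hi)
    have hm2 : 2 ≤ m := by
      rw [hm, ht]
      omega
    have hnpc : Cfsg.HasNormalPComplement 2 G := by
      rw [Cfsg.Agent.S1254.result P m hm2 e]
      intro U hU hK
      exact normalizer_klein P e hm ht hw hrefl U hU hK
    refine ⟨?_, hnpc⟩
    have hab : ¬ IsConj a b := by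
      intro hconj
      obtain ⟨Q, K, hKn, hKc⟩ := hnpc
      have hcardK : Nat.card K * Nat.card Q = Nat.card G := hKc.card_mul_card
      have hoddK : Nat.Coprime (Nat.card K) (Nat.card (P : Subgroup G)) := by
        have h1 : (Q : Subgroup G).index = Nat.card K := hKc.index_eq_card
        have h3 : ¬ 2 ∣ Nat.card K := by
          rw [← h1]
          exact Q.not_dvd_index
        obtain ⟨c, hc⟩ := IsPGroup.iff_card.mp (P.2 : IsPGroup 2 (P : Subgroup G))
        rw [hc]
        exact Nat.Coprime.pow_right c ((Nat.Prime.coprime_iff_not_dvd Nat.prime_two).mpr h3).symm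
      have hcPQ : Nat.card (P : Subgroup G) = Nat.card Q := Nat.card_congr (P.equiv Q).toEquiv
      have hc' : K.IsComplement' (P : Subgroup G) := by
        apply Subgroup.isComplement'_of_coprime
        · rw [hcPQ]
          exact hcardK
        · exact hoddK
      have hKP : ∀ x, x ∈ K → x ∈ (P : Subgroup G) → x = 1 := by
        intro x hx hx'
        have := Subgroup.disjoint_def.mp hc'.disjoint hx hx'
        exact this
      obtain ⟨g, hg⟩ := isConj_iff.mp hconj
      have hsup : (P : Subgroup G) ⊔ K = ⊤ := by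
        rw [sup_comm]
        exact hc'.sup_eq_top
      have hgm : g ∈ ((P : Subgroup G) ⊔ K : Subgroup G) := by
        rw [hsup]
        trivial
      have hgm' : g ∈ ((P : Subgroup G) * K : Set G) := by
        rw [← Subgroup.mul_normal (P : Subgroup G) K]
        exact hgm
      obtain ⟨p', hp', k', hk', rfl⟩ := hgm'
      -- `p'⁻¹ b p' = k' a k'⁻¹`
      have h1 : p'⁻¹ * b * p' = k' * a * k'⁻¹ := by
        rw [← hg]
        group
      have h3 : p'⁻¹ * b * p' * a⁻¹ ∈ K := by
        rw [h1]
        have : k' * a * k'⁻¹ * a⁻¹ = k' * (a * k'⁻¹ * a⁻¹) := by group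
        rw [this]
        exact K.mul_mem hk' (hKn.conj_mem _ (K.inv_mem hk') a)
      have h4 : p'⁻¹ * b * p' * a⁻¹ ∈ (P : Subgroup G) := by
        have hbP : b ∈ (P : Subgroup G) := iota_mem P e _
        have haP : a ∈ (P : Subgroup G) := iota_mem P e _
        exact Subgroup.mul_mem _ (Subgroup.mul_mem _ (Subgroup.mul_mem _ (Subgroup.inv_mem _ hp') hbP) hp')
          (Subgroup.inv_mem _ haP)
      have h5 := hKP _ h3 h4
      have h6 : p'⁻¹ * b * p' = a := mul_inv_eq_one.mp h5
      obtain ⟨x, rfl⟩ := iota_surj P e p' hp'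
      have h7 : iota P e ((x⁻¹) * sr 1 * x) = iota P e (sr 0) := by
        simp only [map_mul, map_inv]
        exact h6
      have h8 := iota_inj P e h7
      have h9 := congrArg (DihInv.beta h2) h8
      simp only [map_mul, map_inv] at h9
      rw [hbeta0] at h9
      apply hbeta1
      have h10 : (DihInv.beta h2 x)⁻¹ * DihInv.beta h2 (sr 1) * DihInv.beta h2 x = DihInv.beta h2 (sr 1) := by
        rw [mul_comm, ← mul_assoc, mul_inv_cancel, one_mul]
      rw [h10] at h9
      exact h9
    rw [card_classes {ConjClasses.mk z, ConjClasses.mk a, ConjClasses.mk b}]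
    · rw [Finset.card_insert_of_notMem, Finset.card_pair]
      · rw [Ne, hmk]
        exact hab
      · simp only [Finset.mem_insert, Finset.mem_singleton, not_or, hmk]
        exact ⟨fun h => hA h.symm, fun h => hB h.symm⟩
    · intro C
      simp only [Finset.mem_insert, Finset.mem_singleton]
      constructor
      · rintro (rfl | rfl | rfl)
        · exact ⟨z, rfl, hzo⟩
        · exact ⟨a, rfl, hao⟩
        · exact ⟨b, rfl, hbo⟩
      · rintro ⟨g, rfl, hg⟩
        rcases hinv g hg with h | h | h
        · left; rwa [hmk]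
        · right; left; rwa [hmk]
        · right; right; rwa [hmk]

end Cfsg.Agent.H12.DihClasses
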