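import Mathlib
import Cfsg.Agent.Lib.H12.FpfLift2
import Cfsg.Agent.Lib.H26.FrobAct

/-! From Frobenius complements to fixed-point-free representations. -/

set_option autoImplicit false

namespace Cfsg.Agent.H12.FpfLift

open Matrix

/-- An elementary abelian normal subgroup of the Frobenius kernel. -/
theorem exists_section {L : Type*} [Group L] [Finite L] (H : Subgroup L)
    (hH : Cfsg.IsFrobeniusComplement H) :
    ∃ (p : ℕ) (W : Subgroup L), p.Prime ∧ W.Normal ∧ W ≠ ⊥ ∧ (∀ a ∈ W, ∀ b ∈ W, a * b = b * a) ∧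
      (∀ a ∈ W, a ^ p = 1) ∧ ∀ r ∈ H, r ≠ 1 → ∀ z ∈ W, z * r = r * z → z = 1 := by
  classical
  obtain ⟨N, -, hNn, hc, hnil, hfree⟩ := Cfsg.Agent.H26.FrobAct.frob_data H hH
  have hNne : N ≠ ⊥ := by
    rintro rfl
    apply hH.2.1
    have := hc.sup_eq_top
    rwa [bot_sup_eq] at this
  haveI : Nontrivial N := (Subgroup.nontrivial_iff_ne_bot N).mpr hNne
  haveI : Group.IsNilpotent N := hnil
  -- the centre is nontrivial
  have hcen : Subgroup.center N ≠ ⊥ := by
    intro h0
    obtain ⟨n, hn⟩ := (inferInstance : Group.IsNilpotent N).nilpotent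
    have hall : ∀ m, Subgroup.upperCentralSeries N m = ⊥ := by
      intro m
      induction m with
      | zero => exact Subgroup.upperCentralSeries_zero N
      | succ m ih =>
        rw [eq_bot_iff]
        intro x hx
        rw [Subgroup.mem_upperCentralSeries_succ_iff] at hx
        rw [ih] at hx
        have hz : x ∈ Subgroup.center N := by
          rw [Subgroup.mem_center_iff]
          intro y
          have h2 := hx y
          rw [Subgroup.mem_bot] at h2
          have h3 : x * y * x⁻¹ * y⁻¹ = 1 := h2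
          calc y * x = (x * y * x⁻¹ * y⁻¹)⁻¹ * (x * y) := by group
            _ = x * y := by rw [h3]; simp
        rw [h0] at hz
        exact hz
    rw [hall n] at hn
    exact hNne (by
      rw [eq_bot_iff]
      intro x hx
      have h2 : (⟨x, hx⟩ : N) ∈ (⊥ : Subgroup N) := by rw [hn]; trivial
      rw [Subgroup.mem_bot] at h2
      exact Subgroup.mem_bot.mpr (congrArg Subtype.val h2))
  haveI : Nontrivial (Subgroup.center N) := (Subgroup.nontrivial_iff_ne_bot _).mpr hcen
  have hcard : 1 < Nat.card (Subgroup.center N) := Finite.one_lt_card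
  let p := (Nat.card (Subgroup.center N)).minFac
  have hp : p.Prime := Nat.minFac_prime hcard.ne'
  haveI : Fact p.Prime := ⟨hp⟩
  obtain ⟨z₀, hz₀⟩ := exists_prime_orderOf_dvd_card' p (Nat.minFac_dvd _)
  let W : Subgroup L :=
    { carrier := {z | z ∈ N ∧ (∀ y ∈ N, y * z = z * y) ∧ z ^ p = 1}
      mul_mem' := by
        rintro a b ⟨ha1, ha2, ha3⟩ ⟨hb1, hb2, hb3⟩
        refine ⟨N.mul_mem ha1 hb1, ?_, ?_⟩
        · intro y hy
          rw [← mul_assoc, ha2 y hy, mul_assoc, hb2 y hy, mul_assoc]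
        · have hc : Commute a b := (hb2 a ha1)
          rw [hc.mul_pow, ha3, hb3, one_mul]
      one_mem' := ⟨N.one_mem, by simp, one_pow _⟩
      inv_mem' := by
        rintro a ⟨ha1, ha2, ha3⟩
        refine ⟨N.inv_mem ha1, ?_, ?_⟩
        · intro y hy
          have h := ha2 y hy
          calc y * a⁻¹ = a⁻¹ * (a * y) * a⁻¹ := by group
            _ = a⁻¹ * (y * a) * a⁻¹ := by rw [h]
            _ = a⁻¹ * y := by group
        · rw [inv_pow, ha3, inv_one] }
  refine ⟨p, W, hp, ⟨?_⟩, ?_, ?_, fun a ha => ha.2.2, ?_⟩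
  · rintro z ⟨hz1, hz2, hz3⟩ g
    refine ⟨hNn.conj_mem _ hz1 g, ?_, ?_⟩
    · intro y hy
      have h1 := hz2 (g⁻¹ * y * g) (by
        have := hNn.conj_mem y hy g⁻¹
        simpa using this)
      calc y * (g * z * g⁻¹) = g * ((g⁻¹ * y * g) * z) * g⁻¹ := by group
        _ = g * (z * (g⁻¹ * y * g)) * g⁻¹ := by rw [h1]
        _ = g * z * g⁻¹ * y := by group
    · rw [conj_pow, hz3]; simp
  · intro h0
    have h1 : ((z₀ : Subgroup.center N) : N).1 ∈ W := by
      refine ⟨((z₀ : Subgroup.center N) : N).2, ?_, ?_⟩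
      · intro y hy
        have := (Subgroup.mem_center_iff.mp z₀.2) ⟨y, hy⟩
        exact congrArg Subtype.val this
      · have h2 : z₀ ^ p = 1 := hz₀ ▸ pow_orderOf_eq_one z₀
        have h3 := congrArg (fun x : Subgroup.center N => ((x : N) : L)) h2
        simpa using h3
    rw [h0, Subgroup.mem_bot] at h1
    have h2 : z₀ = 1 := Subtype.ext (Subtype.ext h1)
    rw [h2, orderOf_one] at hz₀
    exact hp.one_lt.ne hz₀
  · rintro a ⟨ha1, -, -⟩ b ⟨-, hb2, -⟩
    exact hb2 a ha1
  · rintro r hr hr1 z ⟨hz1, -, -⟩ hzr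
    exact hfree r hr hr1 z hz1 hzr

/-- A fixed-point-free linear action gives a matrix representation. -/
theorem fpf_of_linAct {V : Type*} [AddCommGroup V] {p : ℕ} [Fact p.Prime] [Module (ZMod p) V]
    [Finite V] [Nontrivial V] {A : Type*} [Group A] (ψ : A → (V →ₗ[ZMod p] V))
    (h1 : ∀ x, ψ 1 x = x) (hm : ∀ a b x, ψ (a * b) x = ψ a (ψ b x))
    (hfree : ∀ a, a ≠ 1 → ∀ v, ψ a v = v → v = 0) :
    ∃ n, 0 < n ∧ FpfOver A n (ZMod p) := by
  classical
  haveI : Module.Finite (ZMod p) V := Module.Finite.of_finite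
  let b := Module.finBasis (ZMod p) V
  have hpos : 0 < Module.finrank (ZMod p) V := Module.finrank_pos
  refine ⟨Module.finrank (ZMod p) V, hpos, ?_⟩
  let φ : A →* Matrix (Fin (Module.finrank (ZMod p) V)) (Fin (Module.finrank (ZMod p) V)) (ZMod p) :=
    { toFun := fun a => LinearMap.toMatrix b b (ψ a)
      map_one' := by
        have : ψ 1 = LinearMap.id := LinearMap.ext h1
        rw [this, LinearMap.toMatrix_id]
      map_mul' := fun x y => by
        have : ψ (x * y) = (ψ x).comp (ψ y) := LinearMap.ext (hm x y)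
        rw [this, LinearMap.toMatrix_comp b b b] }
  refine ⟨φ, fun a ha => ?_⟩
  have e : φ a - 1 = LinearMap.toMatrix b b (ψ a - LinearMap.id) := by
    rw [map_sub, LinearMap.toMatrix_id]
    rfl
  rw [e, LinearMap.det_toMatrix b]
  apply IsUnit.mk0
  intro h0
  have h1 := LinearMap.bot_lt_ker_of_det_eq_zero h0
  obtain ⟨v, hv, hv0⟩ := SetLike.exists_of_lt h1
  have hv1 : ((ψ a - LinearMap.id : V →ₗ[ZMod p] V)) v = 0 := hv
  have hv2 : ψ a v = v := by
    rw [LinearMap.sub_apply, sub_eq_zero] at hv1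
    exact hv1
  apply hv0
  rw [Submodule.mem_bot]
  exact hfree a ha v hv2

theorem fpf_of_addAct' {V : Type*} [AddCommGroup V] [Finite V] [Nontrivial V] {p : ℕ} [Fact p.Prime]
    [Module (ZMod p) V] {A : Type*} [Group A] (ρ : A → V →+ V)
    (h1 : ∀ x, ρ 1 x = x) (hm : ∀ a b x, ρ (a * b) x = ρ a (ρ b x))
    (hfree : ∀ a, a ≠ 1 → ∀ v, ρ a v = v → v = 0) :
    ∃ n, 0 < n ∧ FpfOver A n (ZMod p) := by
  let ψ : A → (V →ₗ[ZMod p] V) := fun a => AddMonoidHom.toZModLinearMap p (ρ a)
  have hψ : ∀ (a : A) (x : V), ψ a x = ρ a x := fun a x => by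
    change (AddMonoidHom.toZModLinearMap p _) x = _
    rw [AddMonoidHom.coe_toZModLinearMap]
  refine fpf_of_linAct ψ (fun x => ?_) (fun a b x => ?_) (fun a ha v hv => ?_)
  · rw [hψ, h1]
  · rw [hψ, hψ, hψ, hm]
  · rw [hψ] at hv
    exact hfree a ha v hv

/-- A fixed-point-free action on an elementary abelian group gives a matrix representation. -/
theorem fpf_of_addAct {V : Type*} [AddCommGroup V] [Finite V] [Nontrivial V] {p : ℕ} [Fact p.Prime]
    (hexp : ∀ v : V, p • v = 0) {A : Type*} [Group A] (ρ : A → V →+ V)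
    (h1 : ∀ x, ρ 1 x = x) (hm : ∀ a b x, ρ (a * b) x = ρ a (ρ b x))
    (hfree : ∀ a, a ≠ 1 → ∀ v, ρ a v = v → v = 0) :
    ∃ n, 0 < n ∧ FpfOver A n (ZMod p) := by
  letI : Module (ZMod p) V := AddCommGroup.zmodModule hexp
  exact fpf_of_addAct' ρ h1 hm hfree

/-- A fixed-point-free action on an elementary abelian group gives a matrix representation. -/
theorem fpf_of_mulAct {V : Type*} [CommGroup V] [Finite V] [Nontrivial V] {p : ℕ} [Fact p.Prime]
    (hexp : ∀ v : V, v ^ p = 1) {A : Type*} [Group A] (ρ : A →* MulAut V)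
    (hfree : ∀ a, a ≠ 1 → ∀ v, ρ a v = v → v = 1) :
    ∃ n, 0 < n ∧ FpfOver A n (ZMod p) := by
  let ρ' : A → Additive V →+ Additive V := fun a =>
    { toFun := fun x => Additive.ofMul (ρ a (Additive.toMul x))
      map_zero' := by simp
      map_add' := fun x y => by simp }
  refine fpf_of_addAct (V := Additive V) (p := p) (fun v => ?_) ρ' (fun x => ?_) (fun a b x => ?_)
    (fun a ha v hv => ?_)
  · exact congrArg Additive.ofMul (hexp (Additive.toMul v))
  · change Additive.ofMul (ρ 1 (Additive.toMul x)) = x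
    rw [map_one]
    rfl
  · change Additive.ofMul (ρ (a * b) (Additive.toMul x)) = Additive.ofMul (ρ a (ρ b (Additive.toMul x)))
    rw [map_mul]
    rfl
  · have hv3 : ρ a (Additive.toMul v) = Additive.toMul v := congrArg Additive.toMul hv
    exact congrArg Additive.ofMul (hfree a ha _ hv3)

/-- Frobenius complements have fixed-point-free representations over `𝔽_p`. -/
theorem exists_fpf_prime {L : Type*} [Group L] [Finite L] {H : Subgroup L}
    (hH : Cfsg.IsFrobeniusComplement H) {A : Type*} [Group A] (e : A ≃* H) :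
    ∃ p : ℕ, p.Prime ∧ ∃ n, 0 < n ∧ ∀ [Fact p.Prime], FpfOver A n (ZMod p) := by
  classical
  obtain ⟨p, W, hp, hWn, hW1, hWab, hWexp, hWf⟩ := exists_section H hH
  letI : CommGroup W := { (inferInstance : Group W) with
    mul_comm := fun a b => Subtype.ext (hWab a a.2 b b.2) }
  haveI : Nontrivial W := (Subgroup.nontrivial_iff_ne_bot W).mpr hW1
  haveI : Fact p.Prime := ⟨hp⟩
  let ρ : A →* MulAut W := (MulAut.conjNormal (H := W)).comp (H.subtype.comp e.toMonoidHom)
  obtain ⟨n, hn, h⟩ := fpf_of_mulAct (p := p) (V := W) (fun v => Subtype.ext (hWexp v v.2)) ρ (by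
    intro a ha v hv
    have hr : ((e a : H) : L) ≠ 1 := by
      intro h1
      apply ha
      apply e.injective
      rw [map_one]
      exact Subtype.ext h1
    have hv2 : ((e a : H) : L) * (v : L) * ((e a : H) : L)⁻¹ = v := congrArg Subtype.val hv
    apply Subtype.ext
    apply hWf _ (e a).2 hr _ v.2
    calc (v : L) * ((e a : H) : L)
        = ((e a : H) : L) * (v : L) * ((e a : H) : L)⁻¹ * ((e a : H) : L) := by rw [hv2]
      _ = ((e a : H) : L) * (v : L) := by group)
  refine ⟨p, hp, n, hn, ?_⟩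
  intro inst
  have : inst = (⟨hp⟩ : Fact p.Prime) := rfl
  exact h

/-- Frobenius complements have fixed-point-free representations over `ℚ̄`. -/
theorem exists_fpf_algClosure {L : Type*} [Group L] [Finite L] {H : Subgroup L}
    (hH : Cfsg.IsFrobeniusComplement H) {A : Type*} [Group A] [Finite A] (e : A ≃* H) :
    ∃ n, 0 < n ∧ FpfOver A n (AlgebraicClosure ℚ) := by
  obtain ⟨p, hp, n, hn, h⟩ := exists_fpf_prime hH e
  haveI : Fact p.Prime := ⟨hp⟩
  exact ⟨n, hn, fpf_algClosure hn h⟩

end Cfsg.Agent.H12.FpfLift
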