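import Mathlib
import Cfsg.Agent.Lib.H12.FpfLift3

/-! Irreducible fixed-point-free representations. -/

set_option autoImplicit false

namespace Cfsg.Agent.H12.FpfLift

open Matrix

/-- A fixed-point-free representation contains an irreducible one. -/
theorem exists_irreducible {K : Type*} [Field K] {G : Type*} [Group G] {n : ℕ} (hn : 0 < n)
    (h : FpfOver G n K) :
    ∃ (m : ℕ) (ρ : G →* GL (Fin m) K), 0 < m ∧ Function.Injective ρ ∧
      (∀ W : Submodule K (Fin m → K),
        (∀ g : G, ∀ w ∈ W, ((ρ g : GL (Fin m) K) : Matrix (Fin m) (Fin m) K).mulVec w ∈ W) →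
          W = ⊥ ∨ W = ⊤) ∧
      ∀ g : G, g ≠ 1 → ∀ v : Fin m → K,
        ((ρ g : GL (Fin m) K) : Matrix (Fin m) (Fin m) K).mulVec v = v → v = 0 := by
  classical
  obtain ⟨φ, hφ⟩ := h
  -- the invariant subspaces
  let Inv : Submodule K (Fin n → K) → Prop := fun W => ∀ g : G, ∀ w ∈ W, (φ g).mulVec w ∈ W
  haveI : Nonempty (Fin n) := ⟨⟨0, hn⟩⟩
  have hex : ∃ (d : ℕ) (W : Submodule K (Fin n → K)), Module.finrank K W = d ∧ W ≠ ⊥ ∧ Inv W :=
    ⟨_, ⊤, rfl, top_ne_bot, fun _ _ _ => trivial⟩
  classical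
  let d := Nat.find hex
  obtain ⟨W, hWd, hW1, hWinv⟩ := Nat.find_spec hex
  have hmin : ∀ W' : Submodule K (Fin n → K), W' ≠ ⊥ → Inv W' → d ≤ Module.finrank K W' := by
    intro W' h1 h2
    exact Nat.find_min' hex ⟨W', rfl, h1, h2⟩
  have hWd' : Module.finrank K W = d := hWd
  have hd : 0 < d := by
    rw [← hWd']
    haveI : Nontrivial W := Submodule.nontrivial_iff_ne_bot.mpr hW1
    exact Module.finrank_pos
  let b : Module.Basis (Fin d) K W := Module.finBasisOfFinrankEq K W hWd'
  -- the action on `W`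
  let ψ : G → (W →ₗ[K] W) := fun g =>
    ((Matrix.mulVecLin (φ g)).comp W.subtype).codRestrict W (fun w => hWinv g w w.2)
  have hψ : ∀ (g : G) (w : W), ((ψ g w : W) : Fin n → K) = (φ g).mulVec (w : Fin n → K) := fun g w => rfl
  have hψ1 : ψ 1 = LinearMap.id := by
    apply LinearMap.ext
    intro w
    apply Subtype.ext
    rw [hψ, map_one, Matrix.one_mulVec]
    rfl
  have hψm : ∀ x y, ψ (x * y) = (ψ x).comp (ψ y) := by
    intro x y
    apply LinearMap.ext
    intro w
    apply Subtype.ext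
    rw [hψ, map_mul, ← Matrix.mulVec_mulVec, LinearMap.comp_apply, hψ, hψ]
  let ρ' : G →* Matrix (Fin d) (Fin d) K :=
    { toFun := fun g => LinearMap.toMatrix b b (ψ g)
      map_one' := by rw [hψ1, LinearMap.toMatrix_id]
      map_mul' := fun x y => by rw [hψm, LinearMap.toMatrix_comp b b b] }
  let ρ : G →* GL (Fin d) K := ρ'.toHomUnits
  have hρ : ∀ (g : G) (v : Fin d → K),
      ((ρ g : GL (Fin d) K) : Matrix (Fin d) (Fin d) K).mulVec v = b.equivFun (ψ g (b.equivFun.symm v)) := by
    intro g v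
    have e1 : ((ρ g : GL (Fin d) K) : Matrix (Fin d) (Fin d) K) = LinearMap.toMatrix b b (ψ g) := rfl
    rw [e1]
    have e2 := LinearMap.toMatrix_mulVec_repr b b (ψ g) (b.equivFun.symm v)
    have e3 : b.repr (b.equivFun.symm v) = v := by
      ext i
      exact congrFun (b.equivFun.apply_symm_apply v) i
    rw [e3] at e2
    rw [e2]
    rfl
  -- fixed vectors
  have hfix : ∀ g : G, g ≠ 1 → ∀ v : Fin d → K,
      ((ρ g : GL (Fin d) K) : Matrix (Fin d) (Fin d) K).mulVec v = v → v = 0 := by
    intro g hg v hv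
    rw [hρ] at hv
    have h1 : ψ g (b.equivFun.symm v) = b.equivFun.symm v :=
      b.equivFun.injective (by rw [LinearEquiv.apply_symm_apply]; exact hv)
    have h2 : (φ g).mulVec ((b.equivFun.symm v : W) : Fin n → K) = ((b.equivFun.symm v : W) : Fin n → K) := by
      rw [← hψ, h1]
    have h3 : (φ g - 1).mulVec ((b.equivFun.symm v : W) : Fin n → K) = 0 := by
      rw [Matrix.sub_mulVec, h2, Matrix.one_mulVec, sub_self]
    have h4 := Matrix.eq_zero_of_mulVec_eq_zero (hφ g hg).ne_zero h3
    have h5 : b.equivFun.symm v = 0 := Subtype.ext h4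
    have h6 := congrArg b.equivFun h5
    rw [LinearEquiv.apply_symm_apply, map_zero] at h6
    exact h6
  refine ⟨d, ρ, hd, ?_, ?_, hfix⟩
  · -- injective
    rw [injective_iff_map_eq_one]
    intro g hg
    by_contra hg1
    have hv := hfix g hg1 (fun _ => 1) (by
      rw [hg]
      simp)
    exact one_ne_zero (congrFun hv ⟨0, hd⟩)
  · -- irreducible
    intro W' hW'
    by_cases hW0 : W' = ⊥
    · exact Or.inl hW0
    right
    let W₁ : Submodule K W := W'.map (b.equivFun.symm : (Fin d → K) →ₗ[K] W)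
    let W₂ : Submodule K (Fin n → K) := W₁.map W.subtype
    have hW₂ne : W₂ ≠ ⊥ := by
      intro h0
      obtain ⟨v, hv, hv0⟩ := Submodule.exists_mem_ne_zero_of_ne_bot hW0
      have h3 : ((b.equivFun.symm v : W) : Fin n → K) ∈ W₂ := ⟨b.equivFun.symm v, ⟨v, hv, rfl⟩, rfl⟩
      rw [h0, Submodule.mem_bot] at h3
      have h5 : b.equivFun.symm v = 0 := Subtype.ext h3
      have h6 := congrArg b.equivFun h5
      rw [LinearEquiv.apply_symm_apply, map_zero] at h6
      exact hv0 h6
    have hW₂inv : Inv W₂ := by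
      rintro g _ ⟨w, ⟨v, hv, rfl⟩, rfl⟩
      refine ⟨ψ g (b.equivFun.symm v), ?_, rfl⟩
      refine ⟨((ρ g : GL (Fin d) K) : Matrix (Fin d) (Fin d) K).mulVec v, hW' g v hv, ?_⟩
      rw [hρ]
      simp
    have hle := hmin W₂ hW₂ne hW₂inv
    -- dimension count
    have h1 : Module.finrank K W₂ = Module.finrank K W' := by
      have e1 : Module.finrank K W₂ = Module.finrank K W₁ := Submodule.finrank_map_subtype_eq W W₁
      have e2 : Module.finrank K W₁ = Module.finrank K W' := LinearEquiv.finrank_map_eq b.equivFun.symm W'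
      rw [e1, e2]
    have h2 : Module.finrank K W' ≤ d := by
      have := Submodule.finrank_le W'
      rwa [Module.finrank_fin_fun] at this
    apply Submodule.eq_top_of_finrank_eq
    rw [Module.finrank_fin_fun]
    omega

end Cfsg.Agent.H12.FpfLift
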