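import Mathlib
import Cfsg.Agent.Lib.H12.FpfLift4
import Cfsg.Agent.Lib.H24.UniBS
import Cfsg.Agent.Lib.H20.FrobSemi
import Cfsg.Agent.Lib.H20.Frob
import Cfsg.Agent.Lib.H20.Split1

/-! Direct products of Frobenius complements of coprime orders. -/

set_option autoImplicit false

namespace Cfsg.Agent.H12.FpfLift

open Matrix

/-- A nontrivial ring of finite type over `ℤ` maps to a finite field. -/
theorem exists_finite_field (U : Type) [CommRing U] [Nontrivial U] [Algebra.FiniteType ℤ U] :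
    ∃ (F : Type) (_ : Field F) (_ : Finite F), Nonempty (U →+* F) := by
  obtain ⟨m, hm⟩ := Ideal.exists_maximal U
  letI : Field (U ⧸ m) := Ideal.Quotient.field m
  haveI : Algebra.FiniteType ℤ (U ⧸ m) :=
    Algebra.FiniteType.of_surjective (Ideal.Quotient.mkₐ ℤ m) (Ideal.Quotient.mkₐ_surjective ℤ m)
  haveI : Finite (U ⧸ m) := Cfsg.Agent.H24.finite_of_finiteType_int (U ⧸ m)
  exact ⟨U ⧸ m, inferInstance, inferInstance, ⟨Ideal.Quotient.mk m⟩⟩

theorem exists_field_of_two (U₁ U₂ K : Type) [CommRing U₁] [CommRing U₂] [CommRing K] [Nontrivial K]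
    [Algebra.FiniteType ℤ U₁] [Algebra.FiniteType ℤ U₂] (f₁ : U₁ →+* K) (f₂ : U₂ →+* K) :
    ∃ (F : Type) (_ : Field F) (_ : Finite F), Nonempty (U₁ →+* F) ∧ Nonempty (U₂ →+* F) := by
  let g : TensorProduct ℤ U₁ U₂ →ₐ[ℤ] K :=
    Algebra.TensorProduct.productMap f₁.toIntAlgHom f₂.toIntAlgHom
  haveI : Nontrivial (TensorProduct ℤ U₁ U₂) := (g : TensorProduct ℤ U₁ U₂ →+* K).domain_nontrivial
  have hft : Algebra.FiniteType ℤ (TensorProduct ℤ U₁ U₂) :=
    Algebra.FiniteType.trans (S := U₁) inferInstance inferInstance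
  haveI : @Algebra.FiniteType ℤ (TensorProduct ℤ U₁ U₂) _ _ (Ring.toIntAlgebra _) := by
    have e : (Ring.toIntAlgebra (TensorProduct ℤ U₁ U₂)) =
        (inferInstance : Algebra ℤ (TensorProduct ℤ U₁ U₂)) := Subsingleton.elim _ _
    rw [e]
    exact hft
  obtain ⟨F, hF, hfin, ⟨h⟩⟩ := exists_finite_field (TensorProduct ℤ U₁ U₂)
  exact ⟨F, hF, hfin, ⟨h.comp (Algebra.TensorProduct.includeLeft : U₁ →ₐ[ℤ] _).toRingHom⟩,
    ⟨h.comp (Algebra.TensorProduct.includeRight : U₂ →ₐ[ℤ] _).toRingHom⟩⟩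

theorem finiteType_UR' (A : Type*) [Group A] [Finite A] (n : ℕ) :
    @Algebra.FiniteType ℤ (UR A n) _ _ (Ring.toIntAlgebra _) := by
  have e : (Ring.toIntAlgebra (UR A n)) = Ideal.Quotient.algebra ℤ := Subsingleton.elim _ _
  rw [e]
  exact finiteType_UR A n

/-- Common finite field for two fixed-point-free representations over `ℚ̄`. -/
theorem exists_common_field {A B : Type} [Group A] [Group B] [Finite A] [Finite B] {n m : ℕ}
    (hA : FpfOver A n (AlgebraicClosure ℚ)) (hB : FpfOver B m (AlgebraicClosure ℚ)) :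
    ∃ (F : Type) (_ : Field F) (_ : Finite F), FpfOver A n F ∧ FpfOver B m F := by
  classical
  obtain ⟨fA⟩ := exists_hom_of_fpf hA
  obtain ⟨fB⟩ := exists_hom_of_fpf hB
  haveI := finiteType_UR' A n
  haveI := finiteType_UR' B m
  obtain ⟨F, hF, hfin, ⟨g₁⟩, ⟨g₂⟩⟩ := exists_field_of_two _ _ _ fA fB
  exact ⟨F, hF, hfin, FpfOver.map g₁ (fpfOver_UR A n), FpfOver.map g₂ (fpfOver_UR B m)⟩

/-- The tensor product construction. -/
theorem tensor_complement {A B : Type} [Group A] [Group B] [Finite A] [Finite B] [Nontrivial A]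
    [Nontrivial B] (hcop : (Nat.card A).Coprime (Nat.card B)) {n m : ℕ} (hn : 0 < n) (hm : 0 < m)
    (hA : FpfOver A n (AlgebraicClosure ℚ)) (hB : FpfOver B m (AlgebraicClosure ℚ)) :
    ∃ (L : Type) (_ : Group L) (_ : Finite L) (K : Subgroup L),
      Cfsg.IsFrobeniusComplement K ∧ Nonempty (K ≃* (A × B)) := by
  classical
  obtain ⟨F, hF, hfin, ⟨φ, hφ⟩, ⟨χ, hχ⟩⟩ := exists_common_field hA hB
  letI := hF
  haveI : Nonempty (Fin n) := ⟨⟨0, hn⟩⟩
  haveI : Nonempty (Fin m) := ⟨⟨0, hm⟩⟩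
  haveI : Nontrivial (Matrix (Fin n) (Fin m) F) := by
    refine ⟨⟨0, Matrix.of fun _ _ => 1, fun h => ?_⟩⟩
    have h1 := congrFun (congrFun h ⟨0, hn⟩) ⟨0, hm⟩
    exact zero_ne_one h1
  let act : A × B → Matrix (Fin n) (Fin m) F → Matrix (Fin n) (Fin m) F :=
    fun x X => φ x.1 * X * χ x.2⁻¹
  have h1 : ∀ X, act 1 X = X := by
    intro X
    simp only [act, Prod.fst_one, Prod.snd_one, inv_one, map_one, Matrix.one_mul, Matrix.mul_one]
  have hmul : ∀ g h X, act (g * h) X = act g (act h X) := by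
    rintro ⟨a, b⟩ ⟨a', b'⟩ X
    simp only [act, Prod.mk_mul_mk, _root_.mul_inv_rev, map_mul, Matrix.mul_assoc]
  have hadd : ∀ g X Y, act g (X + Y) = act g X + act g Y := by
    rintro ⟨a, b⟩ X Y
    simp only [act, Matrix.mul_add, Matrix.add_mul]
  have hpow : ∀ (g : A × B) (j : ℕ) (X : Matrix (Fin n) (Fin m) F), act g X = X → act (g ^ j) X = X := by
    intro g j X hX
    induction j with
    | zero => rw [pow_zero, h1]
    | succ j ih => rw [pow_succ, hmul, hX, ih]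
  haveI : Nontrivial (A × B) := by
    obtain ⟨a, ha⟩ := exists_ne (1 : A)
    exact ⟨⟨(a, 1), (1, 1), fun h => ha (congrArg Prod.fst h)⟩⟩
  have hcopa : ∀ a : A, a ≠ 1 → a ^ Nat.card B ≠ 1 := by
    intro a ha h0
    have h2 : orderOf a ∣ Nat.card B := orderOf_dvd_of_pow_eq_one h0
    have h3 : orderOf a ∣ Nat.card A := orderOf_dvd_natCard a
    have h4 := Nat.dvd_gcd h3 h2
    rw [hcop.gcd_eq_one, Nat.dvd_one, orderOf_eq_one_iff] at h4
    exact ha h4
  have hcopb : ∀ b : B, b ≠ 1 → b ^ Nat.card A ≠ 1 := by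
    intro b hb h0
    have h2 : orderOf b ∣ Nat.card A := orderOf_dvd_of_pow_eq_one h0
    have h3 : orderOf b ∣ Nat.card B := orderOf_dvd_natCard b
    have h4 := Nat.dvd_gcd h2 h3
    rw [hcop.gcd_eq_one, Nat.dvd_one, orderOf_eq_one_iff] at h4
    exact hb h4
  obtain ⟨L, hL, hLf, K, hK, ⟨e⟩⟩ := Cfsg.Agent.H20.exists_frob_of_act act h1 hmul hadd (by
    rintro ⟨a, b⟩ hab X hX0 hX
    by_cases ha : a = 1
    · subst ha
      have hb : b ≠ 1 := by
        rintro rfl
        exact hab rfl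
      have h2 := hpow _ (Nat.card A) X hX
      have h3 : ((1 : A), b) ^ Nat.card A = (1, b ^ Nat.card A) := by
        simp [Prod.pow_mk]
      rw [h3] at h2
      have h4 : X * χ (b ^ Nat.card A)⁻¹ = X := by
        have : act (1, b ^ Nat.card A) X = φ 1 * X * χ (b ^ Nat.card A)⁻¹ := rfl
        rw [this, map_one, Matrix.one_mul] at h2
        exact h2
      have hc : (b ^ Nat.card A)⁻¹ ≠ 1 := by
        intro h0
        exact hcopb b hb (inv_eq_one.mp h0)
      obtain ⟨u, hu⟩ := (Matrix.isUnit_iff_isUnit_det _).mpr (hχ _ hc)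
      have h5 : X * (u : Matrix (Fin m) (Fin m) F) = 0 := by
        rw [hu, Matrix.mul_sub, h4, Matrix.mul_one, sub_self]
      apply hX0
      calc X = X * ((u : Matrix (Fin m) (Fin m) F) * ((u⁻¹ : (Matrix (Fin m) (Fin m) F)ˣ) : Matrix (Fin m) (Fin m) F)) := by
            rw [Units.mul_inv, Matrix.mul_one]
        _ = 0 := by rw [← Matrix.mul_assoc, h5, Matrix.zero_mul]
    · have h2 := hpow _ (Nat.card B) X hX
      have h3 : (a, b) ^ Nat.card B = (a ^ Nat.card B, 1) := by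
        simp [Prod.pow_mk, pow_card_eq_one']
      rw [h3] at h2
      have h4 : φ (a ^ Nat.card B) * X = X := by
        have : act (a ^ Nat.card B, 1) X = φ (a ^ Nat.card B) * X * χ 1⁻¹ := rfl
        rw [this, inv_one, map_one, Matrix.mul_one] at h2
        exact h2
      obtain ⟨u, hu⟩ := (Matrix.isUnit_iff_isUnit_det _).mpr (hφ _ (hcopa a ha))
      have h5 : (u : Matrix (Fin n) (Fin n) F) * X = 0 := by
        rw [hu, Matrix.sub_mul, h4, Matrix.one_mul, sub_self]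
      apply hX0
      calc X = (((u⁻¹ : (Matrix (Fin n) (Fin n) F)ˣ) : Matrix (Fin n) (Fin n) F) * (u : Matrix (Fin n) (Fin n) F)) * X := by
            rw [Units.inv_mul, Matrix.one_mul]
        _ = 0 := by rw [Matrix.mul_assoc, h5, Matrix.mul_zero])
  exact ⟨L, hL, hLf, K, hK, ⟨e⟩⟩

end Cfsg.Agent.H12.FpfLift
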