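import Mathlib
import Cfsg.Agent.Lib.H12.FpfLift5

/-! Subgroups of Frobenius complements and coprimality of factors. -/

set_option autoImplicit false

namespace Cfsg.Agent.H12.FpfLift

open scoped Pointwise

/-- A nontrivial subgroup of a Frobenius complement is a Frobenius complement. -/
theorem sub_complement {L : Type} [Group L] [Finite L] {H : Subgroup L}
    (hH : Cfsg.IsFrobeniusComplement H) {H₀ : Subgroup L} (hle : H₀ ≤ H) (hne : H₀ ≠ ⊥) :
    ∃ (L' : Type) (_ : Group L') (_ : Finite L') (K : Subgroup L'),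
      Cfsg.IsFrobeniusComplement K ∧ Nonempty (H₀ ≃* K) := by
  classical
  obtain ⟨N, -, hNn, hc, -, -⟩ := Cfsg.Agent.H26.FrobAct.frob_data H hH
  have hNne : N ≠ ⊥ := by
    rintro rfl
    apply hH.2.1
    have := hc.sup_eq_top
    rwa [bot_sup_eq] at this
  have hdisj : ∀ x, x ∈ N → x ∈ H → x = 1 := by
    intro x h1 h2
    have h3 : x ∈ N ⊓ H := ⟨h1, h2⟩
    rw [hc.disjoint.eq_bot] at h3
    exact Subgroup.mem_bot.mp h3
  let L₀ : Subgroup L := N ⊔ H₀
  have hH₀L : H₀ ≤ L₀ := le_sup_right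
  have hNL : N ≤ L₀ := le_sup_left
  let K : Subgroup L₀ := H₀.subgroupOf L₀
  have hKmem : ∀ g : L₀, g ∈ K ↔ (g : L) ∈ H₀ := fun g => Subgroup.mem_subgroupOf
  refine ⟨L₀, inferInstance, inferInstance, K, ⟨?_, ?_, ?_⟩,
    ⟨(Subgroup.subgroupOfEquivOfLe hH₀L).symm⟩⟩
  · intro h0
    obtain ⟨x, hx, hx1⟩ := (Subgroup.ne_bot_iff_exists_ne_one ..).mp hne |>.elim (fun x hx => (⟨x.1, x.2, fun h => hx (Subtype.ext h)⟩ : ∃ x, x ∈ H₀ ∧ x ≠ 1))
    have h1 : (⟨x, hH₀L hx⟩ : L₀) ∈ K := (hKmem _).mpr hx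
    rw [h0, Subgroup.mem_bot] at h1
    exact hx1 (congrArg Subtype.val h1)
  · intro h0
    obtain ⟨x, hx, hx1⟩ := (Subgroup.ne_bot_iff_exists_ne_one ..).mp hNne |>.elim (fun x hx => (⟨x.1, x.2, fun h => hx (Subtype.ext h)⟩ : ∃ x, x ∈ N ∧ x ≠ 1))
    have h1 : (⟨x, hNL hx⟩ : L₀) ∈ K := by rw [h0]; trivial
    exact hx1 (hdisj x hx (hle ((hKmem _).mp h1)))
  · intro g hg
    have hgH : (g : L) ∉ H := by
      intro hgH
      have hg2 : (g : L) ∈ ((N ⊔ H₀ : Subgroup L) : Set L) := g.2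
      rw [Subgroup.normal_mul] at hg2
      obtain ⟨n, hn, h, hh, e⟩ := Set.mem_mul.mp hg2
      have hnH : n ∈ H := by
        have : n = (g : L) * h⁻¹ := by rw [← e]; group
        rw [this]
        exact H.mul_mem hgH (H.inv_mem (hle hh))
      have hn1 := hdisj n hn hnH
      apply hg
      rw [hKmem, ← e, hn1, one_mul]
      exact hh
    have hb := hH.2.2 (g : L) hgH
    rw [eq_bot_iff]
    rintro x ⟨hx1, hx2⟩
    rw [Subgroup.mem_bot]
    have hx3 : (x : L) ∈ H := hle ((hKmem x).mp hx1)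
    have hx4 : g⁻¹ * x * g ∈ K := (Cfsg.Agent.H20.mem_conj_smul_iff K g x).mp hx2
    have hx5 : (g : L)⁻¹ * (x : L) * (g : L) ∈ H := hle ((hKmem _).mp hx4)
    have hx6 : (x : L) ∈ H ⊓ (MulAut.conj (g : L) • H) :=
      ⟨hx3, (Cfsg.Agent.H20.mem_conj_smul_iff H _ _).mpr hx5⟩
    rw [hb, Subgroup.mem_bot] at hx6
    exact Subtype.ext hx6

/-- Order-`ℓ` fixed-point-free automorphisms force coprimality. -/
theorem coprime_of_fpf {V : Type*} [Group V] [Finite V] (α : MulAut V) {ℓ : ℕ} [Fact ℓ.Prime]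
    (hα : α ^ ℓ = 1) (hfree : ∀ v, α v = v → v = 1) : (Nat.card V).Coprime ℓ := by
  classical
  haveI : Fintype V := Fintype.ofFinite V
  have hℓ : ℓ.Prime := Fact.out
  let σ : Equiv.Perm V := MulAut.toPerm V α
  have hσ : σ ^ ℓ ^ 1 = 1 := by
    rw [pow_one, ← map_pow, hα, map_one]
  have hm := Equiv.Perm.card_compl_support_modEq hσ
  have hfix : (Equiv.Perm.support σ)ᶜ = {1} := by
    ext v
    rw [Finset.mem_compl, Equiv.Perm.mem_support, Finset.mem_singleton, not_not]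
    constructor
    · exact hfree v
    · rintro rfl
      exact map_one α
  rw [hfix, Finset.card_singleton] at hm
  rw [Nat.card_eq_fintype_card, Nat.coprime_comm, hℓ.coprime_iff_not_dvd]
  intro hd
  have h2 : Fintype.card V ≡ 0 [MOD ℓ] := (Nat.modEq_zero_iff_dvd).mpr hd
  have h3 := (hm.trans h2)
  have h4 : ℓ ∣ 1 := (Nat.modEq_zero_iff_dvd).mp h3
  exact hℓ.one_lt.ne' (Nat.dvd_one.mp h4)

/-- A Frobenius complement contains no `C_ℓ × C_ℓ`. -/
theorem coprime_factors {L : Type*} [Group L] [Finite L] {H : Subgroup L}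
    (hH : Cfsg.IsFrobeniusComplement H) {A B : Type*} [Group A] [Group B] [Finite A] [Finite B]
    (e : (A × B) ≃* H) : (Nat.card A).Coprime (Nat.card B) := by
  classical
  by_contra hnc
  obtain ⟨ℓ, hℓ, h1, h2⟩ := Nat.Prime.not_coprime_iff_dvd.mp hnc
  haveI : Fact ℓ.Prime := ⟨hℓ⟩
  obtain ⟨a, ha⟩ := exists_prime_orderOf_dvd_card' ℓ h1
  obtain ⟨b, hb⟩ := exists_prime_orderOf_dvd_card' ℓ h2
  obtain ⟨p, W, hp, hWn, hW1, hWab, hWexp, hWf⟩ := exists_section H hH
  haveI := hWn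
  let r : A × B →* L := H.subtype.comp e.toMonoidHom
  have hr : Function.Injective r := by
    intro x y hxy
    exact e.injective (Subtype.ext hxy)
  have hrH : ∀ x, r x ∈ H := fun x => (e x).2
  let ψ : L →* MulAut W := MulAut.conjNormal
  have hfix : ∀ (x : A × B), x ≠ 1 → ∀ v : W, ψ (r x) v = v → v = 1 := by
    intro x hx v hv
    have hv2 : r x * (v : L) * (r x)⁻¹ = v := congrArg Subtype.val hv
    have hrx : r x ≠ 1 := by
      intro h0
      apply hx
      apply hr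
      rw [h0, map_one]
    apply Subtype.ext
    apply hWf _ (hrH x) hrx _ v.2
    calc (v : L) * r x = r x * (v : L) * (r x)⁻¹ * r x := by rw [hv2]
      _ = r x * (v : L) := by group
  let α : MulAut W := ψ (r (a, 1))
  let β : MulAut W := ψ (r (1, b))
  have ha1 : a ≠ 1 := by
    rintro rfl
    rw [orderOf_one] at ha
    exact hℓ.one_lt.ne ha
  have hb1 : b ≠ 1 := by
    rintro rfl
    rw [orderOf_one] at hb
    exact hℓ.one_lt.ne hb
  have hαp : α ^ ℓ = 1 := by
    change (ψ (r (a, 1))) ^ ℓ = 1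
    rw [← map_pow, ← map_pow]
    have : ((a, 1) : A × B) ^ ℓ = 1 := by
      simp [Prod.pow_mk, ← ha, pow_orderOf_eq_one]
    rw [this, map_one, map_one]
  have hβp : β ^ ℓ = 1 := by
    change (ψ (r (1, b))) ^ ℓ = 1
    rw [← map_pow, ← map_pow]
    have : ((1, b) : A × B) ^ ℓ = 1 := by
      simp [Prod.pow_mk, ← hb, pow_orderOf_eq_one]
    rw [this, map_one, map_one]
  have hcomm : α * β = β * α := by
    change ψ (r (a, 1)) * ψ (r (1, b)) = ψ (r (1, b)) * ψ (r (a, 1))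
    rw [← map_mul, ← map_mul, ← map_mul, ← map_mul]
    simp
  have hαfree : ∀ v, α v = v → v = 1 := hfix (a, 1) (fun h => ha1 (congrArg Prod.fst h))
  have hβfree : ∀ v, β v = v → v = 1 := hfix (1, b) (fun h => hb1 (congrArg Prod.snd h))
  have hcop := coprime_of_fpf α hαp hαfree
  have hall := Cfsg.Agent.H20.two_gen_abelian (V := W)
    (fun x y => Subtype.ext (hWab x x.2 y y.2)) hℓ hcop α β hcomm hαp hβp (by
      intro j v hv
      have e1 : α * β ^ j = ψ (r ((a, 1) * (1, b) ^ j)) := by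
        change ψ (r (a, 1)) * ψ (r (1, b)) ^ j = _
        rw [map_mul, map_mul, map_pow, map_pow]
      rw [e1] at hv
      refine hfix _ ?_ v hv
      intro h0
      apply ha1
      have := congrArg Prod.fst h0
      simpa using this)
  apply hW1
  rw [eq_bot_iff]
  intro x hx
  have := hβfree ⟨x, hx⟩ (hall _)
  exact Subgroup.mem_bot.mpr (congrArg Subtype.val this)

end Cfsg.Agent.H12.FpfLift
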