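import Mathlib
import Cfsg.Prelude.Def_Local
import Cfsg.Agent.Lib.H01.SZ2
import Cfsg.Agent.Lib.H08.HallHigman
import Cfsg.Agent.Lib.H06.OddPGroup
import Cfsg.Agent.Lib.H06.FittingHall
import Cfsg.Agent.Lib.H06.Layer2
import Cfsg.Agent.Lib.H18.PLen
import Cfsg.Agent.Lib.H03.PSolv
import Cfsg.Agent.Lib.H12.Core

/-! Gaschütz–Yen: `Aut(G)` transitive on subgroups of order `p` (p odd) forces `p`-length one. -/

set_option autoImplicit false
set_option linter.unusedSectionVars false

namespace Cfsg.Agent.H12.GY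

open Subgroup Cfsg
open scoped Pointwise

universe u
variable {G : Type u} [Group G] [Finite G]

/-- Complement of `U` in `L` with the Frattini property. -/
theorem exists_complement_frattini {p : ℕ} [Fact p.Prime] (U L : Subgroup G) [hUn : U.Normal]
    [hLn : L.Normal] (hUL : U ≤ L) (hU : IsPGroup p U) (hc : (U.relIndex L).Coprime p) :
    ∃ K : Subgroup G, K ≤ L ∧ (Nat.card K).Coprime p ∧ K ⊓ U = ⊥ ∧
      (∀ l ∈ L, ∃ u ∈ U, ∃ k ∈ K, l = u * k) ∧
      ∀ y : G, ∃ u ∈ U, ∀ k ∈ K, (u⁻¹ * y) * k * (u⁻¹ * y)⁻¹ ∈ K := by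
  classical
  set N : Subgroup L := U.subgroupOf L with hN
  haveI hNn : N.Normal := inferInstance
  have hcardN : Nat.card N = Nat.card U := Nat.card_congr (subgroupOfEquivOfLe hUL).toEquiv
  obtain ⟨n, hn⟩ := IsPGroup.iff_card.mp hU
  have hidx : N.index = U.relIndex L := rfl
  have hcop : (Nat.card N).Coprime N.index := by
    rw [hcardN, hn, hidx]
    exact Nat.Coprime.pow_left _ hc.symm
  obtain ⟨H, hH⟩ := Subgroup.exists_right_complement'_of_coprime hcop
  have hHcard : Nat.card H = U.relIndex L := by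
    rw [← hidx]; exact hH.symm.index_eq_card.symm
  have hdec : ∀ g : L, ∃ a ∈ N, ∃ b ∈ H, g = a * b := by
    intro g
    obtain ⟨⟨a, b⟩, hab⟩ := ((Subgroup.isComplement'_def.mp hH).2) g
    exact ⟨a.1, a.2, b.1, b.2, hab.symm⟩
  set K : Subgroup G := H.map L.subtype with hK
  have hKcard : Nat.card K = Nat.card H :=
    Nat.card_congr (H.equivMapOfInjective L.subtype L.subtype_injective).toEquiv.symm
  have hKL : K ≤ L := by
    rintro _ ⟨x, -, rfl⟩; exact x.2
  refine ⟨K, hKL, ?_, ?_, ?_, ?_⟩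
  · rw [hKcard, hHcard]; exact hc
  · rw [eq_bot_iff]
    rintro z ⟨hz1, hz2⟩
    obtain ⟨h, hh, rfl⟩ := hz1
    have h1 : h ∈ N := by rw [hN, Subgroup.mem_subgroupOf]; exact hz2
    have h2 := hH.disjoint.le_bot ⟨h1, hh⟩
    rw [Subgroup.mem_bot] at h2
    simp [h2]
  · intro l hl
    obtain ⟨a, ha, b, hb, hab⟩ := hdec ⟨l, hl⟩
    refine ⟨a, ?_, b, ⟨b, hb, rfl⟩, ?_⟩
    · rwa [hN, Subgroup.mem_subgroupOf] at ha
    · have := congrArg Subtype.val hab
      simpa using this
  · intro y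
    set K' : Subgroup G := MulAut.conj y • K with hK'
    have hK'L : K' ≤ L := by
      intro z hz
      rw [hK', Cfsg.Agent.H01.mem_conj_smul_iff] at hz
      have h3 := hLn.conj_mem _ (hKL hz) y
      simpa [mul_assoc] using h3
    set H' : Subgroup L := K'.subgroupOf L with hH'
    have hH'card : Nat.card H' = Nat.card H := by
      rw [hH', Nat.card_congr (subgroupOfEquivOfLe hK'L).toEquiv, hK',
        Cfsg.Agent.H01.card_conj_smul, hKcard]
    have hc1 : N.IsComplement' H' := by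
      apply Subgroup.isComplement'_of_coprime
      · rw [hH'card]; exact hH.card_mul
      · rw [hH'card, ← hH.symm.index_eq_card]; exact hcop
    have hsolv : Group.IsSolvable N := by
      have hpN : IsPGroup p N := IsPGroup.of_card (n := n) (by rw [hcardN, hn])
      haveI := hpN.isNilpotent
      infer_instance
    obtain ⟨g, hg⟩ := Cfsg.Agent.H01.sz_conj N hcop H H' hH hc1 (Or.inl hsolv)
    obtain ⟨a, ha, b, hb, hab⟩ := hdec g
    have haU : (a : G) ∈ U := by rwa [hN, Subgroup.mem_subgroupOf] at ha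
    refine ⟨a, haU, ?_⟩
    intro k hk
    -- `a⁻¹ y k y⁻¹ a ∈ K`
    have hyk : y * k * y⁻¹ ∈ K' := by
      rw [hK']; exact Cfsg.Agent.H01.conj_mem_conj_smul hk
    have h4 : (⟨y * k * y⁻¹, hK'L hyk⟩ : L) ∈ H' := by
      rw [hH', Subgroup.mem_subgroupOf]; exact hyk
    rw [← hg, Cfsg.Agent.H01.mem_conj_smul_iff] at h4
    have h5 : g⁻¹ * (⟨y * k * y⁻¹, hK'L hyk⟩ : L) * g ∈ H := h4
    have h6 : a⁻¹ * (⟨y * k * y⁻¹, hK'L hyk⟩ : L) * a ∈ H := by
      have h7 : a⁻¹ * (⟨y * k * y⁻¹, hK'L hyk⟩ : L) * a =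
          b * (g⁻¹ * (⟨y * k * y⁻¹, hK'L hyk⟩ : L) * g) * b⁻¹ := by
        rw [hab]; group
      rw [h7]
      exact H.mul_mem (H.mul_mem hb h5) (H.inv_mem hb)
    have h8 : ((a⁻¹ * (⟨y * k * y⁻¹, hK'L hyk⟩ : L) * a : L) : G) ∈ K := ⟨_, h6, rfl⟩
    have h9 : ((a⁻¹ * (⟨y * k * y⁻¹, hK'L hyk⟩ : L) * a : L) : G) =
        ((a : G)⁻¹ * y) * k * ((a : G)⁻¹ * y)⁻¹ := by
      simp only [Subgroup.coe_mul, Subgroup.coe_inv]
      group
    rwa [h9] at h8

theorem char_inf {D E : Subgroup G} (hD : D.Characteristic) (hE : E.Characteristic) :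
    (D ⊓ E).Characteristic := by
  rw [Subgroup.characteristic_iff_comap_eq]
  intro α
  rw [Subgroup.comap_inf, Subgroup.characteristic_iff_comap_eq.mp hD α,
    Subgroup.characteristic_iff_comap_eq.mp hE α]

theorem char_centralizer {E : Subgroup G} (hE : E.Characteristic) :
    (centralizer (E : Set G)).Characteristic := by
  rw [Subgroup.characteristic_iff_comap_le]
  intro α y hy
  rw [Subgroup.mem_comap, Subgroup.mem_centralizer_iff] at hy
  rw [Subgroup.mem_centralizer_iff]
  intro w hw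
  have h1 : α w ∈ E := by
    have := Subgroup.characteristic_iff_comap_eq.mp hE α.symm
    have hw2 : w ∈ E.comap α.symm.toMonoidHom := by rw [this]; exact hw
    have h3 := Subgroup.characteristic_iff_comap_eq.mp hE α
    have hw3 : w ∈ E.comap α.toMonoidHom := by rw [h3]; exact hw
    exact hw3
  have h2 := hy (α w) h1
  apply α.injective
  rw [map_mul, map_mul]
  exact h2

theorem pCore_quotient_bot {p : ℕ} [Fact p.Prime] (U : Subgroup G) [U.Normal] (hU : U = pCore p G) :
    pCore p (G ⧸ U) = ⊥ := by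
  have hp : IsPGroup p U := by rw [hU]; exact Cfsg.Agent.H01.pCore_isPGroup p
  rw [eq_bot_iff]
  refine sSup_le ?_
  rintro N ⟨hNn, hNp⟩
  have h1 : IsPGroup p (N.comap (QuotientGroup.mk' U)) := by
    intro y
    obtain ⟨a, ha⟩ := hNp ⟨QuotientGroup.mk' U y.1, y.2⟩
    have h2 : (QuotientGroup.mk' U y.1) ^ p ^ a = 1 := by
      have := congrArg Subtype.val ha
      simpa using this
    rw [← map_pow, QuotientGroup.mk'_apply, QuotientGroup.eq_one_iff] at h2
    obtain ⟨b, hb⟩ := hp ⟨_, h2⟩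
    refine ⟨a + b, ?_⟩
    apply Subtype.ext
    have h3 := congrArg Subtype.val hb
    simp only [Subgroup.coe_pow, Subgroup.coe_one] at h3 ⊢
    rw [pow_add, pow_mul, h3]
  have h4 : N.comap (QuotientGroup.mk' U) ≤ pCore p G :=
    Cfsg.Agent.H01.le_pCore (Subgroup.Normal.comap hNn _) h1
  intro z hz
  obtain ⟨y, rfl⟩ := QuotientGroup.mk'_surjective U z
  have h5 : y ∈ pCore p G := h4 hz
  rw [← hU] at h5
  rw [Subgroup.mem_bot]
  exact (QuotientGroup.eq_one_iff y).mpr h5

/-- Main step with `O_{p'}(G) = 1`: every `p`-element lies in `O_p(G)`. -/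
theorem main {p : ℕ} [Fact p.Prime] (hp : p ≠ 2) (hsol : IsPSolvable p G)
    (hred : pPrimeCore p G = ⊥)
    (htrans : ∀ U V : Subgroup G, Nat.card U = p → Nat.card V = p →
      ∃ a : MulAut G, U.map a.toMonoidHom = V)
    (x : G) (hx : ∃ t : ℕ, x ^ p ^ t = 1) : x ∈ pCore p G := by
  classical
  have hpp : p.Prime := Fact.out
  set U := pCore p G with hU
  haveI hUn : U.Normal := Cfsg.Agent.H01.pCore_normal p
  have hUp : IsPGroup p U := Cfsg.Agent.H01.pCore_isPGroup p
  have hUc : U.Characteristic := H12.pCore_characteristic G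
  have hHH : centralizer (U : Set G) ≤ U := Cfsg.Agent.H08.hall_higman hsol hred
  -- trivial `O_p`
  by_cases hUbot : U = ⊥
  · apply hHH
    rw [hUbot]
    simp [Subgroup.mem_centralizer_iff]
  -- transitivity pushes order-`p` elements into any characteristic subgroup with one
  have hpush : ∀ (D : Subgroup G), D.Characteristic → (∃ a ∈ D, orderOf a = p) →
      ∀ y : G, orderOf y = p → y ∈ D := by
    rintro D hD ⟨a, ha, hao⟩ y hy
    obtain ⟨α, hα⟩ := htrans (zpowers a) (zpowers y) (by rw [Nat.card_zpowers, hao])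
      (by rw [Nat.card_zpowers, hy])
    have h1 : y ∈ (zpowers a).map α.toMonoidHom := by
      rw [hα]; exact mem_zpowers y
    obtain ⟨b, hb, rfl⟩ := h1
    have hbD : b ∈ D := (zpowers_le.mpr ha) hb
    have h2 := (Subgroup.characteristic_iff_map_eq.mp hD α)
    rw [← h2]
    exact ⟨b, hbD, rfl⟩
  -- every element of order `p` is in `Z(U)`
  set ZU : Subgroup G := U ⊓ centralizer (U : Set G) with hZU
  have hZUc : ZU.Characteristic := char_inf hUc (char_centralizer hUc)
  have hZUorder : ∀ y : G, orderOf y = p → y ∈ ZU := by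
    apply hpush ZU hZUc
    have hnt : Nontrivial U := Subgroup.nontrivial_iff_ne_bot _ |>.mpr hUbot
    haveI : Nontrivial (Subgroup.center U) := hUp.center_nontrivial
    obtain ⟨c, hc⟩ := exists_ne (1 : Subgroup.center U)
    have hcp : IsPGroup p (Subgroup.center U) := hUp.to_subgroup _
    obtain ⟨k, hk⟩ := IsPGroup.iff_orderOf.mp hcp c
    have hk0 : k ≠ 0 := by
      rintro rfl
      rw [pow_zero, orderOf_eq_one_iff] at hk
      exact hc hk
    have hdvd : p ∣ orderOf c := by rw [hk]; exact dvd_pow_self p hk0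
    have hord := orderOf_pow_orderOf_div (x := c) (n := p) (orderOf_pos c).ne' hdvd
    set c' := c ^ (orderOf c / p) with hc'
    refine ⟨((c' : U) : G), ?_, ?_⟩
    · refine ⟨(c' : U).2, Subgroup.mem_centralizer_iff.mpr ?_⟩
      intro w hw
      have h3 := (Subgroup.mem_center_iff.mp c'.2) ⟨w, hw⟩
      exact congrArg Subtype.val h3
    · rw [Subgroup.orderOf_coe, Subgroup.orderOf_coe, hord]
  -- the subgroup `L = O_{p,p'}(G)`
  set L : Subgroup G := (pPrimeCore p (G ⧸ U)).comap (QuotientGroup.mk' U) with hL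
  haveI hLn : L.Normal := Subgroup.Normal.comap inferInstance _
  have hUL : U ≤ L := by
    intro u hu
    rw [hL, Subgroup.mem_comap]
    have : QuotientGroup.mk' U u = 1 := (QuotientGroup.eq_one_iff u).mpr hu
    rw [this]
    exact one_mem _
  have hLc : L.Characteristic := by
    rw [Subgroup.characteristic_iff_map_le]
    rintro α _ ⟨y, hy, rfl⟩
    have hy' : QuotientGroup.mk' U y ∈ pPrimeCore p (G ⧸ U) := hy
    change QuotientGroup.mk' U (α y) ∈ pPrimeCore p (G ⧸ U)
    set e : (G ⧸ U) ≃* (G ⧸ U) := QuotientGroup.congr U U α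
      (Subgroup.characteristic_iff_map_eq.mp hUc α) with he
    have h1 := Cfsg.Agent.H06.map_pPrimeCore_equiv e p
    rw [← h1]
    exact ⟨QuotientGroup.mk' U y, hy', rfl⟩
  have hc : (U.relIndex L).Coprime p := by
    have h1 : U = (⊥ : Subgroup (G ⧸ U)).comap (QuotientGroup.mk' U) := by
      ext u
      simp [QuotientGroup.eq_one_iff]
    have h2 : U.relIndex L = Nat.card (pPrimeCore p (G ⧸ U)) := by
      conv_lhs => rw [h1]
      rw [Subgroup.relIndex_comap, hL,
        Subgroup.map_comap_eq_self_of_surjective (QuotientGroup.mk'_surjective U),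
        Subgroup.relIndex_bot_left]
    rw [h2]
    exact Cfsg.Agent.H06.coprime_card_pPrimeCore p
  obtain ⟨K, hKL, hKc, hKU, hdec, hfr⟩ := exists_complement_frattini U L hUL hUp hc
  by_cases hcase : ∃ a ∈ U ⊓ centralizer (L : Set G), orderOf a = p
  · -- `K` centralizes `Ω₁(U)`, hence `K = 1`
    have hall := hpush _ (char_inf hUc (char_centralizer hLc)) hcase
    have hK1 : ∀ k ∈ K, k = 1 := by
      intro k hk
      have hcop : (orderOf k).Coprime p := by
        have h1 : orderOf (⟨k, hk⟩ : K) ∣ Nat.card K := orderOf_dvd_natCard _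
        rw [Subgroup.orderOf_mk] at h1
        exact Nat.Coprime.coprime_dvd_left h1 hKc
      have h2 := Cfsg.Agent.H06.centralizes_of_fix_omega hp hcop _ U rfl hUp
        (fun z hz => hUn.conj_mem z hz k) (by
          intro z hz hz1
          by_cases hz0 : z = 1
          · simp [hz0]
          have hord : orderOf z = p := orderOf_eq_prime hz1 hz0
          have h3 := (hall z hord).2
          exact (Subgroup.mem_centralizer_iff.mp h3 k (hKL hk)))
      have h4 : k ∈ centralizer (U : Set G) := by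
        rw [Subgroup.mem_centralizer_iff]
        intro z hz
        exact (h2 z hz).symm
      have h5 : k ∈ K ⊓ U := ⟨hk, hHH h4⟩
      rw [hKU] at h5
      simpa using h5
    have hLU : L ≤ U := by
      intro l hl
      obtain ⟨u, hu, k, hk, rfl⟩ := hdec l hl
      rw [hK1 k hk, mul_one]
      exact hu
    have hbot1 : pPrimeCore p (G ⧸ U) = ⊥ := by
      rw [eq_bot_iff]
      intro z hz
      obtain ⟨y, rfl⟩ := QuotientGroup.mk'_surjective U z
      have h1 : y ∈ L := by rw [hL, Subgroup.mem_comap]; exact hz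
      rw [Subgroup.mem_bot]
      exact (QuotientGroup.eq_one_iff y).mpr (hLU h1)
    have hbot2 : pCore p (G ⧸ U) = ⊥ := pCore_quotient_bot U rfl
    have hHH2 := Cfsg.Agent.H08.hall_higman
      (H03.isPSolvable_of_surjective (QuotientGroup.mk'_surjective U) hsol) hbot1
    rw [hbot2] at hHH2
    have h6 : QuotientGroup.mk' U x ∈ (⊥ : Subgroup (G ⧸ U)) := by
      apply hHH2
      simp [Subgroup.mem_centralizer_iff]
    rw [Subgroup.mem_bot] at h6
    exact (QuotientGroup.eq_one_iff x).mp h6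
  · -- `x` is in `U` up to an element normalizing `K`, which must be trivial
    obtain ⟨u, hu, hnorm⟩ := hfr x
    set w := u⁻¹ * x with hw
    have hxz : IsPGroup p (zpowers x) := by
      obtain ⟨t, ht⟩ := hx
      obtain ⟨k, -, hk⟩ := (Nat.dvd_prime_pow hpp).mp (orderOf_dvd_of_pow_eq_one ht)
      exact IsPGroup.of_card (n := k) (by rw [Nat.card_zpowers, hk])
    obtain ⟨Q, hQ⟩ := hxz.exists_le_sylow
    have hUQ : U ≤ Q := Cfsg.Agent.H01.pCore_le_sylow p Q
    have hwQ : w ∈ (Q : Subgroup G) :=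
      Subgroup.mul_mem _ (Subgroup.inv_mem _ (hUQ hu)) (hQ (mem_zpowers x))
    by_cases hw1 : w = 1
    · have : x = u := by
        rw [hw] at hw1
        exact (inv_mul_eq_one.mp hw1).symm
      rw [this]; exact hu
    exfalso
    obtain ⟨k, hk⟩ := IsPGroup.iff_orderOf.mp Q.isPGroup' (⟨w, hwQ⟩ : Q)
    rw [Subgroup.orderOf_mk] at hk
    have hk0 : k ≠ 0 := by
      rintro rfl
      rw [pow_zero, orderOf_eq_one_iff] at hk
      exact hw1 hk
    have hdvd : p ∣ orderOf w := by rw [hk]; exact dvd_pow_self p hk0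
    have hord := orderOf_pow_orderOf_div (x := w) (n := p) (orderOf_pos w).ne' hdvd
    set a := w ^ (orderOf w / p) with ha
    have haZ := hZUorder a hord
    have hnormw : ∀ n : ℕ, ∀ k ∈ K, w ^ n * k * (w ^ n)⁻¹ ∈ K := by
      intro n
      induction n with
      | zero => intro k hk; simpa using hk
      | succ n ih =>
        intro k hk
        have h1 := hnorm k hk
        have h2 := ih _ h1
        have h3 : w ^ (n + 1) * k * (w ^ (n + 1))⁻¹ = w ^ n * (w * k * w⁻¹) * (w ^ n)⁻¹ := by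
          rw [pow_succ]; group
        rw [h3]; exact h2
    apply hcase
    refine ⟨a, ⟨haZ.1, Subgroup.mem_centralizer_iff.mpr ?_⟩, hord⟩
    intro l hl
    obtain ⟨v, hv, k, hk, rfl⟩ := hdec l hl
    have h1 : a * k * a⁻¹ * k⁻¹ ∈ K :=
      K.mul_mem (hnormw _ k hk) (K.inv_mem hk)
    have h2 : a * k * a⁻¹ * k⁻¹ ∈ U := by
      have h3 : a * k * a⁻¹ * k⁻¹ = a * (k * a⁻¹ * k⁻¹) := by group
      rw [h3]
      exact U.mul_mem haZ.1 (hUn.conj_mem _ (U.inv_mem haZ.1) k)
    have h4 : a * k * a⁻¹ * k⁻¹ ∈ K ⊓ U := ⟨h1, h2⟩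
    rw [hKU, Subgroup.mem_bot] at h4
    have h5 : a * k = k * a := by
      have h6 : a * k * a⁻¹ = k := by
        rwa [mul_inv_eq_one] at h4
      rw [mul_inv_eq_iff_eq_mul] at h6
      exact h6
    have h7 := Subgroup.mem_centralizer_iff.mp haZ.2 v hv
    calc v * k * a = v * (k * a) := by group
      _ = v * (a * k) := by rw [h5]
      _ = (v * a) * k := by group
      _ = (a * v) * k := by rw [h7]
      _ = a * (v * k) := by group

end Cfsg.Agent.H12.GY

namespace Cfsg.Agent.H12.GY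

open Subgroup Cfsg

universe u
variable {G : Type u} [Group G] [Finite G]

/-- `x^m` is a `p`-element for the `p'`-part `m` of the order. -/
theorem pow_ordCompl_isP {p : ℕ} [Fact p.Prime] (x : G) :
    (ordCompl[p] (orderOf x)).Coprime p ∧ ∃ t : ℕ, (x ^ (ordCompl[p] (orderOf x))) ^ p ^ t = 1 := by
  have hpp : p.Prime := Fact.out
  have hn : orderOf x ≠ 0 := (orderOf_pos x).ne'
  refine ⟨(Nat.coprime_ordCompl hpp hn).symm, (orderOf x).factorization p, ?_⟩
  rw [← pow_mul, mul_comm, Nat.ordProj_mul_ordCompl_eq_self, pow_orderOf_eq_one]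

/-- Lifting subgroups of order `p` over a `p'`-kernel. -/
theorem lift_order_p {p : ℕ} [Fact p.Prime] (K : Subgroup G) [K.Normal] (hK : (Nat.card K).Coprime p)
    (B : Subgroup (G ⧸ K)) (hB : Nat.card B = p) :
    ∃ A : Subgroup G, Nat.card A = p ∧ A.map (QuotientGroup.mk' K) = B := by
  classical
  have hpp : p.Prime := Fact.out
  haveI : Fact (Nat.card B).Prime := by rw [hB]; exact ⟨hpp⟩
  haveI : Nontrivial B := by
    apply Finite.one_lt_card_iff_nontrivial.mp
    rw [hB]; exact hpp.one_lt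
  obtain ⟨b, hb⟩ := exists_ne (1 : B)
  obtain ⟨y, hy⟩ := QuotientGroup.mk'_surjective K (b : G ⧸ K)
  obtain ⟨hm, t, ht⟩ := pow_ordCompl_isP (p := p) y
  set m := ordCompl[p] (orderOf y) with hmdef
  set z := y ^ m with hz
  have hbp : (b : G ⧸ K) ^ p = 1 := by
    have h1 := pow_card_eq_one' (x := b)
    rw [hB] at h1
    have := congrArg Subtype.val h1
    simpa using this
  have hzimg : QuotientGroup.mk' K z = (b : G ⧸ K) ^ m := by
    rw [hz, map_pow, hy]
  have hbne : (b : G ⧸ K) ≠ 1 := by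
    intro h; exact hb (Subtype.ext h)
  have hzimg1 : (b : G ⧸ K) ^ m ≠ 1 := by
    intro h
    have h1 : orderOf (b : G ⧸ K) = p := orderOf_eq_prime hbp hbne
    have h2 : p ∣ m := by rw [← h1]; exact orderOf_dvd_of_pow_eq_one h
    have h3 := Nat.Coprime.eq_one_of_dvd hm.symm h2
    exact hpp.one_lt.ne' h3
  -- `z^p = 1`
  have hzp1 : z ^ p ∈ K := by
    rw [← QuotientGroup.eq_one_iff, ← QuotientGroup.mk'_apply, map_pow, hzimg, ← pow_mul,
      mul_comm, pow_mul, hbp, one_pow]
  have hzp2 : z ^ p = 1 := by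
    have h1 : orderOf (⟨z ^ p, hzp1⟩ : K) ∣ Nat.card K := orderOf_dvd_natCard _
    rw [Subgroup.orderOf_mk] at h1
    have h2 : orderOf (z ^ p) ∣ p ^ t := by
      apply orderOf_dvd_of_pow_eq_one
      rw [← pow_mul, mul_comm, pow_mul, ht, one_pow]
    have h3 : (Nat.card K).Coprime (p ^ t) := Nat.Coprime.pow_right _ hK
    have h4 := Nat.eq_one_of_dvd_coprimes h3 h1 h2
    exact orderOf_eq_one_iff.mp h4
  have hz1 : z ≠ 1 := by
    intro h
    rw [h, map_one] at hzimg
    exact hzimg1 hzimg.symm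
  have hzo : orderOf z = p := orderOf_eq_prime hzp2 hz1
  refine ⟨zpowers z, by rw [Nat.card_zpowers, hzo], ?_⟩
  -- images
  have hle : (zpowers z).map (QuotientGroup.mk' K) ≤ B := by
    rw [Subgroup.map_le_iff_le_comap, zpowers_le, Subgroup.mem_comap, hzimg]
    exact B.pow_mem b.2 m
  apply Subgroup.eq_of_le_of_card_ge hle
  rw [hB]
  have h5 : (QuotientGroup.mk' K z) ∈ (zpowers z).map (QuotientGroup.mk' K) :=
    ⟨z, mem_zpowers z, rfl⟩
  have h6 : QuotientGroup.mk' K z ≠ 1 := by rw [hzimg]; exact hzimg1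
  have h7 : 1 < Nat.card ((zpowers z).map (QuotientGroup.mk' K)) := by
    rw [Finite.one_lt_card_iff_nontrivial]
    exact ⟨⟨⟨_, h5⟩, 1, fun h => h6 (congrArg Subtype.val h)⟩⟩
  have h8 : Nat.card ((zpowers z).map (QuotientGroup.mk' K)) ∣ p := by
    have h9 := Subgroup.card_map_dvd (H := zpowers z) (QuotientGroup.mk' K)
    rwa [Nat.card_zpowers, hzo] at h9
  have h10 := (Nat.dvd_prime hpp).mp h8
  rcases h10 with h10 | h10
  · omega
  · omega

/-- **Gaschütz–Yen**. -/
theorem gaschutz_yen {p : ℕ} [Fact p.Prime] (hp : p ≠ 2) (hG : IsPSolvable p G)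
    (htrans : ∀ U V : Subgroup G, Nat.card U = p → Nat.card V = p →
      ∃ a : MulAut G, U.map a.toMonoidHom = V) : PLengthLE p 1 G := by
  classical
  have hpp : p.Prime := Fact.out
  set K := pPrimeCore p G with hK
  have hKchar : K.Characteristic := Cfsg.Agent.H06.pPrimeCore_characteristic (G := G) p
  haveI hKn : K.Normal := Subgroup.normal_of_characteristic _
  have hKc : (Nat.card K).Coprime p := Cfsg.Agent.H06.coprime_card_pPrimeCore p
  have hs := QuotientGroup.mk'_surjective K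
  have hsol' : IsPSolvable p (G ⧸ K) := H03.isPSolvable_of_surjective hs hG
  have hred' : pPrimeCore p (G ⧸ K) = ⊥ := Cfsg.Agent.H08.pPrimeCore_quotient_eq_bot p
  have htrans' : ∀ U V : Subgroup (G ⧸ K), Nat.card U = p → Nat.card V = p →
      ∃ a : MulAut (G ⧸ K), U.map a.toMonoidHom = V := by
    intro U V hU hV
    obtain ⟨A, hA, rfl⟩ := lift_order_p K hKc U hU
    obtain ⟨B, hB, rfl⟩ := lift_order_p K hKc V hV
    obtain ⟨α, hα⟩ := htrans A B hA hB
    refine ⟨QuotientGroup.congr K K α (Subgroup.characteristic_iff_map_eq.mp hKchar α), ?_⟩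
    rw [← hα]
    ext z
    constructor
    · rintro ⟨_, ⟨a, ha, rfl⟩, rfl⟩
      exact ⟨α a, ⟨a, ha, rfl⟩, rfl⟩
    · rintro ⟨_, ⟨a, ha, rfl⟩, rfl⟩
      exact ⟨QuotientGroup.mk' K a, ⟨a, ha, rfl⟩, rfl⟩
  have hmain := main hp hsol' hred' htrans'
  rw [Cfsg.Agent.H18.pLengthLE_iff]
  set A : Subgroup G := (pCore p (G ⧸ K)).comap (QuotientGroup.mk' K) with hA
  haveI hUn : (pCore p (G ⧸ K)).Normal := Cfsg.Agent.H01.pCore_normal p
  haveI hAn : A.Normal := Subgroup.Normal.comap inferInstance _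
  have hKA : K ≤ A := by
    intro u hu
    rw [hA, Subgroup.mem_comap]
    have : QuotientGroup.mk' K u = 1 := (QuotientGroup.eq_one_iff u).mpr hu
    rw [this]
    exact one_mem _
  have h0 : Cfsg.Agent.H18.Reach p 0 K := by
    refine Cfsg.Agent.H18.Reach.pp (Cfsg.Agent.H18.Reach.bot 0) bot_le ?_ ?_
    · rw [Subgroup.bot_subgroupOf]; exact Subgroup.normal_bot
    · intro x hx
      refine ⟨Nat.card K, hKc, ?_⟩
      have h1 := pow_card_eq_one' (x := (⟨x, hx⟩ : K))
      have h2 := congrArg Subtype.val h1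
      simp only [Subgroup.coe_pow, Subgroup.coe_one] at h2
      rw [h2]; exact one_mem _
  have h1 : Cfsg.Agent.H18.Reach p 1 A := by
    refine Cfsg.Agent.H18.Reach.pg h0 hKA inferInstance ?_
    intro x hx
    have hx' : QuotientGroup.mk' K x ∈ pCore p (G ⧸ K) := hx
    obtain ⟨t, ht⟩ := (Cfsg.Agent.H01.pCore_isPGroup (G := G ⧸ K) p) ⟨_, hx'⟩
    refine ⟨t, ?_⟩
    have h2 := congrArg Subtype.val ht
    simp only [Subgroup.coe_pow, Subgroup.coe_one] at h2
    rw [← map_pow] at h2
    exact (QuotientGroup.eq_one_iff _).mp h2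
  refine Cfsg.Agent.H18.Reach.pp h1 le_top inferInstance ?_
  intro x _
  obtain ⟨hm, t, ht⟩ := pow_ordCompl_isP (p := p) x
  refine ⟨_, hm, ?_⟩
  rw [hA, Subgroup.mem_comap]
  apply hmain
  refine ⟨t, ?_⟩
  rw [← map_pow, ht, map_one]

end Cfsg.Agent.H12.GY
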