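import Cfsg.Prelude.Def_LocalEven
import Cfsg.Prelude.Def_TwoFusion
import Cfsg.Agent.Lib.Lead.SL2Sylow
import Cfsg.Agent.Lib.H13.Basic

/-! Natural modules for `SL₂(F)`: reduction to coordinates. -/

open Matrix
open scoped MatrixGroups

namespace Cfsg.Agent.H12.NatMod

open Cfsg.Agent.Lead

variable {G : Type*} [Group G] {F : Type*} [Field F]

/-- Coordinates for a faithful natural module, adapted to a Sylow subgroup. -/
structure Coords (F : Type*) [Field F] (V L T : Subgroup G) where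
  Ψ : Multiplicative (Fin 2 → F) →* G
  R : SL(2, F) →* G
  Ψinj : Function.Injective Ψ
  Rinj : Function.Injective R
  V_eq : V = Ψ.range
  L_eq : L = R.range
  T_eq : T = (U2 : Subgroup (SL(2, F))).map R
  eqv : ∀ (A : SL(2, F)) (x : Fin 2 → F), R A * Ψ (Multiplicative.ofAdd x) * (R A)⁻¹ =
    Ψ (Multiplicative.ofAdd ((A : Matrix (Fin 2) (Fin 2) F).mulVec x))

lemma charP_of_card {p : ℕ} [hp : Fact p.Prime] [Fintype F] {n : ℕ} (hF : Fintype.card F = p ^ n) :
    CharP F p := by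
  obtain ⟨q, hq⟩ := CharP.exists F
  obtain ⟨k, hqp, hcard⟩ := FiniteField.card F q
  have hk : (k : ℕ) ≠ 0 := k.ne_zero
  have : q ∣ p ^ n := by rw [← hF, hcard]; exact dvd_pow_self _ hk
  have : q = p := (Nat.prime_dvd_prime_iff_eq hqp hp.out).1 (hqp.dvd_of_dvd_pow this)
  subst this
  exact hq

/-- Existence of adapted coordinates. -/
theorem exists_coords [Finite G] {p : ℕ} [Fact p.Prime] [Fintype F] {n : ℕ}
    (hF : Fintype.card F = p ^ n) (V L : Subgroup G) (hnat : Cfsg.IsNaturalSL2Module F V L)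
    (hf : L ⊓ Subgroup.centralizer (V : Set G) = ⊥) (S : Sylow p ↥L) (T : Subgroup G)
    (hT : T = ((S : Subgroup ↥L).map L.subtype)) : Nonempty (Coords F V L T) := by
  classical
  haveI := charP_of_card hF
  obtain ⟨_, ρ, ψ, hsurj, hker, heq⟩ := hnat
  have hinj : Function.Injective ρ := by
    rw [injective_iff_map_eq_one]
    intro l hl
    have h1 : l ∈ (Subgroup.centralizer (V : Set G)).subgroupOf L := by
      rw [← hker]; exact hl
    have h2 : (l : G) ∈ L ⊓ Subgroup.centralizer (V : Set G) := ⟨l.2, h1⟩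
    rw [hf] at h2
    exact Subtype.ext h2
  let e : L ≃* SL(2, F) := MulEquiv.ofBijective ρ ⟨hinj, hsurj⟩
  have he : ∀ l, e l = ρ l := fun _ => rfl
  let S' : Sylow p (SL(2, F)) := S.mapSurjective hsurj
  obtain ⟨A, hA⟩ := H13.sylow_conj (U2Sylow (F := F) p) S'
  have hU : ((U2Sylow (F := F) p : Sylow p (SL(2, F))) : Subgroup (SL(2, F))) = U2 := rfl
  rw [hU] at hA
  -- definitions
  let R : SL(2, F) →* G := L.subtype.comp (e.symm.toMonoidHom.comp (MulAut.conj A).toMonoidHom)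
  let Ψ : Multiplicative (Fin 2 → F) →* G :=
    { toFun := fun x => ((ψ.symm ((A : Matrix (Fin 2) (Fin 2) F).mulVec x.toAdd)).toMul : V)
      map_one' := by
        simp
      map_mul' := fun x y => by
        change (((ψ.symm ((A : Matrix (Fin 2) (Fin 2) F).mulVec (x.toAdd + y.toAdd))).toMul : V) : G) = _
        rw [Matrix.mulVec_add, map_add, toMul_add]
        rfl }
  have hR : ∀ B, R B = ((e.symm (A * B * A⁻¹) : L) : G) := fun _ => rfl
  have hΨ : ∀ x, Ψ x = ((ψ.symm ((A : Matrix (Fin 2) (Fin 2) F).mulVec x.toAdd)).toMul : V) :=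
    fun _ => rfl
  have hAmul : ∀ (B C : SL(2, F)) (x : Fin 2 → F),
      ((B * C : SL(2, F)) : Matrix (Fin 2) (Fin 2) F).mulVec x =
        (B : Matrix (Fin 2) (Fin 2) F).mulVec ((C : Matrix (Fin 2) (Fin 2) F).mulVec x) := by
    intro B C x
    change ((B : Matrix (Fin 2) (Fin 2) F) * (C : Matrix (Fin 2) (Fin 2) F)).mulVec x = _
    rw [Matrix.mulVec_mulVec]
  have hAone : ∀ (x : Fin 2 → F), ((1 : SL(2, F)) : Matrix (Fin 2) (Fin 2) F).mulVec x = x := by
    intro x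
    simp
  refine ⟨⟨Ψ, R, ?_, ?_, ?_, ?_, ?_, ?_⟩⟩
  · intro x y h
    rw [hΨ, hΨ] at h
    have h1 := Subtype.ext h
    have h2 := Additive.toMul.injective h1
    have h3 := ψ.symm.injective h2
    have h4 := congrArg ((A⁻¹ : SL(2, F)) : Matrix (Fin 2) (Fin 2) F).mulVec h3
    simp only [← hAmul, inv_mul_cancel, hAone] at h4
    exact Multiplicative.toAdd.injective h4
  · intro x y h
    rw [hR, hR] at h
    have h1 := e.symm.injective (Subtype.ext h)
    exact mul_left_cancel (mul_right_cancel h1)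
  · apply le_antisymm
    · intro v hv
      refine ⟨Multiplicative.ofAdd (((A⁻¹ : SL(2, F)) : Matrix (Fin 2) (Fin 2) F).mulVec
        (ψ (Additive.ofMul ⟨v, hv⟩))), ?_⟩
      rw [hΨ]
      simp only [toAdd_ofAdd, ← hAmul, mul_inv_cancel, hAone, AddEquiv.symm_apply_apply, toMul_ofMul]
    · rintro _ ⟨x, rfl⟩
      exact Subtype.mem _
  · apply le_antisymm
    · intro l hl
      refine ⟨A⁻¹ * e ⟨l, hl⟩ * A, ?_⟩
      rw [hR]
      simp only [mul_assoc, mul_inv_cancel, mul_one, mul_inv_cancel_left, MulEquiv.symm_apply_apply]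
    · rintro _ ⟨B, rfl⟩
      exact Subtype.mem _
  · rw [hT]
    apply le_antisymm
    · rintro _ ⟨l, hl, rfl⟩
      have h1 : e l ∈ (S' : Subgroup (SL(2, F))) := ⟨l, hl, rfl⟩
      rw [hA] at h1
      obtain ⟨u, hu, hue⟩ := h1
      refine ⟨u, hu, ?_⟩
      rw [hR]
      have : A * u * A⁻¹ = e l := hue
      rw [this]
      simp
    · rintro _ ⟨u, hu, rfl⟩
      have h1 : A * u * A⁻¹ ∈ (S' : Subgroup (SL(2, F))) := by
        rw [hA]; exact ⟨u, hu, rfl⟩
      obtain ⟨l, hl, hle⟩ := h1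
      refine ⟨l, hl, ?_⟩
      rw [hR, ← hle]
      have : e.symm (ρ l) = l := by rw [← he]; simp
      rw [this]
      rfl
  · intro B x
    rw [hR, hΨ, hΨ]
    obtain ⟨w, hw, hwe⟩ := heq (e.symm (A * B * A⁻¹)) ((ψ.symm ((A : Matrix (Fin 2) (Fin 2) F).mulVec x)).toMul)
    simp only [toAdd_ofAdd, ofMul_toMul, AddEquiv.apply_symm_apply] at hwe ⊢
    rw [← hw]
    have h1 : ρ (e.symm (A * B * A⁻¹)) = A * B * A⁻¹ := by rw [← he]; simp
    rw [h1] at hwe
    have h2 : (((A * B * A⁻¹ : SL(2, F)) : Matrix (Fin 2) (Fin 2) F)).mulVec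
        ((A : Matrix (Fin 2) (Fin 2) F).mulVec x) =
        (A : Matrix (Fin 2) (Fin 2) F).mulVec ((B : Matrix (Fin 2) (Fin 2) F).mulVec x) := by
      rw [← hAmul, ← hAmul, inv_mul_cancel_right]
    rw [h2] at hwe
    rw [← hwe]
    simp

end Cfsg.Agent.H12.NatMod

namespace Cfsg.Agent.H12.NatMod

open Cfsg.Agent.Lead

namespace Coords

variable {G : Type*} [Group G] {F : Type*} [Field F] {V L T : Subgroup G} (C : Coords F V L T)

/-- Point with coordinates `(a,b)`. -/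
def pt (a b : F) : G := C.Ψ (Multiplicative.ofAdd ![a, b])

lemma pt_mul (a b c d : F) : C.pt a b * C.pt c d = C.pt (a + c) (b + d) := by
  unfold pt
  rw [← map_mul, ← ofAdd_add]
  congr 2
  ext i; fin_cases i <;> simp

lemma pt_zero : C.pt (0 : F) 0 = 1 := by
  unfold pt
  have : (![0, 0] : Fin 2 → F) = 0 := by ext i; fin_cases i <;> simp
  rw [this, ofAdd_zero, map_one]

lemma pt_inv (a b : F) : (C.pt a b)⁻¹ = C.pt (-a) (-b) := by
  rw [inv_eq_iff_mul_eq_one, pt_mul]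
  simp [pt_zero]

lemma pt_inj {a b c d : F} (h : C.pt a b = C.pt c d) : a = c ∧ b = d := by
  have h1 := Multiplicative.ofAdd.injective (C.Ψinj h)
  exact ⟨by simpa using congrFun h1 0, by simpa using congrFun h1 1⟩

lemma pt_eq_one {a b : F} (h : C.pt a b = 1) : a = 0 ∧ b = 0 := by
  rw [← pt_zero C] at h
  exact pt_inj C h

lemma pt_mem (a b : F) : C.pt a b ∈ V := by
  exact (SetLike.ext_iff.1 C.V_eq _).2 ⟨_, rfl⟩

lemma exists_pt {y : G} (hy : y ∈ V) : ∃ a b, y = C.pt a b := by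
  rw [C.V_eq] at hy
  obtain ⟨x, rfl⟩ := hy
  refine ⟨x.toAdd 0, x.toAdd 1, ?_⟩
  unfold pt
  congr 1
  apply Multiplicative.toAdd.injective
  ext i; fin_cases i <;> simp

lemma R_mem (A : SL(2, F)) : C.R A ∈ L := by
  exact (SetLike.ext_iff.1 C.L_eq _).2 ⟨_, rfl⟩

lemma exists_R {y : G} (hy : y ∈ L) : ∃ A, y = C.R A := by
  rw [C.L_eq] at hy
  obtain ⟨x, rfl⟩ := hy
  exact ⟨x, rfl⟩

lemma conj_pt (A : SL(2, F)) (a b : F) : C.R A * C.pt a b * (C.R A)⁻¹ =
    C.pt ((A : Matrix (Fin 2) (Fin 2) F) 0 0 * a + (A : Matrix (Fin 2) (Fin 2) F) 0 1 * b)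
      ((A : Matrix (Fin 2) (Fin 2) F) 1 0 * a + (A : Matrix (Fin 2) (Fin 2) F) 1 1 * b) := by
  unfold pt
  rw [C.eqv]
  congr 2
  ext i; fin_cases i <;> simp [Matrix.mulVec, dotProduct, Fin.sum_univ_two]

/-- Upper unipotent elements of `L`. -/
def r (x : F) : G := C.R (uSL x)

lemma r_zero : C.r (0 : F) = 1 := by
  unfold r; rw [uSL_zero, map_one]

lemma conj_r (x a b : F) : C.r x * C.pt a b * (C.r x)⁻¹ = C.pt (a + x * b) b := by
  unfold r
  rw [conj_pt]
  simp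

lemma r_mem (x : F) : C.r x ∈ T := by
  exact (SetLike.ext_iff.1 C.T_eq _).2 ⟨_, uSL_mem x, rfl⟩

lemma exists_r {y : G} (hy : y ∈ T) : ∃ x, y = C.r x := by
  rw [C.T_eq] at hy
  obtain ⟨u, hu, rfl⟩ := hy
  obtain ⟨x, rfl⟩ := mem_U2.1 hu
  exact ⟨x, rfl⟩

lemma r_inj {x y : F} (h : C.r x = C.r y) : x = y :=
  uSL_injective (C.Rinj h)

lemma r_add (x y : F) : C.r (x + y) = C.r x * C.r y := by
  unfold r; rw [uSL_add, map_mul]

/-- The commutator formula. -/
lemma comm_pt_r (x a b : F) : C.pt a b * C.r x * (C.pt a b)⁻¹ * (C.r x)⁻¹ = C.pt (-(x * b)) 0 := by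
  have h := conj_r C x (-a) (-b)
  rw [← pt_inv] at h
  rw [mul_assoc, mul_assoc, ← mul_assoc (C.r x), h, pt_mul]
  congr 1 <;> ring

lemma commute_pt_r_iff (x a b : F) (hx : x ≠ 0) : C.r x * C.pt a b = C.pt a b * C.r x ↔ b = 0 := by
  constructor
  · intro h
    have h1 := conj_r C x a b
    rw [h, mul_inv_cancel_right] at h1
    have h2 := (pt_inj C h1).1
    have : x * b = 0 := by linear_combination -h2
    exact (mul_eq_zero.1 this).resolve_left hx
  · rintro rfl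
    have h1 := conj_r C x a 0
    rw [mul_inv_eq_iff_eq_mul] at h1
    simp only [mul_zero, add_zero] at h1
    exact h1

lemma commute_pt0_r (x a : F) : C.r x * C.pt a 0 = C.pt a 0 * C.r x := by
  have h1 := conj_r C x a 0
  rw [mul_inv_eq_iff_eq_mul] at h1
  simp only [mul_zero, add_zero] at h1
  exact h1

lemma mem_V1 {y : G} : y ∈ V ⊓ Subgroup.centralizer (T : Set G) ↔ ∃ a : F, y = C.pt a 0 := by
  constructor
  · rintro ⟨hy, hc⟩
    obtain ⟨a, b, rfl⟩ := exists_pt C hy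
    refine ⟨a, ?_⟩
    have := (commute_pt_r_iff C 1 a b one_ne_zero).1 (Subgroup.mem_centralizer_iff.1 hc _ (r_mem C 1))
    rw [this]
  · rintro ⟨a, rfl⟩
    refine ⟨pt_mem C a 0, Subgroup.mem_centralizer_iff.2 ?_⟩
    intro t ht
    obtain ⟨x, rfl⟩ := exists_r C ht
    exact commute_pt0_r C x a

lemma mem_Cs {y : G} {x : F} (hx : x ≠ 0) (hy : y ∈ V ⊓ Subgroup.centralizer ({C.r x} : Set G)) :
    ∃ a : F, y = C.pt a 0 := by
  obtain ⟨hy, hc⟩ := hy
  obtain ⟨a, b, rfl⟩ := exists_pt C hy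
  refine ⟨a, ?_⟩
  have := (commute_pt_r_iff C x a b hx).1 (Subgroup.mem_centralizer_iff.1 hc _ rfl)
  rw [this]

theorem comm_V_T (C : Coords F V L T) : ⁅V, T⁆ = V ⊓ Subgroup.centralizer (T : Set G) := by
  apply le_antisymm
  · rw [Subgroup.commutator_le]
    intro v hv t ht
    obtain ⟨a, b, rfl⟩ := exists_pt C hv
    obtain ⟨x, rfl⟩ := exists_r C ht
    rw [commutatorElement_def, comm_pt_r, mem_V1 C]
    exact ⟨_, rfl⟩
  · intro y hy
    obtain ⟨a, rfl⟩ := (mem_V1 C).1 hy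
    have h := comm_pt_r C (-a) 0 1
    rw [← commutatorElement_def] at h
    have e : (-(-a * 1)) = a := by ring
    rw [e] at h
    rw [← h]
    exact Subgroup.commutator_mem_commutator (pt_mem C 0 1) (r_mem C _)

end Coords

end Cfsg.Agent.H12.NatMod

namespace Cfsg.Agent.H12.NatMod

open Cfsg.Agent.Lead

namespace Coords

variable {G : Type*} [Group G] {F : Type*} [Field F] {V L T : Subgroup G} (C : Coords F V L T)

lemma card_V (C : Coords F V L T) [Fintype F] : Nat.card V = Fintype.card F ^ 2 := by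
  rw [Nat.card_congr (MulEquiv.subgroupCongr C.V_eq).toEquiv]
  have e : Multiplicative (Fin 2 → F) ≃* C.Ψ.range := MonoidHom.ofInjective C.Ψinj
  rw [← Nat.card_congr e.toEquiv]
  simp [Nat.card_eq_fintype_card]

/-- Embedding of `F` as `C_V(T)`. -/
def ptHom : Multiplicative F →* G where
  toFun a := C.pt a.toAdd 0
  map_one' := by simp [pt_zero]
  map_mul' a b := by simp [pt_mul]

lemma card_V1 (C : Coords F V L T) [Fintype F] : Nat.card ↥(V ⊓ Subgroup.centralizer (T : Set G)) = Fintype.card F := by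
  have hinj : Function.Injective C.ptHom := by
    intro a b h
    exact Multiplicative.toAdd.injective (pt_inj C h).1
  have hr : V ⊓ Subgroup.centralizer (T : Set G) = C.ptHom.range := by
    ext y
    rw [mem_V1 C]
    constructor
    · rintro ⟨a, rfl⟩
      exact ⟨Multiplicative.ofAdd a, rfl⟩
    · rintro ⟨a, rfl⟩
      exact ⟨a.toAdd, rfl⟩
  rw [hr]
  have e : Multiplicative F ≃* C.ptHom.range := MonoidHom.ofInjective hinj
  rw [← Nat.card_congr e.toEquiv]
  simp [Nat.card_eq_fintype_card]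

/-- The package of assertions of the first natural-module theorem. -/
theorem structure1 (C : Coords F V L T) : ⁅⁅V, T⁆, T⁆ = ⊥ ∧ ∀ s ∈ T, s ≠ 1 →
    (V ⊓ Subgroup.centralizer ({s} : Set G)) = (V ⊓ Subgroup.centralizer ((T : Subgroup G) : Set G)) ∧
    ⁅V, T⁆ = (V ⊓ Subgroup.centralizer ((T : Subgroup G) : Set G)) ∧
    ⁅V, Subgroup.zpowers s⁆ = (V ⊓ Subgroup.centralizer ((T : Subgroup G) : Set G)) ∧
    ∀ v ∈ V, v ∉ Subgroup.centralizer (T : Set G) →
      Subgroup.closure {x : G | ∃ t ∈ T, x = v * t * v⁻¹ * t⁻¹} =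
        (V ⊓ Subgroup.centralizer ((T : Subgroup G) : Set G)) := by
  have h1 := comm_V_T C
  refine ⟨?_, ?_⟩
  · rw [h1, Subgroup.commutator_eq_bot_iff_le_centralizer]
    exact inf_le_right
  · intro s hs hs1
    obtain ⟨x, rfl⟩ := exists_r C hs
    have hx : x ≠ 0 := by
      rintro rfl
      exact hs1 (r_zero C)
    refine ⟨?_, h1, ?_, ?_⟩
    · apply le_antisymm
      · intro y hy
        obtain ⟨a, rfl⟩ := mem_Cs C hx hy
        exact (mem_V1 C).2 ⟨a, rfl⟩
      · intro y hy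
        obtain ⟨a, rfl⟩ := (mem_V1 C).1 hy
        refine ⟨pt_mem C a 0, Subgroup.mem_centralizer_iff.2 ?_⟩
        rintro _ rfl
        exact commute_pt0_r C x a
    · apply le_antisymm
      · rw [← h1]
        apply Subgroup.commutator_mono le_rfl
        rw [Subgroup.zpowers_le]
        exact hs
      · intro y hy
        obtain ⟨a, rfl⟩ := (mem_V1 C).1 hy
        have h := comm_pt_r C x 0 (-(a / x))
        rw [← commutatorElement_def] at h
        have e : (-(x * -(a / x))) = a := by field_simp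
        rw [e] at h
        rw [← h]
        exact Subgroup.commutator_mem_commutator (pt_mem C _ _) (Subgroup.mem_zpowers _)
    · intro v hv hvc
      obtain ⟨a, b, rfl⟩ := exists_pt C hv
      have hb : b ≠ 0 := by
        rintro rfl
        exact hvc ((mem_V1 C).2 ⟨a, rfl⟩).2
      apply le_antisymm
      · rw [Subgroup.closure_le]
        rintro _ ⟨t, ht, rfl⟩
        obtain ⟨u, rfl⟩ := exists_r C ht
        rw [comm_pt_r]
        exact (mem_V1 C).2 ⟨_, rfl⟩
      · intro y hy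
        obtain ⟨e, rfl⟩ := (mem_V1 C).1 hy
        apply Subgroup.subset_closure
        refine ⟨C.r (-(e / b)), r_mem C _, ?_⟩
        rw [comm_pt_r]
        congr 1
        field_simp

end Coords

end Cfsg.Agent.H12.NatMod

namespace Cfsg.Agent.H12.NatMod

open Cfsg.Agent.Lead

/-- `SL₂(F)` moves the first basis vector to any nonzero vector. -/
lemma exists_SL2_e1 {F : Type*} [Field F] {v : Fin 2 → F} (hv : v ≠ 0) :
    ∃ A : SL(2, F), (A : Matrix (Fin 2) (Fin 2) F) 0 0 = v 0 ∧ (A : Matrix (Fin 2) (Fin 2) F) 1 0 = v 1 := by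
  by_cases h0 : v 0 = 0
  · have h1 : v 1 ≠ 0 := by
      intro h1
      apply hv
      ext i
      fin_cases i <;> simp [h0, h1]
    refine ⟨⟨!![v 0, -(v 1)⁻¹; v 1, 0], ?_⟩, rfl, rfl⟩
    rw [Matrix.det_fin_two_of]
    field_simp
    simp
  · refine ⟨⟨!![v 0, 0; v 1, (v 0)⁻¹], ?_⟩, rfl, rfl⟩
    rw [Matrix.det_fin_two_of]
    field_simp
    simp

namespace Coords

variable {G : Type*} [Group G] {F : Type*} [Field F] {V L T : Subgroup G} (C : Coords F V L T)

lemma R_mem_normalizer [Finite G] (A : SL(2, F)) (hA : (A : Matrix (Fin 2) (Fin 2) F) 1 0 = 0) :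
    C.R A ∈ Subgroup.normalizer (T : Set G) := by
  apply H13.mem_normalizer_of_map_conj_le
  rintro _ ⟨t, ht, rfl⟩
  obtain ⟨x, rfl⟩ := exists_r C ht
  have h1 := conj_U2_le A hA
  have h2 : A * uSL x * A⁻¹ ∈ (U2 : Subgroup (SL(2, F))) := by
    apply h1
    rw [Subgroup.mem_pointwise_smul_iff_inv_smul_mem]
    simp only [MulAut.smul_def, map_inv, MulAut.conj_inv_apply]
    have : A⁻¹ * (A * uSL x * A⁻¹) * A = uSL x := by group
    rw [this]
    exact uSL_mem x
  exact (SetLike.ext_iff.1 C.T_eq _).2 ⟨_, h2, by simp [r]⟩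

/-- The conjugates of `T`: fixed points. -/
lemma mem_V2 [Finite G] (A : SL(2, F)) {y : G} :
    y ∈ V ⊓ Subgroup.centralizer ((T.map (MulAut.conj (C.R A)).toMonoidHom : Subgroup G) : Set G) ↔
      ∃ c : F, y = C.pt ((A : Matrix (Fin 2) (Fin 2) F) 0 0 * c) ((A : Matrix (Fin 2) (Fin 2) F) 1 0 * c) := by
  constructor
  · rintro ⟨hy, hc⟩
    obtain ⟨a, b, rfl⟩ := exists_pt C hy
    have h1 : C.R A⁻¹ * C.pt a b * (C.R A⁻¹)⁻¹ ∈ V := by
      rw [conj_pt]; exact pt_mem C _ _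
    have h2 : C.R A⁻¹ * C.pt a b * (C.R A⁻¹)⁻¹ ∈ Subgroup.centralizer (T : Set G) := by
      rw [Subgroup.mem_centralizer_iff]
      intro t ht
      have h3 := Subgroup.mem_centralizer_iff.1 hc (C.R A * t * (C.R A)⁻¹) ⟨t, ht, rfl⟩
      rw [map_inv] at *
      have h4 : t = (C.R A)⁻¹ * (C.R A * t * (C.R A)⁻¹) * C.R A := by group
      calc t * ((C.R A)⁻¹ * C.pt a b * (C.R A)⁻¹⁻¹)
          = (C.R A)⁻¹ * ((C.R A * t * (C.R A)⁻¹) * C.pt a b) * C.R A := by group
        _ = (C.R A)⁻¹ * (C.pt a b * (C.R A * t * (C.R A)⁻¹)) * C.R A := by rw [h3]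
        _ = _ := by group
    obtain ⟨c, hc⟩ := (mem_V1 C).1 ⟨h1, h2⟩
    refine ⟨c, ?_⟩
    have h5 := conj_pt C A c 0
    rw [← hc] at h5
    simp only [mul_zero, add_zero] at h5
    rw [← h5, map_inv]
    group
  · rintro ⟨c, rfl⟩
    refine ⟨pt_mem C _ _, Subgroup.mem_centralizer_iff.2 ?_⟩
    rintro _ ⟨t, ht, rfl⟩
    have h1 := conj_pt C A c 0
    simp only [mul_zero, add_zero] at h1
    rw [← h1]
    have h2 := Subgroup.mem_centralizer_iff.1 ((mem_V1 C).2 ⟨c, rfl⟩).2 t ht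
    change C.R A * t * (C.R A)⁻¹ * _ = _ * (C.R A * t * (C.R A)⁻¹)
    calc C.R A * t * (C.R A)⁻¹ * (C.R A * C.pt c 0 * (C.R A)⁻¹)
        = C.R A * (t * C.pt c 0) * (C.R A)⁻¹ := by group
      _ = C.R A * (C.pt c 0 * t) * (C.R A)⁻¹ := by rw [h2]
      _ = _ := by group

theorem directProduct [Finite G] (C : Coords F V L T) (g : G) (hg : g ∈ L)
    (hgn : g ∉ Subgroup.normalizer (T : Set G)) :
    Cfsg.IsInternalDirectProduct (V ⊓ Subgroup.centralizer ((T : Subgroup G) : Set G))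
      (V ⊓ Subgroup.centralizer ((T.map (MulAut.conj g).toMonoidHom : Subgroup G) : Set G)) V := by
  obtain ⟨A, rfl⟩ := exists_R C hg
  have hA : (A : Matrix (Fin 2) (Fin 2) F) 1 0 ≠ 0 := fun h => hgn (R_mem_normalizer C A h)
  refine ⟨inf_le_left, inf_le_left, ?_, ?_, ?_⟩
  · intro a ha b hb
    obtain ⟨a1, a2, rfl⟩ := exists_pt C ha.1
    obtain ⟨b1, b2, rfl⟩ := exists_pt C hb.1
    rw [pt_mul, pt_mul]
    congr 1 <;> ring
  · rw [eq_bot_iff]
    rintro y ⟨h1, h2⟩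
    obtain ⟨a, rfl⟩ := (mem_V1 C).1 h1
    obtain ⟨c, hc⟩ := (mem_V2 C A).1 h2
    obtain ⟨e1, e2⟩ := pt_inj C hc
    have hc0 : c = 0 := (mul_eq_zero.1 e2.symm).resolve_left hA
    have ha0 : a = 0 := by rw [e1, hc0, mul_zero]
    rw [ha0, pt_zero]
    exact Subgroup.one_mem _
  · apply le_antisymm (sup_le inf_le_left inf_le_left)
    intro y hy
    obtain ⟨a, b, rfl⟩ := exists_pt C hy
    set c := b / (A : Matrix (Fin 2) (Fin 2) F) 1 0 with hc
    have e : C.pt a b = C.pt (a - (A : Matrix (Fin 2) (Fin 2) F) 0 0 * c) 0 *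
        C.pt ((A : Matrix (Fin 2) (Fin 2) F) 0 0 * c) ((A : Matrix (Fin 2) (Fin 2) F) 1 0 * c) := by
      rw [pt_mul]
      congr 1
      · ring
      · rw [hc]; field_simp; ring
    rw [e]
    exact Subgroup.mul_mem_sup ((mem_V1 C).2 ⟨_, rfl⟩) ((mem_V2 C A).2 ⟨_, rfl⟩)

lemma uSL_pow (x : F) (n : ℕ) : (uSL x : SL(2, F)) ^ n = uSL (n • x) := by
  induction n with
  | zero => simp [uSL_zero]
  | succ n ih => rw [pow_succ, ih, ← uSL_add, succ_nsmul]

theorem fixedPointFree [Finite G] [Fintype F] {p : ℕ} [Fact p.Prime] [CharP F p]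
    (C : Coords F V L T) (x : G) (hx : x ∈ L) (hx1 : x ≠ 1) (hc : (orderOf x).Coprime p) :
    V ⊓ Subgroup.centralizer ({x} : Set G) = ⊥ := by
  obtain ⟨A, rfl⟩ := exists_R C hx
  rw [eq_bot_iff]
  rintro y ⟨hy, hyc⟩
  obtain ⟨a, b, rfl⟩ := exists_pt C hy
  by_contra hne
  have hv : (![a, b] : Fin 2 → F) ≠ 0 := by
    intro h
    apply hne
    have h0 : a = 0 := by simpa using congrFun h 0
    have h1 : b = 0 := by simpa using congrFun h 1
    rw [h0, h1, pt_zero]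
    exact Subgroup.one_mem _
  obtain ⟨B, hB0, hB1⟩ := exists_SL2_e1 hv
  simp only [Matrix.cons_val_zero, Matrix.cons_val_one, Matrix.cons_val_fin_one] at hB0 hB1
  -- `A` fixes `(a, b)`
  have h1 : C.R A * C.pt a b * (C.R A)⁻¹ = C.pt a b := by
    rw [Subgroup.mem_centralizer_iff.1 hyc _ rfl, mul_inv_cancel_right]
  rw [conj_pt] at h1
  obtain ⟨e1, e2⟩ := pt_inj C h1
  subst hB0 hB1
  -- transport
  have hBinv : ((B⁻¹ : SL(2, F)) : Matrix (Fin 2) (Fin 2) F) =
      !![(B : Matrix (Fin 2) (Fin 2) F) 1 1, -(B : Matrix (Fin 2) (Fin 2) F) 0 1;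
         -(B : Matrix (Fin 2) (Fin 2) F) 1 0, (B : Matrix (Fin 2) (Fin 2) F) 0 0] := by
    change (B : Matrix (Fin 2) (Fin 2) F).adjugate = _
    rw [Matrix.adjugate_fin_two]
  have hdetB : (B : Matrix (Fin 2) (Fin 2) F) 0 0 * (B : Matrix (Fin 2) (Fin 2) F) 1 1 -
      (B : Matrix (Fin 2) (Fin 2) F) 0 1 * (B : Matrix (Fin 2) (Fin 2) F) 1 0 = 1 := by
    have := B.2
    rwa [Matrix.det_fin_two] at this
  obtain ⟨M, hM⟩ : ∃ M : SL(2, F), M = B⁻¹ * A * B := ⟨_, rfl⟩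
  have hMmat : (M : Matrix (Fin 2) (Fin 2) F) = ((B⁻¹ : SL(2, F)) : Matrix (Fin 2) (Fin 2) F) *
      (A : Matrix (Fin 2) (Fin 2) F) * (B : Matrix (Fin 2) (Fin 2) F) := by rw [hM]; rfl
  have hM00 : (M : Matrix (Fin 2) (Fin 2) F) 0 0 = 1 := by
    rw [hMmat, hBinv]
    simp only [Matrix.mul_apply, Fin.sum_univ_two]
    simp
    linear_combination ((B : Matrix (Fin 2) (Fin 2) F) 1 1) * e1 -
      ((B : Matrix (Fin 2) (Fin 2) F) 0 1) * e2 + hdetB
  have hM10 : (M : Matrix (Fin 2) (Fin 2) F) 1 0 = 0 := by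
    rw [hMmat, hBinv]
    simp only [Matrix.mul_apply, Fin.sum_univ_two]
    simp
    linear_combination (-(B : Matrix (Fin 2) (Fin 2) F) 1 0) * e1 +
      ((B : Matrix (Fin 2) (Fin 2) F) 0 0) * e2
  have hM11 : (M : Matrix (Fin 2) (Fin 2) F) 1 1 = 1 := by
    have := M.2
    rw [Matrix.det_fin_two, hM00, hM10] at this
    simpa using this
  have hMu : M = uSL ((M : Matrix (Fin 2) (Fin 2) F) 0 1) := by
    apply Subtype.ext
    ext i j
    fin_cases i <;> fin_cases j <;> simp [hM00, hM10, hM11]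
  have hAe : A = B * M * B⁻¹ := by rw [hM]; group
  have hpow : A ^ p = 1 := by
    have : A ^ p = B * M ^ p * B⁻¹ := by
      rw [hAe]
      exact conj_pow
    rw [this, hMu, uSL_pow]
    have h0' : p • ((M : Matrix (Fin 2) (Fin 2) F) 0 1) = 0 := by
      simp [nsmul_eq_mul, CharP.cast_eq_zero F p]
    rw [h0', uSL_zero, mul_one, mul_inv_cancel]
  have hpow' : C.R A ^ p = 1 := by rw [← map_pow, hpow, map_one]
  have hd := orderOf_dvd_of_pow_eq_one hpow'
  have h1' : orderOf (C.R A) = 1 := hc.eq_one_of_dvd hd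
  exact hx1 (orderOf_eq_one_iff.1 h1')

/-- Diagonal element. -/
def D (t : F) (ht : t ≠ 0) : SL(2, F) := ⟨!![t, 0; 0, t⁻¹], by
  rw [Matrix.det_fin_two_of]; field_simp; simp⟩

lemma D_mem [Finite G] (t : F) (ht : t ≠ 0) :
    C.R (D t ht) ∈ L ⊓ Subgroup.normalizer (T : Set G) :=
  ⟨R_mem C _, R_mem_normalizer C _ rfl⟩

lemma conj_D (t : F) (ht : t ≠ 0) (a b : F) :
    C.R (D t ht) * C.pt a b * (C.R (D t ht))⁻¹ = C.pt (t * a) (t⁻¹ * b) := by
  rw [conj_pt]
  simp [D]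

theorem irred1 [Finite G] (C : Coords F V L T) (U : Subgroup G)
    (hU : U ≤ (V ⊓ Subgroup.centralizer ((T : Subgroup G) : Set G)))
    (hN : L ⊓ Subgroup.normalizer (T : Set G) ≤ Subgroup.normalizer (U : Set G)) :
    U = ⊥ ∨ U = (V ⊓ Subgroup.centralizer ((T : Subgroup G) : Set G)) := by
  by_cases hb : U = ⊥
  · exact Or.inl hb
  right
  apply le_antisymm hU
  obtain ⟨y, hy, hy1⟩ := (Subgroup.bot_or_exists_ne_one U).resolve_left hb
  obtain ⟨c, rfl⟩ := (mem_V1 C).1 (hU hy)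
  have hc : c ≠ 0 := by
    rintro rfl
    exact hy1 (pt_zero C)
  intro z hz
  obtain ⟨e, rfl⟩ := (mem_V1 C).1 hz
  by_cases he : e = 0
  · rw [he, pt_zero]; exact U.one_mem
  have ht : e / c ≠ 0 := div_ne_zero he hc
  have h1 := (Subgroup.mem_normalizer_iff.1 (hN (D_mem C _ ht)) _).1 hy
  rw [conj_D] at h1
  have e1 : e / c * c = e := by field_simp
  have e2 : (e / c)⁻¹ * 0 = (0 : F) := by simp
  rwa [e1, e2] at h1

theorem irred2 [Finite G] (C : Coords F V L T) (U : Subgroup G)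
    (hU1 : (V ⊓ Subgroup.centralizer ((T : Subgroup G) : Set G)) ≤ U) (hU2 : U ≤ V)
    (hN : L ⊓ Subgroup.normalizer (T : Set G) ≤ Subgroup.normalizer (U : Set G)) :
    U = (V ⊓ Subgroup.centralizer ((T : Subgroup G) : Set G)) ∨ U = V := by
  by_cases hb : U ≤ (V ⊓ Subgroup.centralizer ((T : Subgroup G) : Set G))
  · exact Or.inl (le_antisymm hb hU1)
  right
  apply le_antisymm hU2
  obtain ⟨y, hy, hy1⟩ := SetLike.not_le_iff_exists.1 hb
  obtain ⟨a, b, rfl⟩ := exists_pt C (hU2 hy)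
  have hb0 : b ≠ 0 := by
    rintro rfl
    exact hy1 ((mem_V1 C).2 ⟨a, rfl⟩)
  intro z hz
  obtain ⟨a', b', rfl⟩ := exists_pt C hz
  have hmem : ∀ c : F, C.pt c 0 ∈ U := fun c => hU1 ((mem_V1 C).2 ⟨c, rfl⟩)
  by_cases he : b' = 0
  · rw [he]; exact hmem _
  have ht : b / b' ≠ 0 := div_ne_zero hb0 he
  have h1 := (Subgroup.mem_normalizer_iff.1 (hN (D_mem C _ ht)) _).1 hy
  rw [conj_D] at h1
  have e1 : (b / b')⁻¹ * b = b' := by field_simp
  rw [e1] at h1
  have h2 := U.mul_mem h1 (hmem (a' - b / b' * a))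
  rw [pt_mul] at h2
  have e3 : b / b' * a + (a' - b / b' * a) = a' := by ring
  rwa [e3, add_zero] at h2

end Coords

end Cfsg.Agent.H12.NatMod
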