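import Mathlib
import Cfsg.Agent.Lib.H04.NC
import Cfsg.Agent.Lib.H04.PrimeSylow
import Cfsg.Agent.Lib.H04.Small.Tools
import Cfsg.Agent.Lib.H03.PR3
import Cfsg.Agent.Lib.H19.CyclicSylow

/-! # Simple groups of order 504: the 7-local structure, sign arguments -/

set_option autoImplicit false
set_option linter.unusedSectionVars false
set_option linter.unusedVariables false

namespace Cfsg.Agent.H12.O504

open Subgroup

variable {G : Type*} [Group G] [Finite G]

instance fact7 : Fact (Nat.Prime 7) := ⟨by norm_num⟩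

section simple

variable [IsSimpleGroup G]

theorem not_comm (h : Nat.card G = 504) : ¬ IsMulCommutative G :=
  H04.not_isMulCommutative_of_not_prime (by rw [h]; norm_num)

theorem hom_trivial (h : Nat.card G = 504) (φ : G →* ℤˣ) (g : G) : φ g = 1 := by
  rcases IsSimpleGroup.eq_bot_or_eq_top_of_normal φ.ker inferInstance with hk | hk
  · exfalso
    have hinj := (MonoidHom.ker_eq_bot_iff φ).mp hk
    have := Nat.card_le_card_of_injective φ hinj
    rw [h] at this
    have h2 : Nat.card ℤˣ = 2 := by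
      rw [Nat.card_eq_fintype_card]; rfl
    omega
  · have : g ∈ φ.ker := by rw [hk]; trivial
    exact this

theorem card_seven (h : Nat.card G = 504) (P : Sylow 7 G) : Nat.card (P : Subgroup G) = 7 := by
  have := H04.card_sylow_eq_pow (G := G) (p := 7) 1 72 (by rw [h]; norm_num) (by norm_num) P
  simpa using this

theorem mem_zp {P : Subgroup G} (hP : Nat.card P = 7) {x : G} (hx : x ∈ P) (hx1 : x ≠ 1) :
    ∀ r ∈ P, r ∈ zpowers x := by
  have hle : zpowers x ≤ P := (zpowers_le).mpr hx
  have h1 : Nat.card (zpowers x) ∣ Nat.card P := Subgroup.card_dvd_of_le hle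
  rw [hP, Nat.card_zpowers] at h1
  have h2 : orderOf x = 7 := by
    rcases (Nat.dvd_prime (by norm_num : Nat.Prime 7)).mp h1 with h3 | h3
    · exact absurd (orderOf_eq_one_iff.mp h3) hx1
    · exact h3
  have h3 : zpowers x = P := by
    apply Subgroup.eq_of_le_of_card_ge hle
    rw [hP, Nat.card_zpowers, h2]
  intro r hr
  rw [h3]; exact hr

theorem not_eight (h : Nat.card G = 504) (hn : Nat.card (Sylow 7 G) = 8) : False := by
  classical
  obtain ⟨P⟩ : Nonempty (Sylow 7 G) := inferInstance
  have hP := card_seven h P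
  have hM : Nat.card (normalizer ((P : Subgroup G) : Set G)) = 63 := by
    have := H04.Small.card_normalizer_mul P
    rw [hn, h] at this
    omega
  haveI : Nontrivial (Sylow 7 G) := Finite.one_lt_card_iff_nontrivial.mp (by omega)
  obtain ⟨Q, hQ⟩ := exists_ne P
  have hPb : (P : Subgroup G) ≠ ⊥ := by
    intro hb
    rw [hb, Subgroup.card_bot] at hP
    omega
  obtain ⟨x, hx, hx1⟩ := (Subgroup.bot_or_exists_ne_one (P : Subgroup G)).resolve_left hPb
  have hc1 : Nat.card {S : Sylow 7 G // S ≠ P} = 7 := by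
    haveI : Fintype (Sylow 7 G) := Fintype.ofFinite _
    rw [Nat.card_eq_fintype_card, Fintype.card_subtype_compl, Fintype.card_subtype_eq,
      ← Nat.card_eq_fintype_card, hn]
  have hc2 : Nat.card {c : G // c ∈ (P : Subgroup G) ∧ c ≠ 1} = 6 := by
    have h1 : {t : G | t ∈ (P : Subgroup G) ∧ t ≠ 1} = ((P : Subgroup G) : Set G) \ {1} := by
      ext t
      constructor
      · rintro ⟨h, h'⟩
        exact ⟨h, h'⟩
      · rintro ⟨h, h'⟩
        exact ⟨h, h'⟩
    have h2 := Set.ncard_diff_singleton_of_mem (s := ((P : Subgroup G) : Set G)) (a := 1) (one_mem _)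
    rw [← h1] at h2
    have e1 : Nat.card {t : G // t ∈ (P : Subgroup G) ∧ t ≠ 1} = {t : G | t ∈ (P : Subgroup G) ∧ t ≠ 1}.ncard :=
      Nat.card_coe_set_eq _
    have e2 : Nat.card (P : Subgroup G) = ((P : Subgroup G) : Set G).ncard := Nat.card_coe_set_eq _
    rw [e1, h2, ← e2, hP]
  let f : normalizer ((P : Subgroup G) : Set G) →
      {S : Sylow 7 G // S ≠ P} × {c : G // c ∈ (P : Subgroup G) ∧ c ≠ 1} := fun g =>
    (⟨(g : G) • Q, by
      intro hh
      apply hQ
      have h1 : (g : G) • P = P := Sylow.smul_eq_iff_mem_normalizer.mpr g.2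
      exact MulAction.injective (g : G) (hh.trans h1.symm)⟩,
     ⟨(g : G) * x * (g : G)⁻¹, (mem_normalizer_iff.mp g.2 x).mp hx, by
       intro hh
       apply hx1
       have : x = (g : G)⁻¹ * ((g : G) * x * (g : G)⁻¹) * (g : G) := by group
       rw [this, hh]; group⟩)
  have hnf : ¬ Function.Injective f := by
    intro hf
    have := Nat.card_le_card_of_injective f hf
    rw [Nat.card_prod, hM, hc1, hc2] at this
    omega
  unfold Function.Injective at hnf
  push Not at hnf
  obtain ⟨g₁, g₂, hfe, hne⟩ := hnf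
  have hf1 : (g₁ : G) • Q = (g₂ : G) • Q := congrArg (fun z => ((z.1 : Sylow 7 G))) hfe
  have hf2 : (g₁ : G) * x * (g₁ : G)⁻¹ = (g₂ : G) * x * (g₂ : G)⁻¹ := congrArg (fun z => ((z.2 : {c : G // c ∈ (P : Subgroup G) ∧ c ≠ 1}) : G)) hfe
  set y : G := (g₂ : G)⁻¹ * (g₁ : G) with hy
  have hy1 : y ≠ 1 := by
    intro hh
    apply hne
    apply Subtype.ext
    exact (inv_mul_eq_one.mp hh).symm
  have hyQ : y • Q = Q := by
    rw [hy, mul_smul, hf1, inv_smul_smul]
  have hyx : y * x = x * y := by
    have : y * x * y⁻¹ = x := by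
      rw [hy]
      calc (g₂ : G)⁻¹ * (g₁ : G) * x * ((g₂ : G)⁻¹ * (g₁ : G))⁻¹
          = (g₂ : G)⁻¹ * ((g₁ : G) * x * (g₁ : G)⁻¹) * (g₂ : G) := by group
        _ = x := by rw [hf2]; group
    calc y * x = y * x * y⁻¹ * y := by group
      _ = x * y := by rw [this]
  have hyP : y • P = P := Sylow.smul_eq_iff_mem_normalizer.mpr (mul_mem (inv_mem g₂.2) g₁.2)
  have hyr : ∀ r ∈ (P : Subgroup G), y * r = r * y := by
    intro r hr
    obtain ⟨k, rfl⟩ := mem_zpowers_iff.mp (mem_zp hP hx hx1 r hr)
    exact ((Commute.zpow_right (show Commute y x from hyx) k)).eq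
  have hall : ∀ R : Sylow 7 G, y • R = R := by
    intro R
    by_cases hR : R = P
    · rw [hR, hyP]
    · obtain ⟨r, hr, hrR⟩ := H04.Small.exists_smul_eq_of_card P hP (by rw [hn]) Q R hQ hR
      rw [← hrR, smul_smul, hyr r hr, mul_smul, hyQ]
  let K : Subgroup G := (MulAction.toPermHom G (Sylow 7 G)).ker
  have hyK : y ∈ K := by
    rw [MonoidHom.mem_ker]
    ext R : 1
    exact hall R
  rcases IsSimpleGroup.eq_bot_or_eq_top_of_normal K inferInstance with hk | hk
  · rw [hk, mem_bot] at hyK
    exact hy1 hyK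
  · obtain ⟨g, hg⟩ := MulAction.exists_smul_eq G P Q
    have hgK : g ∈ K := by rw [hk]; trivial
    rw [MonoidHom.mem_ker] at hgK
    have := congrArg (fun σ : Equiv.Perm (Sylow 7 G) => σ P) hgK
    apply hQ
    rw [← hg]
    exact this

theorem card_sylow_seven (h : Nat.card G = 504) : Nat.card (Sylow 7 G) = 36 := by
  obtain ⟨P⟩ : Nonempty (Sylow 7 G) := inferInstance
  have hP := card_seven h P
  have hd : Nat.card (Sylow 7 G) ∣ 72 := H04.card_sylow_dvd_of_card_eq P 72 (by
    rw [show Nat.card P = 7 from hP, h])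
  have hm : Nat.card (Sylow 7 G) ≡ 1 [MOD 7] := card_sylow_modEq_one 7 G
  have hne := H04.sylow_ne_normal (G := G) (by rw [h]; norm_num) P (by rw [show Nat.card P = 7 from hP]; norm_num)
  have h8 := not_eight (G := G) h
  have hle := Nat.le_of_dvd (by norm_num) hd
  have hd' := Nat.mod_eq_zero_of_dvd hd
  have hm' : Nat.card (Sylow 7 G) % 7 = 1 := hm
  by_contra hcon
  apply h8
  generalize Nat.card (Sylow 7 G) = n at *
  interval_cases n <;> omega

theorem card_norm_seven (h : Nat.card G = 504) (P : Sylow 7 G) :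
    Nat.card (normalizer ((P : Subgroup G) : Set G)) = 14 := by
  have := H04.Small.card_normalizer_mul P
  rw [card_sylow_seven h, h] at this
  omega

theorem card_cent_seven (h : Nat.card G = 504) (P : Sylow 7 G) :
    Nat.card (centralizer ((P : Subgroup G) : Set G)) = 7 := by
  have hP := card_seven h P
  obtain ⟨h1, h2, h3⟩ := H04.Small.nc_facts (not_comm h) P hP
  rw [card_norm_seven h] at h3
  have h4 := H04.Small.card_eq_relIndex_mul (H04.Small.centralizer_le_normalizer_of (P : Subgroup G))
  rw [card_norm_seven h] at h4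
  have h5 : (centralizer ((P : Subgroup G) : Set G)).relIndex (normalizer ((P : Subgroup G) : Set G)) = 2 := by
    have h6 : (centralizer ((P : Subgroup G) : Set G)).relIndex (normalizer ((P : Subgroup G) : Set G)) ∣ Nat.gcd 6 14 :=
      Nat.dvd_gcd h2 h3
    have h7 : Nat.gcd 6 14 = 2 := by norm_num
    rw [h7] at h6
    rcases (Nat.dvd_prime Nat.prime_two).mp h6 with h8 | h8
    · exact absurd h8 h1
    · exact h8
  rw [h5] at h4
  omega

theorem cent_seven (h : Nat.card G = 504) (P : Sylow 7 G) {x g : G} (hx : x ∈ (P : Subgroup G)) (hx1 : x ≠ 1)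
    (hg : g * x = x * g) : g ∈ (P : Subgroup G) := by
  have hP := card_seven h P
  have hle : (P : Subgroup G) ≤ centralizer ((P : Subgroup G) : Set G) :=
    H04.le_centralizer_of_card_prime (by rw [hP]; norm_num)
  have heq : (P : Subgroup G) = centralizer ((P : Subgroup G) : Set G) :=
    Subgroup.eq_of_le_of_card_ge hle (by rw [card_cent_seven h, hP])
  rw [heq, mem_centralizer_iff]
  intro r hr
  obtain ⟨k, rfl⟩ := mem_zpowers_iff.mp (mem_zp hP hx hx1 r hr)
  exact ((Commute.zpow_left (show Commute g x from hg).symm k)).eq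

theorem card_two_dvd (h : Nat.card G = 504) (P : Sylow 7 G) {z : G} (hz : z ∈ (P : Subgroup G)) (hz2 : z * z = 1) : z = 1 := by
  have h1 : z ^ 7 = 1 := by
    have : z ^ Nat.card (P : Subgroup G) = 1 := by
      have e : z ^ Nat.card (P : Subgroup G) = ((⟨z, hz⟩ : (P : Subgroup G)) ^ Nat.card (P : Subgroup G) : (P : Subgroup G)).1 := rfl
      rw [e, pow_card_eq_one']
      rfl
    rwa [card_seven h] at this
  have h2 : z ^ 2 = 1 := by rw [pow_two]; exact hz2
  have h3 : z ^ 1 = 1 := by
    have : (7 : ℕ) = 2 * 3 + 1 := by norm_num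
    rw [this, pow_succ, pow_mul, h2, one_pow, one_mul] at h1
    simpa using h1
  simpa using h3

theorem exists_inv (h : Nat.card G = 504) (P : Sylow 7 G) : ∃ t : G, t * t = 1 ∧ t ≠ 1 ∧
    t ∈ normalizer ((P : Subgroup G) : Set G) ∧ ∀ x ∈ (P : Subgroup G), t * x * t = x⁻¹ := by
  obtain ⟨t₀, ht₀⟩ := exists_prime_orderOf_dvd_card' (G := normalizer ((P : Subgroup G) : Set G)) 2 (by
    rw [card_norm_seven h]; norm_num)
  set t : G := (t₀ : G) with ht
  have hto : orderOf t = 2 := by
    rw [ht, Subgroup.orderOf_coe]; exact ht₀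
  have htt : t * t = 1 := by
    rw [← pow_two, ← hto]; exact pow_orderOf_eq_one t
  have hti : t⁻¹ = t := inv_eq_of_mul_eq_one_left htt
  have ht1 : t ≠ 1 := by
    intro hh
    rw [hh, orderOf_one] at hto
    omega
  have htP : t ∉ (P : Subgroup G) := by
    intro hh
    exact ht1 (card_two_dvd h P hh htt)
  refine ⟨t, htt, ht1, t₀.2, ?_⟩
  have := H03.PR.inv_of_fpf (P : Subgroup G) t htt (fun z hz => (mem_normalizer_iff.mp t₀.2 z).mp hz) (by
    intro z hz hc
    by_contra hz1
    apply htP
    apply cent_seven h P hz hz1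
    calc t * z = t * z * t⁻¹ * t := by group
      _ = z * t := by rw [hc])
  intro x hx
  have h2 := this x hx
  rwa [hti] at h2

/-- An involution's sign is trivial. -/
theorem even_of_action (h : Nat.card G = 504) {X : Type*} [Fintype X] [DecidableEq X] [MulAction G X] (g : G)
    (hg : g * g = 1) (F : Finset X) (hF : ∀ x, x ∈ F ↔ g • x = x) (k : ℕ)
    (hk : Fintype.card X = F.card + 2 * k) : Even k := by
  let σ : Equiv.Perm X := MulAction.toPerm g
  have hσ2 : σ ^ 2 = 1 := by
    ext x : 1
    show g • g • x = x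
    rw [smul_smul, hg, one_smul]
  have hsupp : σ.support = Fᶜ := by
    ext x
    rw [Equiv.Perm.mem_support, Finset.mem_compl, hF]
    rfl
  have hc : σ.support.card = 2 * k := by
    rw [hsupp, Finset.card_compl]
    omega
  have h1 := H04.Small.sign_of_sq_eq_one σ hσ2 k hc
  have h2 : Equiv.Perm.sign σ = 1 := hom_trivial h (Equiv.Perm.sign.comp (MulAction.toPermHom G X)) g
  rw [h2] at h1
  by_contra hodd
  rw [Nat.not_even_iff_odd] at hodd
  rw [hodd.neg_one_pow] at h1
  exact absurd h1 (by decide)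

/-- injectivity count for the dihedral action. -/
theorem card_mul_le {X : Type*} [Finite X] [MulAction G X] (P : Subgroup G)
    (hcomm : ∀ a ∈ P, ∀ b ∈ P, a * b = b * a) {t : G} (ht : t * t = 1) (hinv : ∀ z ∈ P, t * z * t = z⁻¹)
    (hodd : ∀ z ∈ P, z * z = 1 → z = 1) (A Y : Set X) (hA : ∀ a ∈ A, t • a = a)
    (hfree : ∀ w ∈ P, w ≠ 1 → ∀ a ∈ A, w • a ≠ a) (hY : ∀ z ∈ P, ∀ a ∈ A, z • a ∈ Y) :
    Nat.card P * Nat.card A ≤ Nat.card Y := by
  classical
  let f : P × A → Y := fun q => ⟨(q.1 : G) • (q.2 : X), hY _ q.1.2 _ q.2.2⟩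
  have hf : Function.Injective f := by
    rintro ⟨⟨z, hz⟩, ⟨a, ha⟩⟩ ⟨⟨z', hz'⟩, ⟨b, hb⟩⟩ hab
    have h1 : z • a = z' • b := congrArg Subtype.val hab
    have hti : t⁻¹ = t := inv_eq_of_mul_eq_one_left ht
    have hact : ∀ (w : G), w ∈ P → ∀ c ∈ A, t • (w • c) = w⁻¹ • c := by
      intro w hw c hc
      have : t * w = (t * w * t) * t := by
        calc t * w = t * w * (t * t) := by rw [ht, mul_one]
          _ = _ := by group
      rw [smul_smul, this, hinv w hw, mul_smul, hA c hc]
    have h2 : z⁻¹ • a = z'⁻¹ • b := by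
      rw [← hact z hz a ha, ← hact z' hz' b hb, h1]
    set w := z'⁻¹ * z with hw
    have hwP : w ∈ P := mul_mem (inv_mem hz') hz
    have hb1 : b = w • a := by
      rw [hw, mul_smul, h1, inv_smul_smul]
    have hb2 : b = w⁻¹ • a := by
      have e : w⁻¹ = z' * z⁻¹ := by
        rw [hw, mul_inv_rev, inv_inv]
        exact hcomm _ (inv_mem hz) _ hz'
      rw [e, mul_smul, h2, smul_inv_smul]
    have h3 : (w * w) • a = a := by
      rw [mul_smul, ← hb1]
      rw [hb2, smul_inv_smul]
    have h4 : w * w = 1 := by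
      by_contra h5
      exact hfree _ (mul_mem hwP hwP) h5 a ha h3
    have h5 : w = 1 := hodd w hwP h4
    have h6 : z = z' := (inv_mul_eq_one.mp h5).symm
    subst h6
    have h7 : a = b := by
      rw [hb1, h5, one_smul]
    subst h7
    rfl
  have := Nat.card_le_card_of_injective f hf
  rwa [Nat.card_prod] at this

/-- There is no subgroup of index 7. -/
theorem no_index_seven (h : Nat.card G = 504) (U : Subgroup G) (hU : U.index = 7) : False := by
  classical
  obtain ⟨P⟩ : Nonempty (Sylow 7 G) := inferInstance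
  have hP := card_seven h P
  obtain ⟨t, htt, ht1, htN, hinv⟩ := exists_inv h P
  haveI : Fintype (G ⧸ U) := Fintype.ofFinite _
  have hX : Fintype.card (G ⧸ U) = 7 := by
    rw [← Nat.card_eq_fintype_card]; exact hU
  have hUc : Nat.card U = 72 := by
    have := U.index_mul_card
    rw [hU, h] at this
    omega
  let F : Finset (G ⧸ U) := Finset.univ.filter (fun x => t • x = x)
  have hF : ∀ x, x ∈ F ↔ t • x = x := by
    intro x; simp [F]
  have hcomm : ∀ a ∈ (P : Subgroup G), ∀ b ∈ (P : Subgroup G), a * b = b * a := by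
    intro a ha b hb
    have h1 := H04.le_centralizer_of_card_prime (P := (P : Subgroup G)) (by rw [hP]; norm_num) ha
    exact (Subgroup.mem_centralizer_iff.mp h1 b hb).symm
  have hfree : ∀ w ∈ (P : Subgroup G), w ≠ 1 → ∀ a ∈ (F : Set (G ⧸ U)), w • a ≠ a := by
    intro w hw hw1 a _ hfix
    induction a using QuotientGroup.induction_on with
    | H g =>
      have h1 : g⁻¹ * w * g ∈ U := by
        have h2 : (w * g : G⧸U) = (g : G ⧸ U) := hfix
        have h3 := QuotientGroup.eq.mp h2.symm
        simpa [mul_assoc] using h3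
      have ho : orderOf w = 7 := by
        have h1 : orderOf w ∣ Nat.card (P : Subgroup G) := by
          have := orderOf_dvd_natCard (⟨w, hw⟩ : (P : Subgroup G))
          simpa using this
        rw [hP] at h1
        rcases (Nat.dvd_prime (by norm_num : Nat.Prime 7)).mp h1 with h3 | h3
        · exact absurd (orderOf_eq_one_iff.mp h3) hw1
        · exact h3
      have ho2 : orderOf (g⁻¹ * w * g) = 7 := by
        have := H04.Small.orderOf_conj' g⁻¹ w
        simpa [ho] using this
      have h5 : orderOf (⟨_, h1⟩ : U) ∣ Nat.card U := orderOf_dvd_natCard _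
      rw [Subgroup.orderOf_mk, ho2, hUc] at h5
      omega
  have hle := card_mul_le (X := G ⧸ U) (P : Subgroup G) hcomm htt hinv (fun z hz hz2 => card_two_dvd h P hz hz2)
    (F : Set (G ⧸ U)) Set.univ (fun a ha => (hF a).mp ha) hfree (fun _ _ _ _ => Set.mem_univ _)
  rw [hP, Nat.card_coe_set_eq, Set.ncard_coe_finset, Nat.card_coe_set_eq, Set.ncard_univ, Nat.card_eq_fintype_card, hX] at hle
  have hpar : Fintype.card (G ⧸ U) % 2 = F.card % 2 := by
    let f : Function.End (G ⧸ U) := fun x => t • x
    have hf : f ^ 2 ^ 1 = 1 := by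
      funext x
      show f (f x) = x
      show t • t • x = x
      rw [smul_smul, htt, one_smul]
    have h1 := Equiv.Perm.card_fixedPoints_modEq (p := 2) (n := 1) hf
    have h2 : Fintype.card (Function.fixedPoints f) = F.card := by
      apply Fintype.card_of_subtype
      intro x
      rw [hF]
      rfl
    rw [h2] at h1
    exact h1
  have hF1 : F.card = 1 := by omega
  have hk : Fintype.card (G ⧸ U) = F.card + 2 * 3 := by omega
  have := even_of_action h t htt F hF 3 hk
  exact absurd this (by decide)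

end simple

end Cfsg.Agent.H12.O504
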