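import Cfsg.Agent.Lib.H12.O504a

/-! # Simple groups of order 504: the centralizer of an involution inverting a 7-element -/

set_option autoImplicit false
set_option linter.unusedSectionVars false
set_option linter.unusedVariables false

namespace Cfsg.Agent.H12.O504

open Subgroup

variable {G : Type*} [Group G] [Finite G]

theorem card_sharp (H : Subgroup G) : Nat.card {c : G // c ∈ H ∧ c ≠ 1} = Nat.card H - 1 := by
  have h1 : {t : G | t ∈ H ∧ t ≠ 1} = (H : Set G) \ {1} := by
    ext t
    constructor
    · rintro ⟨h, h'⟩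
      exact ⟨h, h'⟩
    · rintro ⟨h, h'⟩
      exact ⟨h, h'⟩
  have h2 := Set.ncard_diff_singleton_of_mem (s := (H : Set G)) (a := 1) (one_mem _)
  rw [← h1] at h2
  have e1 : Nat.card {t : G // t ∈ H ∧ t ≠ 1} = {t : G | t ∈ H ∧ t ≠ 1}.ncard :=
    Nat.card_coe_set_eq _
  have e2 : Nat.card H = (H : Set G).ncard := Nat.card_coe_set_eq _
  rw [e1, h2, ← e2]

section simple

variable [IsSimpleGroup G]

theorem pow_seven (h : Nat.card G = 504) (P : Sylow 7 G) {z : G} (hz : z ∈ (P : Subgroup G)) : z ^ 7 = 1 := by
  have e : z ^ Nat.card (P : Subgroup G) = ((⟨z, hz⟩ : (P : Subgroup G)) ^ Nat.card (P : Subgroup G) : (P : Subgroup G)).1 := rfl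
  have : z ^ Nat.card (P : Subgroup G) = 1 := by
    rw [e, pow_card_eq_one']
    rfl
  rwa [card_seven h] at this

theorem mem_or (h : Nat.card G = 504) (P : Sylow 7 G) {t c : G} (ht : t ∈ normalizer ((P : Subgroup G) : Set G))
    (htP : t ∉ (P : Subgroup G)) (hc : c ∈ normalizer ((P : Subgroup G) : Set G)) :
    c ∈ (P : Subgroup G) ∨ t * c ∈ (P : Subgroup G) := by
  by_cases hcP : c ∈ (P : Subgroup G)
  · exact Or.inl hcP
  right
  have hle : (P : Subgroup G) ≤ normalizer ((P : Subgroup G) : Set G) := Subgroup.le_normalizer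
  have h1 := H04.Small.card_eq_relIndex_mul hle
  rw [card_norm_seven h, card_seven h] at h1
  have h2 : ((P : Subgroup G).subgroupOf (normalizer ((P : Subgroup G) : Set G))).index = 2 := by
    show (P : Subgroup G).relIndex (normalizer ((P : Subgroup G) : Set G)) = 2
    omega
  have h3 := Subgroup.mul_mem_iff_of_index_two h2 (a := ⟨t, ht⟩) (b := ⟨c, hc⟩)
  have h4 : (⟨t, ht⟩ : normalizer ((P : Subgroup G) : Set G)) * ⟨c, hc⟩ ∈ (P : Subgroup G).subgroupOf (normalizer ((P : Subgroup G) : Set G)) := by
    rw [h3]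
    constructor
    · intro h5; exact absurd h5 htP
    · intro h5; exact absurd h5 hcP
  exact h4

/-- the main computation: `|C(t)| = 8`. -/
theorem card_cent_inv (h : Nat.card G = 504) (P : Sylow 7 G) {t : G} (htt : t * t = 1) (ht1 : t ≠ 1)
    (htN : t ∈ normalizer ((P : Subgroup G) : Set G)) (hinv : ∀ x ∈ (P : Subgroup G), t * x * t = x⁻¹) :
    Nat.card (centralizer ({t} : Set G)) = 8 := by
  classical
  have hP := card_seven h P
  have hti : t⁻¹ = t := inv_eq_of_mul_eq_one_left htt
  haveI : Fintype (Sylow 7 G) := Fintype.ofFinite _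
  have hS : Fintype.card (Sylow 7 G) = 36 := by
    rw [← Nat.card_eq_fintype_card]; exact card_sylow_seven h
  have htP : t ∉ (P : Subgroup G) := fun hh => ht1 (card_two_dvd h P hh htt)
  have htS : t • P = P := Sylow.smul_eq_iff_mem_normalizer.mpr htN
  let F : Finset (Sylow 7 G) := Finset.univ.filter (fun Q => t • Q = Q)
  have hF : ∀ Q, Q ∈ F ↔ t • Q = Q := by
    intro Q; simp [F]
  have hPF : P ∈ F := (hF P).mpr htS
  -- upper bound
  have hcomm : ∀ a ∈ (P : Subgroup G), ∀ b ∈ (P : Subgroup G), a * b = b * a := by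
    intro a ha b hb
    have h1 := H04.le_centralizer_of_card_prime (P := (P : Subgroup G)) (by rw [hP]; norm_num) ha
    exact (Subgroup.mem_centralizer_iff.mp h1 b hb).symm
  let A : Set (Sylow 7 G) := ((F.erase P : Finset (Sylow 7 G)) : Set (Sylow 7 G))
  have hle := card_mul_le (X := Sylow 7 G) (P : Subgroup G) hcomm htt hinv (fun z hz hz2 => card_two_dvd h P hz hz2)
    A ({P}ᶜ : Set (Sylow 7 G))
    (fun a ha => (hF a).mp (Finset.mem_of_mem_erase (Finset.mem_coe.mp ha)))
    (by
      intro w hw hw1 a ha hfix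
      have ho : orderOf w = 7 ^ 1 := by
        rw [pow_one]
        have h1 : orderOf w ∣ 7 := orderOf_dvd_of_pow_eq_one (pow_seven h P hw)
        rcases (Nat.dvd_prime (by norm_num : Nat.Prime 7)).mp h1 with h3 | h3
        · exact absurd (orderOf_eq_one_iff.mp h3) hw1
        · exact h3
      have hwa : w ∈ (a : Subgroup G) :=
        Cfsg.Agent.H19.mem_sylow_of_mem_normalizer a ho (Sylow.smul_eq_iff_mem_normalizer.mp hfix)
      have hPa : (P : Subgroup G) ≤ (a : Subgroup G) := by
        intro r hr
        have := mem_zp hP hw hw1 r hr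
        exact (zpowers_le.mpr hwa) this
      have hPa' : a = P := Sylow.ext (P.3 a.2 hPa)
      exact (Finset.ne_of_mem_erase (Finset.mem_coe.mp ha)) hPa')
    (by
      intro z hz a ha hmem
      have h1 : z • a = P := hmem
      have h2 : z⁻¹ • P = P := Sylow.smul_eq_iff_mem_normalizer.mpr (Subgroup.le_normalizer (inv_mem hz))
      have h3 : a = P := by
        rw [← h2, ← h1, inv_smul_smul]
      exact (Finset.ne_of_mem_erase (Finset.mem_coe.mp ha)) h3)
  have hcA : Nat.card A = F.card - 1 := by
    rw [Nat.card_coe_set_eq, Set.ncard_coe_finset, Finset.card_erase_of_mem hPF]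
  have hcY : Nat.card ({P}ᶜ : Set (Sylow 7 G)) = 35 := by
    rw [Nat.card_coe_set_eq, Set.ncard_compl, Set.ncard_singleton, Nat.card_eq_fintype_card, hS]
  rw [hP, hcA, hcY] at hle
  have hpos : 1 ≤ F.card := Finset.card_pos.mpr ⟨P, hPF⟩
  -- parity
  have hpar : Fintype.card (Sylow 7 G) % 2 = F.card % 2 := by
    let f : Function.End (Sylow 7 G) := fun x => t • x
    have hf : f ^ 2 ^ 1 = 1 := by
      funext x
      show f (f x) = x
      show t • t • x = x
      rw [smul_smul, htt, one_smul]
    have h1 := Equiv.Perm.card_fixedPoints_modEq (p := 2) (n := 1) hf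
    have h2 : Fintype.card (Function.fixedPoints f) = F.card := by
      apply Fintype.card_of_subtype
      intro x
      rw [hF]
      rfl
    rw [h2] at h1
    exact h1
  have hF4 : F.card = 4 := by
    rw [hS] at hpar
    have hk : Fintype.card (Sylow 7 G) = F.card + 2 * ((36 - F.card) / 2) := by
      rw [hS]; omega
    obtain ⟨r, hr⟩ := even_of_action h t htt F hF _ hk
    omega
  -- orbit stabilizer
  let C := centralizer ({t} : Set G)
  have hmemC : ∀ c : G, c ∈ C ↔ c * t = t * c := by
    intro c
    rw [mem_centralizer_singleton_iff]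
  have horbit : MulAction.orbit C P = (F : Set (Sylow 7 G)) := by
    ext Q
    constructor
    · rintro ⟨⟨c, hc⟩, rfl⟩
      show c • P ∈ (F : Set (Sylow 7 G))
      rw [Finset.mem_coe, hF, smul_smul, ← (hmemC c).mp hc, mul_smul, htS]
    · intro hQ
      have hQ' : t • Q = Q := (hF Q).mp (Finset.mem_coe.mp hQ)
      obtain ⟨g, hg⟩ := MulAction.exists_smul_eq G P Q
      set t' := g⁻¹ * t * g with ht'
      have ht'N : t' ∈ normalizer ((P : Subgroup G) : Set G) := by
        apply Sylow.smul_eq_iff_mem_normalizer.mp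
        rw [ht', mul_smul, mul_smul, hg, hQ', ← hg, inv_smul_smul]
      have ht't' : t' * t' = 1 := by
        rw [ht']
        calc g⁻¹ * t * g * (g⁻¹ * t * g) = g⁻¹ * (t * t) * g := by group
          _ = 1 := by rw [htt]; group
      have ht'1 : t' ≠ 1 := by
        intro hh
        apply ht1
        have : t = g * t' * g⁻¹ := by rw [ht']; group
        rw [this, hh]; group
      have ht'P : t' ∉ (P : Subgroup G) := fun hh => ht'1 (card_two_dvd h P hh ht't')
      have hz := (mem_or h P htN htP ht'N).resolve_left ht'P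
      set z := t * t' with hzdef
      let w := (z⁻¹) ^ 4
      have hw : w ∈ (P : Subgroup G) := pow_mem (inv_mem hz) 4
      have hww : w * w = z⁻¹ := by
        have hz7 : (z⁻¹) ^ 7 = 1 := pow_seven h P (inv_mem hz)
        calc w * w = (z⁻¹) ^ 7 * z⁻¹ := by
              show (z⁻¹) ^ 4 * (z⁻¹) ^ 4 = (z⁻¹) ^ 7 * z⁻¹
              rw [← pow_add, ← pow_succ]
          _ = z⁻¹ := by rw [hz7, one_mul]
      have hwt : w * t * w⁻¹ = t' := by
        have h1 : t * w⁻¹ * t = w := by
          rw [hinv _ (inv_mem hw), inv_inv]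
        have h2 : w * t * w⁻¹ = w * (t * w⁻¹ * t) * t := by
          calc w * t * w⁻¹ = w * (t * w⁻¹ * (t * t)) := by rw [htt]; group
            _ = _ := by group
        rw [h2, h1, hww, hzdef, mul_inv_rev, hti]
        have ht'i : t'⁻¹ = t' := inv_eq_of_mul_eq_one_left ht't'
        rw [ht'i, mul_assoc, htt, mul_one]
      have hc : (g * w) * t = t * (g * w) := by
        have h1 : g * w * t = g * (w * t * w⁻¹) * w := by group
        rw [h1, hwt, ht']
        group
      refine ⟨⟨g * w, (hmemC _).mpr hc⟩, ?_⟩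
      show (g * w) • P = Q
      have h2 : w • P = P := Sylow.smul_eq_iff_mem_normalizer.mpr (Subgroup.le_normalizer hw)
      rw [mul_smul, h2, hg]
  have hstab : Nat.card (MulAction.stabilizer C P) = 2 := by
    have htC : t ∈ C := (hmemC t).mpr rfl
    have h1C : (1 : G) ∈ C := one_mem _
    rw [Nat.card_eq_two_iff]
    refine ⟨⟨⟨1, h1C⟩, ?_⟩, ⟨⟨t, htC⟩, ?_⟩, ?_, ?_⟩
    · rw [MulAction.mem_stabilizer_iff]
      show (1 : G) • P = P
      rw [one_smul]
    · rw [MulAction.mem_stabilizer_iff]
      exact htS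
    · intro hh
      exact ht1 (congrArg (fun z : MulAction.stabilizer C P => ((z : C) : G)) hh).symm
    · ext ⟨⟨c, hc⟩, hcs⟩
      simp only [Set.mem_insert_iff, Set.mem_singleton_iff, Set.mem_univ, iff_true]
      have hcs' : c • P = P := hcs
      have hcN : c ∈ normalizer ((P : Subgroup G) : Set G) := Sylow.smul_eq_iff_mem_normalizer.mp hcs'
      have hcomm' : c * t = t * c := (hmemC c).mp hc
      have key : ∀ y ∈ (P : Subgroup G), y * t = t * y → y = 1 := by
        intro y hy hyt
        apply card_two_dvd h P hy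
        have h1 := hinv y hy
        have h2 : t * y * t = y := by
          rw [← hyt, mul_assoc, htt, mul_one]
        rw [h2] at h1
        calc y * y = y⁻¹ * y := by rw [← h1]
          _ = 1 := inv_mul_cancel y
      rcases mem_or h P htN htP hcN with h3 | h3
      · left
        have := key c h3 hcomm'
        subst this
        rfl
      · right
        have h4 := key (t * c) h3 (by rw [mul_assoc, hcomm', ← mul_assoc])
        have h5 : c = t := by
          have : c = t⁻¹ * (t * c) := by group
          rw [this, h4, hti, mul_one]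
        subst h5
        rfl
  have hos := (MulAction.stabilizer C P).index_mul_card
  rw [MulAction.index_stabilizer, horbit, Set.ncard_coe_finset, hF4, hstab] at hos
  exact hos.symm

/-- An involution inverting a 7-element has a Sylow 2-subgroup as its centralizer. -/
theorem exists_sylow_cent (h : Nat.card G = 504) (P : Sylow 7 G) {t : G} (htt : t * t = 1) (ht1 : t ≠ 1)
    (htN : t ∈ normalizer ((P : Subgroup G) : Set G)) (hinv : ∀ x ∈ (P : Subgroup G), t * x * t = x⁻¹) :
    ∃ S : Sylow 2 G, (S : Subgroup G) = centralizer ({t} : Set G) := by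
  have hc := card_cent_inv h P htt ht1 htN hinv
  have hp : IsPGroup 2 (centralizer ({t} : Set G)) := by
    rw [IsPGroup.iff_card]
    exact ⟨3, by rw [hc]; norm_num⟩
  obtain ⟨S, hS⟩ := hp.exists_le_sylow
  refine ⟨S, ?_⟩
  have hcS : Nat.card (S : Subgroup G) = 8 := by
    have := H04.card_sylow_eq_pow (G := G) (p := 2) 3 63 (by rw [h]; norm_num) (by norm_num) S
    simpa using this
  exact (Subgroup.eq_of_le_of_card_ge hS (by rw [hc, hcS])).symm

end simple

end Cfsg.Agent.H12.O504
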