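import Cfsg.Agent.Lib.H12.O504b
import Cfsg.Agent.Lib.H01.Transfer
import Cfsg.Agent.Lib.H17.N22a

/-! # Simple groups of order 504: the case of an abelian Sylow 2-subgroup -/

set_option autoImplicit false
set_option linter.unusedSectionVars false
set_option linter.unusedVariables false

namespace Cfsg.Agent.H12.O504

open Subgroup
open scoped commutatorElement

variable {G : Type*} [Group G] [Finite G]

/-- `Z(N(S)) ∩ G' ∩ S = 1` for an abelian Sylow subgroup `S` of a perfect group. -/
theorem center_contra (hG : commutator G = ⊤) (S : Sylow 2 G)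
    (hab : ∀ a ∈ (S : Subgroup G), ∀ b ∈ (S : Subgroup G), a * b = b * a) {v : G} (hv : v ∈ (S : Subgroup G))
    (hv1 : v ≠ 1) (hc : ∀ n ∈ normalizer ((S : Subgroup G) : Set G), n * v = v * n) : False := by
  classical
  haveI hcomm : IsMulCommutative (S : Subgroup G) :=
    ⟨⟨fun a b => Subtype.ext (hab a a.2 b b.2)⟩⟩
  have h1 := H01.commutator_inf_abelian_sylow S
  rw [hG, top_inf_eq] at h1
  have hv2 : v ∈ ⁅normalizer ((S : Subgroup G) : Set G), normalizer ((S : Subgroup G) : Set G)⁆ := by
    have : v ∈ (S : Subgroup G) := hv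
    rw [h1] at this
    exact this.1
  set N := normalizer ((S : Subgroup G) : Set G) with hN
  rw [← Subgroup.map_subtype_commutator] at hv2
  obtain ⟨y, hy, hyv⟩ := hv2
  have hSN : (S : Subgroup G) ≤ N := Subgroup.le_normalizer
  let S₀ : Subgroup N := (S : Subgroup G).subgroupOf N
  letI iC : CommGroup S₀ := { (inferInstance : Group S₀) with
    mul_comm := fun a b => Subtype.ext (Subtype.ext (hab _ a.2 _ b.2)) }
  let T : N →* S₀ := MonoidHom.transfer (MonoidHom.id S₀)
  have hTy : T y = 1 := by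
    have hle : commutator N ≤ T.ker := by
      rw [_root_.commutator_def, Subgroup.commutator_le]
      intro a _ b _
      rw [MonoidHom.mem_ker, map_commutatorElement, commutatorElement_eq_one_iff_commute]
      exact mul_comm _ _
    exact hle hy
  have hcy : ∀ (k : ℕ) (g₀ : N), g₀⁻¹ * y ^ k * g₀ ∈ S₀ → g₀⁻¹ * y ^ k * g₀ = y ^ k := by
    intro k g₀ _
    have hc1 : g₀ * y = y * g₀ := by
      apply Subtype.ext
      show (g₀ : G) * (y : G) = (y : G) * (g₀ : G)
      have : (y : G) = v := hyv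
      rw [this]
      exact hc _ g₀.2
    have hc2 : Commute g₀ (y ^ k) := (show Commute g₀ y from hc1).pow_right k
    rw [hc2.inv_left.eq]
    group
  have hT := MonoidHom.transfer_eq_pow (MonoidHom.id S₀) y hcy
  have h3 : (y ^ S₀.index : N) = 1 := by
    have h4 : T y = MonoidHom.id S₀ ⟨y ^ S₀.index, _⟩ := hT
    rw [hTy] at h4
    have h5 := congrArg Subtype.val h4
    exact h5.symm
  have h4 : v ^ S₀.index = 1 := by
    have h5 := congrArg Subtype.val h3
    have hyv' : (y : G) = v := hyv
    rw [← hyv']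
    simpa using h5
  have hodd : ¬ 2 ∣ S₀.index := by
    intro hd
    have h5 : S₀.index ∣ (S : Subgroup G).index := Dvd.intro _ (Subgroup.relIndex_mul_index hSN)
    exact S.not_dvd_index (hd.trans h5)
  obtain ⟨k, hk⟩ := (IsPGroup.iff_orderOf.mp S.2) ⟨v, hv⟩
  rw [Subgroup.orderOf_mk] at hk
  have h6 : orderOf v ∣ S₀.index := orderOf_dvd_of_pow_eq_one h4
  rw [hk] at h6
  have h7 : k = 0 := by
    by_contra hk0
    apply hodd
    exact (dvd_pow_self 2 hk0).trans h6
  rw [h7, pow_zero] at hk
  exact hv1 (orderOf_eq_one_iff.mp hk)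

section simple

variable [IsSimpleGroup G]

theorem perfect (h : Nat.card G = 504) : commutator G = ⊤ := by
  rcases IsSimpleGroup.eq_bot_or_eq_top_of_normal (commutator G) inferInstance with hk | hk
  · exfalso
    apply not_comm h
    refine ⟨⟨fun a b => ?_⟩⟩
    have : ⁅a, b⁆ ∈ commutator G := by
      rw [_root_.commutator_def]
      exact Subgroup.commutator_mem_commutator (mem_top a) (mem_top b)
    rw [hk, mem_bot, commutatorElement_eq_one_iff_mul_comm] at this
    exact this
  · exact hk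

theorem card_two (h : Nat.card G = 504) (S : Sylow 2 G) : Nat.card (S : Subgroup G) = 8 := by
  have := H04.card_sylow_eq_pow (G := G) (p := 2) 3 63 (by rw [h]; norm_num) (by norm_num) S
  simpa using this

/-- In the abelian case, 7 divides the order of the normalizer of the Sylow 2-subgroup. -/
theorem seven_dvd (h : Nat.card G = 504) (S : Sylow 2 G)
    (hab : ∀ a ∈ (S : Subgroup G), ∀ b ∈ (S : Subgroup G), a * b = b * a) {t : G}
    (ht : t ∈ (S : Subgroup G)) (ht1 : t ≠ 1) :
    7 ∣ Nat.card (normalizer ((S : Subgroup G) : Set G)) := by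
  classical
  by_contra h7
  have hS := card_two h S
  have hSN : (S : Subgroup G) ≤ normalizer ((S : Subgroup G) : Set G) := Subgroup.le_normalizer
  have hm := H04.Small.card_eq_relIndex_mul hSN
  rw [hS] at hm
  have hidx := (normalizer ((S : Subgroup G) : Set G)).index_mul_card
  rw [h] at hidx
  set m := (S : Subgroup G).relIndex (normalizer ((S : Subgroup G) : Set G)) with hmdef
  set N := normalizer ((S : Subgroup G) : Set G) with hN
  have hm63 : m * N.index = 63 := by
    rw [hm] at hidx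
    nlinarith
  have hm7 : ¬ 7 ∣ m := by
    intro hd
    apply h7
    rw [hm]
    exact hd.trans (Nat.dvd_mul_right _ _)
  have hmd : m ∣ 63 := Dvd.intro _ hm63
  have hmle : m ≤ 63 := Nat.le_of_dvd (by norm_num) hmd
  have hcases : m = 1 ∨ m = 3 ∨ m = 9 := by
    have hd' := Nat.mod_eq_zero_of_dvd hmd
    have hm0 : m ≠ 0 := by
      rintro h0
      rw [h0] at hm63
      omega
    have h7' : m % 7 ≠ 0 := fun h0 => hm7 (Nat.dvd_of_mod_eq_zero h0)
    clear hm hidx hm63 hmd hm7
    generalize m = n at *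
    interval_cases n <;> omega
  rcases hcases with h1 | h1 | h1
  · -- `N = S`
    have hNS : N ≤ (S : Subgroup G) := by
      have hc : Nat.card N = Nat.card (S : Subgroup G) := by rw [hm, h1, hS]
      have := Subgroup.eq_of_le_of_card_ge hSN (by rw [hc])
      exact this.ge
    exact center_contra (perfect h) S hab ht ht1 (fun n hn => hab n (hNS hn) t ht)
  · -- `|N| = 24`
    have hc24 : Nat.card N = 24 := by rw [hm, h1]
    obtain ⟨r₀, hr₀⟩ := exists_prime_orderOf_dvd_card' (G := N) 3 (by rw [hc24]; norm_num)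
    set r : G := (r₀ : G) with hr
    have hro : orderOf r = 3 := by
      rw [hr, Subgroup.orderOf_coe]; exact hr₀
    have hrN : r ∈ N := r₀.2
    have hri : r ^ 3 = 1 := by rw [← hro]; exact pow_orderOf_eq_one r
    -- the action on `S#`
    let X := {c : G // c ∈ (S : Subgroup G) ∧ c ≠ 1}
    have hX : Nat.card X = 7 := by
      rw [card_sharp, hS]
    let f : X → X := fun s => ⟨r * s.1 * r⁻¹, (mem_normalizer_iff.mp hrN _).mp s.2.1, by
      intro hh
      apply s.2.2
      have : s.1 = r⁻¹ * (r * s.1 * r⁻¹) * r := by group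
      rw [this, hh]; group⟩
    have hf : f^[3] = id := by
      funext s
      apply Subtype.ext
      show r * (r * (r * s.1 * r⁻¹) * r⁻¹) * r⁻¹ = s.1
      have hrr : r * r * r = 1 := by
        have : r ^ 3 = r * r * r := by simp [pow_succ]
        rw [← this, hri]
      have : r * (r * (r * s.1 * r⁻¹) * r⁻¹) * r⁻¹ = (r * r * r) * s.1 * (r * r * r)⁻¹ := by group
      rw [this, hrr]; group
    have hfc := Cfsg.Agent.H17.N22.fix_count f hf
    have hne : Nonempty {s // f s = s} := by
      by_contra hemp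
      rw [not_nonempty_iff] at hemp
      have h0 : Nat.card {s // f s = s} = 0 := Nat.card_of_isEmpty
      rw [h0, hX] at hfc
      exact absurd hfc (by decide)
    obtain ⟨⟨⟨v, hvS, hv1⟩, hfv⟩⟩ := hne
    have hrv : r * v * r⁻¹ = v := congrArg Subtype.val hfv
    let L : Subgroup G := centralizer ({v} : Set G) ⊓ N
    have hSL : (S : Subgroup G) ≤ L := by
      intro a ha
      refine mem_inf.mpr ⟨?_, hSN ha⟩
      rw [mem_centralizer_singleton_iff]
      exact hab a ha v hvS
    have hrL : r ∈ L := by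
      refine mem_inf.mpr ⟨?_, hrN⟩
      rw [mem_centralizer_singleton_iff]
      calc r * v = r * v * r⁻¹ * r := by group
        _ = v * r := by rw [hrv]
    have hLN : L ≤ N := inf_le_right
    have hd1 : 8 ∣ Nat.card L := by
      rw [← hS]; exact Subgroup.card_dvd_of_le hSL
    have hd2 : 3 ∣ Nat.card L := by
      rw [← hro]
      have := orderOf_dvd_natCard (⟨r, hrL⟩ : L)
      simpa using this
    have hd3 : Nat.card L ∣ 24 := by
      rw [← hc24]; exact Subgroup.card_dvd_of_le hLN
    have hc3 : Nat.card L = 24 := by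
      have h24 : (24 : ℕ) ∣ Nat.card L := by
        have : (8 * 3 : ℕ) ∣ Nat.card L := Nat.Coprime.mul_dvd_of_dvd_of_dvd (by norm_num) hd1 hd2
        simpa using this
      exact Nat.dvd_antisymm hd3 h24
    have hLeq : L = N := Subgroup.eq_of_le_of_card_ge hLN (by rw [hc3, hc24])
    exact center_contra (perfect h) S hab hvS hv1 (fun n hn => by
      have : n ∈ L := by rw [hLeq]; exact hn
      exact mem_centralizer_singleton_iff.mp (mem_inf.mp this).1)
  · -- index 7
    have h7i : N.index = 7 := by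
      rw [h1] at hm63
      omega
    exact no_index_seven h N h7i

/-- structure in the abelian case -/
theorem abelian_case (h : Nat.card G = 504) (S : Sylow 2 G)
    (hab : ∀ a ∈ (S : Subgroup G), ∀ b ∈ (S : Subgroup G), a * b = b * a) {t : G}
    (ht : t ∈ (S : Subgroup G)) (ht1 : t ≠ 1) (htt : t * t = 1) (hC : ∀ g, g * t = t * g → g ∈ (S : Subgroup G)) :
    ∀ s ∈ (S : Subgroup G), s ≠ 1 → s * s = 1 ∧ ∀ g, g * s = s * g → g ∈ (S : Subgroup G) := by
  classical
  obtain ⟨y₀, hy₀⟩ := exists_prime_orderOf_dvd_card' (G := normalizer ((S : Subgroup G) : Set G)) 7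
    (seven_dvd h S hab ht ht1)
  set y : G := (y₀ : G) with hy
  have hyo : orderOf y = 7 := by
    rw [hy, Subgroup.orderOf_coe]; exact hy₀
  have hyN : y ∈ normalizer ((S : Subgroup G) : Set G) := y₀.2
  have hS := card_two h S
  let X := {c : G // c ∈ (S : Subgroup G) ∧ c ≠ 1}
  have hX : Nat.card X = 7 := by
    rw [card_sharp, hS]
  have hzN : ∀ z ∈ zpowers y, z ∈ normalizer ((S : Subgroup G) : Set G) := fun z hz =>
    (zpowers_le.mpr hyN) hz
  let f : zpowers y → X := fun z => ⟨z.1 * t * z.1⁻¹, (mem_normalizer_iff.mp (hzN z.1 z.2) _).mp ht, by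
    intro hh
    apply ht1
    have : t = z.1⁻¹ * (z.1 * t * z.1⁻¹) * z.1 := by group
    rw [this, hh]; group⟩
  have hfi : Function.Injective f := by
    intro a b hab'
    have h1 : a.1 * t * a.1⁻¹ = b.1 * t * b.1⁻¹ := congrArg Subtype.val hab'
    have h2 : (b.1⁻¹ * a.1) * t = t * (b.1⁻¹ * a.1) := by
      have : (b.1⁻¹ * a.1) * t = b.1⁻¹ * (a.1 * t * a.1⁻¹) * a.1 := by group
      rw [this, h1]; group
    have h3 := hC _ h2
    have h4 : b.1⁻¹ * a.1 ∈ zpowers y := mul_mem (inv_mem b.2) a.2
    have h5 : (b.1⁻¹ * a.1) ^ 7 = 1 := by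
      have h6 : orderOf (b.1⁻¹ * a.1) ∣ 7 := by
        rw [← hyo, ← Nat.card_zpowers]
        have := orderOf_dvd_natCard (⟨_, h4⟩ : zpowers y)
        simpa using this
      exact orderOf_dvd_iff_pow_eq_one.mp h6
    have h6 : (b.1⁻¹ * a.1) ^ 8 = 1 := by
      rw [← hS]
      have e : (b.1⁻¹ * a.1) ^ Nat.card (S : Subgroup G) = ((⟨_, h3⟩ : (S : Subgroup G)) ^ Nat.card (S : Subgroup G) : (S : Subgroup G)).1 := rfl
      rw [e, pow_card_eq_one']
      rfl
    have h7 : b.1⁻¹ * a.1 = 1 := by
      have h8 : (b.1⁻¹ * a.1) ^ 8 = (b.1⁻¹ * a.1) ^ 7 * (b.1⁻¹ * a.1) := pow_succ _ 7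
      rw [h5, one_mul, h6] at h8
      exact h8.symm
    exact Subtype.ext (inv_mul_eq_one.mp h7).symm
  have hfb : Function.Bijective f := (Nat.bijective_iff_injective_and_card f).mpr ⟨hfi, by
    rw [hX, Nat.card_zpowers, hyo]⟩
  intro s hs hs1
  obtain ⟨z, hz⟩ := hfb.2 ⟨s, hs, hs1⟩
  have hzs : z.1 * t * z.1⁻¹ = s := congrArg Subtype.val hz
  have hzN' := hzN z.1 z.2
  constructor
  · rw [← hzs]
    calc z.1 * t * z.1⁻¹ * (z.1 * t * z.1⁻¹) = z.1 * (t * t) * z.1⁻¹ := by group
      _ = 1 := by rw [htt]; group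
  · intro g hg
    have h1 : (z.1⁻¹ * g * z.1) * t = t * (z.1⁻¹ * g * z.1) := by
      have h2 : g * (z.1 * t * z.1⁻¹) = (z.1 * t * z.1⁻¹) * g := by rw [hzs]; exact hg
      calc (z.1⁻¹ * g * z.1) * t = z.1⁻¹ * (g * (z.1 * t * z.1⁻¹)) * z.1 := by group
        _ = z.1⁻¹ * ((z.1 * t * z.1⁻¹) * g) * z.1 := by rw [h2]
        _ = _ := by group
    have h3 := hC _ h1
    have h4 := (mem_normalizer_iff.mp hzN' _).mp h3
    have : z.1 * (z.1⁻¹ * g * z.1) * z.1⁻¹ = g := by group
    rwa [this] at h4

end simple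

end Cfsg.Agent.H12.O504
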