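import Cfsg.Agent.Lib.H12.O504c
import Cfsg.Agent.Lib.H08.Thom.Sign
import Cfsg.Agent.Lib.H05.PSLRec2
import Cfsg.Agent.Lib.H17.Mob6

/-! # Simple groups of order 504: the non-abelian case is impossible; main theorem -/

set_option autoImplicit false
set_option linter.unusedSectionVars false
set_option linter.unusedVariables false

namespace Cfsg.Agent.H12.O504

open Subgroup

variable {G : Type*} [Group G] [Finite G]

theorem count_union {p : ℕ} [Fact p.Prime] (a : ℕ) (hc : ∀ Q : Sylow p G, Nat.card (Q : Subgroup G) = a)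
    (hTI : ∀ (Q Q' : Sylow p G) (y : G), y ∈ (Q : Subgroup G) → y ∈ (Q' : Subgroup G) → y ≠ 1 → Q = Q')
    (E : Finset G) (hE : ∀ Q : Sylow p G, ∀ y ∈ (Q : Subgroup G), y ≠ 1 → y ∈ E) :
    Nat.card (Sylow p G) * (a - 1) ≤ E.card := by
  classical
  haveI : Fintype (Sylow p G) := Fintype.ofFinite _
  let f : (Σ Q : Sylow p G, {c : G // c ∈ (Q : Subgroup G) ∧ c ≠ 1}) → E :=
    fun q => ⟨q.2.1, hE q.1 _ q.2.2.1 q.2.2.2⟩
  have hf : Function.Injective f := by
    rintro ⟨Q, ⟨y, hy, hy1⟩⟩ ⟨Q', ⟨y', hy', hy1'⟩⟩ hh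
    have h1 : y = y' := congrArg Subtype.val hh
    subst h1
    have h2 : Q = Q' := hTI Q Q' y hy hy' hy1
    subst h2
    rfl
  have h1 := Nat.card_le_card_of_injective f hf
  rw [Nat.card_sigma] at h1
  have h2 : ∀ Q : Sylow p G, Nat.card {c : G // c ∈ (Q : Subgroup G) ∧ c ≠ 1} = a - 1 := by
    intro Q
    rw [card_sharp, hc]
  simp only [h2, Finset.sum_const, Finset.card_univ, smul_eq_mul] at h1
  rw [← Nat.card_eq_fintype_card] at h1
  simpa [Nat.card_eq_fintype_card] using h1

open scoped Pointwise in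
theorem mem_smul {S : Sylow 2 G} {g x : G} : x ∈ ((g • S : Sylow 2 G) : Subgroup G) ↔ g⁻¹ * x * g ∈ (S : Subgroup G) := by
  rw [Sylow.coe_subgroup_smul, Subgroup.mem_pointwise_smul_iff_inv_smul_mem]
  simp [MulAut.conj_inv_apply]

section simple

variable [IsSimpleGroup G]

theorem pow_eight (h : Nat.card G = 504) (S : Sylow 2 G) {z : G} (hz : z ∈ (S : Subgroup G)) : z ^ 8 = 1 := by
  have e : z ^ Nat.card (S : Subgroup G) = ((⟨z, hz⟩ : (S : Subgroup G)) ^ Nat.card (S : Subgroup G) : (S : Subgroup G)).1 := rfl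
  have : z ^ Nat.card (S : Subgroup G) = 1 := by
    rw [e, pow_card_eq_one']
    rfl
  rwa [card_two h] at this

theorem card_three (h : Nat.card G = 504) (Q : Sylow 3 G) : Nat.card (Q : Subgroup G) = 9 := by
  have := H04.card_sylow_eq_pow (G := G) (p := 3) 2 56 (by rw [h]; norm_num) (by norm_num) Q
  simpa using this

theorem pow_nine (h : Nat.card G = 504) (Q : Sylow 3 G) {z : G} (hz : z ∈ (Q : Subgroup G)) : z ^ 9 = 1 := by
  have e : z ^ Nat.card (Q : Subgroup G) = ((⟨z, hz⟩ : (Q : Subgroup G)) ^ Nat.card (Q : Subgroup G) : (Q : Subgroup G)).1 := rfl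
  have : z ^ Nat.card (Q : Subgroup G) = 1 := by
    rw [e, pow_card_eq_one']
    rfl
  rwa [card_three h] at this

theorem eq_one_of_pows {g : G} {a b : ℕ} (ha : g ^ a = 1) (hb : g ^ b = 1) (hab : Nat.gcd a b = 1) : g = 1 := by
  have := (pow_gcd_eq_one (a := g)).mpr ⟨ha, hb⟩
  rwa [hab, pow_one] at this

theorem nonabelian_case (h : Nat.card G = 504) (S : Sylow 2 G)
    (hnab : ¬ ∀ a ∈ (S : Subgroup G), ∀ b ∈ (S : Subgroup G), a * b = b * a) {t : G}
    (ht : t ∈ (S : Subgroup G)) (ht1 : t ≠ 1) (htt : t * t = 1) (hCS : ∀ g, g * t = t * g → g ∈ (S : Subgroup G))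
    (htc : ∀ g ∈ (S : Subgroup G), g * t = t * g) : False := by
  classical
  haveI : Fintype G := Fintype.ofFinite G
  have hS := card_two h S
  -- the element of order 4
  obtain ⟨w, hw, hww⟩ : ∃ w ∈ (S : Subgroup G), w * w ≠ 1 := by
    by_contra hcon
    push Not at hcon
    apply hnab
    intro a ha b hb
    have h1 := inv_eq_of_mul_eq_one_left (hcon _ (mul_mem ha hb))
    rw [mul_inv_rev, inv_eq_of_mul_eq_one_left (hcon a ha), inv_eq_of_mul_eq_one_left (hcon b hb)] at h1
    exact h1.symm
  have hw8 := pow_eight h S hw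
  have hw2 : w ^ 2 = w * w := pow_two w
  have hw4 : w ^ 4 = 1 := by
    by_contra hcon
    have ho : orderOf w = 2 ^ 3 := orderOf_eq_prime_pow (p := 2) (n := 2) (by simpa using hcon) (by simpa using hw8)
    have hle : zpowers w ≤ (S : Subgroup G) := zpowers_le.mpr hw
    have heq : zpowers w = (S : Subgroup G) := Subgroup.eq_of_le_of_card_ge hle (by
      rw [hS, Nat.card_zpowers, ho]; norm_num)
    apply hnab
    intro a ha b hb
    rw [← heq] at ha hb
    obtain ⟨i, rfl⟩ := mem_zpowers_iff.mp ha
    obtain ⟨j, rfl⟩ := mem_zpowers_iff.mp hb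
    exact ((Commute.refl w).zpow_zpow i j).eq
  have ho4 : orderOf w = 4 := by
    have := orderOf_eq_prime_pow (x := w) (p := 2) (n := 1) (by simpa [hw2] using hww) (by simpa using hw4)
    simpa using this
  set A : Subgroup G := zpowers w with hA
  have hAS : A ≤ (S : Subgroup G) := zpowers_le.mpr hw
  have hAc : Nat.card A = 4 := by rw [hA, Nat.card_zpowers, ho4]
  have hAidx : A.index = 2 ^ 1 * 63 := by
    have := A.index_mul_card
    rw [h, hAc] at this
    omega
  have hAinv : ∀ g ∈ A, g * g = 1 → g ≠ 1 → g = w * w := by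
    intro g hg hgg hg1
    rw [hA, mem_zpowers_iff_mem_range_orderOf, ho4] at hg
    rw [Finset.mem_image] at hg
    obtain ⟨k, hk, rfl⟩ := hg
    rw [Finset.mem_range] at hk
    have hw1 : w ≠ 1 := by
      rintro rfl
      exact hww (one_mul 1)
    interval_cases k
    · exact absurd (pow_zero w) hg1
    · exfalso
      rw [pow_one] at hgg
      exact hww hgg
    · exact pow_two w
    · exfalso
      apply hww
      rw [← hgg]
      have e : w ^ 3 * w ^ 3 = w ^ 4 * (w * w) := by
        simp only [pow_succ, pow_zero, one_mul, mul_assoc]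
      rw [e, hw4, one_mul]
  -- `t` lies in `A`
  have htA : t ∈ A := by
    by_contra htA
    apply hnab
    have h1 := H04.Small.card_eq_relIndex_mul hAS
    rw [hS, hAc] at h1
    have h2 : (A.subgroupOf (S : Subgroup G)).index = 2 := by
      show A.relIndex (S : Subgroup G) = 2
      omega
    have hor : ∀ s ∈ (S : Subgroup G), s ∈ A ∨ t * s ∈ A := by
      intro s hs
      by_cases hsA : s ∈ A
      · exact Or.inl hsA
      right
      have h3 := Subgroup.mul_mem_iff_of_index_two h2 (a := ⟨t, ht⟩) (b := ⟨s, hs⟩)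
      have h4 : (⟨t, ht⟩ : (S : Subgroup G)) * ⟨s, hs⟩ ∈ A.subgroupOf (S : Subgroup G) := by
        rw [h3]
        constructor
        · intro h5; exact absurd h5 htA
        · intro h5; exact absurd h5 hsA
      exact h4
    have hAcomm : ∀ x ∈ A, ∀ y ∈ A, x * y = y * x := by
      intro x hx y hy
      obtain ⟨i, rfl⟩ := mem_zpowers_iff.mp hx
      obtain ⟨j, rfl⟩ := mem_zpowers_iff.mp hy
      exact ((Commute.refl w).zpow_zpow i j).eq
    intro a ha b hb
    have hta := htc a ha
    have htb := htc b hb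
    rcases hor a ha with h3 | h3 <;> rcases hor b hb with h4 | h4
    · exact hAcomm a h3 b h4
    · have h5 := hAcomm a h3 _ h4
      have h6 : t * (a * b) = t * (b * a) := by
        calc t * (a * b) = (t * a) * b := by group
          _ = (a * t) * b := by rw [hta]
          _ = a * (t * b) := by group
          _ = (t * b) * a := h5
          _ = t * (b * a) := by group
      exact mul_left_cancel h6
    · have h5 := hAcomm _ h3 b h4
      have h6 : t * (a * b) = t * (b * a) := by
        calc t * (a * b) = (t * a) * b := by group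
          _ = b * (t * a) := h5
          _ = (b * t) * a := by group
          _ = (t * b) * a := by rw [htb]
          _ = t * (b * a) := by group
      exact mul_left_cancel h6
    · have h5 := hAcomm _ h3 _ h4
      have h6 : (t * t) * (a * b) = (t * t) * (b * a) := by
        calc (t * t) * (a * b) = t * (t * a) * b := by group
          _ = t * (a * t) * b := by rw [hta]
          _ = (t * a) * (t * b) := by group
          _ = (t * b) * (t * a) := h5
          _ = t * (b * t) * a := by group
          _ = t * (t * b) * a := by rw [htb]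
          _ = _ := by group
      exact mul_left_cancel h6
  have htw : t = w * w := hAinv t htA htt ht1
  -- all involutions are conjugate to `t`
  have hconj : ∀ u : G, u * u = 1 → u ≠ 1 → ∃ g, g * u * g⁻¹ = t := by
    intro u huu hu1
    by_contra hcon
    push Not at hcon
    obtain ⟨φ, hφ⟩ := Cfsg.Agent.H08.Thom.exists_sign A u 1 63 (by norm_num) (by decide)
      (by rw [pow_one, pow_two]; exact huu) (by
        intro g hg
        rw [show 2 ^ (1 - 1) = 1 from rfl, pow_one] at hg
        apply hcon g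
        rw [htw]
        apply hAinv _ hg
        · calc g * u * g⁻¹ * (g * u * g⁻¹) = g * (u * u) * g⁻¹ := by group
            _ = 1 := by rw [huu]; group
        · intro hh
          apply hu1
          have : u = g⁻¹ * (g * u * g⁻¹) * g := by group
          rw [this, hh]; group) hAidx
    rw [hom_trivial h φ u] at hφ
    exact absurd hφ (by decide)
  have hcent2 : ∀ u c : G, u * u = 1 → u ≠ 1 → c * u = u * c → c ^ 8 = 1 := by
    intro u c huu hu1 hcu
    obtain ⟨g, hg⟩ := hconj u huu hu1
    have h1 : (g * c * g⁻¹) * t = t * (g * c * g⁻¹) := by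
      rw [← hg]
      calc g * c * g⁻¹ * (g * u * g⁻¹) = g * (c * u) * g⁻¹ := by group
        _ = g * (u * c) * g⁻¹ := by rw [hcu]
        _ = _ := by group
    have h2 := pow_eight h S (hCS _ h1)
    rw [conj_pow] at h2
    have h3 : c ^ 8 = g⁻¹ * (g * c ^ 8 * g⁻¹) * g := by group
    rw [h3, h2]; group
  -- 3-local analysis
  have hQab : ∀ Q : Sylow 3 G, ∀ a ∈ (Q : Subgroup G), ∀ b ∈ (Q : Subgroup G), a * b = b * a := by
    intro Q a ha b hb
    have hc : Nat.card (Q : Subgroup G) = 3 ^ 2 := by rw [card_three h]; norm_num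
    letI := IsPGroup.commGroupOfCardEqPrimeSq hc
    exact congrArg Subtype.val (mul_comm (⟨a, ha⟩ : (Q : Subgroup G)) ⟨b, hb⟩)
  have hC3 : ∀ Q : Sylow 3 G, ∀ y ∈ (Q : Subgroup G), y ≠ 1 → ∀ g, g * y = y * g → g ∈ (Q : Subgroup G) := by
    intro Q y hy hy1 g hg
    have hy9 := pow_nine h Q hy
    let L := centralizer ({y} : Set G)
    have hQL : (Q : Subgroup G) ≤ L := by
      intro a ha
      rw [mem_centralizer_singleton_iff]
      exact hQab Q a ha y hy
    have h2 : ¬ 2 ∣ Nat.card L := by
      intro hd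
      obtain ⟨u₀, hu₀⟩ := exists_prime_orderOf_dvd_card' (G := L) 2 hd
      have hu : orderOf (u₀ : G) = 2 := by rw [Subgroup.orderOf_coe]; exact hu₀
      have huu : (u₀ : G) * (u₀ : G) = 1 := by
        rw [← pow_two, ← hu]; exact pow_orderOf_eq_one _
      have hu1 : (u₀ : G) ≠ 1 := by
        intro hh
        rw [hh, orderOf_one] at hu
        omega
      have hcm : (u₀ : G) * y = y * (u₀ : G) := mem_centralizer_singleton_iff.mp u₀.2
      have hy8 := hcent2 (u₀ : G) y huu hu1 hcm.symm
      exact hy1 (eq_one_of_pows hy8 hy9 (by norm_num))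
    have h7 : ¬ 7 ∣ Nat.card L := by
      intro hd
      obtain ⟨x₀, hx₀⟩ := exists_prime_orderOf_dvd_card' (G := L) 7 hd
      have hx : orderOf (x₀ : G) = 7 := by rw [Subgroup.orderOf_coe]; exact hx₀
      have hx1 : (x₀ : G) ≠ 1 := by
        intro hh
        rw [hh, orderOf_one] at hx
        omega
      have hp : IsPGroup 7 (zpowers (x₀ : G)) := by
        rw [IsPGroup.iff_card]
        exact ⟨1, by rw [Nat.card_zpowers, hx, pow_one]⟩
      obtain ⟨P', hP'⟩ := hp.exists_le_sylow
      have hxP : (x₀ : G) ∈ (P' : Subgroup G) := hP' (mem_zpowers _)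
      have hcm : (x₀ : G) * y = y * (x₀ : G) := mem_centralizer_singleton_iff.mp x₀.2
      have hyP := cent_seven h P' hxP hx1 hcm.symm
      have hy7 := pow_seven h P' hyP
      exact hy1 (eq_one_of_pows hy7 hy9 (by norm_num))
    have hd : Nat.card L ∣ 504 := by
      rw [← h]; exact Subgroup.card_subgroup_dvd_card L
    have hd9 : Nat.card L ∣ 9 := by
      have hcop : Nat.Coprime (Nat.card L) 56 := by
        have h8 : Nat.Coprime (Nat.card L) 2 := ((Nat.Prime.coprime_iff_not_dvd Nat.prime_two).mpr h2).symm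
        have h9 : Nat.Coprime (Nat.card L) 7 := ((Nat.Prime.coprime_iff_not_dvd (by norm_num : Nat.Prime 7)).mpr h7).symm
        have : (56 : ℕ) = 2 ^ 3 * 7 := by norm_num
        rw [this]
        exact Nat.Coprime.mul_right (h8.pow_right 3) h9
      have : Nat.card L ∣ 56 * 9 := by
        have e : (56 * 9 : ℕ) = 504 := by norm_num
        rw [e]; exact hd
      exact hcop.dvd_of_dvd_mul_left this
    have hLeq : (Q : Subgroup G) = L := Subgroup.eq_of_le_of_card_ge hQL (by
      rw [card_three h]
      exact Nat.le_of_dvd (by norm_num) hd9)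
    rw [hLeq]
    exact mem_centralizer_singleton_iff.mpr hg
  have hTI3 : ∀ (Q Q' : Sylow 3 G) (y : G), y ∈ (Q : Subgroup G) → y ∈ (Q' : Subgroup G) → y ≠ 1 → Q = Q' := by
    intro Q Q' y hy hy' hy1
    have hle : (Q' : Subgroup G) ≤ (Q : Subgroup G) := fun a ha =>
      hC3 Q y hy hy1 a (hQab Q' a ha y hy')
    exact Sylow.ext (Q'.3 Q.2 hle)
  have hTI7 : ∀ (Q Q' : Sylow 7 G) (y : G), y ∈ (Q : Subgroup G) → y ∈ (Q' : Subgroup G) → y ≠ 1 → Q = Q' := by
    intro Q Q' y hy hy' hy1
    have hle : (Q : Subgroup G) ≤ (Q' : Subgroup G) := fun r hr =>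
      (zpowers_le.mpr hy') (mem_zp (card_seven h Q) hy hy1 r hr)
    exact Sylow.ext (Q.3 Q'.2 hle).symm
  have hn3 : Nat.card (Sylow 3 G) = 28 := by
    obtain ⟨Q⟩ : Nonempty (Sylow 3 G) := inferInstance
    have hQ := card_three h Q
    have hd : Nat.card (Sylow 3 G) ∣ 56 := H04.card_sylow_dvd_of_card_eq Q 56 (by
      rw [show Nat.card Q = 9 from hQ, h])
    have hm : Nat.card (Sylow 3 G) ≡ 1 [MOD 3] := card_sylow_modEq_one 3 G
    have hi : (normalizer ((Q : Subgroup G) : Set G)).index = Nat.card (Sylow 3 G) :=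
      (Sylow.card_eq_index_normalizer Q).symm
    have hne := H04.sylow_ne_normal (G := G) (by rw [h]; norm_num) Q (by rw [show Nat.card Q = 9 from hQ]; norm_num)
    have hne7 : Nat.card (Sylow 3 G) ≠ 7 := by
      intro h7
      exact no_index_seven h _ (hi.trans h7)
    have hgt : Nat.card (Sylow 3 G) ≠ 4 := by
      intro h4
      have htop : normalizer ((Q : Subgroup G) : Set G) ≠ ⊤ := by
        intro hh
        rw [hh, Subgroup.index_top] at hi
        omega
      have := H04.Small.index_lower (not_comm h) 6 (by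
        rw [h]; decide) _ htop
      rw [hi, h4] at this
      omega
    have hle := Nat.le_of_dvd (by norm_num) hd
    have hd' := Nat.mod_eq_zero_of_dvd hd
    have hm' : Nat.card (Sylow 3 G) % 3 = 1 := hm
    clear hi
    generalize Nat.card (Sylow 3 G) = n at *
    interval_cases n <;> omega
  -- counting
  let E₇ : Finset G := Finset.univ.filter (fun g : G => g ≠ 1 ∧ g ^ 7 = 1)
  let E₃ : Finset G := Finset.univ.filter (fun g : G => g ≠ 1 ∧ g ^ 9 = 1)
  let K : Finset G := Finset.univ.filter (fun g : G => IsConj t g)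
  have c₇ : 216 ≤ E₇.card := by
    have := count_union (G := G) (p := 7) 7 (card_seven h) hTI7 E₇ (by
      intro Q y hy hy1
      simp only [E₇, Finset.mem_filter, Finset.mem_univ, true_and]
      exact ⟨hy1, pow_seven h Q hy⟩)
    rwa [card_sylow_seven h] at this
  have c₃ : 224 ≤ E₃.card := by
    have := count_union (G := G) (p := 3) 9 (card_three h) hTI3 E₃ (by
      intro Q y hy hy1
      simp only [E₃, Finset.mem_filter, Finset.mem_univ, true_and]
      exact ⟨hy1, pow_nine h Q hy⟩)
    rwa [hn3] at this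
  have cK : K.card = 63 := by
    have h1 := H04.Small.card_carrier_mul_centralizer' t
    have hcC : centralizer ({t} : Set G) = (S : Subgroup G) := by
      apply le_antisymm
      · intro g hg
        exact hCS g (mem_centralizer_singleton_iff.mp hg)
      · intro g hg
        exact mem_centralizer_singleton_iff.mpr (htc g hg)
    rw [hcC, hS, h] at h1
    have h2 : Nat.card (ConjClasses.mk t).carrier = K.card := by
      have : (ConjClasses.mk t).carrier = (K : Set G) := by
        ext g
        simp only [ConjClasses.mem_carrier_iff_mk_eq, K, Finset.coe_filter, Finset.mem_univ, true_and, Set.mem_setOf_eq]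
        rw [ConjClasses.mk_eq_mk_iff_isConj]
        exact ⟨fun h => h.symm, fun h => h.symm⟩
      rw [this, Nat.card_coe_set_eq, Set.ncard_coe_finset]
    rw [h2] at h1
    omega
  have hK : ∀ g ∈ K, g * g = 1 ∧ g ≠ 1 := by
    intro g hg
    simp only [K, Finset.mem_filter, Finset.mem_univ, true_and] at hg
    obtain ⟨c, hc⟩ := isConj_iff.mp hg
    subst hc
    constructor
    · calc c * t * c⁻¹ * (c * t * c⁻¹) = c * (t * t) * c⁻¹ := by group
        _ = 1 := by rw [htt]; group
    · intro hh
      apply ht1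
      have : t = c⁻¹ * (c * t * c⁻¹) * c := by group
      rw [this, hh]; group
  have hm7 : ∀ g ∈ E₇, g ≠ 1 ∧ g ^ 7 = 1 := by
    intro g hg
    simpa only [E₇, Finset.mem_filter, Finset.mem_univ, true_and] using hg
  have hm3 : ∀ g ∈ E₃, g ≠ 1 ∧ g ^ 9 = 1 := by
    intro g hg
    simpa only [E₃, Finset.mem_filter, Finset.mem_univ, true_and] using hg
  have hw1 : w ≠ 1 := by
    rintro rfl
    exact hww (one_mul 1)
  have hd1 : Disjoint E₇ E₃ := by
    rw [Finset.disjoint_left]
    intro g h1 h2
    exact (hm7 g h1).1 (eq_one_of_pows (hm7 g h1).2 (hm3 g h2).2 (by norm_num))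
  have hd2 : Disjoint (E₇ ∪ E₃) K := by
    rw [Finset.disjoint_left]
    intro g h1 h2
    obtain ⟨hgg, hg1⟩ := hK g h2
    have h22 : g ^ 2 = 1 := by rw [pow_two]; exact hgg
    rcases Finset.mem_union.mp h1 with h3 | h3
    · exact hg1 (eq_one_of_pows (hm7 g h3).2 h22 (by norm_num))
    · exact hg1 (eq_one_of_pows (hm3 g h3).2 h22 (by norm_num))
  have hd3 : Disjoint (E₇ ∪ E₃ ∪ K) {1, w} := by
    rw [Finset.disjoint_left]
    intro g h1 h2
    rw [Finset.mem_insert, Finset.mem_singleton] at h2
    rcases h2 with rfl | rfl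
    · rcases Finset.mem_union.mp h1 with h3 | h3
      · rcases Finset.mem_union.mp h3 with h4 | h4
        · exact (hm7 _ h4).1 rfl
        · exact (hm3 _ h4).1 rfl
      · exact (hK _ h3).2 rfl
    · rcases Finset.mem_union.mp h1 with h3 | h3
      · rcases Finset.mem_union.mp h3 with h4 | h4
        · exact hw1 (eq_one_of_pows (hm7 _ h4).2 hw4 (by norm_num))
        · exact hw1 (eq_one_of_pows (hm3 _ h4).2 hw4 (by norm_num))
      · exact hww (hK _ h3).1
  have hcard2 : ({1, w} : Finset G).card = 2 := Finset.card_pair hw1.symm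
  have htot := Finset.card_le_univ (E₇ ∪ E₃ ∪ K ∪ {1, w})
  rw [Finset.card_union_of_disjoint hd3, Finset.card_union_of_disjoint hd2, Finset.card_union_of_disjoint hd1,
    hcard2, cK, ← Nat.card_eq_fintype_card, h] at htot
  omega

/-- **A simple group of order 504 is `PSL(2,8)`.** -/
theorem main (h : Nat.card G = 504) {F : Type*} [Field F] [Fintype F] (hF : Fintype.card F = 8) :
    Nonempty (G ≃* Matrix.ProjectiveSpecialLinearGroup (Fin 2) F) := by
  classical
  obtain ⟨P⟩ : Nonempty (Sylow 7 G) := inferInstance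
  obtain ⟨t, htt, ht1, htN, hinv⟩ := exists_inv h P
  obtain ⟨S, hS⟩ := exists_sylow_cent h P htt ht1 htN hinv
  have hmem : ∀ g, g ∈ (S : Subgroup G) ↔ g * t = t * g := by
    intro g
    rw [hS, mem_centralizer_singleton_iff]
  have ht : t ∈ (S : Subgroup G) := (hmem t).mpr rfl
  by_cases hab : ∀ a ∈ (S : Subgroup G), ∀ b ∈ (S : Subgroup G), a * b = b * a
  · have hst := abelian_case h S hab ht ht1 htt (fun g hg => (hmem g).mpr hg)
    have hsq : ∀ s ∈ (S : Subgroup G), s * s = 1 := by
      intro s hs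
      by_cases hs1 : s = 1
      · rw [hs1, one_mul]
      · exact (hst s hs hs1).1
    have hcS := card_two h S
    have hnc : ¬ IsCyclic (S : Subgroup G) := by
      intro hcyc
      obtain ⟨g, hg⟩ := IsCyclic.exists_ofOrder_eq_natCard (α := (S : Subgroup G))
      rw [hcS] at hg
      have h2 : ((g : (S : Subgroup G)) : G) * g = 1 := hsq g g.2
      have h3 : g ^ 2 = 1 := Subtype.ext (by simpa [pow_two] using h2)
      have h4 := orderOf_dvd_of_pow_eq_one h3
      rw [hg] at h4
      omega
    have hnn : ¬ (S : Subgroup G).Normal := by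
      intro hn
      rcases IsSimpleGroup.eq_bot_or_eq_top_of_normal _ hn with h1 | h1
      · rw [h1, Subgroup.card_bot] at hcS
        omega
      · rw [h1, Subgroup.card_top, h] at hcS
        omega
    have hCC : ∀ u : G, orderOf u = 2 → IsMulCommutative (centralizer ({u} : Set G)) ∧
        ∀ c ∈ centralizer ({u} : Set G), c ^ 2 = 1 := by
      intro u hu
      have hu1 : u ≠ 1 := by
        intro hh
        rw [hh, orderOf_one] at hu
        omega
      have huu : u * u = 1 := by
        rw [← pow_two, ← hu]; exact pow_orderOf_eq_one _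
      have hp : IsPGroup 2 (zpowers u) := by
        rw [IsPGroup.iff_card]
        exact ⟨1, by rw [Nat.card_zpowers, hu, pow_one]⟩
      obtain ⟨S', hS'⟩ := hp.exists_le_sylow
      obtain ⟨g, hg⟩ := MulAction.exists_smul_eq G S S'
      have huS : g⁻¹ * u * g ∈ (S : Subgroup G) := by
        have h1 : u ∈ ((g • S : Sylow 2 G) : Subgroup G) := by
          rw [hg]; exact hS' (mem_zpowers u)
        exact mem_smul.mp h1
      have hu'1 : g⁻¹ * u * g ≠ 1 := by
        intro hh
        apply hu1
        have : u = g * (g⁻¹ * u * g) * g⁻¹ := by group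
        rw [this, hh]; group
      have hmemS : ∀ c ∈ centralizer ({u} : Set G), g⁻¹ * c * g ∈ (S : Subgroup G) := by
        intro c hc
        apply (hst _ huS hu'1).2
        have hcu := mem_centralizer_singleton_iff.mp hc
        calc g⁻¹ * c * g * (g⁻¹ * u * g) = g⁻¹ * (c * u) * g := by group
          _ = g⁻¹ * (u * c) * g := by rw [hcu]
          _ = _ := by group
      constructor
      · refine ⟨⟨fun a b => ?_⟩⟩
        have h1 := hab _ (hmemS a a.2) _ (hmemS b b.2)
        apply Subtype.ext
        have h2 : (a : G) * b = g * (g⁻¹ * a * g * (g⁻¹ * b * g)) * g⁻¹ := by group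
        have h3 : (b : G) * a = g * (g⁻¹ * b * g * (g⁻¹ * a * g)) * g⁻¹ := by group
        show (a : G) * b = (b : G) * a
        rw [h2, h3, h1]
      · intro c hc
        have h1 := hsq _ (hmemS c hc)
        have h2 : c ^ 2 = g * (g⁻¹ * c * g * (g⁻¹ * c * g)) * g⁻¹ := by
          rw [pow_two]; group
        rw [h2, h1]; group
    obtain ⟨F₀, iF, iFt, hc, ⟨φ⟩⟩ := Cfsg.Agent.H05.PR5.main S hnc hnn hCC
    have hcc : Fintype.card F₀ = Fintype.card F := by
      rw [hc, hF]; exact hcS
    obtain ⟨ψ⟩ := Cfsg.Agent.H17.Mob.psl_congr (FiniteField.ringEquivOfCardEq hcc)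
    exact ⟨φ.trans ψ⟩
  · exact (nonabelian_case h S hab ht ht1 htt (fun g hg => (hmem g).mpr hg) (fun g hg => (hmem g).mp hg)).elim

end simple

end Cfsg.Agent.H12.O504
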