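import Mathlib
import Cfsg.Agent.Lib.H01.Frobenius

/-!
Three low-degree characters of multiply transitive groups.
-/

set_option autoImplicit false

namespace Cfsg.Agent.H12.SnChars

open Cfsg Cfsg.Agent.H21 Module MulAction
open scoped ComplexConjugate

universe u v

section Perm

variable (G : Type u) [Group G] (X : Type v) [MulAction G X]

/-- The permutation representation. -/
noncomputable def permRep : Representation ℂ G (X → ℂ) where
  toFun g :=
    { toFun := fun f x => f (g⁻¹ • x)
      map_add' := fun _ _ => rfl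
      map_smul' := fun _ _ => rfl }
  map_one' := by ext f x; simp
  map_mul' a b := by ext f x; simp [mul_smul]

variable {G X}

theorem permRep_apply (g : G) (f : X → ℂ) (x : X) : permRep G X g f x = f (g⁻¹ • x) := rfl

theorem permRep_character [Fintype X] [DecidableEq X] (g : G) :
    (permRep G X).character g = ((Finset.univ.filter fun x : X => g • x = x).card : ℂ) := by
  classical
  rw [Representation.character,
    LinearMap.trace_eq_matrix_trace ℂ (Pi.basisFun ℂ X) (permRep G X g), Matrix.trace]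
  simp only [Matrix.diag, LinearMap.toMatrix_apply, Pi.basisFun_repr, permRep_apply,
    Pi.basisFun_apply, Pi.single_apply]
  rw [Finset.sum_boole]
  congr 2
  ext x
  simp only [Finset.mem_filter, Finset.mem_univ, true_and]
  rw [inv_smul_eq_iff]
  exact eq_comm

theorem isCharacter_fix [Fintype X] [DecidableEq X] :
    IsCharacter G (fun g : G => ((Finset.univ.filter fun x : X => g • x = x).card : ℂ)) := by
  have := isCharacter_of_rep (permRep G X)
  convert this using 1
  funext g
  rw [permRep_character]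

end Perm

section Count

variable {G : Type u} [Group G] [Fintype G] {α : Type v} [MulAction G α] [Fintype α]
  [DecidableEq α]

/-- Counting solutions of a twisted fixing equation on embeddings. -/
theorem sum_pattern {k : ℕ} [IsMultiplyPretransitive G α k] [Nonempty (Fin k ↪ α)]
    (τ : Equiv.Perm (Fin k)) :
    ∑ g : G, (Finset.univ.filter fun e : Fin k ↪ α =>
      g • e = τ.toEmbedding.trans e).card = Nat.card G := by
  classical
  have h1 : ∀ g : G, (Finset.univ.filter fun e : Fin k ↪ α =>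
      g • e = τ.toEmbedding.trans e).card =
      ∑ e : Fin k ↪ α, if g • e = τ.toEmbedding.trans e then 1 else 0 := by
    intro g
    rw [Finset.card_filter]
  simp only [h1]
  rw [Finset.sum_comm]
  -- each fibre has the size of a stabilizer
  have h2 : ∀ e : Fin k ↪ α, (∑ g : G, if g • e = τ.toEmbedding.trans e then 1 else 0) =
      Nat.card (stabilizer G e) := by
    intro e
    obtain ⟨g₀, hg₀⟩ := exists_smul_eq G e (τ.toEmbedding.trans e)
    rw [← Finset.card_filter, Nat.card_eq_fintype_card, ← Fintype.card_coe]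
    refine Fintype.card_congr ?_
    refine
      { toFun := fun g => ⟨g₀⁻¹ * g.1, ?_⟩
        invFun := fun s => ⟨g₀ * s.1, ?_⟩
        left_inv := ?_
        right_inv := ?_ }
    · have hg := (Finset.mem_filter.mp g.2).2
      rw [mem_stabilizer_iff, mul_smul, hg, ← hg₀, inv_smul_smul]
    · have hs : (s.1 : G) • e = e := s.2
      rw [Finset.mem_filter]
      refine ⟨Finset.mem_univ _, ?_⟩
      rw [mul_smul, hs, hg₀]
    · intro g
      apply Subtype.ext
      simp
    · intro s
      apply Subtype.ext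
      simp
  simp only [h2]
  -- orbit-stabilizer
  have h3 : ∀ e : Fin k ↪ α, Nat.card (Fin k ↪ α) * Nat.card (stabilizer G e) = Nat.card G := by
    intro e
    have h4 := card_orbit_mul_card_stabilizer_eq_card_group (G) e
    have h5 : orbit G e = Set.univ := orbit_eq_univ G e
    rw [h5] at h4
    rw [Nat.card_eq_fintype_card, Nat.card_eq_fintype_card, Nat.card_eq_fintype_card]
    rw [← h4]
    congr 1
    simp
  obtain ⟨e₀⟩ := (inferInstance : Nonempty (Fin k ↪ α))
  have h6 : ∀ e : Fin k ↪ α, Nat.card (stabilizer G e) = Nat.card (stabilizer G e₀) := by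
    intro e
    have hpos : 0 < Nat.card (Fin k ↪ α) := Nat.card_pos
    have := (h3 e).trans (h3 e₀).symm
    exact Nat.eq_of_mul_eq_mul_left hpos this
  simp only [h6 _, Finset.sum_const, smul_eq_mul, Finset.card_univ]
  rw [← h3 e₀, Nat.card_eq_fintype_card (α := Fin k ↪ α)]

/-- The number of fixed points. -/
def fixN (α : Type v) [MulAction G α] [Fintype α] [DecidableEq α] (g : G) : ℕ :=
  (Finset.univ.filter fun x : α => g • x = x).card

/-- The number of ordered pairs interchanged. -/
def swapN (α : Type v) [MulAction G α] [Fintype α] [DecidableEq α] (g : G) : ℕ :=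
  (Finset.univ.filter fun p : α × α => p.1 ≠ p.2 ∧ g • p.1 = p.2 ∧ g • p.2 = p.1).card

theorem pattern_iff {k : ℕ} (τ : Equiv.Perm (Fin k)) (g : G) (e : Fin k ↪ α) :
    g • e = τ.toEmbedding.trans e ↔ ∀ i, g • e i = e (τ i) := by
  constructor
  · intro h i
    have := congrArg (fun f : Fin k ↪ α => f i) h
    simpa using this
  · intro h
    ext i
    simpa using h i

theorem pat_fix (k : ℕ) (g : G) :
    (Finset.univ.filter fun e : Fin k ↪ α =>
      g • e = (1 : Equiv.Perm (Fin k)).toEmbedding.trans e).card =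
      (fixN α g).descFactorial k := by
  classical
  rw [← Fintype.card_subtype]
  have h1 : fixN α g = Fintype.card {x : α // g • x = x} := by
    rw [Fintype.card_subtype]
    rfl
  rw [h1]
  have h2 := Fintype.card_embedding_eq (α := Fin k) (β := {x : α // g • x = x})
  rw [Fintype.card_fin] at h2
  rw [← h2]
  refine Fintype.card_congr ?_
  have hp : ∀ e : Fin k ↪ α, g • e = (1 : Equiv.Perm (Fin k)).toEmbedding.trans e ↔
      ∀ i, g • e i = e i := by
    intro e
    rw [pattern_iff]
    simp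
  refine
    { toFun := fun e => ⟨fun i => ⟨e.1 i, (hp e.1).1 e.2 i⟩, ?_⟩
      invFun := fun f => ⟨f.trans (Function.Embedding.subtype _), ?_⟩
      left_inv := ?_
      right_inv := ?_ }
  · intro i j hij
    exact e.1.injective (congrArg Subtype.val hij)
  · rw [hp]
    intro i
    exact (f i).2
  · intro e
    apply Subtype.ext
    ext i
    rfl
  · intro f
    ext i
    rfl

theorem pat_swap2 (g : G) :
    (Finset.univ.filter fun e : Fin 2 ↪ α =>
      g • e = (Equiv.swap (0 : Fin 2) 1).toEmbedding.trans e).card = swapN α g := by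
  classical
  refine Finset.card_bij (fun e _ => (e 0, e 1)) ?_ ?_ ?_
  · intro e he
    have h := (pattern_iff _ g e).1 (Finset.mem_filter.mp he).2
    simp only [Finset.mem_filter, Finset.mem_univ, true_and]
    refine ⟨fun h01 => ?_, ?_, ?_⟩
    · exact absurd (e.injective h01) (by decide)
    · simpa using h 0
    · simpa using h 1
  · intro e _ e' _ h
    have h1 := congrArg Prod.fst h
    have h2 := congrArg Prod.snd h
    ext i
    fin_cases i
    · exact h1
    · exact h2
  · rintro ⟨x, y⟩ hp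
    simp only [Finset.mem_filter, Finset.mem_univ, true_and] at hp
    obtain ⟨hxy, h1, h2⟩ := hp
    refine ⟨⟨![x, y], ?_⟩, ?_, rfl⟩
    · intro i j hij
      fin_cases i <;> fin_cases j <;> simp_all
    · rw [Finset.mem_filter]
      refine ⟨Finset.mem_univ _, ?_⟩
      rw [pattern_iff]
      intro i
      fin_cases i
      · exact h1
      · exact h2

theorem pat_swap3 (g : G) :
    (Finset.univ.filter fun e : Fin 3 ↪ α =>
      g • e = (Equiv.swap (1 : Fin 3) 2).toEmbedding.trans e).card = fixN α g * swapN α g := by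
  classical
  have h0 : fixN α g * swapN α g = ((Finset.univ.filter fun x : α => g • x = x) ×ˢ
      (Finset.univ.filter fun p : α × α => p.1 ≠ p.2 ∧ g • p.1 = p.2 ∧ g • p.2 = p.1)).card := by
    rw [Finset.card_product]
    rfl
  rw [h0]
  refine Finset.card_bij (fun e _ => (e 0, (e 1, e 2))) ?_ ?_ ?_
  · intro e he
    have h := (pattern_iff _ g e).1 (Finset.mem_filter.mp he).2
    simp only [Finset.mem_product, Finset.mem_filter, Finset.mem_univ, true_and]
    refine ⟨?_, fun h01 => ?_, ?_, ?_⟩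
    · simpa [Equiv.swap_apply_def] using h 0
    · exact absurd (e.injective h01) (by decide)
    · simpa using h 1
    · simpa using h 2
  · intro e _ e' _ h
    have h1 := congrArg Prod.fst h
    have h2 := congrArg (fun q => q.2.1) h
    have h3 := congrArg (fun q => q.2.2) h
    ext i
    fin_cases i
    · exact h1
    · exact h2
    · exact h3
  · rintro ⟨z, x, y⟩ hp
    simp only [Finset.mem_product, Finset.mem_filter, Finset.mem_univ, true_and] at hp
    obtain ⟨hz, hxy, h1, h2⟩ := hp
    have hzx : z ≠ x := by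
      rintro rfl
      exact hxy (hz.symm.trans h1)
    have hzy : z ≠ y := by
      rintro rfl
      exact hxy (h2.symm.trans hz)
    refine ⟨⟨![z, x, y], ?_⟩, ?_, rfl⟩
    · intro i j hij
      fin_cases i <;> fin_cases j <;> simp_all
    · rw [Finset.mem_filter]
      refine ⟨Finset.mem_univ _, ?_⟩
      rw [pattern_iff]
      intro i
      fin_cases i
      · exact hz
      · exact h1
      · exact h2

theorem pat_swap4 (g : G) :
    (Finset.univ.filter fun e : Fin 4 ↪ α =>
      g • e = (Equiv.swap (2 : Fin 4) 3).toEmbedding.trans e).card =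
      (fixN α g * fixN α g - fixN α g) * swapN α g := by
  classical
  have h0 : (fixN α g * fixN α g - fixN α g) * swapN α g =
      ((Finset.univ.filter fun x : α => g • x = x).offDiag ×ˢ
      (Finset.univ.filter fun p : α × α => p.1 ≠ p.2 ∧ g • p.1 = p.2 ∧ g • p.2 = p.1)).card := by
    rw [Finset.card_product, Finset.offDiag_card]
    rfl
  rw [h0]
  refine Finset.card_bij (fun e _ => ((e 0, e 1), (e 2, e 3))) ?_ ?_ ?_
  · intro e he
    have h := (pattern_iff _ g e).1 (Finset.mem_filter.mp he).2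
    simp only [Finset.mem_product, Finset.mem_filter, Finset.mem_univ, true_and,
      Finset.mem_offDiag]
    refine ⟨⟨?_, ?_, fun h01 => ?_⟩, fun h23 => ?_, ?_, ?_⟩
    · simpa [Equiv.swap_apply_def] using h 0
    · simpa [Equiv.swap_apply_def] using h 1
    · exact absurd (e.injective h01) (by decide)
    · exact absurd (e.injective h23) (by decide)
    · simpa using h 2
    · simpa using h 3
  · intro e _ e' _ h
    have h1 := congrArg (fun q => q.1.1) h
    have h2 := congrArg (fun q => q.1.2) h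
    have h3 := congrArg (fun q => q.2.1) h
    have h4 := congrArg (fun q => q.2.2) h
    ext i
    fin_cases i
    · exact h1
    · exact h2
    · exact h3
    · exact h4
  · rintro ⟨⟨u, v⟩, x, y⟩ hp
    simp only [Finset.mem_product, Finset.mem_filter, Finset.mem_univ, true_and,
      Finset.mem_offDiag] at hp
    obtain ⟨⟨hu, hv, huv⟩, hxy, h1, h2⟩ := hp
    have hux : u ≠ x := by
      rintro rfl
      exact hxy (hu.symm.trans h1)
    have huy : u ≠ y := by
      rintro rfl
      exact hxy (h2.symm.trans hu)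
    have hvx : v ≠ x := by
      rintro rfl
      exact hxy (hv.symm.trans h1)
    have hvy : v ≠ y := by
      rintro rfl
      exact hxy (h2.symm.trans hv)
    refine ⟨⟨![u, v, x, y], ?_⟩, ?_, rfl⟩
    · intro i j hij
      fin_cases i <;> fin_cases j <;> simp_all
    · rw [Finset.mem_filter]
      refine ⟨Finset.mem_univ _, ?_⟩
      rw [pattern_iff]
      intro i
      fin_cases i
      · exact hu
      · exact hv
      · exact h1
      · exact h2

theorem pat_swapswap (g : G) :
    (Finset.univ.filter fun e : Fin 4 ↪ α =>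
      g • e = (Equiv.swap (0 : Fin 4) 1 * Equiv.swap (2 : Fin 4) 3).toEmbedding.trans e).card =
      swapN α g * (swapN α g - 2) := by
  classical
  set D := (Finset.univ.filter fun p : α × α => p.1 ≠ p.2 ∧ g • p.1 = p.2 ∧ g • p.2 = p.1)
    with hD
  have hmem : ∀ p : α × α, p ∈ D ↔ p.1 ≠ p.2 ∧ g • p.1 = p.2 ∧ g • p.2 = p.1 := by
    intro p
    simp [hD]
  have h0 : swapN α g * (swapN α g - 2) =
      (D.sigma fun p => D.filter fun q => q ≠ p ∧ q ≠ (p.2, p.1)).card := by
    rw [Finset.card_sigma]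
    have h1 : ∀ p ∈ D, (D.filter fun q => q ≠ p ∧ q ≠ (p.2, p.1)).card = swapN α g - 2 := by
      intro p hp
      have hp' := (hmem p).1 hp
      have h2 : D.filter (fun q => q ≠ p ∧ q ≠ (p.2, p.1)) = D \ {p, (p.2, p.1)} := by
        ext q
        simp only [Finset.mem_filter, Finset.mem_sdiff, Finset.mem_insert, Finset.mem_singleton]
        tauto
      rw [h2, Finset.card_sdiff_of_subset, Finset.card_pair]
      · rfl
      · intro h3
        exact hp'.1 (congrArg Prod.fst h3)
      · intro q hq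
        simp only [Finset.mem_insert, Finset.mem_singleton] at hq
        rcases hq with rfl | rfl
        · exact hp
        · rw [hmem]
          exact ⟨fun h => hp'.1 h.symm, hp'.2.2, hp'.2.1⟩
    rw [Finset.sum_congr rfl h1, Finset.sum_const, smul_eq_mul]
    rfl
  rw [h0]
  refine Finset.card_bij (fun e _ => ⟨(e 0, e 1), (e 2, e 3)⟩) ?_ ?_ ?_
  · intro e he
    have h := (pattern_iff _ g e).1 (Finset.mem_filter.mp he).2
    simp only [Finset.mem_sigma, Finset.mem_filter, hmem]
    have h0' : g • e 0 = e 1 := by simpa [Equiv.swap_apply_def] using h 0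
    have h1' : g • e 1 = e 0 := by simpa [Equiv.swap_apply_def] using h 1
    have h2' : g • e 2 = e 3 := by simpa [Equiv.swap_apply_def] using h 2
    have h3' : g • e 3 = e 2 := by simpa [Equiv.swap_apply_def] using h 3
    refine ⟨⟨fun h01 => ?_, h0', h1'⟩, ⟨fun h23 => ?_, h2', h3'⟩, ?_, ?_⟩
    · exact absurd (e.injective h01) (by decide)
    · exact absurd (e.injective h23) (by decide)
    · intro h4
      have := congrArg Prod.fst h4
      exact absurd (e.injective this) (by decide)
    · intro h4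
      have := congrArg Prod.fst h4
      exact absurd (e.injective this) (by decide)
  · intro e _ e' _ h
    have h1 := congrArg (fun q => q.1.1) h
    have h2 := congrArg (fun q => q.1.2) h
    have h3 : (e 2, e 3) = (e' 2, e' 3) := by
      have := Sigma.mk.inj_iff.mp h
      exact eq_of_heq this.2
    have h3a := congrArg Prod.fst h3
    have h3b := congrArg Prod.snd h3
    ext i
    fin_cases i
    · exact h1
    · exact h2
    · exact h3a
    · exact h3b
  · rintro ⟨⟨x, y⟩, ⟨u, v⟩⟩ hp
    simp only [Finset.mem_sigma, Finset.mem_filter, hmem] at hp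
    obtain ⟨⟨hxy, h1, h2⟩, ⟨huv, h3, h4⟩, h5, h6⟩ := hp
    have hne : ∀ a b c d : α, g • a = b → g • b = a → g • c = d → g • d = c →
        (c, d) ≠ (a, b) → (c, d) ≠ (b, a) → a ≠ c := by
      rintro a b c d h1 h2 h3 h4 h5 h6 rfl
      have hbd : b = d := h1.symm.trans h3
      subst hbd
      exact h5 rfl
    have hxu : x ≠ u := hne x y u v h1 h2 h3 h4 h5 h6
    have hxv : x ≠ v := by
      refine hne x y v u h1 h2 h4 h3 ?_ ?_
      · intro h7
        apply h6
        simp only [Prod.mk.injEq] at h7 ⊢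
        exact ⟨h7.2, h7.1⟩
      · intro h7
        apply h5
        simp only [Prod.mk.injEq] at h7 ⊢
        exact ⟨h7.2, h7.1⟩
    have hyu : y ≠ u := by
      refine hne y x u v h2 h1 h3 h4 h6 h5
    have hyv : y ≠ v := by
      refine hne y x v u h2 h1 h4 h3 ?_ ?_
      · intro h7
        apply h5
        simp only [Prod.mk.injEq] at h7 ⊢
        exact ⟨h7.2, h7.1⟩
      · intro h7
        apply h6
        simp only [Prod.mk.injEq] at h7 ⊢
        exact ⟨h7.2, h7.1⟩
    refine ⟨⟨![x, y, u, v], ?_⟩, ?_, rfl⟩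
    · intro i j hij
      fin_cases i <;> fin_cases j <;> simp_all
    · rw [Finset.mem_filter]
      refine ⟨Finset.mem_univ _, ?_⟩
      rw [pattern_iff]
      intro i
      fin_cases i
      · exact h1
      · exact h2
      · exact h3
      · exact h4

theorem cast_desc3 (a : ℕ) :
    ((a.descFactorial 3 : ℕ) : ℂ) = (a : ℂ) * (a - 1) * (a - 2) := by
  rcases a with _ | _ | _ | a
  · simp
  · simp [Nat.descFactorial]
  · simp [Nat.descFactorial]
  · simp [Nat.descFactorial]
    push_cast
    ring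

theorem cast_desc4 (a : ℕ) :
    ((a.descFactorial 4 : ℕ) : ℂ) = (a : ℂ) * (a - 1) * (a - 2) * (a - 3) := by
  rcases a with _ | _ | _ | _ | a
  · simp
  · simp [Nat.descFactorial]
  · simp [Nat.descFactorial]
  · simp [Nat.descFactorial]
  · simp [Nat.descFactorial]
    push_cast
    ring

theorem swapN_ne_one (g : G) : swapN α g ≠ 1 := by
  classical
  intro h
  obtain ⟨p, hp⟩ := Finset.card_eq_one.mp h
  have hm : p ∈ (Finset.univ.filter fun p : α × α => p.1 ≠ p.2 ∧ g • p.1 = p.2 ∧ g • p.2 = p.1) := by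
    rw [hp]
    exact Finset.mem_singleton_self _
  have hm' := (Finset.mem_filter.mp hm).2
  have hq : (p.2, p.1) ∈
      (Finset.univ.filter fun p : α × α => p.1 ≠ p.2 ∧ g • p.1 = p.2 ∧ g • p.2 = p.1) := by
    rw [Finset.mem_filter]
    exact ⟨Finset.mem_univ _, fun h => hm'.1 h.symm, hm'.2.2, hm'.2.1⟩
  rw [hp, Finset.mem_singleton] at hq
  exact hm'.1 (congrArg Prod.snd hq)

section Moments

variable [IsMultiplyPretransitive G α 4] (hcard : 4 ≤ Fintype.card α)

include hcard

theorem pre_of_le {k : ℕ} (hk : k ≤ 4) : IsMultiplyPretransitive G α k :=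
  isMultiplyPretransitive_of_le (n := 4) hk (by rwa [Nat.card_eq_fintype_card])

theorem ne_emb {k : ℕ} (hk : k ≤ 4) : Nonempty (Fin k ↪ α) :=
  Function.Embedding.nonempty_of_card_le (by simp; omega)

theorem sum_cast_pattern {k : ℕ} (hk : k ≤ 4) (τ : Equiv.Perm (Fin k)) :
    ∑ g : G, ((Finset.univ.filter fun e : Fin k ↪ α =>
      g • e = τ.toEmbedding.trans e).card : ℂ) = (Nat.card G : ℂ) := by
  haveI := pre_of_le (G := G) (α := α) hcard hk
  haveI := ne_emb (α := α) hcard hk
  rw [← sum_pattern (G := G) (α := α) τ]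
  push_cast
  rfl

theorem mA1 : ∑ g : G, (fixN α g : ℂ) = (Nat.card G : ℂ) := by
  rw [← sum_cast_pattern (G := G) (α := α) hcard (k := 1) (by norm_num) 1]
  refine Finset.sum_congr rfl fun g _ => ?_
  rw [pat_fix]
  simp

theorem mA2 : ∑ g : G, ((fixN α g : ℂ) * ((fixN α g : ℂ) - 1)) = (Nat.card G : ℂ) := by
  rw [← sum_cast_pattern (G := G) (α := α) hcard (k := 2) (by norm_num) 1]
  refine Finset.sum_congr rfl fun g _ => ?_
  rw [pat_fix, Nat.cast_descFactorial_two]

theorem mA3 : ∑ g : G, ((fixN α g : ℂ) * ((fixN α g : ℂ) - 1) * ((fixN α g : ℂ) - 2)) =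
    (Nat.card G : ℂ) := by
  rw [← sum_cast_pattern (G := G) (α := α) hcard (k := 3) (by norm_num) 1]
  refine Finset.sum_congr rfl fun g _ => ?_
  rw [pat_fix, cast_desc3]

theorem mA4 : ∑ g : G, ((fixN α g : ℂ) * ((fixN α g : ℂ) - 1) * ((fixN α g : ℂ) - 2) *
    ((fixN α g : ℂ) - 3)) = (Nat.card G : ℂ) := by
  rw [← sum_cast_pattern (G := G) (α := α) hcard (k := 4) (by norm_num) 1]
  refine Finset.sum_congr rfl fun g _ => ?_
  rw [pat_fix, cast_desc4]

theorem mD0 : ∑ g : G, (swapN α g : ℂ) = (Nat.card G : ℂ) := by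
  rw [← sum_cast_pattern (G := G) (α := α) hcard (k := 2) (by norm_num) (Equiv.swap 0 1)]
  refine Finset.sum_congr rfl fun g _ => ?_
  rw [pat_swap2]

theorem mD1 : ∑ g : G, ((fixN α g : ℂ) * (swapN α g : ℂ)) = (Nat.card G : ℂ) := by
  rw [← sum_cast_pattern (G := G) (α := α) hcard (k := 3) (by norm_num) (Equiv.swap 1 2)]
  refine Finset.sum_congr rfl fun g _ => ?_
  rw [pat_swap3]
  push_cast
  rfl

theorem mD2 : ∑ g : G, ((fixN α g : ℂ) * ((fixN α g : ℂ) - 1) * (swapN α g : ℂ)) =
    (Nat.card G : ℂ) := by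
  rw [← sum_cast_pattern (G := G) (α := α) hcard (k := 4) (by norm_num) (Equiv.swap 2 3)]
  refine Finset.sum_congr rfl fun g _ => ?_
  rw [pat_swap4, Nat.cast_mul, Nat.cast_sub (Nat.le_mul_self _)]
  push_cast
  ring

theorem mDD : ∑ g : G, ((swapN α g : ℂ) * ((swapN α g : ℂ) - 2)) = (Nat.card G : ℂ) := by
  rw [← sum_cast_pattern (G := G) (α := α) hcard (k := 4) (by norm_num)
    (Equiv.swap 0 1 * Equiv.swap 2 3)]
  refine Finset.sum_congr rfl fun g _ => ?_
  rw [pat_swapswap]
  rcases Nat.lt_or_ge (swapN α g) 2 with h | h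
  · have h1 := swapN_ne_one (α := α) g
    have h0 : swapN α g = 0 := by omega
    rw [h0]
    simp
  · rw [Nat.cast_mul, Nat.cast_sub h]
    push_cast
    rfl

end Moments

/-- The action on unordered pairs. -/
instance sym2Act : MulAction G (Sym2 α) where
  smul g s := Sym2.map (fun x => g • x) s
  one_smul s := by
    show Sym2.map (fun x => (1 : G) • x) s = s
    simp
  mul_smul a b s := by
    show Sym2.map (fun x => (a * b) • x) s = Sym2.map (fun x => a • x) (Sym2.map (fun x => b • x) s)
    rw [Sym2.map_map]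
    congr 1
    funext x
    simp [mul_smul]

theorem sym2_smul_mk (g : G) (x y : α) : g • s(x, y) = s(g • x, g • y) := rfl

theorem two_mul_fixSym (g : G) :
    2 * (Finset.univ.filter fun s : Sym2 α => g • s = s).card =
      fixN α g * fixN α g + fixN α g + swapN α g := by
  classical
  set F := (Finset.univ.filter fun x : α => g • x = x) with hF
  set D := (Finset.univ.filter fun p : α × α => p.1 ≠ p.2 ∧ g • p.1 = p.2 ∧ g • p.2 = p.1)
    with hD
  have hFm : ∀ x, x ∈ F ↔ g • x = x := by
    intro x; simp [hF]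
  have hDm : ∀ p : α × α, p ∈ D ↔ p.1 ≠ p.2 ∧ g • p.1 = p.2 ∧ g • p.2 = p.1 := by
    intro p; simp [hD]
  have ha : fixN α g = F.card := rfl
  have hd : swapN α g = D.card := rfl
  let T := F.offDiag ∪ D
  let mk2 : α × α → Sym2 α := fun p => s(p.1, p.2)
  have hdisj : Disjoint F.offDiag D := by
    rw [Finset.disjoint_left]
    intro p hp hq
    have h1 := (Finset.mem_offDiag.mp hp)
    have h2 := (hDm p).1 hq
    exact h2.1 (((hFm _).1 h1.1).symm.trans h2.2.1)
  have hTc : T.card = F.card * F.card - F.card + D.card := by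
    rw [Finset.card_union_of_disjoint hdisj, Finset.offDiag_card]
  have hTm : ∀ p : α × α, p ∈ T ↔ p.1 ≠ p.2 ∧ ((g • p.1 = p.1 ∧ g • p.2 = p.2) ∨
      (g • p.1 = p.2 ∧ g • p.2 = p.1)) := by
    intro p
    simp only [T, Finset.mem_union, Finset.mem_offDiag, hFm, hDm]
    tauto
  have hT2 : 2 * (T.image mk2).card = T.card := by
    rw [Finset.card_eq_sum_card_image mk2 T, mul_comm]
    rw [Finset.sum_const_nat]
    intro b hb
    obtain ⟨⟨x, y⟩, hxy, rfl⟩ := Finset.mem_image.mp hb
    have hxy' := (hTm _).1 hxy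
    have h1 : (T.filter fun p => mk2 p = mk2 (x, y)) = {(x, y), (y, x)} := by
      ext ⟨u, v⟩
      simp only [Finset.mem_filter, Finset.mem_insert, Finset.mem_singleton, Prod.mk.injEq]
      constructor
      · rintro ⟨-, h⟩
        exact Sym2.eq_iff.mp h
      · rintro (⟨rfl, rfl⟩ | ⟨rfl, rfl⟩)
        · exact ⟨hxy, rfl⟩
        · refine ⟨?_, Sym2.eq_swap⟩
          rw [hTm]
          simp only at hxy' ⊢
          refine ⟨fun h => hxy'.1 h.symm, ?_⟩
          tauto
    rw [h1, Finset.card_pair]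
    intro h2
    exact hxy'.1 (congrArg Prod.fst h2)
  have hDiag : (F.image fun x => s(x, x)).card = F.card := by
    apply Finset.card_image_of_injective
    intro x y h
    have := Sym2.eq_iff.mp h
    tauto
  have hdisj2 : Disjoint (T.image mk2) (F.image fun x => s(x, x)) := by
    rw [Finset.disjoint_left]
    intro b hb hc
    obtain ⟨p, hp, rfl⟩ := Finset.mem_image.mp hb
    obtain ⟨x, hx, hxe⟩ := Finset.mem_image.mp hc
    have h1 := ((hTm p).1 hp).1
    have h2 : s(x, x) = s(p.1, p.2) := hxe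
    have h3 := Sym2.eq_iff.mp h2
    apply h1
    rcases h3 with ⟨h4, h5⟩ | ⟨h4, h5⟩
    · exact h4.symm.trans h5
    · exact h5.symm.trans h4
  have hfix : (Finset.univ.filter fun s : Sym2 α => g • s = s) =
      T.image mk2 ∪ F.image fun x => s(x, x) := by
    ext b
    induction b using Sym2.ind with
    | _ x y =>
      simp only [Finset.mem_filter, Finset.mem_univ, true_and, Finset.mem_union,
        Finset.mem_image, sym2_smul_mk]
      constructor
      · intro h
        by_cases hxy : x = y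
        · right
          subst hxy
          refine ⟨x, ?_, rfl⟩
          rw [hFm]
          have := Sym2.eq_iff.mp h
          tauto
        · left
          refine ⟨(x, y), ?_, rfl⟩
          rw [hTm]
          exact ⟨hxy, Sym2.eq_iff.mp h⟩
      · rintro (⟨⟨u, v⟩, hp, he⟩ | ⟨u, hu, he⟩)
        · have h1 := (hTm _).1 hp
          have h2 : s(u, v) = s(x, y) := he
          simp only at h1
          rcases Sym2.eq_iff.mp h2 with ⟨rfl, rfl⟩ | ⟨rfl, rfl⟩
          · rw [Sym2.eq_iff]
            exact h1.2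
          · rw [Sym2.eq_iff]
            tauto
        · have h2 : s(u, u) = s(x, y) := he
          have h3 : g • u = u := (hFm u).1 hu
          rcases Sym2.eq_iff.mp h2 with ⟨rfl, rfl⟩ | ⟨rfl, rfl⟩
          · rw [h3]
          · rw [h3]
  rw [hfix, Finset.card_union_of_disjoint hdisj2, mul_add, hT2, hDiag, hTc, ha, hd]
  have := Nat.le_mul_self F.card
  omega

theorem isCharacter_one' : IsCharacter G (fun _ : G => (1 : ℂ)) := by
  have := isCharacter_fix (G := G) (X := Unit)
  convert this using 1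
  funext g
  simp [Subsingleton.elim (g • ()) ()]

theorem isCharacter_fixN : IsCharacter G (fun g : G => (fixN α g : ℂ)) :=
  isCharacter_fix (G := G) (X := α)

theorem isCharacter_ord : IsCharacter G
    (fun g : G => (fixN α g : ℂ) * ((fixN α g : ℂ) - 1)) := by
  have := isCharacter_fix (G := G) (X := Fin 2 ↪ α)
  convert this using 1
  funext g
  have h := pat_fix (G := G) (α := α) 2 g
  have h2 : (Finset.univ.filter fun x : Fin 2 ↪ α => g • x = x).card = (fixN α g).descFactorial 2 := by
    rw [← h]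
    congr 1
  rw [h2, Nat.cast_descFactorial_two]

theorem isCharacter_sym : IsCharacter G
    (fun g : G => ((fixN α g : ℂ) * (fixN α g : ℂ) + (fixN α g : ℂ) + (swapN α g : ℂ)) / 2) := by
  have := isCharacter_fix (G := G) (X := Sym2 α)
  convert this using 1
  funext g
  have h := two_mul_fixSym (G := G) (α := α) g
  have h2 := congrArg (Nat.cast : ℕ → ℂ) h
  push_cast at h2
  rw [← h2]
  ring

/-- Generalized characters (integrality). -/
def IntGen (f : G → ℂ) : Prop :=
  IsClassFunction G f ∧ ∀ θ : IrrCharacter G, ∃ m : ℤ, classInner f (θ : G → ℂ) = m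

theorem intGen_char {f : G → ℂ} (h : IsCharacter G f) : IntGen f := by
  classical
  haveI : Fintype (IrrCharacter G) := Fintype.ofFinite _
  refine ⟨isClassFunction_of_isCharacter h, fun θ => ?_⟩
  obtain ⟨m, hm⟩ := classInner_isNat h θ
  exact ⟨m, by rw [hm]; simp⟩

theorem intGen_add {f h : G → ℂ} (h1 : IntGen f) (h2 : IntGen h) : IntGen (f + h) := by
  refine ⟨fun g x => ?_, fun θ => ?_⟩
  · simp [h1.1 g x, h2.1 g x]
  · obtain ⟨m, hm⟩ := h1.2 θ
    obtain ⟨m', hm'⟩ := h2.2 θ
    refine ⟨m + m', ?_⟩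
    rw [classInner_add_left, hm, hm']
    push_cast
    rfl

theorem intGen_sub {f h : G → ℂ} (h1 : IntGen f) (h2 : IntGen h) : IntGen (f - h) := by
  refine ⟨fun g x => ?_, fun θ => ?_⟩
  · simp [h1.1 g x, h2.1 g x]
  · obtain ⟨m, hm⟩ := h1.2 θ
    obtain ⟨m', hm'⟩ := h2.2 θ
    refine ⟨m - m', ?_⟩
    have h3 : f - h = f + (-1 : ℂ) • h := by
      funext x
      simp [sub_eq_add_neg]
    rw [h3, classInner_add_left, classInner_smul_left, hm, hm']
    push_cast
    ring

/-- The first character. -/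
noncomputable def chi1 (α : Type v) [MulAction G α] [Fintype α] [DecidableEq α] (g : G) : ℂ :=
  (fixN α g : ℂ) - 1

/-- The second character. -/
noncomputable def chi2 (α : Type v) [MulAction G α] [Fintype α] [DecidableEq α] (g : G) : ℂ :=
  ((fixN α g : ℂ) * ((fixN α g : ℂ) - 3) + (swapN α g : ℂ)) / 2

/-- The third character. -/
noncomputable def chi3 (α : Type v) [MulAction G α] [Fintype α] [DecidableEq α] (g : G) : ℂ :=
  (((fixN α g : ℂ) - 1) * ((fixN α g : ℂ) - 2) - (swapN α g : ℂ)) / 2

theorem intGen_chi1 : IntGen (chi1 (G := G) α) := by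
  have h := intGen_sub (intGen_char (isCharacter_fixN (G := G) (α := α)))
    (intGen_char (isCharacter_one' (G := G)))
  convert h using 1
  funext g
  simp [chi1]

theorem intGen_chi2 : IntGen (chi2 (G := G) α) := by
  have h := intGen_sub (intGen_sub (intGen_char (isCharacter_sym (G := G) (α := α)))
    (intGen_char (isCharacter_fixN (G := G) (α := α))))
    (intGen_char (isCharacter_fixN (G := G) (α := α)))
  convert h using 1
  funext g
  simp only [chi2, Pi.sub_apply]
  ring

theorem intGen_chi3 : IntGen (chi3 (G := G) α) := by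
  have h := intGen_add (intGen_sub (intGen_char (isCharacter_ord (G := G) (α := α)))
    (intGen_char (isCharacter_sym (G := G) (α := α))))
    (intGen_char (isCharacter_one' (G := G)))
  convert h using 1
  funext g
  simp only [chi3, Pi.sub_apply, Pi.add_apply]
  ring

theorem isIrr_of_norm {f : G → ℂ} (hf : IntGen f)
    (hn : (Nat.card G : ℂ)⁻¹ * ∑ g : G, f g * f g = 1) (hconj : ∀ g, conj (f g) = f g)
    (hpos : 0 < (f 1).re) : IsIrrCharacter G f := by
  classical
  haveI : Fintype (IrrCharacter G) := Fintype.ofFinite _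
  refine Cfsg.Agent.H01.isIrrCharacter_of_int_norm_one hf.1 hf.2 ?_ hpos
  rw [← hn]
  unfold classInner
  simp only [hconj]

theorem fixN_one : fixN α (1 : G) = Fintype.card α := by
  simp [fixN, Finset.card_univ]

theorem swapN_one : swapN α (1 : G) = 0 := by
  simp only [swapN, Finset.card_eq_zero, Finset.filter_eq_empty_iff]
  rintro ⟨x, y⟩ - ⟨h1, h2, -⟩
  simp only [one_smul] at h2
  exact h1 h2

section Irr

variable [IsMultiplyPretransitive G α 4] (hcard : 4 ≤ Fintype.card α)

include hcard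

theorem hc0 : (Nat.card G : ℂ) ≠ 0 := by
  simp [Nat.card_pos.ne']

theorem isIrr_chi1 : IsIrrCharacter G (chi1 (G := G) α) := by
  refine isIrr_of_norm intGen_chi1 ?_ ?_ ?_
  · have h : ∑ g : G, chi1 (G := G) α g * chi1 (G := G) α g =
        (∑ g : G, ((fixN α g : ℂ) * ((fixN α g : ℂ) - 1))) - (∑ g : G, (fixN α g : ℂ)) +
          ∑ _g : G, (1 : ℂ) := by
      rw [← Finset.sum_sub_distrib, ← Finset.sum_add_distrib]
      refine Finset.sum_congr rfl fun g _ => ?_
      simp only [chi1]
      ring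
    rw [h, mA2 (G := G) (α := α) hcard, mA1 (G := G) (α := α) hcard]
    simp only [Finset.sum_const, Finset.card_univ, nsmul_eq_mul, mul_one, sub_self, zero_add]
    rw [Nat.card_eq_fintype_card]
    exact inv_mul_cancel₀ (by simpa [Nat.card_eq_fintype_card] using hc0 (G := G) (α := α) hcard)
  · intro g
    simp [chi1]
  · simp only [chi1, fixN_one]
    have h : (4 : ℝ) ≤ (Fintype.card α : ℝ) := by exact_mod_cast hcard
    simp
    linarith

theorem isIrr_chi2 : IsIrrCharacter G (chi2 (G := G) α) := by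
  refine isIrr_of_norm intGen_chi2 ?_ ?_ ?_
  · have h : ∑ g : G, chi2 (G := G) α g * chi2 (G := G) α g =
        (1 / 4 : ℂ) * ((∑ g : G, ((fixN α g : ℂ) * ((fixN α g : ℂ) - 1) * ((fixN α g : ℂ) - 2) *
          ((fixN α g : ℂ) - 3))) - 2 * (∑ g : G, ((fixN α g : ℂ) * ((fixN α g : ℂ) - 1))) +
          4 * (∑ g : G, (fixN α g : ℂ)) +
          2 * (∑ g : G, ((fixN α g : ℂ) * ((fixN α g : ℂ) - 1) * (swapN α g : ℂ))) -
          4 * (∑ g : G, ((fixN α g : ℂ) * (swapN α g : ℂ))) +
          (∑ g : G, ((swapN α g : ℂ) * ((swapN α g : ℂ) - 2))) +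
          2 * (∑ g : G, (swapN α g : ℂ))) := by
      simp only [Finset.mul_sum, ← Finset.sum_sub_distrib, ← Finset.sum_add_distrib]
      refine Finset.sum_congr rfl fun g _ => ?_
      simp only [chi2]
      ring
    rw [h, mA4 (G := G) (α := α) hcard, mA2 (G := G) (α := α) hcard, mA1 (G := G) (α := α) hcard,
      mD2 (G := G) (α := α) hcard, mD1 (G := G) (α := α) hcard, mDD (G := G) (α := α) hcard,
      mD0 (G := G) (α := α) hcard]
    have hc := hc0 (G := G) (α := α) hcard
    field_simp
    ring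
  · intro g
    simp [chi2, map_ofNat]
  · simp only [chi2, fixN_one, swapN_one]
    have h : (4 : ℝ) ≤ (Fintype.card α : ℝ) := by exact_mod_cast hcard
    have h2 : (((Fintype.card α : ℂ) * ((Fintype.card α : ℂ) - 3) + ((0 : ℕ) : ℂ)) / 2) =
        (((Fintype.card α : ℝ) * ((Fintype.card α : ℝ) - 3) / 2 : ℝ) : ℂ) := by
      push_cast
      ring
    rw [h2, Complex.ofReal_re]
    nlinarith

theorem isIrr_chi3 : IsIrrCharacter G (chi3 (G := G) α) := by
  refine isIrr_of_norm intGen_chi3 ?_ ?_ ?_
  · have h : ∑ g : G, chi3 (G := G) α g * chi3 (G := G) α g =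
        (1 / 4 : ℂ) * ((∑ g : G, ((fixN α g : ℂ) * ((fixN α g : ℂ) - 1) * ((fixN α g : ℂ) - 2) *
          ((fixN α g : ℂ) - 3))) + 2 * (∑ g : G, ((fixN α g : ℂ) * ((fixN α g : ℂ) - 1))) -
          4 * (∑ g : G, (fixN α g : ℂ)) + 4 * (∑ _g : G, (1 : ℂ)) -
          2 * (∑ g : G, ((fixN α g : ℂ) * ((fixN α g : ℂ) - 1) * (swapN α g : ℂ))) +
          4 * (∑ g : G, ((fixN α g : ℂ) * (swapN α g : ℂ))) +
          (∑ g : G, ((swapN α g : ℂ) * ((swapN α g : ℂ) - 2))) -
          2 * (∑ g : G, (swapN α g : ℂ))) := by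
      simp only [Finset.mul_sum, ← Finset.sum_sub_distrib, ← Finset.sum_add_distrib]
      refine Finset.sum_congr rfl fun g _ => ?_
      simp only [chi3]
      ring
    rw [h, mA4 (G := G) (α := α) hcard, mA2 (G := G) (α := α) hcard, mA1 (G := G) (α := α) hcard,
      mD2 (G := G) (α := α) hcard, mD1 (G := G) (α := α) hcard, mDD (G := G) (α := α) hcard,
      mD0 (G := G) (α := α) hcard]
    have hc := hc0 (G := G) (α := α) hcard
    have h1 : ∑ _g : G, (1 : ℂ) = (Nat.card G : ℂ) := by
      simp [Nat.card_eq_fintype_card]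
    rw [h1]
    field_simp
    ring
  · intro g
    simp [chi3, map_ofNat]
  · simp only [chi3, fixN_one, swapN_one]
    have h : (4 : ℝ) ≤ (Fintype.card α : ℝ) := by exact_mod_cast hcard
    have h2 : ((((Fintype.card α : ℂ) - 1) * ((Fintype.card α : ℂ) - 2) - ((0 : ℕ) : ℂ)) / 2) =
        ((((Fintype.card α : ℝ) - 1) * ((Fintype.card α : ℝ) - 2) / 2 : ℝ) : ℂ) := by
      push_cast
      ring
    rw [h2, Complex.ofReal_re]
    nlinarith

end Irr

end Count

section Elements

variable {n : ℕ}

theorem fixN_perm (g : Equiv.Perm (Fin n)) : fixN (Fin n) g = n - g.cycleType.sum := by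
  classical
  rw [Equiv.Perm.sum_cycleType]
  have h : (Finset.univ.filter fun x : Fin n => g • x = x) = g.supportᶜ := by
    ext x
    simp [Equiv.Perm.mem_support, Equiv.Perm.smul_def]
  unfold fixN
  rw [h, Finset.card_compl, Fintype.card_fin]

theorem swapN_eq_zero (g : Equiv.Perm (Fin n)) (h : 2 ∉ g.cycleType) :
    swapN (Fin n) g = 0 := by
  classical
  unfold swapN
  rw [Finset.card_eq_zero, Finset.filter_eq_empty_iff]
  rintro ⟨x, y⟩ - ⟨h1, h2, h3⟩
  simp only [Equiv.Perm.smul_def] at h1 h2 h3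
  have hx : g x ≠ x := by
    rw [h2]
    exact fun h => h1 h.symm
  have hc := Equiv.Perm.isCycle_cycleOf g hx
  have hsc : g.SameCycle x y := ⟨1, by simp [h2]⟩
  have hsq : (g.cycleOf x ^ 2) x = x := by
    rw [pow_two, Equiv.Perm.mul_apply, Equiv.Perm.cycleOf_apply_self, h2, hsc.cycleOf_apply, h3]
  have hne : g.cycleOf x x ≠ x := by
    rw [Equiv.Perm.cycleOf_apply_self]
    exact hx
  have h1' : g.cycleOf x ^ 2 = 1 := (hc.pow_eq_one_iff).2 ⟨x, hne, hsq⟩
  have hord : orderOf (g.cycleOf x) = 2 :=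
    orderOf_eq_prime h1' (fun h5 => hne (by rw [h5]; rfl))
  have hcard : (g.cycleOf x).support.card = 2 := by
    rw [← hc.orderOf, hord]
  apply h
  rw [Equiv.Perm.cycleType_def, Multiset.mem_map]
  refine ⟨g.cycleOf x, ?_, hcard⟩
  exact Equiv.Perm.cycleOf_mem_cycleFactorsFinset_iff.2 (Equiv.Perm.mem_support.2 hx)

theorem exists_alt (m : Multiset ℕ) (h2 : ∀ a ∈ m, 2 ≤ a) (hs : m.sum ≤ n)
    (hp : Even (m.sum + Multiset.card m)) :
    ∃ g : Equiv.Perm (Fin n), g ∈ alternatingGroup (Fin n) ∧ g.cycleType = m := by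
  obtain ⟨g, hg⟩ := (Equiv.Perm.exists_with_cycleType_iff (α := Fin n)).2
    ⟨by simpa using hs, h2⟩
  refine ⟨g, ?_, hg⟩
  rw [Equiv.Perm.mem_alternatingGroup, Equiv.Perm.sign_of_cycleType, hg, hp.neg_one_pow]

theorem even_blocks (t : ℕ) (ht : 2 ≤ t) : ∃ m : Multiset ℕ, (∀ a ∈ m, a = 4 ∨ a = 8) ∧
    m.sum = 4 * t ∧ Even (m.sum + Multiset.card m) := by
  rcases Nat.even_or_odd t with h | h
  · refine ⟨Multiset.replicate t 4, ?_, ?_, ?_⟩
    · intro a ha
      exact Or.inl (Multiset.eq_of_mem_replicate ha)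
    · simp [Multiset.sum_replicate, mul_comm]
    · simp only [Multiset.sum_replicate, Multiset.card_replicate, smul_eq_mul]
      obtain ⟨r, hr⟩ := h
      exact ⟨2 * t + r, by omega⟩
  · obtain ⟨r, hr⟩ := h
    have ht3 : 1 ≤ r := by omega
    refine ⟨8 ::ₘ Multiset.replicate (t - 2) 4, ?_, ?_, ?_⟩
    · intro a ha
      rcases Multiset.mem_cons.1 ha with h | h
      · exact Or.inr h
      · exact Or.inl (Multiset.eq_of_mem_replicate h)
    · simp only [Multiset.sum_cons, Multiset.sum_replicate, smul_eq_mul]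
      omega
    · simp only [Multiset.sum_cons, Multiset.sum_replicate, Multiset.card_cons,
        Multiset.card_replicate, smul_eq_mul]
      subst hr
      exact ⟨5 * r + 2, by omega⟩

theorem two_elt_of_blocks {g : Equiv.Perm (Fin n)} (h : ∀ a ∈ g.cycleType, a ∣ 8) :
    ∃ j : ℕ, orderOf g = 2 ^ j := by
  have h1 : orderOf g ∣ 8 := by
    rw [← Equiv.Perm.lcm_cycleType]
    exact Multiset.lcm_dvd.2 h
  have h2 : (8 : ℕ) = 2 ^ 3 := by norm_num
  rw [h2] at h1
  obtain ⟨j, -, hj⟩ := (Nat.dvd_prime_pow Nat.prime_two).1 h1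
  exact ⟨j, hj⟩

end Elements

section Final

variable {n : ℕ}

theorem preAlt (hn : 6 ≤ n) : IsMultiplyPretransitive (alternatingGroup (Fin n)) (Fin n) 4 := by
  haveI := alternatingGroup.isMultiplyPretransitive (α := Fin n)
  refine isMultiplyPretransitive_of_le (n := Nat.card (Fin n) - 2) ?_ ?_
  · simp only [Nat.card_eq_fintype_card, Fintype.card_fin]
    omega
  · simp only [Nat.card_eq_fintype_card, Fintype.card_fin]
    omega

theorem card4 (hn : 7 ≤ n) : 4 ≤ Fintype.card (Fin n) := by
  simp only [Fintype.card_fin]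
  omega

theorem pack1 (hn : 7 ≤ n) (P : alternatingGroup (Fin n) → Prop) (x : alternatingGroup (Fin n))
    (hP : P x) (h0 : fixN (Fin n) (x : Equiv.Perm (Fin n)) = 1) :
    ∃ χ : IrrCharacter (alternatingGroup (Fin n)),
      (∃ x : alternatingGroup (Fin n), P x ∧ (χ : alternatingGroup (Fin n) → ℂ) x = 0) ∧
      ∃ ψ : IrrCharacter (Equiv.Perm (Fin n)), ∀ x : alternatingGroup (Fin n),
        (ψ : Equiv.Perm (Fin n) → ℂ) x = (χ : alternatingGroup (Fin n) → ℂ) x := by
  haveI := preAlt (n := n) (by omega)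
  haveI := Equiv.Perm.isMultiplyPretransitive (Fin n) 4
  haveI : Fintype (alternatingGroup (Fin n)) := Fintype.ofFinite _
  refine ⟨⟨_, isIrr_chi1 (G := alternatingGroup (Fin n)) (α := Fin n) (card4 hn)⟩,
    ⟨x, hP, ?_⟩, ⟨_, isIrr_chi1 (G := Equiv.Perm (Fin n)) (α := Fin n) (card4 hn)⟩,
    fun y => rfl⟩
  show (fixN (Fin n) (x : Equiv.Perm (Fin n)) : ℂ) - 1 = 0
  rw [h0]
  simp

theorem pack2 (hn : 7 ≤ n) (P : alternatingGroup (Fin n) → Prop) (x : alternatingGroup (Fin n))
    (hP : P x) (h0 : fixN (Fin n) (x : Equiv.Perm (Fin n)) = 0)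
    (h1 : swapN (Fin n) (x : Equiv.Perm (Fin n)) = 0) :
    ∃ χ : IrrCharacter (alternatingGroup (Fin n)),
      (∃ x : alternatingGroup (Fin n), P x ∧ (χ : alternatingGroup (Fin n) → ℂ) x = 0) ∧
      ∃ ψ : IrrCharacter (Equiv.Perm (Fin n)), ∀ x : alternatingGroup (Fin n),
        (ψ : Equiv.Perm (Fin n) → ℂ) x = (χ : alternatingGroup (Fin n) → ℂ) x := by
  haveI := preAlt (n := n) (by omega)
  haveI := Equiv.Perm.isMultiplyPretransitive (Fin n) 4
  haveI : Fintype (alternatingGroup (Fin n)) := Fintype.ofFinite _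
  refine ⟨⟨_, isIrr_chi2 (G := alternatingGroup (Fin n)) (α := Fin n) (card4 hn)⟩,
    ⟨x, hP, ?_⟩, ⟨_, isIrr_chi2 (G := Equiv.Perm (Fin n)) (α := Fin n) (card4 hn)⟩,
    fun y => rfl⟩
  show ((fixN (Fin n) (x : Equiv.Perm (Fin n)) : ℂ) * ((fixN (Fin n) (x : Equiv.Perm (Fin n)) : ℂ) - 3)
    + (swapN (Fin n) (x : Equiv.Perm (Fin n)) : ℂ)) / 2 = 0
  rw [h0, h1]
  simp

theorem pack3 (hn : 7 ≤ n) (P : alternatingGroup (Fin n) → Prop) (x : alternatingGroup (Fin n))
    (hP : P x) (h0 : fixN (Fin n) (x : Equiv.Perm (Fin n)) = 2)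
    (h1 : swapN (Fin n) (x : Equiv.Perm (Fin n)) = 0) :
    ∃ χ : IrrCharacter (alternatingGroup (Fin n)),
      (∃ x : alternatingGroup (Fin n), P x ∧ (χ : alternatingGroup (Fin n) → ℂ) x = 0) ∧
      ∃ ψ : IrrCharacter (Equiv.Perm (Fin n)), ∀ x : alternatingGroup (Fin n),
        (ψ : Equiv.Perm (Fin n) → ℂ) x = (χ : alternatingGroup (Fin n) → ℂ) x := by
  haveI := preAlt (n := n) (by omega)
  haveI := Equiv.Perm.isMultiplyPretransitive (Fin n) 4
  haveI : Fintype (alternatingGroup (Fin n)) := Fintype.ofFinite _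
  refine ⟨⟨_, isIrr_chi3 (G := alternatingGroup (Fin n)) (α := Fin n) (card4 hn)⟩,
    ⟨x, hP, ?_⟩, ⟨_, isIrr_chi3 (G := Equiv.Perm (Fin n)) (α := Fin n) (card4 hn)⟩,
    fun y => rfl⟩
  show (((fixN (Fin n) (x : Equiv.Perm (Fin n)) : ℂ) - 1) *
    ((fixN (Fin n) (x : Equiv.Perm (Fin n)) : ℂ) - 2)
    - (swapN (Fin n) (x : Equiv.Perm (Fin n)) : ℂ)) / 2 = 0
  rw [h0, h1]
  simp

theorem part_two (hn : 7 ≤ n) :
    ∃ χ : IrrCharacter (alternatingGroup (Fin n)),
      (∃ x : alternatingGroup (Fin n), (∃ j : ℕ, orderOf x = 2 ^ j) ∧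
        (χ : alternatingGroup (Fin n) → ℂ) x = 0) ∧
      ∃ ψ : IrrCharacter (Equiv.Perm (Fin n)), ∀ x : alternatingGroup (Fin n),
        (ψ : Equiv.Perm (Fin n) → ℂ) x = (χ : alternatingGroup (Fin n) → ℂ) x := by
  have hord : ∀ (g : Equiv.Perm (Fin n)) (hg : g ∈ alternatingGroup (Fin n)),
      (∀ a ∈ g.cycleType, a ∣ 8) →
      ∃ j : ℕ, orderOf (⟨g, hg⟩ : alternatingGroup (Fin n)) = 2 ^ j := by
    intro g hg h
    obtain ⟨j, hj⟩ := two_elt_of_blocks h
    refine ⟨j, ?_⟩
    rw [Subgroup.orderOf_mk]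
    exact hj
  have hmod : n % 4 = 0 ∨ n % 4 = 1 ∨ n % 4 = 2 ∨ n % 4 = 3 := by omega
  rcases hmod with h | h | h | h
  · -- n ≡ 0 mod 4
    obtain ⟨m, hm1, hm2, hm3⟩ := even_blocks (n / 4) (by omega)
    obtain ⟨g, hg, hc⟩ := exists_alt (n := n) m
      (fun a ha => by rcases hm1 a ha with rfl | rfl <;> norm_num) (by omega) hm3
    refine pack2 hn _ ⟨g, hg⟩ (hord g hg (fun a ha => ?_)) ?_ ?_
    · rw [hc] at ha
      rcases hm1 a ha with rfl | rfl <;> norm_num
    · show fixN (Fin n) g = 0
      rw [fixN_perm, hc, hm2]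
      omega
    · show swapN (Fin n) g = 0
      apply swapN_eq_zero
      rw [hc]
      intro h2
      rcases hm1 2 h2 with h3 | h3 <;> omega
  · -- n ≡ 1 mod 4
    obtain ⟨g, hg, hc⟩ := exists_alt (n := n) (Multiset.replicate ((n - 1) / 2) 2)
      (fun a ha => by rw [Multiset.eq_of_mem_replicate ha])
      (by simp only [Multiset.sum_replicate, smul_eq_mul]; omega)
      (by
        simp only [Multiset.sum_replicate, Multiset.card_replicate, smul_eq_mul]
        exact ⟨(n - 1) / 2 + (n - 1) / 4, by omega⟩)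
    refine pack1 hn _ ⟨g, hg⟩ (hord g hg (fun a ha => ?_)) ?_
    · rw [hc] at ha
      rw [Multiset.eq_of_mem_replicate ha]
      norm_num
    · show fixN (Fin n) g = 1
      rw [fixN_perm, hc]
      simp only [Multiset.sum_replicate, smul_eq_mul]
      omega
  · -- n ≡ 2 mod 4
    obtain ⟨m, hm1, hm2, hm3⟩ := even_blocks ((n - 2) / 4) (by omega)
    obtain ⟨g, hg, hc⟩ := exists_alt (n := n) m
      (fun a ha => by rcases hm1 a ha with rfl | rfl <;> norm_num) (by omega) hm3
    refine pack3 hn _ ⟨g, hg⟩ (hord g hg (fun a ha => ?_)) ?_ ?_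
    · rw [hc] at ha
      rcases hm1 a ha with rfl | rfl <;> norm_num
    · show fixN (Fin n) g = 2
      rw [fixN_perm, hc, hm2]
      omega
    · show swapN (Fin n) g = 0
      apply swapN_eq_zero
      rw [hc]
      intro h2
      rcases hm1 2 h2 with h3 | h3 <;> omega
  · -- n ≡ 3 mod 4
    obtain ⟨g, hg, hc⟩ := exists_alt (n := n) (4 ::ₘ Multiset.replicate ((n - 5) / 2) 2)
      (fun a ha => by
        rcases Multiset.mem_cons.1 ha with rfl | h'
        · norm_num
        · rw [Multiset.eq_of_mem_replicate h'])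
      (by simp only [Multiset.sum_cons, Multiset.sum_replicate, smul_eq_mul]; omega)
      (by
        simp only [Multiset.sum_cons, Multiset.sum_replicate, Multiset.card_cons,
          Multiset.card_replicate, smul_eq_mul]
        exact ⟨(n - 3) / 4 * 3 + 1, by omega⟩)
    refine pack1 hn _ ⟨g, hg⟩ (hord g hg (fun a ha => ?_)) ?_
    · rw [hc] at ha
      rcases Multiset.mem_cons.1 ha with rfl | h'
      · norm_num
      · rw [Multiset.eq_of_mem_replicate h']
        norm_num
    · show fixN (Fin n) g = 1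
      rw [fixN_perm, hc]
      simp only [Multiset.sum_cons, Multiset.sum_replicate, smul_eq_mul]
      omega

theorem part_three (hn : 7 ≤ n) :
    ∃ χ : IrrCharacter (alternatingGroup (Fin n)),
      (∃ x : alternatingGroup (Fin n), orderOf x = 3 ∧
        (χ : alternatingGroup (Fin n) → ℂ) x = 0) ∧
      ∃ ψ : IrrCharacter (Equiv.Perm (Fin n)), ∀ x : alternatingGroup (Fin n),
        (ψ : Equiv.Perm (Fin n) → ℂ) x = (χ : alternatingGroup (Fin n) → ℂ) x := by
  haveI : Fact (Nat.Prime 3) := ⟨Nat.prime_three⟩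
  have key : ∀ k : ℕ, 1 ≤ k → 3 * k ≤ n →
      ∃ g : Equiv.Perm (Fin n), ∃ hg : g ∈ alternatingGroup (Fin n),
        orderOf (⟨g, hg⟩ : alternatingGroup (Fin n)) = 3 ∧ fixN (Fin n) g = n - 3 * k ∧
          swapN (Fin n) g = 0 := by
    intro k hk hs
    obtain ⟨g, hg, hc⟩ := exists_alt (n := n) (Multiset.replicate k 3)
      (fun a ha => by rw [Multiset.eq_of_mem_replicate ha]; norm_num)
      (by simp only [Multiset.sum_replicate, smul_eq_mul]; omega)
      (by
        simp only [Multiset.sum_replicate, Multiset.card_replicate, smul_eq_mul]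
        exact ⟨2 * k, by omega⟩)
    refine ⟨g, hg, ?_, ?_, ?_⟩
    · rw [Subgroup.orderOf_mk]
      have h1 : orderOf g ∣ 3 := by
        rw [← Equiv.Perm.lcm_cycleType, hc]
        refine Multiset.lcm_dvd.2 fun a ha => ?_
        rw [Multiset.eq_of_mem_replicate ha]
      have h2 : g ^ 3 = 1 := orderOf_dvd_iff_pow_eq_one.1 h1
      refine orderOf_eq_prime h2 ?_
      intro h3
      have h4 : g.cycleType = 0 := Equiv.Perm.cycleType_eq_zero.2 h3
      rw [hc] at h4
      have h5 := congrArg Multiset.card h4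
      simp only [Multiset.card_replicate, Multiset.card_zero] at h5
      omega
    · rw [fixN_perm, hc]
      simp only [Multiset.sum_replicate, smul_eq_mul]
      congr 1
      ring
    · apply swapN_eq_zero
      rw [hc]
      intro h2
      have := Multiset.eq_of_mem_replicate h2
      omega
  have hmod : n % 3 = 0 ∨ n % 3 = 1 ∨ n % 3 = 2 := by omega
  rcases hmod with h | h | h
  · obtain ⟨g, hg, h1, h2, h3⟩ := key (n / 3) (by omega) (by omega)
    exact pack2 hn _ ⟨g, hg⟩ h1 (by show fixN (Fin n) g = 0; rw [h2]; omega) h3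
  · obtain ⟨g, hg, h1, h2, h3⟩ := key ((n - 1) / 3) (by omega) (by omega)
    exact pack1 hn _ ⟨g, hg⟩ h1 (by show fixN (Fin n) g = 1; rw [h2]; omega)
  · obtain ⟨g, hg, h1, h2, h3⟩ := key ((n - 2) / 3) (by omega) (by omega)
    exact pack3 hn _ ⟨g, hg⟩ h1 (by show fixN (Fin n) g = 2; rw [h2]; omega) h3

end Final

end Cfsg.Agent.H12.SnChars
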