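import Mathlib
import Cfsg.Agent.Lib.H12.LinDL

/-! Derived length of Sylow subgroups of symmetric groups. -/

namespace Cfsg.Agent.H12.SylowDL

open scoped commutatorElement Pointwise
open Cfsg.Agent.H12.LinDL Equiv

section upper

universe u

variable {p : ℕ} [hp : Fact p.Prime]

/-- A proper subgroup of a finite `p`-group lies in a proper subgroup containing the commutators. -/
lemma exists_max_above {Q : Type*} [Group Q] [Finite Q] (hQ : IsPGroup p Q) (S : Subgroup Q)
    (hS : S ≠ ⊤) : ∃ M : Subgroup Q, S ≤ M ∧ M ≠ ⊤ ∧ ⁅(⊤ : Subgroup Q), (⊤ : Subgroup Q)⁆ ≤ M := by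
  classical
  obtain h | ⟨M, hM, hSM⟩ := eq_top_or_exists_le_coatom S
  · exact absurd h hS
  refine ⟨M, hSM, hM.1, ?_⟩
  haveI hnil : Group.IsNilpotent Q := hQ.isNilpotent
  haveI hN : M.Normal := Subgroup.NormalizerCondition.normal_of_coatom M normalizerCondition_of_isNilpotent hM
  have hQ' : IsPGroup p (Q ⧸ M) := hQ.to_quotient M
  haveI : Nontrivial (Q ⧸ M) := by
    rw [QuotientGroup.nontrivial_iff]
    exact hM.1
  haveI := hQ'.center_nontrivial
  obtain ⟨⟨b, hb⟩, hb1⟩ := exists_ne (1 : Subgroup.center (Q ⧸ M))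
  let Z : Subgroup Q := (Subgroup.center (Q ⧸ M)).comap (QuotientGroup.mk' M)
  have hMZ : M ≤ Z := by
    intro x hx
    show (QuotientGroup.mk' M x) ∈ Subgroup.center (Q ⧸ M)
    have : QuotientGroup.mk' M x = 1 := (QuotientGroup.eq_one_iff x).mpr hx
    rw [this]
    exact Subgroup.one_mem _
  have hZ : Z = ⊤ := by
    by_contra hne
    have hlt : M < Z ∨ M = Z := by
      rcases hMZ.lt_or_eq with h | h
      · exact Or.inl h
      · exact Or.inr h
    rcases hlt with h | h
    · exact hne (hM.2 Z h)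
    · obtain ⟨a, rfl⟩ := QuotientGroup.mk_surjective b
      have h1 : a ∈ Z := hb
      rw [← h] at h1
      apply hb1
      ext
      exact (QuotientGroup.eq_one_iff a).mpr h1
  rw [Subgroup.commutator_le]
  intro g _ h _
  rw [← QuotientGroup.eq_one_iff]
  have hg : (g : Q ⧸ M) ∈ Subgroup.center (Q ⧸ M) := by
    have : g ∈ Z := by rw [hZ]; trivial
    exact this
  have : ((⁅g, h⁆ : Q) : Q ⧸ M) = ⁅(g : Q ⧸ M), (h : Q ⧸ M)⁆ := rfl
  rw [this, commutatorElement_eq_one_iff_mul_comm]
  exact (Subgroup.mem_center_iff.mp hg _).symm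

/-- In a finite `p`-group, the `k`-th derived subgroup lies in any subgroup of index at most `p^k`.-/
theorem derivedSeries_le_of_index_le :
    ∀ k : ℕ, ∀ (Q : Type u) [Group Q] [Finite Q], IsPGroup p Q → ∀ S : Subgroup Q,
      S.index ≤ p ^ k → derivedSeries Q k ≤ S := by
  intro k
  induction k with
  | zero =>
    intro Q _ _ hQ S hS
    have hidx : S.index ≠ 0 := Subgroup.index_ne_zero_of_finite
    have : S.index = 1 := by simp at hS; omega
    rw [Subgroup.index_eq_one] at this
    rw [this]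
    exact le_top
  | succ k ih =>
    intro Q _ _ hQ S hS
    by_cases hST : S = ⊤
    · rw [hST]; exact le_top
    obtain ⟨M, hSM, hMT, hcomm⟩ := exists_max_above hQ S hST
    have hp2 := hp.out.two_le
    have hMidx : p ≤ M.index := by
      have h1 : M.index ≠ 1 := by rwa [Ne, Subgroup.index_eq_one]
      have h0 : M.index ≠ 0 := Subgroup.index_ne_zero_of_finite
      obtain ⟨m, hm⟩ := hQ.index M
      rw [hm] at h1 h0 ⊢
      rcases m with _ | m
      · simp at h1
      · rw [pow_succ]
        exact Nat.le_mul_of_pos_left _ (pow_pos hp.out.pos m)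
    have hrel : (S.subgroupOf M).index ≤ p ^ k := by
      have h1 := Subgroup.relIndex_mul_index hSM
      rw [Subgroup.relIndex] at h1
      have h2 : (S.subgroupOf M).index * p ≤ p ^ (k + 1) := by
        calc (S.subgroupOf M).index * p ≤ (S.subgroupOf M).index * M.index :=
              Nat.mul_le_mul_left _ hMidx
          _ = S.index := h1
          _ ≤ p ^ (k + 1) := hS
      rw [pow_succ] at h2
      exact Nat.le_of_mul_le_mul_right h2 hp.out.pos
    have h3 := ih M (hQ.to_subgroup M) (S.subgroupOf M) hrel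
    have h4 : dser M k ≤ S := by
      rw [← derivedSeries_map_subtype, Subgroup.map_le_iff_le_comap]
      exact h3
    rw [derivedSeries_eq_dser_top, dser_succ']
    exact (dser_mono hcomm k).trans h4

end upper

section lower

variable {p : ℕ} [hp : Fact p.Prime] {Ω : Type}

/-- Blockwise permutation. -/
def blockHom (ι : Type) (Ω : Type) : (ι → Perm Ω) →* Perm (ι × Ω) where
  toFun f :=
    { toFun := fun x => (x.1, f x.1 x.2)
      invFun := fun x => (x.1, (f x.1)⁻¹ x.2)
      left_inv := fun x => by simp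
      right_inv := fun x => by simp }
  map_one' := by ext x <;> simp
  map_mul' f g := by ext x <;> simp

lemma blockHom_apply (ι Ω : Type) (f : ι → Perm Ω) (i : ι) (w : Ω) :
    blockHom ι Ω f (i, w) = (i, f i w) := rfl

/-- The block shift. -/
def shiftP (p : ℕ) (Ω : Type) : Perm (ZMod p × Ω) :=
  (Equiv.addRight (1 : ZMod p)).prodCongr (Equiv.refl Ω)

lemma shiftP_apply (i : ZMod p) (w : Ω) : shiftP p Ω (i, w) = (i + 1, w) := rfl

lemma shiftP_inv_apply (i : ZMod p) (w : Ω) : (shiftP p Ω)⁻¹ (i, w) = (i - 1, w) := by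
  rw [Perm.inv_eq_iff_eq]
  simp [shiftP_apply]

lemma shiftP_zpow_p : (shiftP p Ω) ^ p = 1 := by
  have key : ∀ (m : ℕ) (i : ZMod p) (w : Ω), ((shiftP p Ω) ^ m) (i, w) = (i + m, w) := by
    intro m i w
    induction m with
    | zero => simp
    | succ m ih =>
      rw [pow_succ', Perm.mul_apply, ih, shiftP_apply]
      push_cast
      congr 1
      ring
  ext1 ⟨i, w⟩
  rw [key]
  simp

/-- One wreathing step. -/
theorem wreath_step (A : Subgroup (Perm Ω)) [Finite Ω] (hA : IsPGroup p A) (k : ℕ)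
    (hk : dser A k ≠ ⊥) :
    ∃ A' : Subgroup (Perm (ZMod p × Ω)), IsPGroup p A' ∧ dser A' (k + 1) ≠ ⊥ := by
  classical
  haveI : Finite A := inferInstance
  -- the block subgroup
  let γ : (ZMod p → A) →* Perm (ZMod p × Ω) :=
    (blockHom (ZMod p) Ω).comp
      (MonoidHom.piMap (fun _ => A.subtype))
  let B := γ.range
  haveI : NeZero p := ⟨hp.out.ne_zero⟩
  have hB : IsPGroup p B := by
    have h1 : IsPGroup p (ZMod p → A) := by
      obtain ⟨m, hm⟩ := IsPGroup.iff_card.mp hA
      apply IsPGroup.of_card (n := m * p)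
      rw [Nat.card_fun, hm, Nat.card_zmod, pow_mul]
    exact IsPGroup.of_surjective h1 γ.rangeRestrict γ.rangeRestrict_surjective
  let τ := shiftP p Ω
  have hτ : IsPGroup p (Subgroup.zpowers τ) := by
    rintro ⟨_, z, rfl⟩
    refine ⟨1, ?_⟩
    apply Subtype.ext
    show ((τ ^ z) ^ (p ^ 1) : Perm _) = 1
    rw [pow_one, ← zpow_natCast, ← zpow_mul, mul_comm, zpow_mul, zpow_natCast, shiftP_zpow_p,
      one_zpow]
  have hconj : ∀ f : ZMod p → A, τ * γ f * τ⁻¹ = γ (fun i => f (i - 1)) := by
    intro f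
    ext1 ⟨i, w⟩
    simp only [Perm.mul_apply]
    rw [shiftP_inv_apply]
    show τ ((blockHom (ZMod p) Ω) (fun i => (f i : Perm Ω)) (i - 1, w)) =
      (blockHom (ZMod p) Ω) (fun i => ((f (i - 1) : A) : Perm Ω)) (i, w)
    rw [blockHom_apply, blockHom_apply, shiftP_apply, sub_add_cancel]
  have hconj' : ∀ f : ZMod p → A, τ⁻¹ * γ f * τ = γ (fun i => f (i + 1)) := by
    intro f
    have := hconj (fun i => f (i + 1))
    have h2 : (fun i : ZMod p => f (i - 1 + 1)) = f := by
      funext i
      rw [sub_add_cancel]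
    rw [h2] at this
    rw [← this]
    group
  have hnorm : Subgroup.zpowers τ ≤ Subgroup.normalizer (B : Set (Perm (ZMod p × Ω))) := by
    rw [Subgroup.zpowers_le, Subgroup.mem_normalizer_iff]
    intro h
    constructor
    · rintro ⟨f, rfl⟩
      exact ⟨_, (hconj f).symm⟩
    · rintro ⟨f, hf⟩
      refine ⟨fun i => f (i + 1), ?_⟩
      rw [← hconj', hf]
      group
  have hA' : IsPGroup p (B ⊔ Subgroup.zpowers τ : Subgroup _) :=
    hB.to_sup_of_normal_left' hτ hnorm
  refine ⟨B ⊔ Subgroup.zpowers τ, hA', ?_⟩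
  set A' := B ⊔ Subgroup.zpowers τ with hA'def
  -- the lifting property
  let L : Perm (ZMod p × Ω) → Perm Ω → Prop :=
    fun c a => ∀ w, c (0, w) = (0, a w)
  have hL1 : L 1 1 := fun w => rfl
  have hLmul : ∀ c c' a a', L c a → L c' a' → L (c * c') (a * a') := by
    intro c c' a a' h h' w
    rw [Perm.mul_apply, h', h, Perm.mul_apply]
  have hLinv : ∀ c a, L c a → L c⁻¹ a⁻¹ := by
    intro c a h w
    rw [Perm.inv_eq_iff_eq, h]
    simp
  have hLcomm : ∀ c c' a a', L c a → L c' a' → L ⁅c, c'⁆ ⁅a, a'⁆ := by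
    intro c c' a a' h h'
    simp only [commutatorElement_def]
    exact hLmul _ _ _ _ (hLmul _ _ _ _ (hLmul _ _ _ _ h h') (hLinv _ _ h)) (hLinv _ _ h')
  have hone : (1 : ZMod p) ≠ 0 := by
    haveI : Fact (1 < p) := ⟨hp.out.one_lt⟩
    exact one_ne_zero
  have hlift : ∀ (j : ℕ), ∀ a ∈ dser A j, ∃ c ∈ dser A' (j + 1), L c a := by
    intro j
    induction j with
    | zero =>
      intro a ha
      let f : ZMod p → A := Pi.mulSingle 0 ⟨a, ha⟩
      refine ⟨⁅γ f, τ⁆, ?_, ?_⟩
      · rw [dser_succ]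
        apply Subgroup.commutator_mem_commutator
        · exact (le_sup_left : B ≤ A') ⟨f, rfl⟩
        · exact (le_sup_right : Subgroup.zpowers τ ≤ A') (Subgroup.mem_zpowers τ)
      · intro w
        simp only [commutatorElement_def, Perm.mul_apply]
        rw [show τ⁻¹ (0, w) = (-1, w) by
          show (shiftP p Ω)⁻¹ (0, w) = _
          rw [shiftP_inv_apply, zero_sub]]
        have hne : (-1 : ZMod p) ≠ 0 := neg_ne_zero.mpr hone
        have h1 : (γ f)⁻¹ (-1, w) = (-1, w) := by
          rw [Perm.inv_eq_iff_eq]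
          show (-1, w) = (blockHom (ZMod p) Ω) (fun i => (f i : Perm Ω)) (-1, w)
          rw [blockHom_apply]
          simp [f, Pi.mulSingle_apply, hne]
        rw [h1]
        rw [show τ (-1, w) = (-1 + 1, w) from rfl, neg_add_cancel]
        show (blockHom (ZMod p) Ω) (fun i => (f i : Perm Ω)) (0, w) = _
        rw [blockHom_apply]
        simp [f]
    | succ j ih =>
      intro a ha
      rw [dser_succ] at ha
      rw [Subgroup.commutator_def] at ha
      induction ha using Subgroup.closure_induction with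
      | mem x hx =>
        obtain ⟨a₁, ha₁, a₂, ha₂, rfl⟩ := hx
        obtain ⟨c₁, hc₁, hL₁⟩ := ih a₁ ha₁
        obtain ⟨c₂, hc₂, hL₂⟩ := ih a₂ ha₂
        refine ⟨⁅c₁, c₂⁆, ?_, hLcomm _ _ _ _ hL₁ hL₂⟩
        rw [dser_succ]
        exact Subgroup.commutator_mem_commutator hc₁ hc₂
      | one => exact ⟨1, Subgroup.one_mem _, hL1⟩
      | mul x y _ _ hx hy =>
        obtain ⟨c₁, hc₁, hL₁⟩ := hx
        obtain ⟨c₂, hc₂, hL₂⟩ := hy
        exact ⟨c₁ * c₂, Subgroup.mul_mem _ hc₁ hc₂, hLmul _ _ _ _ hL₁ hL₂⟩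
      | inv x _ hx =>
        obtain ⟨c₁, hc₁, hL₁⟩ := hx
        exact ⟨c₁⁻¹, Subgroup.inv_mem _ hc₁, hLinv _ _ hL₁⟩
  obtain ⟨a, ha, ha1⟩ := (Subgroup.bot_or_exists_ne_one _).resolve_left hk
  obtain ⟨c, hc, hLc⟩ := hlift k a ha
  intro hbot
  rw [hbot, Subgroup.mem_bot] at hc
  apply ha1
  ext1 w
  have := hLc w
  rw [hc] at this
  simpa using (congrArg Prod.snd this).symm

/-- Existence of `p`-subgroups of `Sym(p^(k+1))` of derived length `k + 1`. -/
theorem exists_wreath (k : ℕ) :
    ∃ (Ω : Type) (_ : Finite Ω) (A : Subgroup (Perm Ω)), Nat.card Ω = p ^ (k + 1) ∧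
      IsPGroup p A ∧ dser A k ≠ ⊥ := by
  induction k with
  | zero =>
    haveI : NeZero p := ⟨hp.out.ne_zero⟩
    refine ⟨ZMod p, inferInstance, Subgroup.zpowers (Equiv.addRight (1 : ZMod p)), ?_, ?_, ?_⟩
    · simp
    · rintro ⟨_, z, rfl⟩
      refine ⟨1, ?_⟩
      apply Subtype.ext
      show (((Equiv.addRight (1 : ZMod p)) ^ z) ^ (p ^ 1) : Perm _) = 1
      have h1 : ((Equiv.addRight (1 : ZMod p)) ^ p : Perm (ZMod p)) = 1 := by
        have key : ∀ (m : ℕ) (i : ZMod p), ((Equiv.addRight (1 : ZMod p)) ^ m : Perm (ZMod p)) i = i + m := by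
          intro m i
          induction m with
          | zero => simp
          | succ m ih =>
            rw [pow_succ', Perm.mul_apply, ih]
            simp only [Equiv.coe_addRight]
            push_cast
            ring
        ext1 i
        rw [key]
        simp
      rw [pow_one, ← zpow_natCast, ← zpow_mul, mul_comm, zpow_mul, zpow_natCast, h1, one_zpow]
    · rw [dser_zero]
      intro h
      have h2 : Equiv.addRight (1 : ZMod p) = 1 := by
        have := Subgroup.mem_zpowers (Equiv.addRight (1 : ZMod p))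
        rw [h, Subgroup.mem_bot] at this
        exact this
      have h3 := congrArg (fun f : Perm (ZMod p) => f 0) h2
      haveI : Fact (1 < p) := ⟨hp.out.one_lt⟩
      simp at h3
  | succ k ih =>
    obtain ⟨Ω, hΩ, A, hc, hA, hk⟩ := ih
    obtain ⟨A', hA', hk'⟩ := wreath_step A hA k hk
    haveI : NeZero p := ⟨hp.out.ne_zero⟩
    refine ⟨ZMod p × Ω, inferInstance, A', ?_, hA', hk'⟩
    rw [Nat.card_prod, Nat.card_zmod, hc]
    ring

end lower

/-- **Derived length of Sylow subgroups of symmetric groups.** -/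
theorem sylow_perm_derived (p : ℕ) [hp : Fact p.Prime] (n : ℕ) (hn : 1 ≤ n)
    (P : Sylow p (Perm (Fin n))) :
    derivedSeries ↥(P : Subgroup (Perm (Fin n))) (Nat.log p n) = ⊥ ∧
      (1 ≤ Nat.log p n → derivedSeries ↥(P : Subgroup (Perm (Fin n))) (Nat.log p n - 1) ≠ ⊥) := by
  classical
  constructor
  · rw [Subgroup.eq_bot_iff_forall]
    intro x hx
    apply Subtype.ext
    show (x : Perm (Fin n)) = 1
    ext1 i
    -- stabiliser of `i` in `P`
    let S : Subgroup ↥(P : Subgroup (Perm (Fin n))) := MulAction.stabilizer ↥(P : Subgroup (Perm (Fin n))) i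
    have hidx : S.index ≤ p ^ Nat.log p n := by
      have h1 : S.index = (MulAction.orbit ↥(P : Subgroup (Perm (Fin n))) i).ncard :=
        MulAction.index_stabilizer ↥(P : Subgroup (Perm (Fin n))) i
      obtain ⟨m, hm⟩ := (P.2 : IsPGroup p P).index S
      have h2 : (MulAction.orbit ↥(P : Subgroup (Perm (Fin n))) i).ncard ≤ n := by
        have := Set.ncard_le_encard (MulAction.orbit ↥(P : Subgroup (Perm (Fin n))) i)
        have h3 := Set.ncard_le_ncard (Set.subset_univ (MulAction.orbit ↥(P : Subgroup (Perm (Fin n))) i))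
        simpa [Set.ncard_univ] using h3
      rw [hm]
      apply Nat.pow_le_pow_right hp.out.pos
      apply Nat.le_log_of_pow_le hp.out.one_lt
      rw [← hm, h1]
      exact h2
    have h3 := derivedSeries_le_of_index_le _ _ (P.2 : IsPGroup p P) S hidx hx
    exact h3
  · intro hlog
    obtain ⟨k, hk⟩ : ∃ k, Nat.log p n = k + 1 := ⟨Nat.log p n - 1, by omega⟩
    rw [hk, Nat.add_sub_cancel]
    obtain ⟨Ω, hΩ, A, hc, hA, hd⟩ := exists_wreath (p := p) k
    have hle : p ^ (k + 1) ≤ n := by
      rw [← hk]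
      exact Nat.pow_log_le_self p (by omega)
    have hcard : Nat.card Ω ≤ Nat.card (Fin n) := by simpa [hc] using hle
    haveI := Fintype.ofFinite Ω
    have hemb : Nonempty (Ω ↪ Fin n) := by
      apply Function.Embedding.nonempty_of_card_le
      simpa [Nat.card_eq_fintype_card] using hcard
    obtain ⟨e⟩ := hemb
    let φ := Equiv.Perm.viaEmbeddingHom e
    have hφ : Function.Injective φ := Equiv.Perm.viaEmbeddingHom_injective e
    let A₁ := A.map φ
    have hA₁ : IsPGroup p A₁ := hA.map φ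
    obtain ⟨Q, hQ⟩ := hA₁.exists_le_sylow
    obtain ⟨g, rfl⟩ := MulAction.exists_smul_eq (Perm (Fin n)) P Q
    have h1 : dser A₁ k ≠ ⊥ := by
      rw [← dser_map]
      intro h
      apply hd
      exact (Subgroup.map_eq_bot_iff_of_injective _ hφ).mp h
    have h2 : dser ((g • P : Sylow p (Perm (Fin n))) : Subgroup (Perm (Fin n))) k ≠ ⊥ := by
      intro h
      apply h1
      exact le_bot_iff.mp (h ▸ dser_mono hQ k)
    have h3 : dser (P : Subgroup (Perm (Fin n))) k ≠ ⊥ := by
      intro h
      apply h2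
      have : ((g • P : Sylow p (Perm (Fin n))) : Subgroup (Perm (Fin n))) =
          (P : Subgroup (Perm (Fin n))).map (MulAut.conj g).toMonoidHom := by
        rw [Sylow.coe_subgroup_smul]
        rfl
      rw [this, ← dser_map, h]
      simp
    intro h
    apply h3
    rw [← derivedSeries_map_subtype, h]
    simp

end Cfsg.Agent.H12.SylowDL
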