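import Mathlib

set_option autoImplicit false
set_option linter.unusedVariables false
set_option linter.unusedSectionVars false

namespace Cfsg.Agent.H12.Tut

variable {G : Type*} [Group G] [Finite G]

/-- conjugate subgroup `g X g⁻¹` -/
def cnj (g : G) (X : Subgroup G) : Subgroup G := X.map (MulAut.conj g).toMonoidHom

omit [Finite G] in
theorem mem_cnj {g x : G} {X : Subgroup G} : x ∈ cnj g X ↔ g⁻¹ * x * g ∈ X := by
  unfold cnj
  constructor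
  · rintro ⟨z, hz, rfl⟩
    have : g⁻¹ * ((MulAut.conj g).toMonoidHom z) * g = z := by
      simp [MulAut.conj_apply]; group
    rw [this]; exact hz
  · intro h
    refine ⟨_, h, ?_⟩
    simp [MulAut.conj_apply]; group

omit [Finite G] in
theorem conj_mem_cnj {g x : G} {X : Subgroup G} (h : x ∈ X) : g * x * g⁻¹ ∈ cnj g X := by
  rw [mem_cnj]; convert h using 1; group

omit [Finite G] in
theorem card_cnj (g : G) (X : Subgroup G) : Nat.card (cnj g X) = Nat.card X := by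
  unfold cnj
  exact Nat.card_congr (X.equivMapOfInjective _ (MulAut.conj g).injective).symm.toEquiv

theorem idx2 {X Y : Subgroup G} (hXY : X ≤ Y) (hc : Nat.card Y = 2 * Nat.card X) :
    ∀ p ∈ Y, ∀ q ∈ Y, (p * q ∈ X ↔ (p ∈ X ↔ q ∈ X)) := by
  intro p hp q hq
  have h1 := Subgroup.card_mul_index (X.subgroupOf Y)
  have hcard : Nat.card (X.subgroupOf Y) = Nat.card X :=
    Nat.card_congr (Subgroup.subgroupOfEquivOfLe hXY).toEquiv
  have hpos : 0 < Nat.card X := Nat.card_pos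
  have hidx : (X.subgroupOf Y).index = 2 := by
    rw [hcard, hc] at h1
    have : Nat.card X * (X.subgroupOf Y).index = Nat.card X * 2 := by rw [h1]; ring
    exact Nat.eq_of_mul_eq_mul_left hpos this
  have := Subgroup.mul_mem_iff_of_index_two hidx (a := ⟨p, hp⟩) (b := ⟨q, hq⟩)
  simpa [Subgroup.mem_subgroupOf] using this

theorem idx2_normal {X Y : Subgroup G} (hXY : X ≤ Y) (hc : Nat.card Y = 2 * Nat.card X) :
    ∀ p ∈ Y, ∀ x ∈ X, p * x * p⁻¹ ∈ X := by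
  intro p hp x hx
  have h := idx2 hXY hc
  by_cases hpX : p ∈ X
  · exact X.mul_mem (X.mul_mem hpX hx) (X.inv_mem hpX)
  · have h1 : p * x ∉ X := fun h' => hpX ((X.mul_mem_cancel_right hx).1 h')
    have h2 : p⁻¹ ∉ X := fun h' => hpX (by simpa using X.inv_mem h')
    have := (h (p * x) (Y.mul_mem hp (hXY hx)) p⁻¹ (Y.inv_mem hp)).2 ⟨fun h' => absurd h' h1, fun h' => absurd h' h2⟩
    exact this

/-- elements of a 2-group: power two vanish. -/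
theorem pow_card_eq_one {X : Subgroup G} {x : G} (hx : x ∈ X) : x ^ (Nat.card X) = 1 := by
  have h : ((⟨x, hx⟩ : X) ^ Nat.card X : X) = 1 := pow_card_eq_one'
  have h2 : ((⟨x, hx⟩ : X) : G) ^ Nat.card X = 1 := by rw [← Subgroup.coe_pow, h]; rfl
  exact h2

/-- if `b = a^k` with `k` coprime to the order, `a` lies in any subgroup containing `a^k`. -/
theorem mem_of_pow_mem {L : Subgroup G} {a : G} {k : ℕ} (hk : Nat.Coprime k (orderOf a)) (h : a ^ k ∈ L) : a ∈ L := by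
  obtain ⟨m, hm⟩ := exists_pow_eq_self_of_coprime hk
  rw [← hm]
  exact L.pow_mem h m

theorem coprime_two_pow_of_odd {m : ℕ} (hm : Odd m) (k : ℕ) : Nat.Coprime (2 ^ k) m :=
  Nat.Coprime.pow_left _ ((Nat.coprime_two_left).2 hm)

/-- key odd-order lemma: if `a⁻² = γ b` with `γ` in a 2-group `A` normalising `L` and `b ∈ L`, then `a ∈ L`. -/
theorem odd_mem {A L : Subgroup G} {a γ b : G} (hA : IsPGroup 2 A) (hodd : Odd (orderOf a)) (hγ : γ ∈ A) (hb : b ∈ L)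
    (hN : ∀ α ∈ A, ∀ u ∈ L, α * u * α⁻¹ ∈ L) (h : (a ^ 2)⁻¹ = γ * b) : a ∈ L := by
  have key : ∀ j : ℕ, ∃ u ∈ L, (γ * b) ^ j = γ ^ j * u := by
    intro j
    induction j with
    | zero => exact ⟨1, L.one_mem, by simp⟩
    | succ j ih =>
      obtain ⟨u, hu, e⟩ := ih
      refine ⟨γ⁻¹ * u * γ * b, L.mul_mem ?_ hb, ?_⟩
      · have := hN γ⁻¹ (A.inv_mem hγ) u hu
        simpa using this
      · rw [pow_succ, e, pow_succ]; group
  obtain ⟨k, hk⟩ := IsPGroup.iff_card.1 hA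
  obtain ⟨u, hu, e⟩ := key (2 ^ k)
  have h1 : γ ^ (2 ^ k) = 1 := by rw [← hk]; exact pow_card_eq_one hγ
  rw [h1, one_mul, ← h, inv_pow, ← pow_mul] at e
  have h2 : a ^ (2 * 2 ^ k) ∈ L := by
    have := L.inv_mem hu
    rw [← e] at this
    simpa using this
  refine mem_of_pow_mem (k := 2 * 2 ^ k) ?_ h2
  have : 2 * 2 ^ k = 2 ^ (k + 1) := by ring
  rw [this]
  exact coprime_two_pow_of_odd hodd _

/-- a 2-element of odd order is trivial: if `x ^ 2^k = 1` and `x ^ m = 1`, `m` odd. -/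
theorem eq_one_of_odd_two {x : G} {m k : ℕ} (hm : Odd m) (h1 : x ^ m = 1) (h2 : x ^ (2 ^ k) = 1) : x = 1 := by
  have h3 : orderOf x ∣ m := orderOf_dvd_of_pow_eq_one h1
  have h4 : orderOf x ∣ 2 ^ k := orderOf_dvd_of_pow_eq_one h2
  have h5 : Nat.Coprime m (2 ^ k) := (coprime_two_pow_of_odd hm k).symm
  have := Nat.eq_one_of_dvd_coprimes h5 h3 h4
  exact orderOf_eq_one_iff.1 this

/-- The local context. -/
structure Ctx (A P H : Subgroup G) (a y : G) : Prop where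
  hAP : A ≤ P
  hPH : P ≤ H
  hAn : ∀ h ∈ H, ∀ x ∈ A, h * x * h⁻¹ ∈ A
  hP2g : IsPGroup 2 P
  hPc : Nat.card P = 2 * Nat.card A
  ha : a ∈ H
  hodd : Odd (orderOf a)
  hinv : ∀ p ∈ P, p ∉ A → p * a * p⁻¹ * a ∈ A
  hP2 : ∀ x ∈ P, a * x * a⁻¹ ∈ P → x ∈ A
  hgen : ∀ h ∈ H, ∃ i : ℕ, ∃ p ∈ P, h = a ^ i * p
  hyP : ∀ x, x ∈ P ↔ y * x * y⁻¹ ∈ P
  hy2 : ∃ p ∈ P, ∃ c ∈ Subgroup.centralizer (P : Set G), y * y = p * c
  hyQ : ∀ Q : Subgroup G, Q ≤ P → (∀ h ∈ H, ∀ x ∈ Q, h * x * h⁻¹ ∈ Q) → (∀ x ∈ Q, y * x * y⁻¹ ∈ Q) → Q = ⊥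
  hAne : A ≠ ⊥

namespace Ctx

variable {A P H : Subgroup G} {a y : G} (X : Ctx A P H a y)
include X

theorem pA : IsPGroup 2 A := X.hP2g.to_le X.hAP

/-- a subgroup of `P` normalised by `A`, `a` and one element outside `A` is normal in `H`. -/
theorem normal_of {Q : Subgroup G} {t : G} (ht : t ∈ P) (htA : t ∉ A)
    (hA : ∀ α ∈ A, ∀ x ∈ Q, α * x * α⁻¹ ∈ Q) (hat : ∀ x ∈ Q, a * x * a⁻¹ ∈ Q) (htt : ∀ x ∈ Q, t * x * t⁻¹ ∈ Q) :
    ∀ h ∈ H, ∀ x ∈ Q, h * x * h⁻¹ ∈ Q := by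
  intro h hh x hx
  obtain ⟨i, p, hp, rfl⟩ := X.hgen h hh
  have h1 : ∀ (i : ℕ), ∀ x ∈ Q, a ^ i * x * (a ^ i)⁻¹ ∈ Q := by
    intro i
    induction i with
    | zero => intro x hx; simpa using hx
    | succ i ih =>
      intro x hx
      have := ih _ (hat x hx)
      have e : a ^ (i + 1) * x * (a ^ (i + 1))⁻¹ = a ^ i * (a * x * a⁻¹) * (a ^ i)⁻¹ := by
        rw [pow_succ]; group
      rw [e]; exact this
  have h2 : p * x * p⁻¹ ∈ Q := by
    by_cases hpA : p ∈ A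
    · exact hA p hpA x hx
    · have e := (idx2 X.hAP X.hPc t⁻¹ (P.inv_mem ht) p hp).2
        ⟨fun h' => absurd (by simpa using A.inv_mem h') htA, fun h' => absurd h' hpA⟩
      have := hA _ e _ (htt x hx)
      have e2 : p * x * p⁻¹ = t * ((t⁻¹ * p) * x * (t⁻¹ * p)⁻¹) * t⁻¹ := by group
      rw [e2]
      exact htt _ (hA _ e x hx)
  have := h1 i _ h2
  have e : a ^ i * p * x * (a ^ i * p)⁻¹ = a ^ i * (p * x * p⁻¹) * (a ^ i)⁻¹ := by group
  rw [e]; exact this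

/-- `t₀ (a t₀ a⁻¹)` has the form `γ a⁻²`-ish. -/
theorem exists_gamma {t₀ : G} (ht : t₀ ∈ P) (htA : t₀ ∉ A) :
    ∃ γ ∈ A, (a ^ 2)⁻¹ = γ * (t₀ * (a * t₀ * a⁻¹)) := by
  have hβ := X.hinv t₀ ht htA
  set β := t₀ * a * t₀⁻¹ * a with hβd
  have ht2 : t₀ * t₀ ∈ A := by
    have := (idx2 X.hAP X.hPc t₀ ht t₀ ht).2 ⟨fun h' => h', fun h' => h'⟩
    exact this
  have ha' : a⁻¹ ∈ H := H.inv_mem X.ha
  have h3 := X.hAn a⁻¹ ha' _ ht2
  rw [inv_inv] at h3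
  -- t₀ (a t₀ a⁻¹) = β a⁻¹ (t₀²) a⁻¹
  refine ⟨(β * (a⁻¹ * (t₀ * t₀) * a))⁻¹, A.inv_mem (A.mul_mem hβ h3), ?_⟩
  rw [hβd]; group

/-- If `r ∈ P \ A` centralises `A` then so does `a`. -/
theorem a_central_of {r : G} (hr : r ∈ P) (hrA : r ∉ A) (hc : ∀ x ∈ A, r * x * r⁻¹ = x) :
    ∀ x ∈ A, a * x * a⁻¹ = x := by
  let L : Subgroup G := Subgroup.centralizer (A : Set G)
  have hmemL : ∀ u, (∀ x ∈ A, u * x * u⁻¹ = x) → u ∈ L := by
    intro u hu
    rw [Subgroup.mem_centralizer_iff]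
    intro x hx
    have := hu x hx
    rw [mul_inv_eq_iff_eq_mul] at this
    exact this.symm
  have hrL : r ∈ L := hmemL r hc
  have haL : a * r * a⁻¹ ∈ L := by
    apply hmemL
    intro x hx
    have h1 := hc _ (X.hAn a⁻¹ (H.inv_mem X.ha) x hx)
    have e : a * r * a⁻¹ * x * (a * r * a⁻¹)⁻¹ = a * (r * (a⁻¹ * x * a⁻¹⁻¹) * r⁻¹) * a⁻¹ := by group
    rw [e, h1]; group
  obtain ⟨γ, hγ, e⟩ := X.exists_gamma hr hrA
  have hN : ∀ α ∈ A, ∀ u ∈ L, α * u * α⁻¹ ∈ L := by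
    intro α hα u hu
    apply hmemL
    intro x hx
    have hu' := (Subgroup.mem_centralizer_iff.1 hu)
    have h1 := hu' (α⁻¹ * x * α) (by
      have := A.mul_mem (A.mul_mem (A.inv_mem hα) hx) hα; exact this)
    have h2 : u * (α⁻¹ * x * α) * u⁻¹ = α⁻¹ * x * α := by
      rw [← h1]; group
    have e : α * u * α⁻¹ * x * (α * u * α⁻¹)⁻¹ = α * (u * (α⁻¹ * x * α) * u⁻¹) * α⁻¹ := by group
    rw [e, h2]; group
  have := odd_mem X.pA X.hodd hγ (L.mul_mem hrL haL) hN e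
  intro x hx
  have h := Subgroup.mem_centralizer_iff.1 this x hx
  rw [mul_inv_eq_iff_eq_mul]; exact h.symm

/-- `⟨P, a P a⁻¹⟩ = H`: element form. -/
theorem gen_two {J : Subgroup G} (h1 : P ≤ J) (h2 : ∀ x ∈ P, a * x * a⁻¹ ∈ J) : H ≤ J := by
  have hApos : A ≠ ⊤ ∨ True := Or.inr trivial
  obtain ⟨t, ht, htA⟩ : ∃ t ∈ P, t ∉ A := by
    by_contra hcon
    push Not at hcon
    have : P = A := le_antisymm hcon X.hAP
    have h3 := X.hPc
    rw [this] at h3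
    have : 0 < Nat.card A := Nat.card_pos
    omega
  obtain ⟨γ, hγ, e⟩ := X.exists_gamma ht htA
  have haJ : a ∈ J := by
    refine odd_mem (A := A) (b := t * (a * t * a⁻¹)) (γ := γ) X.pA X.hodd hγ (J.mul_mem (h1 ht) (h2 t ht)) ?_ e
    intro α hα u hu
    exact J.mul_mem (J.mul_mem (h1 (X.hAP hα)) hu) (J.inv_mem (h1 (X.hAP hα)))
  intro h hh
  obtain ⟨i, p, hp, rfl⟩ := X.hgen h hh
  exact J.mul_mem (J.pow_mem haJ i) (h1 hp)

end Ctx

end Cfsg.Agent.H12.Tut
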