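import Cfsg.Agent.Lib.H12.Tut1
import Cfsg.Agent.S4359

set_option autoImplicit false
set_option linter.unusedVariables false
set_option linter.unusedSectionVars false

open Pointwise

namespace Cfsg.Agent.H12.Tut

variable {G : Type*} [Group G] [Finite G]

namespace Ctx

variable {A P H : Subgroup G} {a y : G} (X : Ctx A P H a y)
include X

theorem yinvP {p : G} (hp : p ∈ P) : y⁻¹ * p * y ∈ P := by
  rw [X.hyP]; convert hp using 1; group

theorem y2_mem {Q : Subgroup G} (hQ : Q ≤ P) (hn : ∀ p ∈ P, ∀ x ∈ Q, p * x * p⁻¹ ∈ Q) {x : G} (hx : x ∈ Q) :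
    (y * y) * x * (y * y)⁻¹ ∈ Q := by
  obtain ⟨p, hp, c, hc, e⟩ := X.hy2
  rw [e]
  have h1 : c * x * c⁻¹ = x := by
    have := Subgroup.mem_centralizer_iff.1 hc x (hQ hx)
    rw [mul_inv_eq_iff_eq_mul]; exact this.symm
  have e2 : p * c * x * (p * c)⁻¹ = p * (c * x * c⁻¹) * p⁻¹ := by group
  rw [e2, h1]; exact hn p hp x hx

theorem y2_mem' {Q : Subgroup G} (hQ : Q ≤ P) (hn : ∀ p ∈ P, ∀ x ∈ Q, p * x * p⁻¹ ∈ Q) {x : G} (hx : x ∈ Q) :
    (y * y)⁻¹ * x * (y * y) ∈ Q := by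
  obtain ⟨p, hp, c, hc, e⟩ := X.hy2
  rw [e]
  have hx' := hn p⁻¹ (P.inv_mem hp) x hx
  rw [inv_inv] at hx'
  have h1 : c⁻¹ * (p⁻¹ * x * p) * c = p⁻¹ * x * p := by
    have := Subgroup.mem_centralizer_iff.1 hc _ (hQ hx')
    rw [mul_assoc, this]; group
  have e2 : (p * c)⁻¹ * x * (p * c) = c⁻¹ * (p⁻¹ * x * p) * c := by group
  rw [e2, h1]; exact hx'

/-- `B = y A y⁻¹`. -/
theorem memB {x : G} : x ∈ cnj y A ↔ y⁻¹ * x * y ∈ A := mem_cnj

theorem nA : ∀ p ∈ P, ∀ x ∈ A, p * x * p⁻¹ ∈ A := fun p hp x hx => X.hAn p (X.hPH hp) x hx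

theorem conj_B {x : G} (hx : x ∈ A) : y * x * y⁻¹ ∈ cnj y A := conj_mem_cnj hx

theorem conj_A {x : G} (hx : x ∈ cnj y A) : y * x * y⁻¹ ∈ A := by
  have h := memB (X := X) |>.1 hx
  have := X.y2_mem X.hAP X.nA h
  convert this using 1; group

theorem conj_inv_A {x : G} (hx : x ∈ cnj y A) : y⁻¹ * x * y ∈ A := mem_cnj.1 hx

theorem conj_inv_B {x : G} (hx : x ∈ A) : y⁻¹ * x * y ∈ cnj y A := by
  rw [mem_cnj]
  have := X.y2_mem' X.hAP X.nA hx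
  convert this using 1; group

theorem B_le : cnj y A ≤ P := by
  intro x hx
  have := X.yinvP (X.hAP (mem_cnj.1 hx)) (y := y)
  have h2 := (X.hyP _).1 (X.hAP (mem_cnj.1 hx))
  convert h2 using 1; group

theorem nB : ∀ p ∈ P, ∀ x ∈ cnj y A, p * x * p⁻¹ ∈ cnj y A := by
  intro p hp x hx
  rw [mem_cnj]
  have h1 := X.nA _ (X.yinvP hp) _ (mem_cnj.1 hx)
  convert h1 using 1; group

theorem cardB : Nat.card (cnj y A) = Nat.card A := card_cnj _ _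

theorem cardPB : Nat.card P = 2 * Nat.card (cnj y A) := by rw [X.cardB]; exact X.hPc

theorem B_ne : cnj y A ≠ A := by
  intro h
  apply X.hAne
  apply X.hyQ A X.hAP X.hAn
  intro x hx
  have := X.conj_B hx
  rwa [h] at this

theorem exists_BA : ∃ t ∈ cnj y A, t ∉ A := by
  by_contra hcon
  push Not at hcon
  apply X.B_ne
  exact Subgroup.eq_of_le_of_card_ge hcon (by rw [X.cardB])

theorem exists_AB : ∃ t ∈ A, t ∉ cnj y A := by
  obtain ⟨t, ht, htA⟩ := X.exists_BA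
  refine ⟨y * t * y⁻¹, X.conj_A ht, ?_⟩
  intro h
  apply htA
  have := X.conj_inv_A h
  convert this using 1; group

/-- `D = A ∩ B` -/
theorem cardAD : Nat.card A = 2 * Nat.card ↥(A ⊓ cnj y A) := by
  obtain ⟨x₀, hx₀, hx₀B⟩ := X.exists_AB
  have hle : A ⊓ cnj y A ≤ A := inf_le_left
  have hidx : ((A ⊓ cnj y A).subgroupOf A).index = 2 := by
    rw [Subgroup.index_eq_two_iff]
    refine ⟨⟨x₀, hx₀⟩, ?_⟩
    rintro ⟨b, hb⟩
    simp only [Subgroup.mem_subgroupOf, Subgroup.coe_mul, Subgroup.mem_inf]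
    have h := idx2 X.B_le X.cardPB b (X.hAP hb) x₀ (X.hAP hx₀)
    by_cases hbB : b ∈ cnj y A
    · have : b * x₀ ∉ cnj y A := fun h' => hx₀B (by
        exact (h.1 h').1 hbB)
      refine Or.inr ⟨⟨hb, hbB⟩, fun h' => this h'.2⟩
    · have : b * x₀ ∈ cnj y A := h.2 ⟨fun h' => absurd h' hbB, fun h' => absurd h' hx₀B⟩
      exact Or.inl ⟨⟨A.mul_mem hb hx₀, this⟩, fun h' => hbB h'.2⟩
  have h1 := Subgroup.card_mul_index ((A ⊓ cnj y A).subgroupOf A)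
  rw [Nat.card_congr (Subgroup.subgroupOfEquivOfLe hle).toEquiv, hidx] at h1
  omega

theorem nD : ∀ p ∈ P, ∀ x ∈ A ⊓ cnj y A, p * x * p⁻¹ ∈ A ⊓ cnj y A :=
  fun p hp x hx => ⟨X.nA p hp x hx.1, X.nB p hp x hx.2⟩

theorem yD {x : G} (hx : x ∈ A ⊓ cnj y A) : y * x * y⁻¹ ∈ A ⊓ cnj y A :=
  ⟨X.conj_A hx.2, X.conj_B hx.1⟩

theorem yD' {x : G} (hx : x ∈ A ⊓ cnj y A) : y⁻¹ * x * y ∈ A ⊓ cnj y A :=
  ⟨X.conj_inv_A hx.2, X.conj_inv_B hx.1⟩

/-- if `a` centralises `A` then `D = 1`. -/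
theorem D_bot_of (h : ∀ x ∈ A, a * x * a⁻¹ = x) : A ⊓ cnj y A = ⊥ := by
  obtain ⟨t, ht, htA⟩ := X.exists_BA
  apply X.hyQ _ (inf_le_left.trans X.hAP)
  · apply X.normal_of (X.B_le ht) htA
    · intro α hα x hx; exact X.nD α (X.hAP hα) x hx
    · intro x hx; rw [h x hx.1]; exact hx
    · intro x hx; exact X.nD t (X.B_le ht) x hx
  · intro x hx; exact X.yD hx

theorem card_two_of (h : ∀ x ∈ A, a * x * a⁻¹ = x) : Nat.card A = 2 := by
  have := X.cardAD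
  rw [X.D_bot_of h] at this
  simpa using this

/-- central elements of `P` lie in `D` unless `a` centralises `A`. -/
theorem zA (hna : ¬ ∀ x ∈ A, a * x * a⁻¹ = x) {z : G} (hz : z ∈ P) (hzc : ∀ p ∈ P, p * z * p⁻¹ = z) : z ∈ A := by
  by_contra hzA
  apply hna
  apply X.a_central_of hz hzA
  intro x hx
  have := hzc x (X.hAP hx)
  rw [mul_inv_eq_iff_eq_mul] at this ⊢
  exact this.symm

theorem zD (hna : ¬ ∀ x ∈ A, a * x * a⁻¹ = x) {z : G} (hz : z ∈ P) (hzc : ∀ p ∈ P, p * z * p⁻¹ = z) : z ∈ A ⊓ cnj y A := by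
  refine ⟨X.zA hna hz hzc, ?_⟩
  show z ∈ cnj y A
  rw [mem_cnj]
  refine X.zA hna (X.yinvP hz) ?_
  intro p hp
  have h1 := hzc _ ((X.hyP p).1 hp)
  have : y * p * y⁻¹ * z * (y * p * y⁻¹)⁻¹ = z := h1
  calc p * (y⁻¹ * z * y) * p⁻¹ = y⁻¹ * (y * p * y⁻¹ * z * (y * p * y⁻¹)⁻¹) * y := by group
    _ = y⁻¹ * z * y := by rw [this]

/-- the centre `Cc` -/
def Cc (P H : Subgroup G) : Subgroup G := P ⊓ Subgroup.centralizer (H : Set G)

omit X in
theorem memCc {P H : Subgroup G} {x : G} : x ∈ Cc P H ↔ x ∈ P ∧ ∀ h ∈ H, h * x * h⁻¹ = x := by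
  unfold Cc
  rw [Subgroup.mem_inf, Subgroup.mem_centralizer_iff]
  refine and_congr_right fun _ => forall₂_congr fun h hh => ?_
  rw [mul_inv_eq_iff_eq_mul]

theorem Cc_central {c : G} (hc : c ∈ Cc P H) : ∀ p ∈ P, p * c * p⁻¹ = c :=
  fun p hp => (memCc.1 hc).2 p (X.hPH hp)

theorem y2_central {c : G} (hcP : c ∈ P) (hc : ∀ p ∈ P, p * c * p⁻¹ = c) : (y * y) * c * (y * y)⁻¹ = c := by
  obtain ⟨p, hp, k, hk, e⟩ := X.hy2
  rw [e]
  have h1 : k * c * k⁻¹ = c := by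
    have := Subgroup.mem_centralizer_iff.1 hk c hcP
    rw [mul_inv_eq_iff_eq_mul]; exact this.symm
  have e2 : p * k * c * (p * k)⁻¹ = p * (k * c * k⁻¹) * p⁻¹ := by group
  rw [e2, h1]; exact hc p hp

theorem Cc_y {c : G} (hc : c ∈ Cc P H) (hc' : y * c * y⁻¹ ∈ Cc P H) : c = 1 := by
  have hE : Cc P H ⊓ cnj y (Cc P H) = ⊥ := by
    apply X.hyQ _ (inf_le_left.trans inf_le_left)
    · intro h hh x hx
      rw [(memCc.1 hx.1).2 h hh]; exact hx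
    · intro x hx
      refine ⟨?_, conj_mem_cnj hx.1⟩
      have h1 : y⁻¹ * x * y ∈ Cc P H := mem_cnj.1 hx.2
      have h2 := X.y2_central ((memCc.1 h1).1) (X.Cc_central h1)
      have : y * x * y⁻¹ = y⁻¹ * x * y := by
        have e : y * x * y⁻¹ = (y * y) * (y⁻¹ * x * y) * (y * y)⁻¹ := by group
        rw [e, h2]
      rw [this]; exact h1
  have h3 : y * c * y⁻¹ ∈ Cc P H ⊓ cnj y (Cc P H) := ⟨hc', conj_mem_cnj hc⟩
  rw [hE, Subgroup.mem_bot] at h3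
  have : c = y⁻¹ * (y * c * y⁻¹) * y := by group
  rw [this, h3]; group

/-- second form of generation. -/
theorem gen_two' {J : Subgroup G} (h1 : P ≤ J) (h2 : ∀ x ∈ P, a⁻¹ * x * a ∈ J) : H ≤ J := by
  have hle : H ≤ cnj a J := by
    apply X.gen_two
    · intro x hx; rw [mem_cnj]; exact h2 x hx
    · intro x hx; exact conj_mem_cnj (h1 hx)
  intro h hh
  have h3 : a * h * a⁻¹ ∈ H := H.mul_mem (H.mul_mem X.ha hh) (H.inv_mem X.ha)
  have h4 := mem_cnj.1 (hle h3)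
  convert h4 using 1; group

end Ctx
end Cfsg.Agent.H12.Tut
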