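import Cfsg.Agent.Lib.H12.Tut2

set_option autoImplicit false
set_option linter.unusedVariables false
set_option linter.unusedSectionVars false

open Pointwise

namespace Cfsg.Agent.H12.Tut

variable {G : Type*} [Group G] [Finite G]

omit [Finite G] in
theorem smul_eq (g : G) (X : Subgroup G) : MulAut.conj g • X = cnj g X := by
  ext x
  rw [Subgroup.mem_pointwise_smul_iff_inv_smul_mem, mem_cnj]
  simp [MulAut.smul_def, MulAut.conj_apply, MulAut.conj_inv_apply]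

namespace Ctx

variable {A P H : Subgroup G} {a y : G} (X : Ctx A P H a y)
include X

theorem memW {x : G} : x ∈ cnj (y * a)⁻¹ P ↔ a * x * a⁻¹ ∈ P := by
  rw [mem_cnj, X.hyP (a * x * a⁻¹)]
  have e : (y * a)⁻¹⁻¹ * x * (y * a)⁻¹ = y * (a * x * a⁻¹) * y⁻¹ := by group
  rw [e]

theorem apply_s4359 (n' : ℕ) (hn : 1 ≤ n')
    (hc : ∀ x ∈ P, (∀ i, i ≤ n' → ∀ u, u ∈ cnj ((y * a) ^ i)⁻¹ P → x * u = u * x) → x = 1) :
    ∃ t : ℕ, Nat.card P = 2 ^ t ∧ 1 ≤ t ∧ t ≤ 3 * n' ∧ t ≠ 3 * n' - 1 := by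
  have hinf : P ⊓ cnj (y * a)⁻¹ P = A := by
    ext x
    rw [Subgroup.mem_inf, X.memW]
    exact ⟨fun h => X.hP2 x h.1 h.2, fun h => ⟨X.hAP h, X.hAP (X.hAn a X.ha x h)⟩⟩
  have hle : A ≤ cnj (y * a)⁻¹ P := by
    rw [← hinf]; exact inf_le_right
  have hWH : ∀ w ∈ cnj (y * a)⁻¹ P, w ∈ H := by
    intro w hw
    have h1 := X.hPH (X.memW.1 hw)
    have h2 := H.mul_mem (H.mul_mem (H.inv_mem X.ha) h1) X.ha
    convert h2 using 1; group
  have hN : ((P ⊓ MulAut.conj (y * a)⁻¹ • P).subgroupOf (MulAut.conj (y * a)⁻¹ • P)).Normal := by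
    rw [smul_eq, hinf]
    constructor
    rintro ⟨n, hn'⟩ hn1 ⟨g, hg⟩
    rw [Subgroup.mem_subgroupOf] at hn1 ⊢
    exact X.hAn g (hWH g hg) n hn1
  have hidx : (P ⊓ MulAut.conj (y * a)⁻¹ • P).relIndex (MulAut.conj (y * a)⁻¹ • P) = 2 := by
    rw [smul_eq, hinf]
    have h1 := Subgroup.card_mul_index (A.subgroupOf (cnj (y * a)⁻¹ P))
    rw [Nat.card_congr (Subgroup.subgroupOfEquivOfLe hle).toEquiv, card_cnj, X.hPc] at h1
    have hpos : 0 < Nat.card A := Nat.card_pos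
    have : Nat.card A * (A.subgroupOf (cnj (y * a)⁻¹ P)).index = Nat.card A * 2 := by rw [h1]; ring
    exact Nat.eq_of_mul_eq_mul_left hpos this
  have h1 : ∀ Q : Subgroup G, Q ≤ P → (Q.subgroupOf P).Normal → MulAut.conj (y * a) • Q = Q → Q = ⊥ := by
    intro Q hQP hQn hQg
    rw [smul_eq] at hQg
    have hg1 : ∀ x, x ∈ Q ↔ (y * a) * x * (y * a)⁻¹ ∈ Q := by
      intro x
      constructor
      · intro h
        have h2 : (y * a) * x * (y * a)⁻¹ ∈ cnj (y * a) Q := conj_mem_cnj h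
        rwa [hQg] at h2
      · intro h
        rw [← hQg, mem_cnj] at h
        convert h using 1
        group
    have hQn' : ∀ p ∈ P, ∀ x ∈ Q, p * x * p⁻¹ ∈ Q := by
      intro p hp x hx
      have := hQn.conj_mem ⟨x, hQP hx⟩ (by simpa [Subgroup.mem_subgroupOf] using hx) ⟨p, hp⟩
      simpa [Subgroup.mem_subgroupOf] using this
    -- Q' = a Q a⁻¹ = y⁻¹ Q y
    have hQ' : ∀ z, z ∈ cnj a Q ↔ y * z * y⁻¹ ∈ Q := by
      intro z
      rw [mem_cnj, hg1 (a⁻¹ * z * a)]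
      have : (y * a) * (a⁻¹ * z * a) * (y * a)⁻¹ = y * z * y⁻¹ := by group
      rw [this]
    have hn1 : ∀ p ∈ P, ∀ z ∈ cnj a Q, p * z * p⁻¹ ∈ cnj a Q := by
      intro p hp z hz
      rw [hQ'] at hz ⊢
      have h2 := hQn' _ ((X.hyP p).1 hp) _ hz
      convert h2 using 1; group
    have hn2 : ∀ p ∈ P, ∀ z ∈ cnj a Q, (a * p * a⁻¹) * z * (a * p * a⁻¹)⁻¹ ∈ cnj a Q := by
      intro p hp z hz
      rw [mem_cnj] at hz ⊢
      have h2 := hQn' _ hp _ hz
      convert h2 using 1; group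
    have hJ : H ≤ Subgroup.normalizer ((cnj a Q : Subgroup G) : Set G) := by
      apply X.gen_two
      · intro p hp; exact Cfsg.Agent.S4359.nrm_of_conj (hn1 p hp)
      · intro p hp; exact Cfsg.Agent.S4359.nrm_of_conj (hn2 p hp)
    have hnorm : ∀ h ∈ H, ∀ z ∈ cnj a Q, h * z * h⁻¹ ∈ cnj a Q := by
      intro h hh z hz
      exact (Subgroup.mem_normalizer_iff.1 (hJ hh) z).1 hz
    have heq : cnj a Q = Q := by
      symm
      apply Subgroup.eq_of_le_of_card_ge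
      · intro x hx
        have h2 : a * x * a⁻¹ ∈ cnj a Q := conj_mem_cnj hx
        have h3 := hnorm a⁻¹ (H.inv_mem X.ha) _ h2
        convert h3 using 1; group
      · rw [card_cnj]
    apply X.hyQ Q hQP
    · intro h hh x hx
      rw [← heq] at hx ⊢
      exact hnorm h hh x hx
    · intro x hx
      have : x ∈ cnj a Q := by rw [heq]; exact hx
      exact (hQ' x).1 this
  have h2 : P ⊓ (Subgroup.center (⨆ i ∈ Finset.range (n' + 1), MulAut.conj ((y * a) ^ i)⁻¹ • P : Subgroup G)).map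
      (⨆ i ∈ Finset.range (n' + 1), MulAut.conj ((y * a) ^ i)⁻¹ • P : Subgroup G).subtype = ⊥ := by
    rw [eq_bot_iff]
    rintro x ⟨hxP, z, hz, rfl⟩
    rw [Subgroup.mem_bot]
    apply hc _ hxP
    intro i hi u hu
    have hle : cnj ((y * a) ^ i)⁻¹ P ≤ (⨆ i ∈ Finset.range (n' + 1), MulAut.conj ((y * a) ^ i)⁻¹ • P : Subgroup G) := by
      rw [← smul_eq]
      exact le_iSup₂_of_le i (Finset.mem_range.2 (by omega)) le_rfl
    have := Subgroup.mem_center_iff.1 hz ⟨u, hle hu⟩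
    have h3 := congrArg Subtype.val this
    exact h3.symm
  exact Cfsg.Agent.S4359.result P (y * a) 2 Nat.prime_two hN hidx n' hn _ rfl h1 h2

theorem comm_central {x : G} (h0 : ∀ u ∈ P, x * u = u * x) (h1 : ∀ p ∈ P, x * (a⁻¹ * p * a) = (a⁻¹ * p * a) * x) :
    ∀ h ∈ H, h * x * h⁻¹ = x := by
  have hJ : H ≤ Subgroup.centralizer ({x} : Set G) := by
    apply X.gen_two'
    · intro u hu
      rw [Subgroup.mem_centralizer_iff]
      intro v hv
      rw [Set.mem_singleton_iff.1 hv]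
      exact h0 u hu
    · intro p hp
      rw [Subgroup.mem_centralizer_iff]
      intro v hv
      rw [Set.mem_singleton_iff.1 hv]
      exact h1 p hp
  intro h hh
  have := Subgroup.mem_centralizer_iff.1 (hJ hh) x rfl
  rw [mul_inv_eq_iff_eq_mul]
  exact this.symm

theorem bound_three (hC : ∀ x ∈ Ctx.Cc P H, x = 1) : ∃ t : ℕ, Nat.card P = 2 ^ t ∧ 1 ≤ t ∧ t ≤ 3 ∧ t ≠ 2 := by
  obtain ⟨t, h1, h2, h3, h4⟩ := X.apply_s4359 1 le_rfl (by
    intro x hx hcomm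
    apply hC
    rw [memCc]
    refine ⟨hx, X.comm_central (fun u hu => hcomm 0 (by omega) u (by
      rw [mem_cnj]; simpa using hu)) (fun p hp => hcomm 1 le_rfl _ (by
      rw [pow_one]
      rw [X.memW]
      convert hp using 1; group))⟩)
  exact ⟨t, h1, h2, by omega, by omega⟩

theorem bound_six : ∃ t : ℕ, Nat.card P = 2 ^ t ∧ 1 ≤ t ∧ t ≤ 6 ∧ t ≠ 5 := by
  obtain ⟨t, h1, h2, h3, h4⟩ := X.apply_s4359 2 (by omega) (by
    intro x hx hcomm
    have c0 : ∀ u ∈ P, x * u = u * x := fun u hu => hcomm 0 (by omega) u (by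
      rw [mem_cnj]; simpa using hu)
    have c1 : ∀ p ∈ P, x * (a⁻¹ * p * a) = (a⁻¹ * p * a) * x := fun p hp => hcomm 1 (by omega) _ (by
      rw [pow_one, X.memW]
      convert hp using 1; group)
    have hcent := X.comm_central c0 c1
    have hxC : x ∈ Ctx.Cc P H := memCc.2 ⟨hx, hcent⟩
    have c2 : ∀ p ∈ P, x * (a⁻¹ * y⁻¹ * a⁻¹ * p * a * y * a) = (a⁻¹ * y⁻¹ * a⁻¹ * p * a * y * a) * x := by
      intro p hp
      apply hcomm 2 le_rfl
      rw [mem_cnj]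
      have := (X.hyP p).1 hp
      have e : ((y * a) ^ 2)⁻¹⁻¹ * (a⁻¹ * y⁻¹ * a⁻¹ * p * a * y * a) * ((y * a) ^ 2)⁻¹ = y * p * y⁻¹ := by
        rw [inv_inv, pow_two]; group
      rw [e]; exact this
    have hyC : y * x * y⁻¹ ∈ Ctx.Cc P H := by
      rw [memCc]
      refine ⟨(X.hyP x).1 hx, X.comm_central ?_ ?_⟩
      · intro u hu
        have := c0 _ (X.yinvP hu)
        calc y * x * y⁻¹ * u = y * (x * (y⁻¹ * u * y)) * y⁻¹ := by group
          _ = y * ((y⁻¹ * u * y) * x) * y⁻¹ := by rw [this]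
          _ = u * (y * x * y⁻¹) := by group
      · intro p hp
        have h1 := c2 p hp
        have hax := hcent a X.ha
        have h2 : x * (y⁻¹ * a⁻¹ * p * a * y) = (y⁻¹ * a⁻¹ * p * a * y) * x := by
          calc x * (y⁻¹ * a⁻¹ * p * a * y) = (a * x * a⁻¹) * (y⁻¹ * a⁻¹ * p * a * y) := by rw [hax]
            _ = a * (x * (a⁻¹ * y⁻¹ * a⁻¹ * p * a * y * a)) * a⁻¹ := by group
            _ = a * ((a⁻¹ * y⁻¹ * a⁻¹ * p * a * y * a) * x) * a⁻¹ := by rw [h1]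
            _ = (y⁻¹ * a⁻¹ * p * a * y) * (a * x * a⁻¹) := by group
            _ = (y⁻¹ * a⁻¹ * p * a * y) * x := by rw [hax]
        calc y * x * y⁻¹ * (a⁻¹ * p * a) = y * (x * (y⁻¹ * a⁻¹ * p * a * y)) * y⁻¹ := by group
          _ = y * ((y⁻¹ * a⁻¹ * p * a * y) * x) * y⁻¹ := by rw [h2]
          _ = (a⁻¹ * p * a) * (y * x * y⁻¹) := by group
    exact X.Cc_y hxC hyC)
  exact ⟨t, h1, h2, by omega, by omega⟩

end Ctx
end Cfsg.Agent.H12.Tut
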