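import Cfsg.Agent.Lib.H12.Tut3

set_option autoImplicit false
set_option linter.unusedVariables false
set_option linter.unusedSectionVars false

open Pointwise

namespace Cfsg.Agent.H12.Tut

variable {G : Type*} [Group G] [Finite G]

/-- two distinct index two subgroups. -/
theorem card_inf_of_idx2 {Z U V : Subgroup G} (hU : U ≤ Z) (hV : V ≤ Z) (hcU : Nat.card Z = 2 * Nat.card U)
    (hcV : Nat.card Z = 2 * Nat.card V) (hne : U ≠ V) : Nat.card U = 2 * Nat.card ↥(U ⊓ V) := by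
  obtain ⟨x₀, hx₀, hx₀V⟩ : ∃ x ∈ U, x ∉ V := by
    by_contra hcon
    push Not at hcon
    exact hne (Subgroup.eq_of_le_of_card_ge hcon (by omega))
  have hle : U ⊓ V ≤ U := inf_le_left
  have hidx : ((U ⊓ V).subgroupOf U).index = 2 := by
    rw [Subgroup.index_eq_two_iff]
    refine ⟨⟨x₀, hx₀⟩, ?_⟩
    rintro ⟨b, hb⟩
    simp only [Subgroup.mem_subgroupOf, Subgroup.coe_mul, Subgroup.mem_inf]
    have h := idx2 hV hcV b (hU hb) x₀ (hU hx₀)
    by_cases hbB : b ∈ V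
    · have : b * x₀ ∉ V := fun h' => hx₀V ((h.1 h').1 hbB)
      exact Or.inr ⟨⟨hb, hbB⟩, fun h' => this h'.2⟩
    · have : b * x₀ ∈ V := h.2 ⟨fun h' => absurd h' hbB, fun h' => absurd h' hx₀V⟩
      exact Or.inl ⟨⟨U.mul_mem hb hx₀, this⟩, fun h' => hbB h'.2⟩
  have h1 := Subgroup.card_mul_index ((U ⊓ V).subgroupOf U)
  rw [Nat.card_congr (Subgroup.subgroupOfEquivOfLe hle).toEquiv, hidx] at h1
  omega

/-- `|U| * |V| ≤ |Z|` if `U, V ≤ Z` meet trivially. -/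
theorem card_mul_le_of_disjoint {Z U V : Subgroup G} (hU : U ≤ Z) (hV : V ≤ Z) (hd : U ⊓ V = ⊥) :
    Nat.card U * Nat.card V ≤ Nat.card Z := by
  rw [← Nat.card_prod]
  refine Nat.card_le_card_of_injective (fun p => (⟨p.1.1 * p.2.1, Z.mul_mem (hU p.1.2) (hV p.2.2)⟩ : Z)) ?_
  rintro ⟨⟨u, hu⟩, ⟨v, hv⟩⟩ ⟨⟨u', hu'⟩, ⟨v', hv'⟩⟩ h
  have h1 : u * v = u' * v' := congrArg Subtype.val h
  have h2 : u'⁻¹ * u = v' * v⁻¹ := by
    calc u'⁻¹ * u = u'⁻¹ * (u * v) * v⁻¹ := by group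
      _ = u'⁻¹ * (u' * v') * v⁻¹ := by rw [h1]
      _ = v' * v⁻¹ := by group
  have h3 : u'⁻¹ * u ∈ U ⊓ V := ⟨U.mul_mem (U.inv_mem hu') hu, by rw [h2]; exact V.mul_mem hv' (V.inv_mem hv)⟩
  rw [hd, Subgroup.mem_bot] at h3
  have h4 : u = u' := by
    have := congrArg (u' * ·) h3
    simpa using this
  have h5 : v = v' := by
    subst h4
    exact mul_left_cancel h1
  subst h4; subst h5; rfl

theorem two_le_of_lt {U V : Subgroup G} (h : U ≤ V) (hne : ∃ x ∈ V, x ∉ U) : 2 * Nat.card U ≤ Nat.card V := by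
  obtain ⟨x, hx, hxU⟩ := hne
  have h1 : Nat.card U ∣ Nat.card V := Subgroup.card_dvd_of_le h
  obtain ⟨k, hk⟩ := h1
  have hpos : 0 < Nat.card U := Nat.card_pos
  have hV : 0 < Nat.card V := Nat.card_pos
  have hk2 : k ≠ 1 := by
    rintro rfl
    have : U = V := Subgroup.eq_of_le_of_card_ge h (by omega)
    exact hxU (this ▸ hx)
  have hk0 : k ≠ 0 := by rintro rfl; simp at hk; omega
  have : 2 ≤ k := by omega
  rw [hk, mul_comm]
  exact Nat.mul_le_mul_left _ this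

namespace Ctx

variable {A P H : Subgroup G} {a y : G} (X : Ctx A P H a y)
include X

theorem fix_of_sq {w : G} (h : (a * a) * w * (a * a)⁻¹ = w) : a * w * a⁻¹ = w := by
  have hmem : a * a ∈ Subgroup.centralizer ({w} : Set G) := by
    rw [Subgroup.mem_centralizer_iff]
    intro v hv
    rw [Set.mem_singleton_iff.1 hv]
    rw [mul_inv_eq_iff_eq_mul] at h
    exact h.symm
  have h2 : a ^ 2 ∈ Subgroup.centralizer ({w} : Set G) := by rw [pow_two]; exact hmem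
  have h3 := mem_of_pow_mem (k := 2) ((Nat.coprime_two_left).2 X.hodd) h2
  have := Subgroup.mem_centralizer_iff.1 h3 w rfl
  rw [mul_inv_eq_iff_eq_mul]
  exact this.symm

/-- mod-`Ω` version of `a_central_of`. -/
theorem a_mod {Ω : Subgroup G} (hΩ : ∀ h ∈ H, ∀ ω ∈ Ω, h * ω * h⁻¹ ∈ Ω) {t₀ : G} (ht : t₀ ∈ P) (htA : t₀ ∉ A)
    (hact : ∀ x ∈ A, x⁻¹ * (t₀ * x * t₀⁻¹) ∈ Ω) : ∀ x ∈ A, x⁻¹ * (a * x * a⁻¹) ∈ Ω := by
  let L : Subgroup G :=
    { carrier := {h | h ∈ H ∧ ∀ x ∈ A, x⁻¹ * (h * x * h⁻¹) ∈ Ω}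
      one_mem' := ⟨H.one_mem, by intro x hx; simp [Ω.one_mem]⟩
      mul_mem' := by
        rintro h h' ⟨hh, hL⟩ ⟨hh', hL'⟩
        refine ⟨H.mul_mem hh hh', ?_⟩
        intro x hx
        have h1 := hL x hx
        have h2 := hΩ h hh _ (hL' x hx)
        have := Ω.mul_mem h1 h2
        convert this using 1; group
      inv_mem' := by
        rintro h ⟨hh, hL⟩
        refine ⟨H.inv_mem hh, ?_⟩
        intro x hx
        have hx' : h⁻¹ * x * h⁻¹⁻¹ ∈ A := X.hAn _ (H.inv_mem hh) x hx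
        have h1 := hL _ hx'
        have h2 := Ω.inv_mem h1
        convert h2 using 1; group }
  have memL : ∀ h, h ∈ L ↔ h ∈ H ∧ ∀ x ∈ A, x⁻¹ * (h * x * h⁻¹) ∈ Ω := fun h => Iff.rfl
  have ht0H := X.hPH ht
  have ht0L : t₀ ∈ L := ⟨ht0H, hact⟩
  have ht1L : a * t₀ * a⁻¹ ∈ L := by
    refine ⟨H.mul_mem (H.mul_mem X.ha ht0H) (H.inv_mem X.ha), ?_⟩
    intro x hx
    have hx' : a⁻¹ * x * a⁻¹⁻¹ ∈ A := X.hAn _ (H.inv_mem X.ha) x hx
    have h1 := hact _ hx'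
    have h2 := hΩ a X.ha _ h1
    convert h2 using 1; group
  obtain ⟨γ, hγ, e⟩ := X.exists_gamma ht htA
  have hN : ∀ α ∈ A, ∀ u ∈ L, α * u * α⁻¹ ∈ L := by
    rintro α hα u ⟨hu, huL⟩
    have hαH := X.hPH (X.hAP hα)
    refine ⟨H.mul_mem (H.mul_mem hαH hu) (H.inv_mem hαH), ?_⟩
    intro x hx
    have hx' : α⁻¹ * x * α⁻¹⁻¹ ∈ A := X.hAn _ (H.inv_mem hαH) x hx
    have h1 := huL _ hx'
    have h2 := hΩ α hαH _ h1
    convert h2 using 1; group
  have := odd_mem X.pA X.hodd hγ (L.mul_mem ht0L ht1L) hN e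
  exact ((memL a).1 this).2

/-- Sub-case (i): an involution in `Z(A) \ B`. -/
theorem sub1 (hcard : Nat.card A = 32) (hna : ¬ ∀ x ∈ A, a * x * a⁻¹ = x) {τ : G} (hτA : τ ∈ A) (hτB : τ ∉ cnj y A)
    (hτc : ∀ x ∈ A, x * τ = τ * x) (hτ2 : τ * τ = 1) : False := by
  classical
  set B := cnj y A with hB
  set D := A ⊓ B with hD
  have hcAD : Nat.card A = 2 * Nat.card D := X.cardAD
  have hPD : D ≤ P := inf_le_left.trans X.hAP
  have hDA : D ≤ A := inf_le_left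
  set t₀ := y * τ * y⁻¹ with ht₀
  have ht₀B : t₀ ∈ B := X.conj_B hτA
  have ht₀A : t₀ ∉ A := by
    intro h
    apply hτB
    have := X.conj_inv_B h
    convert this using 1
    rw [ht₀]; group
  have ht₀P : t₀ ∈ P := X.B_le ht₀B
  have ht₀inv : t₀⁻¹ = t₀ := by
    rw [inv_eq_iff_mul_eq_one, ht₀]
    calc y * τ * y⁻¹ * (y * τ * y⁻¹) = y * (τ * τ) * y⁻¹ := by group
      _ = 1 := by rw [hτ2]; group
  have ht₀2 : t₀ * t₀ = 1 := by
    nth_rw 1 [← ht₀inv]; group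
  -- `t₀` centralises `D`.
  have ht₀D : ∀ d ∈ D, t₀ * d * t₀⁻¹ = d := by
    intro d hd
    have h1 := hτc _ (X.conj_inv_A hd.2)
    rw [mul_inv_eq_iff_eq_mul, ht₀]
    calc y * τ * y⁻¹ * d = y * (τ * (y⁻¹ * d * y)) * y⁻¹ := by group
      _ = y * ((y⁻¹ * d * y) * τ) * y⁻¹ := by rw [h1]
      _ = d * (y * τ * y⁻¹) := by group
  obtain ⟨x₀, hx₀A, hx₀B⟩ := X.exists_AB
  have hx₀D : x₀ ∉ D := fun h => hx₀B h.2
  have hidx := idx2 hDA hcAD
  have hnD := X.nD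
  have ht₀A' : ∀ x ∈ A, t₀ * x * t₀⁻¹ ∈ A := X.nA t₀ ht₀P
  have ht₀Dn : ∀ x ∈ A, x ∉ D → t₀ * x * t₀⁻¹ ∉ D := by
    intro x hx hxD h
    apply hxD
    have h9 := hnD t₀ ht₀P _ h
    have e : t₀ * (t₀ * x * t₀⁻¹) * t₀⁻¹ = x := by
      rw [ht₀inv]
      have e : t₀ * (t₀ * x * t₀) * t₀ = (t₀ * t₀) * x * (t₀ * t₀) := by group
      rw [e, ht₀2]; group
    rw [e] at h9; exact h9
  set w := x₀⁻¹ * (t₀ * x₀ * t₀⁻¹) with hw
  have hwD : w ∈ D := by
    refine (hidx x₀⁻¹ (A.inv_mem hx₀A) _ (ht₀A' x₀ hx₀A)).2 ⟨?_, ?_⟩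
    · intro h; exact absurd (by simpa using D.inv_mem h) hx₀D
    · intro h; exact absurd h (ht₀Dn x₀ hx₀A hx₀D)
  have hwA : w ∈ A := hDA hwD
  have hx₀t : t₀ * x₀ * t₀⁻¹ = x₀ * w := by rw [hw]; group
  have htw : t₀ * w * t₀⁻¹ = w := ht₀D w hwD
  have hw2 : w * w = 1 := by
    have h1 : t₀ * (t₀ * x₀ * t₀⁻¹) * t₀⁻¹ = x₀ := by
      have e : t₀ * (t₀ * x₀ * t₀⁻¹) * t₀⁻¹ = (t₀ * t₀) * x₀ * (t₀⁻¹ * t₀⁻¹) := by group
      rw [e, ht₀2, ht₀inv, ht₀2]; group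
    rw [hx₀t] at h1
    have e : t₀ * (x₀ * w) * t₀⁻¹ = (t₀ * x₀ * t₀⁻¹) * (t₀ * w * t₀⁻¹) := by group
    rw [e, hx₀t, htw] at h1
    have : x₀ * (w * w) = x₀ * 1 := by rw [mul_one, ← mul_assoc]; exact h1
    exact mul_left_cancel this
  have hwinv : w⁻¹ = w := by rw [inv_eq_iff_mul_eq_one]; exact hw2
  -- `w ≠ 1`
  have hw1 : w ≠ 1 := by
    intro h1
    apply hna
    apply X.a_central_of ht₀P ht₀A
    intro x hx
    by_cases hxD : x ∈ D
    · exact ht₀D x hxD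
    · have h2 : x₀⁻¹ * x ∈ D := (hidx x₀⁻¹ (A.inv_mem hx₀A) x hx).2
        ⟨fun h => absurd (by simpa using D.inv_mem h) hx₀D, fun h => absurd h hxD⟩
      have h3 := ht₀D _ h2
      have e : t₀ * x * t₀⁻¹ = (t₀ * x₀ * t₀⁻¹) * (t₀ * (x₀⁻¹ * x) * t₀⁻¹) := by group
      rw [e, h3, hx₀t, h1]; group
  -- `w` central in `A`.
  have hwd : ∀ d ∈ D, w * d = d * w := by
    intro d hd
    have hd' : x₀ * d * x₀⁻¹ ∈ D := hnD x₀ (X.hAP hx₀A) d hd
    have h1 := ht₀D _ hd'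
    have h2 := ht₀D _ hd
    -- t₀ (x₀ d x₀⁻¹ · x₀) t₀⁻¹ computed two ways
    have e1 : t₀ * (x₀ * d) * t₀⁻¹ = (t₀ * (x₀ * d * x₀⁻¹) * t₀⁻¹) * (t₀ * x₀ * t₀⁻¹) := by group
    have e2 : t₀ * (x₀ * d) * t₀⁻¹ = (t₀ * x₀ * t₀⁻¹) * (t₀ * d * t₀⁻¹) := by group
    rw [e2, h2, hx₀t, h1] at e1
    have : x₀ * (w * d) = x₀ * (d * w) := by
      calc x₀ * (w * d) = x₀ * w * d := by group
        _ = x₀ * d * x₀⁻¹ * (x₀ * w) := e1
        _ = x₀ * (d * w) := by group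
    exact mul_left_cancel this
  have hwx₀ : w * x₀ = x₀ * w := by
    have h2 : x₀ * x₀ ∈ D := (hidx x₀ hx₀A x₀ hx₀A).2 ⟨fun h => h, fun h => h⟩
    have h3 := ht₀D _ h2
    have e : t₀ * (x₀ * x₀) * t₀⁻¹ = (t₀ * x₀ * t₀⁻¹) * (t₀ * x₀ * t₀⁻¹) := by group
    rw [e, hx₀t] at h3
    have h4 : x₀ * (w * x₀ * w) = x₀ * x₀ := by rw [← h3]; group
    have h5 := mul_left_cancel h4
    calc w * x₀ = (w * x₀ * w) * w⁻¹ := by group
      _ = x₀ * w := by rw [h5, hwinv]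
  have hwc : ∀ x ∈ A, w * x = x * w := by
    intro x hx
    by_cases hxD : x ∈ D
    · exact hwd x hxD
    · have h2 : x₀⁻¹ * x ∈ D := (hidx x₀⁻¹ (A.inv_mem hx₀A) x hx).2
        ⟨fun h => absurd (by simpa using D.inv_mem h) hx₀D, fun h => absurd h hxD⟩
      have h3 := hwd _ h2
      calc w * x = w * x₀ * (x₀⁻¹ * x) := by group
        _ = x₀ * (w * (x₀⁻¹ * x)) := by rw [hwx₀]; group
        _ = x₀ * ((x₀⁻¹ * x) * w) := by rw [h3]
        _ = x * w := by group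
  -- action of `t₀`
  have hact : ∀ x ∈ A, x ∉ D → t₀ * x * t₀⁻¹ = x * w := by
    intro x hx hxD
    have h2 : x₀⁻¹ * x ∈ D := (hidx x₀⁻¹ (A.inv_mem hx₀A) x hx).2
      ⟨fun h => absurd (by simpa using D.inv_mem h) hx₀D, fun h => absurd h hxD⟩
    have h3 := ht₀D _ h2
    have e : t₀ * x * t₀⁻¹ = (t₀ * x₀ * t₀⁻¹) * (t₀ * (x₀⁻¹ * x) * t₀⁻¹) := by group
    rw [e, h3, hx₀t]
    calc x₀ * w * (x₀⁻¹ * x) = x₀ * (w * (x₀⁻¹ * x)) := by group
      _ = x₀ * ((x₀⁻¹ * x) * w) := by rw [hwc _ (A.mul_mem (A.inv_mem hx₀A) hx)]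
      _ = x * w := by group
  -- conjugates
  set w₁ := a * w * a⁻¹ with hw₁
  have haH := X.ha
  have hainvH := H.inv_mem haH
  have hw₁A : w₁ ∈ A := X.hAn a haH w hwA
  have hw₁2 : w₁ * w₁ = 1 := by
    rw [hw₁]
    calc a * w * a⁻¹ * (a * w * a⁻¹) = a * (w * w) * a⁻¹ := by group
      _ = 1 := by rw [hw2]; group
  have hcentral_a : ∀ z, (∀ x ∈ A, z * x = x * z) → ∀ x ∈ A, (a * z * a⁻¹) * x = x * (a * z * a⁻¹) := by
    intro z hz x hx
    have h1 := hz _ (X.hAn a⁻¹ hainvH x hx)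
    calc a * z * a⁻¹ * x = a * (z * (a⁻¹ * x * a⁻¹⁻¹)) * a⁻¹ := by group
      _ = a * ((a⁻¹ * x * a⁻¹⁻¹) * z) * a⁻¹ := by rw [h1]
      _ = x * (a * z * a⁻¹) := by group
  have hw₁c : ∀ x ∈ A, w₁ * x = x * w₁ := hcentral_a w hwc
  -- `b = t₀ t₁`
  set t₁ := a * t₀ * a⁻¹ with ht₁
  obtain ⟨γ, hγ, e⟩ := X.exists_gamma ht₀P ht₀A
  have hb : t₀ * t₁ = γ⁻¹ * (a ^ 2)⁻¹ := by rw [e, ht₁]; group
  have hbz : ∀ z, z ∈ A → (∀ x ∈ A, z * x = x * z) → t₀ * (t₁ * z * t₁⁻¹) * t₀⁻¹ = (a ^ 2)⁻¹ * z * a ^ 2 := by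
    intro z hzA hz
    have h1 : (t₀ * t₁) * z * (t₀ * t₁)⁻¹ = γ⁻¹ * ((a ^ 2)⁻¹ * z * a ^ 2) * γ := by
      rw [hb]; group
    have h2 : (a ^ 2)⁻¹ * z * a ^ 2 ∈ A := by
      have := X.hAn _ (H.inv_mem (H.pow_mem haH 2)) z hzA
      simpa using this
    have h3 : ∀ x ∈ A, ((a ^ 2)⁻¹ * z * a ^ 2) * x = x * ((a ^ 2)⁻¹ * z * a ^ 2) := by
      intro x hx
      have h4 := hz _ (X.hAn (a ^ 2) (H.pow_mem haH 2) x hx)
      calc (a ^ 2)⁻¹ * z * a ^ 2 * x = (a ^ 2)⁻¹ * (z * (a ^ 2 * x * (a ^ 2)⁻¹)) * a ^ 2 := by group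
        _ = (a ^ 2)⁻¹ * ((a ^ 2 * x * (a ^ 2)⁻¹) * z) * a ^ 2 := by rw [h4]
        _ = x * ((a ^ 2)⁻¹ * z * a ^ 2) := by group
    have h5 := h3 _ (A.inv_mem hγ)
    have h6 : γ⁻¹ * ((a ^ 2)⁻¹ * z * a ^ 2) * γ = (a ^ 2)⁻¹ * z * a ^ 2 := by
      rw [← h5]; group
    rw [h6] at h1
    rw [← h1]; group
  have ht₁w₁ : t₁ * w₁ * t₁⁻¹ = w₁ := by
    rw [ht₁, hw₁]
    calc a * t₀ * a⁻¹ * (a * w * a⁻¹) * (a * t₀ * a⁻¹)⁻¹ = a * (t₀ * w * t₀⁻¹) * a⁻¹ := by group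
      _ = a * w * a⁻¹ := by rw [htw]
  have hkey := hbz w₁ hw₁A hw₁c
  rw [ht₁w₁] at hkey
  have hkey2 : (a ^ 2)⁻¹ * w₁ * a ^ 2 = a⁻¹ * w * a := by
    rw [hw₁, pow_two]; group
  rw [hkey2] at hkey
  -- If `w₁ ∈ D`, contradiction.
  by_cases hw₁D : w₁ ∈ D
  · have h1 : w₁ = a⁻¹ * w * a := by rw [← hkey, ht₀D w₁ hw₁D]
    have h2 : a * a * w * (a * a)⁻¹ = w := by
      have : a * (a * w * a⁻¹) * a⁻¹ = w := by
        rw [← hw₁, h1]; group
      convert this using 1; group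
    have hafix : a * w * a⁻¹ = w := X.fix_of_sq h2
    have hw₁w : w₁ = w := hafix
    -- `Ω = ⟨w⟩`
    have hΩ : ∀ h ∈ H, ∀ ω ∈ Subgroup.zpowers w, h * ω * h⁻¹ ∈ Subgroup.zpowers w := by
      apply X.normal_of ht₀P ht₀A
      · rintro α hα ω ⟨k, rfl⟩
        refine ⟨k, ?_⟩
        have : α * w = w * α := (hwc α hα).symm
        simp only
        have h3 : Commute α w := this
        have h4 := (h3.zpow_right k).eq
        rw [h4]; group
      · rintro ω ⟨k, rfl⟩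
        refine ⟨k, ?_⟩
        simp only
        have h3 : Commute a w := by
          show a * w = w * a
          rw [mul_inv_eq_iff_eq_mul] at hafix; exact hafix
        rw [(h3.zpow_right k).eq]; group
      · rintro ω ⟨k, rfl⟩
        refine ⟨k, ?_⟩
        simp only
        have h3 : Commute t₀ w := by
          show t₀ * w = w * t₀
          rw [mul_inv_eq_iff_eq_mul] at htw; exact htw
        rw [(h3.zpow_right k).eq]; group
    have hact' : ∀ x ∈ A, x⁻¹ * (t₀ * x * t₀⁻¹) ∈ Subgroup.zpowers w := by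
      intro x hx
      by_cases hxD : x ∈ D
      · rw [ht₀D x hxD]; simp
      · rw [hact x hx hxD]
        have : x⁻¹ * (x * w) = w := by group
        rw [this]; exact Subgroup.mem_zpowers w
    have hamod := X.a_mod hΩ ht₀P ht₀A hact'
    apply hna
    intro x hx
    -- `a x a⁻¹ = x ω`, `ω² = 1`, `a ω a⁻¹ = ω`
    obtain ⟨k, hk⟩ := hamod x hx
    simp only at hk
    have hax : a * x * a⁻¹ = x * w ^ k := by rw [hk]; group
    have hak : a * w ^ k * a⁻¹ = w ^ k := by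
      have h3 : Commute a w := by
        show a * w = w * a
        rw [mul_inv_eq_iff_eq_mul] at hafix; exact hafix
      rw [(h3.zpow_right k).eq]; group
    have hk2 : w ^ k * w ^ k = 1 := by
      rw [← zpow_add, ← two_mul, zpow_mul]
      have : w ^ (2 : ℤ) = 1 := by
        rw [show (2 : ℤ) = ((2 : ℕ) : ℤ) by norm_num, zpow_natCast, pow_two]; exact hw2
      rw [this]; simp
    have : (a * a) * x * (a * a)⁻¹ = x := by
      calc (a * a) * x * (a * a)⁻¹ = a * (a * x * a⁻¹) * a⁻¹ := by group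
        _ = a * (x * w ^ k) * a⁻¹ := by rw [hax]
        _ = (a * x * a⁻¹) * (a * w ^ k * a⁻¹) := by group
        _ = x * (w ^ k * w ^ k) := by rw [hax, hak]; group
        _ = x := by rw [hk2]; group
    exact X.fix_of_sq this
  -- Main case.
  have hkey3 : t₀ * w₁ * t₀⁻¹ = w₁ * w := hact w₁ hw₁A hw₁D
  rw [hkey3] at hkey
  have hcommw : w * w₁ = w₁ * w := hwc w₁ hw₁A
  set w₂ := a * w₁ * a⁻¹ with hw₂
  have hw₂e : w₂ = w * w₁ := by
    have h1 : w₁ * w = a⁻¹ * w * a := hkey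
    have h2 : a * (w₁ * w) * a⁻¹ = w := by rw [h1]; group
    have h3 : w₂ * w₁ = w := by
      have e : (a * w₁ * a⁻¹) * (a * w * a⁻¹) = a * (w₁ * w) * a⁻¹ := by group
      rw [← hw₁, ← hw₂] at e
      rw [e, h2]
    calc w₂ = (w₂ * w₁) * w₁ := by
            rw [mul_assoc, hw₁2, mul_one]
      _ = w * w₁ := by rw [h3]
  have hw₁ne : w₁ ≠ w := fun h => hw₁D (h ▸ hwD)
  have hw₁1 : w₁ ≠ 1 := by
    intro h
    apply hw1
    have : w = a⁻¹ * w₁ * a := by rw [hw₁]; group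
    rw [this, h]; group
  -- `a` action on the four elements
  have ha3 : a * (w * w₁) * a⁻¹ = w := by
    have e : a * (w * w₁) * a⁻¹ = (a * w * a⁻¹) * (a * w₁ * a⁻¹) := by group
    rw [e, ← hw₁, ← hw₂, hw₂e]
    calc w₁ * (w * w₁) = w * (w₁ * w₁) := by
          rw [← mul_assoc, ← hcommw, mul_assoc]
      _ = w := by rw [hw₁2, mul_one]
  let ν : Fin 4 → G := ![1, w, w₁, w * w₁]
  have hν0 : ν 0 = 1 := rfl
  have hν1 : ν 1 = w := rfl
  have hν2 : ν 2 = w₁ := rfl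
  have hν3 : ν 3 = w * w₁ := rfl
  -- The subgroup Ω
  have hclosure : ∀ ω ∈ Subgroup.closure ({w, w₁} : Set G), ω = 1 ∨ ω = w ∨ ω = w₁ ∨ ω = w * w₁ := by
    intro ω hω
    have h11 : ∀ z, w * (w * z) = z := fun z => by rw [← mul_assoc, hw2, one_mul]
    have h22 : ∀ z, w₁ * (w₁ * z) = z := fun z => by rw [← mul_assoc, hw₁2, one_mul]
    have hc' : ∀ z, w₁ * (w * z) = w * (w₁ * z) := fun z => by rw [← mul_assoc, ← hcommw, mul_assoc]
    induction hω using Subgroup.closure_induction with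
    | mem x hx =>
      rcases hx with rfl | hx
      · simp
      · right; right; left; exact hx
    | one => simp
    | mul x y _ _ hx hy =>
      rcases hx with rfl | rfl | rfl | rfl <;> rcases hy with rfl | rfl | rfl | rfl <;>
        simp [mul_assoc, hw2, hw₁2, h11, h22, hc', ← hcommw]
    | inv x _ hx =>
      have hwi : w⁻¹ = w := hwinv
      have hw1i : w₁⁻¹ = w₁ := by rw [inv_eq_iff_mul_eq_one]; exact hw₁2
      rcases hx with rfl | rfl | rfl | rfl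
      · simp
      · simp [hwi]
      · simp [hw1i]
      · right; right; right
        rw [mul_inv_rev, hwi, hw1i]; exact hcommw.symm
  set Ω := Subgroup.closure ({w, w₁} : Set G) with hΩd
  have hwΩ : w ∈ Ω := Subgroup.subset_closure (by simp)
  have hw₁Ω : w₁ ∈ Ω := Subgroup.subset_closure (by simp)
  have hΩn : ∀ h ∈ H, ∀ ω ∈ Ω, h * ω * h⁻¹ ∈ Ω := by
    apply X.normal_of ht₀P ht₀A
    · intro α hα ω hω
      rcases hclosure ω hω with rfl | rfl | rfl | rfl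
      · simp [Ω.one_mem]
      · rw [← hwc α hα]; simpa using hwΩ
      · rw [← hw₁c α hα]; simpa using hw₁Ω
      · have e : α * (w * w₁) * α⁻¹ = (α * w * α⁻¹) * (α * w₁ * α⁻¹) := by group
        rw [e, ← hwc α hα, ← hw₁c α hα]
        simpa using Ω.mul_mem hwΩ hw₁Ω
    · intro ω hω
      rcases hclosure ω hω with rfl | rfl | rfl | rfl
      · simp [Ω.one_mem]
      · exact hw₁Ω
      · rw [← hw₂, hw₂e]; exact Ω.mul_mem hwΩ hw₁Ω
      · rw [ha3]; exact hwΩ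
    · intro ω hω
      rcases hclosure ω hω with rfl | rfl | rfl | rfl
      · simp [Ω.one_mem]
      · rw [htw]; exact hwΩ
      · rw [hkey3]; exact Ω.mul_mem hw₁Ω hwΩ
      · have e : t₀ * (w * w₁) * t₀⁻¹ = (t₀ * w * t₀⁻¹) * (t₀ * w₁ * t₀⁻¹) := by group
        rw [e, htw, hkey3]; exact Ω.mul_mem hwΩ (Ω.mul_mem hw₁Ω hwΩ)
  have hact' : ∀ x ∈ A, x⁻¹ * (t₀ * x * t₀⁻¹) ∈ Ω := by
    intro x hx
    by_cases hxD : x ∈ D
    · rw [ht₀D x hxD]; simp [Ω.one_mem]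
    · rw [hact x hx hxD]
      have : x⁻¹ * (x * w) = w := by group
      rw [this]; exact hwΩ
  have hamod := X.a_mod hΩn ht₀P ht₀A hact'
  -- `S = C_A(a)`
  let S : Subgroup G :=
    { carrier := {x | x ∈ A ∧ a * x * a⁻¹ = x}
      one_mem' := ⟨A.one_mem, by simp⟩
      mul_mem' := by
        rintro x x' ⟨hx, h1⟩ ⟨hx', h2⟩
        refine ⟨A.mul_mem hx hx', ?_⟩
        nth_rw 2 [← h1]
        nth_rw 2 [← h2]
        group
      inv_mem' := by
        rintro x ⟨hx, h1⟩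
        refine ⟨A.inv_mem hx, ?_⟩
        nth_rw 2 [← h1]
        group }
  have memS : ∀ x, x ∈ S ↔ x ∈ A ∧ a * x * a⁻¹ = x := fun x => Iff.rfl
  -- every `x ∈ A` moves into `S` by an element of `Ω`.
  have hdec : ∀ x ∈ A, ∃ i : Fin 4, x * ν i ∈ S := by
    intro x hx
    have h1 := hamod x hx
    have hax : ∀ ω, x⁻¹ * (a * x * a⁻¹) = ω → a * x * a⁻¹ = x * ω := by
      intro ω hω; rw [← hω]; group
    rcases hclosure _ h1 with h2 | h2 | h2 | h2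
    · refine ⟨0, ?_⟩
      rw [hν0, mul_one]
      refine ⟨hx, ?_⟩
      rw [hax _ h2]; simp
    · refine ⟨2, ?_⟩
      rw [hν2]
      refine ⟨A.mul_mem hx hw₁A, ?_⟩
      have e : a * (x * w₁) * a⁻¹ = (a * x * a⁻¹) * (a * w₁ * a⁻¹) := by group
      rw [e, hax _ h2, ← hw₂, hw₂e]
      calc x * w * (w * w₁) = x * (w * w) * w₁ := by group
        _ = x * w₁ := by rw [hw2]; group
    · refine ⟨3, ?_⟩
      rw [hν3]
      refine ⟨A.mul_mem hx (A.mul_mem hwA hw₁A), ?_⟩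
      have e : a * (x * (w * w₁)) * a⁻¹ = (a * x * a⁻¹) * (a * (w * w₁) * a⁻¹) := by group
      rw [e, hax _ h2, ha3]
      calc x * w₁ * w = x * (w₁ * w) := by group
        _ = x * (w * w₁) := by rw [hcommw]
    · refine ⟨1, ?_⟩
      rw [hν1]
      refine ⟨A.mul_mem hx hwA, ?_⟩
      have e : a * (x * w) * a⁻¹ = (a * x * a⁻¹) * (a * w * a⁻¹) := by group
      rw [e, hax _ h2, ← hw₁]
      calc x * (w * w₁) * w₁ = x * w * (w₁ * w₁) := by group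
        _ = x * w := by rw [hw₁2]; group
  -- Size of `S`
  have hcardS : Nat.card A ≤ Nat.card S * 4 := by
    choose! f hf using hdec
    have := Nat.card_le_card_of_injective (α := A) (β := S × Fin 4)
      (fun x => (⟨x.1 * ν (f x.1), hf x.1 x.2⟩, f x.1)) (by
        rintro ⟨x, hx⟩ ⟨x', hx'⟩ h
        have h1 := congrArg (fun p => p.2) h
        have h2 := congrArg (fun p => (p.1 : S).1) h
        simp only at h1 h2
        have h3 : x * ν (f x) = x' * ν (f x) := by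
          rw [h2, h1]
        have := mul_right_cancel h3
        exact Subtype.ext this)
    rw [Nat.card_prod, Nat.card_fin] at this
    exact this
  -- central elements of `Ω`
  have hνc : ∀ i x, x ∈ A → x * ν i = ν i * x := by
    intro i x hx
    fin_cases i
    · simp [hν0]
    · exact (hwc x hx).symm
    · exact (hw₁c x hx).symm
    · show x * (w * w₁) = (w * w₁) * x
      calc x * (w * w₁) = (x * w) * w₁ := by group
        _ = (w * x) * w₁ := by rw [hwc x hx]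
        _ = w * (x * w₁) := by group
        _ = w * (w₁ * x) := by rw [hw₁c x hx]
        _ = w * w₁ * x := by group
  -- Inner action of `A` preserves `S`.
  have hinn : ∀ α ∈ A, ∀ s ∈ S, α * s * α⁻¹ ∈ S := by
    intro α hα s hs
    obtain ⟨i, hi⟩ := hdec α hα
    have hsA : s ∈ A := hs.1
    have e : α * s * α⁻¹ = (α * ν i) * s * (α * ν i)⁻¹ := by
      have h1 := hνc i s hsA
      calc α * s * α⁻¹ = α * (s * ν i) * (ν i)⁻¹ * α⁻¹ := by group
        _ = α * (ν i * s) * (ν i)⁻¹ * α⁻¹ := by rw [h1]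
        _ = (α * ν i) * s * (α * ν i)⁻¹ := by group
    rw [e]
    exact S.mul_mem (S.mul_mem hi hs) (S.inv_mem hi)
  -- `S ≤ D`
  have hSD : S ≤ D := by
    intro s hs
    by_contra hsD
    have hsA : s ∈ A := hs.1
    have hsa : a * s * a⁻¹ = s := hs.2
    have h1 := hact s hsA hsD
    -- action of `t₁`
    have hs' : t₁ * s * t₁⁻¹ = s * w₁ := by
      have h2 : t₁ * s * t₁⁻¹ = a * (t₀ * (a⁻¹ * s * a) * t₀⁻¹) * a⁻¹ := by rw [ht₁]; group
      have h3 : a⁻¹ * s * a = s := by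
        nth_rw 1 [← hsa]; group
      rw [h2, h3, h1]
      calc a * (s * w) * a⁻¹ = (a * s * a⁻¹) * (a * w * a⁻¹) := by group
        _ = s * w₁ := by rw [hsa]
    have h4 : (t₀ * t₁) * s * (t₀ * t₁)⁻¹ = s * w₁ := by
      have e : (t₀ * t₁) * s * (t₀ * t₁)⁻¹ = t₀ * (t₁ * s * t₁⁻¹) * t₀⁻¹ := by group
      rw [e, hs']
      have e2 : t₀ * (s * w₁) * t₀⁻¹ = (t₀ * s * t₀⁻¹) * (t₀ * w₁ * t₀⁻¹) := by group
      rw [e2, h1, hkey3]
      calc s * w * (w₁ * w) = s * (w * (w₁ * w)) := by group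
        _ = s * (w * (w * w₁)) := by rw [← hcommw]
        _ = s * ((w * w) * w₁) := by group
        _ = s * w₁ := by rw [hw2]; group
    have h5 : (a ^ 2)⁻¹ * s * a ^ 2 = s := by
      have h3 : a⁻¹ * s * a = s := by
        nth_rw 1 [← hsa]; group
      calc (a ^ 2)⁻¹ * s * a ^ 2 = a⁻¹ * (a⁻¹ * s * a) * a := by rw [pow_two]; group
        _ = s := by rw [h3, h3]
    have h6 : γ⁻¹ * s * γ = s * w₁ := by
      rw [← h4, hb]
      calc γ⁻¹ * s * γ = γ⁻¹ * ((a ^ 2)⁻¹ * s * a ^ 2) * γ := by rw [h5]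
        _ = γ⁻¹ * (a ^ 2)⁻¹ * s * (γ⁻¹ * (a ^ 2)⁻¹)⁻¹ := by group
    have h7 : γ⁻¹ * s * γ ∈ S := by
      have := hinn γ⁻¹ (A.inv_mem hγ) s hs
      simpa using this
    rw [h6] at h7
    have h8 : w₁ ∈ S := by
      have := S.mul_mem (S.inv_mem hs) h7
      simpa using this
    have h9 : a * w₁ * a⁻¹ = w₁ := h8.2
    rw [← hw₂, hw₂e] at h9
    apply hw1
    have : w * w₁ * w₁⁻¹ = w₁ * w₁⁻¹ := by rw [h9]
    simpa using this
  -- `S` normal in `P`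
  have hSP : ∀ p ∈ P, ∀ s ∈ S, p * s * p⁻¹ ∈ S := by
    intro p hp s hs
    by_cases hpA : p ∈ A
    · exact hinn p hpA s hs
    · have e := (idx2 X.hAP X.hPc t₀⁻¹ (P.inv_mem ht₀P) p hp).2
        ⟨fun h' => absurd (by simpa using A.inv_mem h') ht₀A, fun h' => absurd h' hpA⟩
      have h1 := hinn _ e s hs
      have h2 := ht₀D _ (hSD h1)
      have e2 : p * s * p⁻¹ = t₀ * ((t₀⁻¹ * p) * s * (t₀⁻¹ * p)⁻¹) * t₀⁻¹ := by group
      rw [e2, h2]; exact h1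
  have hSA : S ≤ A := fun x hx => hx.1
  have hSP' : S ≤ P := hSA.trans X.hAP
  -- `E = S ∩ y S y⁻¹ = 1`
  have hE : S ⊓ cnj y S = ⊥ := by
    apply X.hyQ _ (inf_le_left.trans hSP')
    · apply X.normal_of ht₀P ht₀A
      · intro α hα x hx
        refine ⟨hinn α hα x hx.1, ?_⟩
        show α * x * α⁻¹ ∈ cnj y S
        rw [mem_cnj]
        have h1 := hSP _ (X.yinvP (X.hAP hα)) _ (mem_cnj.1 hx.2)
        convert h1 using 1; group
      · intro x hx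
        rw [hx.1.2]; exact hx
      · intro x hx
        rw [ht₀D x (hSD hx.1)]; exact hx
    · intro x hx
      refine ⟨?_, conj_mem_cnj hx.1⟩
      have h1 := mem_cnj.1 hx.2
      have h2 := X.y2_mem hSP' hSP h1
      have e : y * x * y⁻¹ = (y * y) * (y⁻¹ * x * y) * (y * y)⁻¹ := by group
      show y * x * y⁻¹ ∈ S
      rw [e]; exact h2
  have hS'D : cnj y S ≤ D := by
    intro x hx
    have h1 := hSD (mem_cnj.1 hx)
    have := X.yD h1
    convert this using 1; group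
  have hfinal := card_mul_le_of_disjoint hSD hS'D hE
  rw [card_cnj] at hfinal
  have h16 : Nat.card D = 16 := by omega
  rw [h16] at hfinal
  rw [hcard] at hcardS
  nlinarith

end Ctx
end Cfsg.Agent.H12.Tut
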