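import Cfsg.Agent.Lib.H12.Tut4

set_option autoImplicit false
set_option linter.unusedVariables false
set_option linter.unusedSectionVars false

open Pointwise

namespace Cfsg.Agent.H12.Tut

variable {G : Type*} [Group G] [Finite G]

omit [Finite G] in
theorem closure_conj {S : Set G} {k : G} (h : ∀ g ∈ S, k * g * k⁻¹ ∈ Subgroup.closure S) :
    ∀ z ∈ Subgroup.closure S, k * z * k⁻¹ ∈ Subgroup.closure S := by
  intro z hz
  induction hz using Subgroup.closure_induction with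
  | mem x hx => exact h x hx
  | one => simp [Subgroup.one_mem]
  | mul x y _ _ hx hy =>
    have := Subgroup.mul_mem _ hx hy
    convert this using 1; group
  | inv x _ hx =>
    have := Subgroup.inv_mem _ hx
    convert this using 1; group

namespace Ctx

variable {A P H : Subgroup G} {a y : G} (X : Ctx A P H a y)
include X

theorem exists_not_A : ∃ t ∈ cnj y A, t ∉ A := X.exists_BA

theorem a_pred : a ^ (orderOf a - 1) = a⁻¹ := by
  have hm : 0 < orderOf a := by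
    have := X.hodd
    rcases this with ⟨k, hk⟩; omega
  have : a ^ (orderOf a - 1) * a = 1 := by
    rw [← pow_succ, Nat.sub_add_cancel hm, pow_orderOf_eq_one]
  exact eq_inv_of_mul_eq_one_left this

/-- Sub-case (ii). -/
theorem sub2 (hcard : Nat.card A = 32) (hna : ¬ ∀ x ∈ A, a * x * a⁻¹ = x) {c : G} (hc : c ∈ Ctx.Cc P H) (hc1 : c ≠ 1)
    (hc2 : c * c = 1) (hv : ∀ n : ℕ, a ^ n * (y * c * y⁻¹) * (a ^ n)⁻¹ ∈ cnj y A) : False := by
  classical
  set B := cnj y A with hB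
  set D := A ⊓ B with hD
  have hcAD : Nat.card A = 2 * Nat.card D := X.cardAD
  have hDA : D ≤ A := inf_le_left
  have hcP : c ∈ P := (memCc.1 hc).1
  have hcH : ∀ h ∈ H, h * c * h⁻¹ = c := (memCc.1 hc).2
  have hcA : c ∈ A := X.zA hna hcP (X.Cc_central hc)
  have hcD : c ∈ D := X.zD hna hcP (X.Cc_central hc)
  set c' := y * c * y⁻¹ with hc'
  have hc'P : c' ∈ P := (X.hyP c).1 hcP
  have hc'cent : ∀ p ∈ P, p * c' * p⁻¹ = c' := by
    intro p hp
    have h1 := X.Cc_central hc _ (X.yinvP hp)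
    rw [hc']
    calc p * (y * c * y⁻¹) * p⁻¹ = y * ((y⁻¹ * p * y) * c * (y⁻¹ * p * y)⁻¹) * y⁻¹ := by group
      _ = y * c * y⁻¹ := by rw [h1]
  have hc'D : c' ∈ D := X.zD hna hc'P hc'cent
  have hc'2 : c' * c' = 1 := by
    rw [hc']
    calc y * c * y⁻¹ * (y * c * y⁻¹) = y * (c * c) * y⁻¹ := by group
      _ = 1 := by rw [hc2]; group
  have hc'A : c' ∈ A := hDA hc'D
  have hanot : a * c' * a⁻¹ ≠ c' := by
    intro h
    have hcc : c' ∈ Ctx.Cc P H := by
      rw [memCc]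
      refine ⟨hc'P, ?_⟩
      intro u hu
      obtain ⟨i, p, hp, rfl⟩ := X.hgen u hu
      have h1 : ∀ i : ℕ, a ^ i * c' * (a ^ i)⁻¹ = c' := by
        intro i
        induction i with
        | zero => simp
        | succ i ih =>
          calc a ^ (i + 1) * c' * (a ^ (i + 1))⁻¹ = a ^ i * (a * c' * a⁻¹) * (a ^ i)⁻¹ := by
                rw [pow_succ]; group
            _ = c' := by rw [h, ih]
      calc a ^ i * p * c' * (a ^ i * p)⁻¹ = a ^ i * (p * c' * p⁻¹) * (a ^ i)⁻¹ := by group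
        _ = c' := by rw [hc'cent p hp, h1]
    exact hc1 (X.Cc_y hc hcc)
  -- the v's
  let v : ℕ → G := fun n => a ^ n * c' * (a ^ n)⁻¹
  have hvdef : ∀ n, v n = a ^ n * c' * (a ^ n)⁻¹ := fun n => rfl
  have hv0 : v 0 = c' := by simp [hvdef]
  have hvs : ∀ n, v (n + 1) = a * v n * a⁻¹ := by
    intro n; rw [hvdef, hvdef, pow_succ']; group
  have hvp : ∀ n, a⁻¹ * v n * a = v (orderOf a - 1 + n) := by
    intro n
    rw [hvdef, hvdef, pow_add, X.a_pred]; group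
  have hHn : ∀ n, a ^ n ∈ H := fun n => H.pow_mem X.ha n
  have hvA : ∀ n, v n ∈ A := fun n => X.hAn _ (hHn n) _ hc'A
  have hvc : ∀ n, ∀ x ∈ A, v n * x = x * v n := by
    intro n x hx
    have h1 := hc'cent _ (X.hAP (X.hAn _ (H.inv_mem (hHn n)) x hx))
    rw [inv_inv] at h1
    rw [hvdef]
    have h2 : c' * ((a ^ n)⁻¹ * x * a ^ n) = ((a ^ n)⁻¹ * x * a ^ n) * c' := by
      rw [mul_inv_eq_iff_eq_mul] at h1
      exact h1.symm
    calc a ^ n * c' * (a ^ n)⁻¹ * x = a ^ n * (c' * ((a ^ n)⁻¹ * x * a ^ n)) * (a ^ n)⁻¹ := by group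
      _ = a ^ n * (((a ^ n)⁻¹ * x * a ^ n) * c') * (a ^ n)⁻¹ := by rw [h2]
      _ = x * (a ^ n * c' * (a ^ n)⁻¹) := by group
  have hv2 : ∀ n, v n * v n = 1 := by
    intro n
    rw [hvdef]
    calc a ^ n * c' * (a ^ n)⁻¹ * (a ^ n * c' * (a ^ n)⁻¹) = a ^ n * (c' * c') * (a ^ n)⁻¹ := by group
      _ = 1 := by rw [hc'2]; group
  have hvB : ∀ n, v n ∈ B := hv
  have hvD : ∀ n, v n ∈ D := fun n => ⟨hvA n, hvB n⟩
  have hcc : ∀ x ∈ A, c * x = x * c := by
    intro x hx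
    have := hcH x (X.hPH (X.hAP hx))
    rw [mul_inv_eq_iff_eq_mul] at this
    exact this.symm
  -- V₀
  set gens : Set G := {c} ∪ Set.range v with hgens
  set V₀ := Subgroup.closure gens with hV₀
  have hcV : c ∈ V₀ := Subgroup.subset_closure (Or.inl rfl)
  have hvV : ∀ n, v n ∈ V₀ := fun n => Subgroup.subset_closure (Or.inr ⟨n, rfl⟩)
  have hZA : ∀ z ∈ V₀, z ∈ A ∧ (∀ x ∈ A, z * x = x * z) ∧ z * z = 1 := by
    intro z hz
    induction hz using Subgroup.closure_induction with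
    | mem x hx =>
      rcases hx with rfl | ⟨n, rfl⟩
      · exact ⟨hcA, hcc, hc2⟩
      · exact ⟨hvA n, hvc n, hv2 n⟩
    | one => exact ⟨A.one_mem, by simp, by simp⟩
    | mul x z _ _ hx hz =>
      refine ⟨A.mul_mem hx.1 hz.1, ?_, ?_⟩
      · intro u hu
        rw [mul_assoc, hz.2.1 u hu, ← mul_assoc, hx.2.1 u hu, mul_assoc]
      · have h1 := hx.2.1 z hz.1
        calc x * z * (x * z) = x * (z * x) * z := by group
          _ = x * (x * z) * z := by rw [← h1]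
          _ = (x * x) * (z * z) := by group
          _ = 1 := by rw [hx.2.2, hz.2.2]; simp
    | inv x _ hx =>
      have hi : x⁻¹ = x := by rw [inv_eq_iff_mul_eq_one]; exact hx.2.2
      rw [hi]; exact hx
  have hV₀D : V₀ ≤ D := by
    rw [hV₀, Subgroup.closure_le]
    rintro x (rfl | ⟨n, rfl⟩)
    · exact hcD
    · exact hvD n
  -- D₁
  set D₁ := cnj a D with hD₁
  have hcapoint : a⁻¹ * c * a = c := by
    have := hcH a⁻¹ (H.inv_mem X.ha)
    simpa using this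
  have hV₀D₁ : V₀ ≤ D₁ := by
    rw [hV₀, Subgroup.closure_le]
    rintro x (rfl | ⟨n, rfl⟩)
    · show _ ∈ cnj a D
      rw [mem_cnj, hcapoint]; exact hcD
    · show _ ∈ cnj a D
      rw [mem_cnj, hvp]; exact hvD _
  obtain ⟨t, htB, htA⟩ := X.exists_BA
  have htP : t ∈ P := X.B_le htB
  have htH : t ∈ H := X.hPH htP
  -- action of t on the v's
  have htc : t * c * t⁻¹ = c := hcH t htH
  have htc' : t * c' * t⁻¹ = c' := hc'cent t htP
  have hβ := X.hinv t htP htA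
  have htv1 : ∀ n, t * (a * v n * a⁻¹) * t⁻¹ = t * (a * (t⁻¹ * (t * v n * t⁻¹) * t) * a⁻¹) * t⁻¹ := by
    intro n; group
  have htv : ∀ n : ℕ, ∃ N, t * v n * t⁻¹ = v N := by
    intro n
    induction n with
    | zero => exact ⟨0, by rw [hv0, htc']⟩
    | succ n ih =>
      obtain ⟨N, hN⟩ := ih
      refine ⟨orderOf a - 1 + N, ?_⟩
      rw [hvs]
      have e : t * (a * v n * a⁻¹) * t⁻¹ = (t * a * t⁻¹ * a) * (a⁻¹ * (t * v n * t⁻¹) * a) * (t * a * t⁻¹ * a)⁻¹ := by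
        group
      rw [e, hN, hvp, mul_inv_eq_iff_eq_mul]
      exact (hvc _ _ hβ).symm
  have htv_not : t * v 1 * t⁻¹ ≠ v 1 := by
    intro h
    have e : t * v 1 * t⁻¹ = (t * a * t⁻¹ * a) * (a⁻¹ * c' * a) * (t * a * t⁻¹ * a)⁻¹ := by
      have h1 : v 1 = a * c' * a⁻¹ := by rw [hvdef]; simp
      rw [h1]
      calc t * (a * c' * a⁻¹) * t⁻¹ = (t * a * t⁻¹ * a) * (a⁻¹ * (t * c' * t⁻¹) * a) * (t * a * t⁻¹ * a)⁻¹ := by group
        _ = _ := by rw [htc']
    have hp : a⁻¹ * c' * a = v (orderOf a - 1 + 0) := by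
      rw [← hvp, hv0]
    rw [hp] at e
    have e2 : (t * a * t⁻¹ * a) * v (orderOf a - 1 + 0) * (t * a * t⁻¹ * a)⁻¹ = v (orderOf a - 1 + 0) := by
      rw [mul_inv_eq_iff_eq_mul]
      exact (hvc _ _ hβ).symm
    rw [e2, ← hp, h] at e
    have h1 : v 1 = a * c' * a⁻¹ := by rw [hvdef]; simp
    rw [h1] at e
    apply hanot
    apply X.fix_of_sq
    calc a * a * c' * (a * a)⁻¹ = a * (a * c' * a⁻¹) * a⁻¹ := by group
      _ = a * (a⁻¹ * c' * a) * a⁻¹ := by rw [e]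
      _ = c' := by group
  -- cardinality of V₀
  have h8 : 8 ≤ Nat.card V₀ := by
    set W₁ := Subgroup.zpowers c with hW₁
    set W₂ := W₁ ⊔ Subgroup.zpowers c' with hW₂
    set W₃ := W₂ ⊔ Subgroup.zpowers (v 1) with hW₃
    have h1 : 2 ≤ Nat.card W₁ := by
      have := two_le_of_lt (U := ⊥) (V := W₁) bot_le ⟨c, Subgroup.mem_zpowers c, by simpa using hc1⟩
      simpa using this
    have h2 : 2 * Nat.card W₁ ≤ Nat.card W₂ := by
      refine two_le_of_lt le_sup_left ⟨c', (le_sup_right : Subgroup.zpowers c' ≤ W₂) (Subgroup.mem_zpowers c'), ?_⟩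
      intro h
      have hle : W₁ ≤ Subgroup.centralizer ({a} : Set G) := by
        rw [hW₁, Subgroup.zpowers_le, Subgroup.mem_centralizer_iff]
        intro g hg
        rw [Set.mem_singleton_iff.1 hg]
        have := hcH a X.ha
        rw [mul_inv_eq_iff_eq_mul] at this
        exact this
      have := Subgroup.mem_centralizer_iff.1 (hle h) a rfl
      apply hanot
      rw [mul_inv_eq_iff_eq_mul]
      exact this
    have h3 : 2 * Nat.card W₂ ≤ Nat.card W₃ := by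
      refine two_le_of_lt le_sup_left ⟨v 1, (le_sup_right : Subgroup.zpowers (v 1) ≤ W₃) (Subgroup.mem_zpowers _), ?_⟩
      intro h
      have hle : W₂ ≤ Subgroup.centralizer ({t} : Set G) := by
        rw [hW₂, sup_le_iff, hW₁, Subgroup.zpowers_le, Subgroup.zpowers_le]
        constructor
        · rw [Subgroup.mem_centralizer_iff]
          intro g hg
          rw [Set.mem_singleton_iff.1 hg]
          rw [mul_inv_eq_iff_eq_mul] at htc
          exact htc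
        · rw [Subgroup.mem_centralizer_iff]
          intro g hg
          rw [Set.mem_singleton_iff.1 hg]
          rw [mul_inv_eq_iff_eq_mul] at htc'
          exact htc'
      have := Subgroup.mem_centralizer_iff.1 (hle h) t rfl
      apply htv_not
      rw [mul_inv_eq_iff_eq_mul]
      exact this
    have h4 : W₃ ≤ V₀ := by
      rw [hW₃, sup_le_iff, hW₂, sup_le_iff, hW₁, Subgroup.zpowers_le, Subgroup.zpowers_le, Subgroup.zpowers_le]
      refine ⟨⟨hcV, ?_⟩, hvV 1⟩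
      rw [← hv0]; exact hvV 0
    have h5 := Nat.le_of_dvd Nat.card_pos (Subgroup.card_dvd_of_le h4)
    omega
  -- V₀ normal in H
  have hV₀n : ∀ h ∈ H, ∀ z ∈ V₀, h * z * h⁻¹ ∈ V₀ := by
    apply X.normal_of htP htA
    · intro α hα z hz
      have := (hZA z hz).2.1 α hα
      rw [← this]; simpa using hz
    · apply closure_conj
      rintro g (rfl | ⟨n, rfl⟩)
      · rw [hcH a X.ha]; exact hcV
      · rw [← hvs]; exact hvV _
    · apply closure_conj
      rintro g (rfl | ⟨n, rfl⟩)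
      · rw [htc]; exact hcV
      · obtain ⟨N, hN⟩ := htv n
        rw [hN]; exact hvV N
  -- D ≠ D₁
  have hcD16 : Nat.card D = 16 := by omega
  have hDne : D ≠ D₁ := by
    intro h
    have hbot : D = ⊥ := by
      apply X.hyQ D (hDA.trans X.hAP)
      · apply X.normal_of htP htA
        · intro α hα z hz; exact X.nD α (X.hAP hα) z hz
        · intro z hz
          have : a * z * a⁻¹ ∈ D₁ := conj_mem_cnj hz
          rwa [← h] at this
        · intro z hz; exact X.nD t htP z hz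
      · intro z hz; exact X.yD hz
    rw [hbot] at hcD16
    simp at hcD16
  have hD₁A : D₁ ≤ A := by
    intro z hz
    have h1 := hDA (mem_cnj.1 hz)
    have h2 := X.hAn a X.ha _ h1
    convert h2 using 1; group
  have hcD₁ : Nat.card D₁ = 16 := by rw [hD₁, card_cnj, hcD16]
  have hinter : Nat.card D = 2 * Nat.card ↥(D ⊓ D₁) :=
    card_inf_of_idx2 hDA hD₁A hcAD (by omega) hDne
  have hV₀eq : V₀ = D ⊓ D₁ := by
    apply Subgroup.eq_of_le_of_card_ge (le_inf hV₀D hV₀D₁)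
    omega
  have hmemV : ∀ z, z ∈ D → z ∈ D₁ → z ∈ V₀ := by
    intro z h1 h2; rw [hV₀eq]; exact ⟨h1, h2⟩
  have hcV₀ : Nat.card V₀ = 8 := by
    rw [hV₀eq]; omega
  -- e₀
  obtain ⟨e₀, he₀, he₀V⟩ : ∃ e ∈ cnj y V₀, e ∉ V₀ := by
    by_contra hcon
    push Not at hcon
    have heq : cnj y V₀ = V₀ := Subgroup.eq_of_le_of_card_ge hcon (by rw [card_cnj])
    have hbot : V₀ = ⊥ := by
      apply X.hyQ V₀ (hV₀D.trans (hDA.trans X.hAP)) hV₀n
      intro z hz
      have : y * z * y⁻¹ ∈ cnj y V₀ := conj_mem_cnj hz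
      rwa [heq] at this
    rw [hbot] at hcV
    exact hc1 (by simpa using hcV)
  have he₀y : y⁻¹ * e₀ * y ∈ V₀ := mem_cnj.1 he₀
  have he₀D : e₀ ∈ D := by
    have := X.yD (hV₀D he₀y)
    convert this using 1; group
  have he₀2 : e₀ * e₀ = 1 := by
    have h1 := (hZA _ he₀y).2.2
    have h2 : e₀ = y * (y⁻¹ * e₀ * y) * y⁻¹ := by group
    rw [h2]
    calc y * (y⁻¹ * e₀ * y) * y⁻¹ * (y * (y⁻¹ * e₀ * y) * y⁻¹) = y * ((y⁻¹ * e₀ * y) * (y⁻¹ * e₀ * y)) * y⁻¹ := by group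
      _ = 1 := by rw [h1]; group
  have he₀D₁ : e₀ ∉ D₁ := fun h => he₀V (hmemV e₀ he₀D h)
  set e₁ := a * e₀ * a⁻¹ with he₁
  set e₂ := a * e₁ * a⁻¹ with he₂
  have he₁D₁ : e₁ ∈ D₁ := conj_mem_cnj he₀D
  have hinvH := H.inv_mem X.ha
  have hV₀ainv : ∀ z, a * z * a⁻¹ ∈ V₀ → z ∈ V₀ := by
    intro z hz
    have := hV₀n a⁻¹ hinvH _ hz
    convert this using 1; group
  have he₁V : e₁ ∉ V₀ := fun h => he₀V (hV₀ainv _ h)
  have he₂V : e₂ ∉ V₀ := fun h => he₁V (hV₀ainv _ h)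
  have he₁D : e₁ ∉ D := fun h => he₁V (hmemV _ h he₁D₁)
  have he₂D₁ : e₂ ∉ D₁ := by
    intro h
    apply he₁D
    have := mem_cnj.1 h
    convert this using 1
    rw [he₂]; group
  have he₀A : e₀ ∈ A := hDA he₀D
  have he₁A : e₁ ∈ A := X.hAn a X.ha _ he₀A
  have he₂A : e₂ ∈ A := X.hAn a X.ha _ he₁A
  have he₁2 : e₁ * e₁ = 1 := by
    rw [he₁]
    calc a * e₀ * a⁻¹ * (a * e₀ * a⁻¹) = a * (e₀ * e₀) * a⁻¹ := by group
      _ = 1 := by rw [he₀2]; group
  have he₂2 : e₂ * e₂ = 1 := by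
    rw [he₂]
    calc a * e₁ * a⁻¹ * (a * e₁ * a⁻¹) = a * (e₁ * e₁) * a⁻¹ := by group
      _ = 1 := by rw [he₁2]; group
  have he₂D : e₂ ∉ D := by
    intro h
    have hV2 : Nat.card D = 2 * Nat.card V₀ := by omega
    have h1 : e₀⁻¹ * e₂ ∈ V₀ := (idx2 hV₀D hV2 e₀⁻¹ (D.inv_mem he₀D) e₂ h).2
      ⟨fun h' => absurd (by simpa using V₀.inv_mem h') he₀V, fun h' => absurd h' he₂V⟩
    have hpow : ∀ k : ℕ, ∃ ν ∈ V₀, (a * a) ^ k * e₀ * ((a * a) ^ k)⁻¹ = e₀ * ν := by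
      intro k
      induction k with
      | zero => exact ⟨1, V₀.one_mem, by simp⟩
      | succ k ih =>
        obtain ⟨ν, hν, e⟩ := ih
        refine ⟨(e₀⁻¹ * e₂) * ((a * a) * ν * (a * a)⁻¹), V₀.mul_mem h1 ?_, ?_⟩
        · have h2 := hV₀n _ (H.mul_mem X.ha X.ha) ν hν
          exact h2
        · rw [pow_succ']
          have gen : ∀ b u e' : G, b * u * e' * (b * u)⁻¹ = b * (u * e' * u⁻¹) * b⁻¹ := by
            intro b u e'; group
          have gen2 : ∀ b u e' : G, b * (u * e') * b⁻¹ = (b * u * b⁻¹) * (b * e' * b⁻¹) := by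
            intro b u e'; group
          have hee : (a * a) * e₀ * (a * a)⁻¹ = e₂ := by rw [he₂, he₁]; group
          rw [gen, e, gen2, hee, mul_assoc e₀⁻¹, mul_inv_cancel_left]
    obtain ⟨q, hq⟩ := X.hodd
    obtain ⟨ν, hν, e⟩ := hpow (q + 1)
    have h2 : (a * a) ^ (q + 1) = a := by
      have : (a * a) ^ (q + 1) = a ^ (orderOf a) * a := by
        rw [← pow_two, ← pow_mul, ← pow_succ, hq]
        congr 1
      rw [this, pow_orderOf_eq_one, one_mul]
    rw [h2] at e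
    apply he₁D
    rw [he₁, e]
    exact D.mul_mem he₀D (hV₀D hν)
  -- e₂ = e₀ e₁ ν
  have hcD₁' : Nat.card A = 2 * Nat.card D₁ := by omega
  have hid := idx2 hDA hcAD
  have hid₁ := idx2 hD₁A hcD₁'
  have h01A : e₀ * e₁ ∈ A := A.mul_mem he₀A he₁A
  have h01D : e₀ * e₁ ∉ D := fun h => he₁D ((hid e₀ he₀A e₁ he₁A).1 h |>.1 he₀D)
  have h01D₁ : e₀ * e₁ ∉ D₁ := fun h => he₀D₁ ((hid₁ e₀ he₀A e₁ he₁A).1 h |>.2 he₁D₁)
  have hdec : ∀ x ∈ A, x ∉ D → x ∉ D₁ → (e₀ * e₁)⁻¹ * x ∈ V₀ := by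
    intro x hx h1 h2
    apply hmemV
    · exact (hid _ (A.inv_mem h01A) x hx).2
        ⟨fun h' => absurd (by simpa using D.inv_mem h') h01D, fun h' => absurd h' h1⟩
    · exact (hid₁ _ (A.inv_mem h01A) x hx).2
        ⟨fun h' => absurd (by simpa using D₁.inv_mem h') h01D₁, fun h' => absurd h' h2⟩
  have hν := hdec e₂ he₂A he₂D he₂D₁
  set ν := (e₀ * e₁)⁻¹ * e₂ with hνd
  have he₂e : e₂ = e₀ * e₁ * ν := by rw [hνd]; group
  have hνZ := hZA ν hν
  have hsq : (e₀ * e₁) * (e₀ * e₁) = 1 := by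
    have h1 : (e₀ * e₁ * ν) * (e₀ * e₁ * ν) = 1 := by rw [← he₂e]; exact he₂2
    have h2 : (e₀ * e₁ * ν) * (e₀ * e₁ * ν) = (e₀ * e₁) * (ν * (e₀ * e₁)) * ν := by group
    rw [h2, hνZ.2.1 _ h01A] at h1
    have h3 : e₀ * e₁ * (e₀ * e₁ * ν) * ν = (e₀ * e₁) * (e₀ * e₁) * (ν * ν) := by group
    rw [h3, hνZ.2.2, mul_one] at h1
    exact h1
  have hcomm01 : e₀ * e₁ = e₁ * e₀ := by
    have h1 : e₀⁻¹ = e₀ := by rw [inv_eq_iff_mul_eq_one]; exact he₀2
    have h2 : e₁⁻¹ = e₁ := by rw [inv_eq_iff_mul_eq_one]; exact he₁2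
    have := eq_inv_of_mul_eq_one_left hsq
    rw [mul_inv_rev, h1, h2] at this
    exact this
  -- four-fold decomposition
  have hform : ∀ x ∈ A, ∃ ν' ∈ V₀, x = ν' ∨ x = e₀ * ν' ∨ x = e₁ * ν' ∨ x = e₀ * e₁ * ν' := by
    intro x hx
    by_cases h1 : x ∈ D <;> by_cases h2 : x ∈ D₁
    · exact ⟨x, hmemV x h1 h2, Or.inl rfl⟩
    · refine ⟨e₀⁻¹ * x, hmemV _ ?_ ?_, Or.inr (Or.inl (mul_inv_cancel_left _ _).symm)⟩
      · exact D.mul_mem (D.inv_mem he₀D) h1
      · exact (hid₁ _ (A.inv_mem he₀A) x hx).2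
          ⟨fun h' => absurd (by simpa using D₁.inv_mem h') he₀D₁, fun h' => absurd h' h2⟩
    · refine ⟨e₁⁻¹ * x, hmemV _ ?_ ?_, Or.inr (Or.inr (Or.inl (mul_inv_cancel_left _ _).symm))⟩
      · exact (hid _ (A.inv_mem he₁A) x hx).2
          ⟨fun h' => absurd (by simpa using D.inv_mem h') he₁D, fun h' => absurd h' h1⟩
      · exact D₁.mul_mem (D₁.inv_mem he₁D₁) h2
    · exact ⟨_, hdec x hx h1 h2, Or.inr (Or.inr (Or.inr (mul_inv_cancel_left _ _).symm))⟩
  have h0c : ∀ x ∈ A, e₀ * x = x * e₀ := by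
    intro x hx
    obtain ⟨ν', hν', h⟩ := hform x hx
    have hc' := ((hZA ν' hν').2.1 e₀ he₀A).symm
    rcases h with rfl | rfl | rfl | rfl
    · exact hc'
    · rw [mul_assoc, hc']
    · calc e₀ * (e₁ * ν') = (e₀ * e₁) * ν' := by group
        _ = (e₁ * e₀) * ν' := by rw [hcomm01]
        _ = e₁ * (e₀ * ν') := by group
        _ = e₁ * (ν' * e₀) := by rw [hc']
        _ = e₁ * ν' * e₀ := by group
    · calc e₀ * (e₀ * e₁ * ν') = e₀ * e₀ * e₁ * ν' := by group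
        _ = e₀ * (e₁ * e₀) * ν' := by rw [mul_assoc e₀ e₀ e₁, hcomm01]
        _ = e₀ * e₁ * (e₀ * ν') := by group
        _ = e₀ * e₁ * (ν' * e₀) := by rw [hc']
        _ = e₀ * e₁ * ν' * e₀ := by group
  have h1c : ∀ x ∈ A, e₁ * x = x * e₁ := by
    intro x hx
    obtain ⟨ν', hν', h⟩ := hform x hx
    have hc' := ((hZA ν' hν').2.1 e₁ he₁A).symm
    rcases h with rfl | rfl | rfl | rfl
    · exact hc'
    · calc e₁ * (e₀ * ν') = (e₁ * e₀) * ν' := by group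
        _ = (e₀ * e₁) * ν' := by rw [hcomm01]
        _ = e₀ * (e₁ * ν') := by group
        _ = e₀ * (ν' * e₁) := by rw [hc']
        _ = e₀ * ν' * e₁ := by group
    · calc e₁ * (e₁ * ν') = e₁ * (ν' * e₁) := by rw [hc']
        _ = e₁ * ν' * e₁ := by group
    · calc e₁ * (e₀ * e₁ * ν') = (e₁ * e₀) * e₁ * ν' := by group
        _ = (e₀ * e₁) * e₁ * ν' := by rw [hcomm01]
        _ = e₀ * e₁ * (e₁ * ν') := by group
        _ = e₀ * e₁ * (ν' * e₁) := by rw [hc']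
        _ = e₀ * e₁ * ν' * e₁ := by group
  have hab : ∀ x ∈ A, ∀ u ∈ A, x * u = u * x := by
    intro x hx u hu
    obtain ⟨ν', hν', h⟩ := hform x hx
    have hc' := (hZA ν' hν').2.1 u hu
    have h0 := h0c u hu
    have h1 := h1c u hu
    rcases h with rfl | rfl | rfl | rfl
    · exact hc'
    · rw [mul_assoc, hc', ← mul_assoc, h0, mul_assoc]
    · rw [mul_assoc, hc', ← mul_assoc, h1, mul_assoc]
    · calc e₀ * e₁ * ν' * u = e₀ * e₁ * (ν' * u) := by group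
        _ = e₀ * e₁ * (u * ν') := by rw [hc']
        _ = e₀ * (e₁ * u) * ν' := by group
        _ = e₀ * (u * e₁) * ν' := by rw [h1]
        _ = (e₀ * u) * e₁ * ν' := by group
        _ = (u * e₀) * e₁ * ν' := by rw [h0]
        _ = u * (e₀ * e₁ * ν') := by group
  -- final contradiction
  have hτ : y * t * y⁻¹ ∈ A := X.conj_A htB
  have hd : y * v 1 * y⁻¹ ∈ A := hDA (X.yD (hvD 1))
  have h9 := hab _ hτ _ hd
  apply htv_not
  have h10 : t * v 1 = v 1 * t := by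
    have : y * (t * v 1) * y⁻¹ = y * (v 1 * t) * y⁻¹ := by
      calc y * (t * v 1) * y⁻¹ = (y * t * y⁻¹) * (y * v 1 * y⁻¹) := by group
        _ = (y * v 1 * y⁻¹) * (y * t * y⁻¹) := h9
        _ = y * (v 1 * t) * y⁻¹ := by group
    simpa using this
  rw [mul_inv_eq_iff_eq_mul]
  exact h10

/-- `t = 6` is impossible. -/
theorem not_six (hcard : Nat.card A = 32) {c₀ : G} (hc₀ : c₀ ∈ Ctx.Cc P H) (hc₀1 : c₀ ≠ 1) : False := by
  classical
  have hna : ¬ ∀ x ∈ A, a * x * a⁻¹ = x := by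
    intro h
    have := X.card_two_of h
    omega
  -- an involution in `Cc`
  have hpg : IsPGroup 2 (Ctx.Cc P H) := X.hP2g.to_le inf_le_left
  haveI : Fact (Nat.Prime 2) := ⟨Nat.prime_two⟩
  have h2d : 2 ∣ Nat.card (Ctx.Cc P H) := by
    obtain ⟨k, hk⟩ := IsPGroup.iff_card.1 hpg
    rw [hk]
    rcases k with _ | k
    · exfalso
      have h1 : Nat.card (Ctx.Cc P H) = 1 := by simpa using hk
      have := (Nat.card_eq_one_iff_unique.1 h1).1
      have h2 : (⟨c₀, hc₀⟩ : Ctx.Cc P H) = 1 := Subsingleton.elim _ _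
      exact hc₀1 (congrArg Subtype.val h2)
    · exact dvd_pow_self 2 (by omega)
  obtain ⟨⟨c, hc⟩, hco⟩ := exists_prime_orderOf_dvd_card' 2 h2d
  have hco' : orderOf c = 2 := by
    rw [← hco]; exact (Subgroup.orderOf_mk c hc).symm
  have hc2 : c * c = 1 := by
    rw [← pow_two, ← hco']; exact pow_orderOf_eq_one c
  have hc1 : c ≠ 1 := by
    intro h; rw [h, orderOf_one] at hco'; omega
  by_cases hv : ∀ n : ℕ, a ^ n * (y * c * y⁻¹) * (a ^ n)⁻¹ ∈ cnj y A
  · exact X.sub2 hcard hna hc hc1 hc2 hv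
  · push Not at hv
    obtain ⟨n, hn⟩ := hv
    have hcP : c ∈ P := (memCc.1 hc).1
    have hc'P : y * c * y⁻¹ ∈ P := (X.hyP c).1 hcP
    have hc'cent : ∀ p ∈ P, p * (y * c * y⁻¹) * p⁻¹ = y * c * y⁻¹ := by
      intro p hp
      have h1 := X.Cc_central hc _ (X.yinvP hp)
      calc p * (y * c * y⁻¹) * p⁻¹ = y * ((y⁻¹ * p * y) * c * (y⁻¹ * p * y)⁻¹) * y⁻¹ := by group
        _ = y * c * y⁻¹ := by rw [h1]
    have hc'A := X.zA hna hc'P hc'cent
    have hHn : a ^ n ∈ H := H.pow_mem X.ha n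
    refine X.sub1 hcard hna (X.hAn _ hHn _ hc'A) hn ?_ ?_
    · intro x hx
      have h1 := hc'cent _ (X.hAP (X.hAn _ (H.inv_mem hHn) x hx))
      rw [inv_inv] at h1
      have h2 : (y * c * y⁻¹) * ((a ^ n)⁻¹ * x * a ^ n) = ((a ^ n)⁻¹ * x * a ^ n) * (y * c * y⁻¹) := by
        rw [mul_inv_eq_iff_eq_mul] at h1
        exact h1.symm
      calc x * (a ^ n * (y * c * y⁻¹) * (a ^ n)⁻¹)
          = a ^ n * (((a ^ n)⁻¹ * x * a ^ n) * (y * c * y⁻¹)) * (a ^ n)⁻¹ := by group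
        _ = a ^ n * ((y * c * y⁻¹) * ((a ^ n)⁻¹ * x * a ^ n)) * (a ^ n)⁻¹ := by rw [h2]
        _ = a ^ n * (y * c * y⁻¹) * (a ^ n)⁻¹ * x := by group
    · calc a ^ n * (y * c * y⁻¹) * (a ^ n)⁻¹ * (a ^ n * (y * c * y⁻¹) * (a ^ n)⁻¹)
          = a ^ n * y * (c * c) * y⁻¹ * (a ^ n)⁻¹ := by group
        _ = 1 := by rw [hc2]; group

end Ctx
end Cfsg.Agent.H12.Tut
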