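import Cfsg.Agent.Lib.H12.Tut5
import Cfsg.Agent.Lib.H03.S4Rec
import Cfsg.Agent.Lib.H15.OddCore
import Cfsg.Agent.Lib.H05.Comp6

set_option autoImplicit false
set_option linter.unusedVariables false
set_option linter.unusedSectionVars false

open Pointwise

namespace Cfsg.Agent.H12.Tut

variable {G : Type*} [Group G] [Finite G]

/-- card of a map injective on the subgroup. -/
theorem card_map_of_disjoint {M N : Type*} [Group M] [Group N] (f : M →* N) (S : Subgroup M)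
    (h : ∀ x ∈ S, f x = 1 → x = 1) : Nat.card (S.map f) = Nat.card S := by
  have hinj : Function.Injective (f.subgroupMap S) := by
    rw [injective_iff_map_eq_one]
    rintro ⟨x, hx⟩ hfx
    have h1 : f x = 1 := congrArg Subtype.val hfx
    exact Subtype.ext (h x hx h1)
  exact (Nat.card_congr (Equiv.ofBijective _ ⟨hinj, f.subgroupMap_surjective S⟩)).symm

namespace Ctx

variable {A P H : Subgroup G} {a y : G} (X : Ctx A P H a y)
include X

theorem hinv_pow {p : G} (hp : p ∈ P) (hpA : p ∉ A) (i : ℕ) : p * a ^ i * p⁻¹ * a ^ i ∈ A := by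
  induction i with
  | zero => simp [A.one_mem]
  | succ i ih =>
    have h1 := X.hinv p hp hpA
    have h2 := X.hAn a⁻¹ (H.inv_mem X.ha) _ ih
    rw [inv_inv] at h2
    have := A.mul_mem h1 h2
    have e : p * a ^ (i + 1) * p⁻¹ * a ^ (i + 1) = p * a * p⁻¹ * a * (a⁻¹ * (p * a ^ i * p⁻¹ * a ^ i) * a) := by
      rw [pow_succ']
      have : a ^ i * a = a * a ^ i := (pow_succ a i).symm.trans (pow_succ' a i)
      group
    rw [e]; exact this

theorem refl_gamma {h p : G} {i : ℕ} (hp : p ∈ P) (hpA : p ∉ A) (he : h = a ^ i * p) :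
    ∃ γ ∈ A, (a ^ 2)⁻¹ = γ * (h * (a * h * a⁻¹)) := by
  have h1 := X.hinv_pow hp hpA (i + 1)
  have hpp : p * p ∈ A := (idx2 X.hAP X.hPc p hp p hp).2 ⟨fun h' => h', fun h' => h'⟩
  have h2 := X.hAn (a ^ i) (H.pow_mem X.ha i) _ h1
  have h3 := X.hAn a⁻¹ (H.inv_mem X.ha) _ hpp
  rw [inv_inv] at h3
  refine ⟨((a ^ i * (p * a ^ (i + 1) * p⁻¹ * a ^ (i + 1)) * (a ^ i)⁻¹) * (a⁻¹ * (p * p) * a))⁻¹,
    A.inv_mem (A.mul_mem h2 h3), ?_⟩
  rw [he]
  group

theorem not_mem_of_refl {L : Subgroup G} (hAL : A ≤ L) (haL : a ∉ L) {h p : G} {i : ℕ} (hp : p ∈ P) (hpA : p ∉ A)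
    (he : h = a ^ i * p) (hh : h ∈ L) (hah : a * h * a⁻¹ ∈ L) : False := by
  obtain ⟨γ, hγ, e⟩ := X.refl_gamma hp hpA he
  exact haL (odd_mem X.pA X.hodd hγ (L.mul_mem hh hah)
    (fun α hα u hu => L.mul_mem (L.mul_mem (hAL hα) hu) (L.inv_mem (hAL hα))) e)

theorem pow_two_pow_A {x : G} (hx : x ∈ A) : ∃ k : ℕ, x ^ (2 ^ k) = 1 := by
  obtain ⟨k, hk⟩ := IsPGroup.iff_card.1 X.pA
  exact ⟨k, by rw [← hk]; exact pow_card_eq_one hx⟩

theorem mem_H_of_A {x : G} (hx : x ∈ A) : x ∈ H := X.hPH (X.hAP hx)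

section oc

omit X in
theorem oc_normal : (Cfsg.oddCore ↥H).Normal := Cfsg.Agent.H05.pp_normal (G := ↥H) 2

omit X in
theorem oc_odd {x : ↥H} (hx : x ∈ Cfsg.oddCore ↥H) : Odd (orderOf (x : G)) := by
  have h1 : Nat.Coprime (Nat.card ↥(Cfsg.oddCore ↥H)) 2 := Cfsg.Agent.H15.card_oddCore_coprime
  have h2 : orderOf (x : G) ∣ Nat.card ↥(Cfsg.oddCore ↥H) := by
    have h3 : orderOf (⟨x, hx⟩ : ↥(Cfsg.oddCore ↥H)) ∣ Nat.card ↥(Cfsg.oddCore ↥H) := orderOf_dvd_natCard _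
    rw [Subgroup.orderOf_mk] at h3
    rwa [Subgroup.orderOf_coe] 
  have h4 : Odd (Nat.card ↥(Cfsg.oddCore ↥H)) := by
    exact Nat.coprime_two_right.1 h1
  exact Odd.of_dvd_nat h4 h2

theorem oc_inter {x : ↥H} (hx : x ∈ Cfsg.oddCore ↥H) (hA : (x : G) ∈ A) : x = 1 := by
  obtain ⟨k, hk⟩ := X.pow_two_pow_A hA
  have h1 := oc_odd hx
  have h2 := eq_one_of_odd_two h1 (pow_orderOf_eq_one _) hk
  exact Subtype.ext h2

theorem oc_comm {x : ↥H} (hx : x ∈ Cfsg.oddCore ↥H) {α : G} (hα : α ∈ A) : (x : G) * α = α * (x : G) := by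
  have hN := oc_normal (H := H)
  let αh : ↥H := ⟨α, X.mem_H_of_A hα⟩
  have h1 : x * (αh * x⁻¹ * αh⁻¹) ∈ Cfsg.oddCore ↥H :=
    Subgroup.mul_mem _ hx (hN.conj_mem _ (Subgroup.inv_mem _ hx) αh)
  have h2 : ((x * (αh * x⁻¹ * αh⁻¹) : ↥H) : G) ∈ A := by
    have : ((x * (αh * x⁻¹ * αh⁻¹) : ↥H) : G) = ((x : G) * α * (x : G)⁻¹) * α⁻¹ := by
      show (x : G) * (α * (x : G)⁻¹ * α⁻¹) = _
      group
    rw [this]
    exact A.mul_mem (X.hAn _ x.2 α hα) (A.inv_mem hα)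
  have h3 := X.oc_inter h1 h2
  have h4 : ((x * (αh * x⁻¹ * αh⁻¹) : ↥H) : G) = (x : G) * (α * (x : G)⁻¹ * α⁻¹) := rfl
  rw [h3] at h4
  have h5 : (1 : G) = (x : G) * (α * (x : G)⁻¹ * α⁻¹) := h4
  have h6 : (x : G) * α = ((x : G) * (α * (x : G)⁻¹ * α⁻¹)) * (α * (x : G)) := by group
  rw [h6, ← h5, one_mul]

theorem oc_form {x : ↥H} (hx : x ∈ Cfsg.oddCore ↥H) : ∃ i : ℕ, (x : G) = a ^ i := by
  obtain ⟨i, p, hp, he⟩ := X.hgen x x.2
  by_cases hpA : p ∈ A
  · -- `a^i` commutes with `p`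
    have h1 := X.oc_comm hx hpA
    rw [he] at h1
    have h2 : a ^ i * p = p * a ^ i := by
      have : a ^ i * p * p = p * a ^ i * p := by rw [h1]; group
      exact mul_right_cancel this
    have hcm : Commute (a ^ i) p := h2
    have hx1 := oc_odd hx
    rw [he] at hx1
    set r := orderOf (a ^ i * p) with hr
    have h3 : (a ^ i * p) ^ (orderOf a * r) = 1 := by
      rw [mul_comm, pow_mul, hr, pow_orderOf_eq_one, one_pow]
    rw [hcm.mul_pow, ← pow_mul, mul_comm i, mul_assoc, pow_mul a, pow_orderOf_eq_one, one_pow, one_mul] at h3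
    obtain ⟨k, hk⟩ := X.pow_two_pow_A hpA
    have h4 := eq_one_of_odd_two (X.hodd.mul hx1) h3 hk
    exact ⟨i, by rw [he, h4, mul_one]⟩
  · have hxx : (x : G) ^ 2 ∈ A := by
      rw [pow_two, he]
      have h1 := X.hinv_pow hp hpA i
      have h2 := X.hAn (a ^ i) (H.pow_mem X.ha i) _ h1
      have hpp : p * p ∈ A := (idx2 X.hAP X.hPc p hp p hp).2 ⟨fun h' => h', fun h' => h'⟩
      have := A.mul_mem h2 hpp
      convert this using 1
      group
    have hA : (x : G) ∈ A := mem_of_pow_mem ((Nat.coprime_two_left).2 (oc_odd hx)) hxx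
    have h1 := X.oc_inter hx hA
    exact ⟨0, by rw [h1]; simp⟩

theorem exists_t : ∃ t ∈ P, t ∉ A := by
  obtain ⟨t, ht, htA⟩ := X.exists_BA
  exact ⟨t, X.B_le ht, htA⟩

theorem oc_mem {e : ℕ} (hcent : ∀ α ∈ A, α * a ^ e = a ^ e * α) :
    (⟨a ^ e, H.pow_mem X.ha e⟩ : ↥H) ∈ Cfsg.oddCore ↥H := by
  set b := a ^ e with hb
  have hbH : b ∈ H := H.pow_mem X.ha e
  obtain ⟨t, ht, htA⟩ := X.exists_t
  have hβ : t * b * t⁻¹ * b ∈ A := X.hinv_pow ht htA e
  have hbm : b ^ orderOf a = 1 := by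
    rw [hb, ← pow_mul, mul_comm, pow_mul, pow_orderOf_eq_one, one_pow]
  have htb : t * b * t⁻¹ = b⁻¹ := by
    set β := t * b * t⁻¹ * b with hβd
    have hcm : Commute β b⁻¹ := by
      have := hcent β hβ
      exact (Commute.inv_right this)
    have e1 : t * b * t⁻¹ = β * b⁻¹ := by rw [hβd]; group
    have h1 : (t * b * t⁻¹) ^ orderOf a = 1 := by
      rw [conj_pow, hbm]; group
    rw [e1, hcm.mul_pow, inv_pow, hbm, inv_one, mul_one] at h1
    obtain ⟨k, hk⟩ := X.pow_two_pow_A hβ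
    have h2 := eq_one_of_odd_two X.hodd h1 hk
    rw [e1, h2, one_mul]
  have hZ : ∀ h ∈ H, ∀ z ∈ Subgroup.zpowers b, h * z * h⁻¹ ∈ Subgroup.zpowers b := by
    apply X.normal_of ht htA
    · rintro α hα z ⟨k, rfl⟩
      refine ⟨k, ?_⟩
      have h3 : Commute α b := hcent α hα
      simp only
      rw [(h3.zpow_right k).eq]; group
    · rintro z ⟨k, rfl⟩
      refine ⟨k, ?_⟩
      have h3 : Commute a b := by
        show a * (a ^ e) = (a ^ e) * a
        rw [← pow_succ, ← pow_succ']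
      simp only
      rw [(h3.zpow_right k).eq]; group
    · rintro z ⟨k, rfl⟩
      refine ⟨-k, ?_⟩
      simp only
      rw [← conj_zpow, htb]
      simp
  let b' : ↥H := ⟨b, hbH⟩
  have hN : (Subgroup.zpowers b').Normal := by
    constructor
    rintro n ⟨k, rfl⟩ g
    simp only
    obtain ⟨l, hl⟩ := hZ g g.2 (b ^ k) ⟨k, rfl⟩
    refine ⟨l, Subtype.ext ?_⟩
    simp only at hl
    simpa using hl
  have hcop : (Nat.card (Subgroup.zpowers b')).Coprime 2 := by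
    rw [Nat.card_zpowers, Subgroup.orderOf_mk, Nat.coprime_two_right]
    have h4 : orderOf b ∣ orderOf a := orderOf_dvd_of_pow_eq_one hbm
    exact Odd.of_dvd_nat X.hodd h4
  exact Cfsg.Agent.H15.le_oddCore hN hcop (Subgroup.mem_zpowers b')

/-- Card of the quotient. -/
theorem card_Q {e : ℕ} (hcent : ∀ α ∈ A, α * a ^ e = a ^ e * α)
    (hcl : ∀ i : ℕ, (∀ α ∈ A, α * a ^ i = a ^ i * α) → a ^ i ∈ Subgroup.zpowers (a ^ e)) :
    Nat.card (↥H ⧸ Cfsg.oddCore ↥H) * orderOf (a ^ e) = Nat.card H := by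
  have hbH : a ^ e ∈ H := H.pow_mem X.ha e
  have heq : Cfsg.oddCore ↥H = Subgroup.zpowers (⟨a ^ e, hbH⟩ : ↥H) := by
    apply le_antisymm
    · intro x hx
      obtain ⟨i, hi⟩ := X.oc_form hx
      have h1 := hcl i (by
        intro α hα
        rw [← hi]
        exact (X.oc_comm hx hα).symm)
      obtain ⟨k, hk⟩ := h1
      refine ⟨k, Subtype.ext ?_⟩
      simp only at hk
      rw [hi, ← hk]
      simp
    · rw [Subgroup.zpowers_le]
      exact X.oc_mem hcent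
  have h := Subgroup.card_eq_card_quotient_mul_card_subgroup (Cfsg.oddCore ↥H)
  rw [h]
  congr 1
  rw [heq, Nat.card_zpowers, Subgroup.orderOf_mk]

end oc

end Ctx
end Cfsg.Agent.H12.Tut
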