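import Cfsg.Agent.Lib.H12.Tut6

set_option autoImplicit false
set_option linter.unusedVariables false
set_option linter.unusedSectionVars false

open Pointwise

namespace Cfsg.Agent.H12.Tut

section abstract

variable {Q : Type*} [Group Q] [Finite Q]

/-- hom from `C₂` sending the generator to an involution. -/
def phi2 (z : Q) (hz : z * z = 1) : Multiplicative (ZMod 2) →* Q :=
  MonoidHom.mk' (fun x => z ^ (Multiplicative.toAdd x).val) (by
    intro x y
    have hz2 : z ^ 2 = 1 := by rw [pow_two]; exact hz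
    rw [toAdd_mul, ZMod.val_add, ← pow_add]
    exact (pow_eq_pow_mod _ hz2).symm)

theorem phi2_zero_or (z : Q) (hz : z * z = 1) (x : Multiplicative (ZMod 2)) :
    (x = 1 ∧ phi2 z hz x = 1) ∨ (x ≠ 1 ∧ phi2 z hz x = z) := by
  have h : ∀ w : ZMod 2, w = 0 ∨ w = 1 := by decide
  rcases h (Multiplicative.toAdd x) with h0 | h1
  · left
    have hx : x = 1 := h0
    refine ⟨hx, ?_⟩
    rw [hx]; exact map_one _
  · right
    have hx : x = Multiplicative.ofAdd 1 := h1
    refine ⟨?_, ?_⟩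
    · rw [hx]; decide
    · show z ^ (Multiplicative.toAdd x).val = z
      rw [h1]; simp [ZMod.val_one]

theorem split_of (T : Subgroup Q) {c : Q} (hcc : ∀ q : Q, c * q = q * c) (hc2 : c * c = 1) (hcT : c ∉ T)
    (hcov : ∀ q : Q, q ∈ T ∨ c * q ∈ T) :
    Nonempty (Q ≃* (↥T × Multiplicative (ZMod 2))) ∧ Nat.card Q = 2 * Nat.card T := by
  let φ := phi2 c hc2
  have hcomm : ∀ (m : ↥T) (n : Multiplicative (ZMod 2)), Commute (T.subtype m) (φ n) := by
    intro m n
    rcases phi2_zero_or c hc2 n with ⟨_, h⟩ | ⟨_, h⟩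
    · show _ * φ n = φ n * _
      rw [show φ n = 1 from h]; simp
    · show _ * φ n = φ n * _
      rw [show φ n = c from h]; exact (hcc _).symm
  let F := MonoidHom.noncommCoprod T.subtype φ hcomm
  have hF : ∀ p, F p = (p.1 : Q) * φ p.2 := fun p => rfl
  have hinj : Function.Injective F := by
    rw [injective_iff_map_eq_one]
    rintro ⟨t, n⟩ h
    rw [hF] at h
    rcases phi2_zero_or c hc2 n with ⟨hn, hv⟩ | ⟨hn, hv⟩
    · rw [show φ n = 1 from hv, mul_one] at h
      ext1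
      · exact Subtype.ext h
      · exact hn
    · rw [show φ n = c from hv] at h
      exfalso
      apply hcT
      have : c = (t : Q)⁻¹ := eq_inv_of_mul_eq_one_right h
      rw [this]
      exact T.inv_mem t.2
  have hsurj : Function.Surjective F := by
    intro q
    rcases hcov q with h | h
    · refine ⟨(⟨q, h⟩, 1), ?_⟩
      rw [hF]; simp
    · refine ⟨(⟨c * q, h⟩, Multiplicative.ofAdd 1), ?_⟩
      rw [hF]
      have hphi : φ (Multiplicative.ofAdd 1) = c := by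
        rcases phi2_zero_or c hc2 (Multiplicative.ofAdd 1) with ⟨hn, hv⟩ | ⟨hn, hv⟩
        · exact absurd hn (by decide)
        · exact hv
      rw [hphi]
      show c * q * c = q
      rw [hcc q, mul_assoc, hc2, mul_one]
  let e := MulEquiv.ofBijective F ⟨hinj, hsurj⟩
  refine ⟨⟨e.symm⟩, ?_⟩
  have := Nat.card_congr e.toEquiv
  rw [Nat.card_prod] at this
  have h2 : Nat.card (Multiplicative (ZMod 2)) = 2 := by
    simp
  rw [h2] at this
  omega

theorem v4_of (h4 : Nat.card Q = 4) (hexp : ∀ q : Q, q * q = 1) :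
    Nonempty (Q ≃* Multiplicative (ZMod 2) × Multiplicative (ZMod 2)) := by
  classical
  have hcomm : ∀ q r : Q, q * r = r * q := by
    intro q r
    have h1 := hexp (q * r)
    have hq : q⁻¹ = q := by rw [inv_eq_iff_mul_eq_one]; exact hexp q
    have hr : r⁻¹ = r := by rw [inv_eq_iff_mul_eq_one]; exact hexp r
    have := eq_inv_of_mul_eq_one_left h1
    rw [mul_inv_rev, hq, hr] at this
    exact this
  obtain ⟨u, hu⟩ : ∃ u : Q, u ≠ 1 := by
    by_contra hcon
    push Not at hcon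
    have : Subsingleton Q := ⟨fun a b => by rw [hcon a, hcon b]⟩
    have := Nat.card_of_subsingleton (1 : Q)
    omega
  have hTc : Nat.card (Subgroup.zpowers u) = 2 := by
    rw [Nat.card_zpowers]
    exact orderOf_eq_prime (by rw [pow_two]; exact hexp u) hu
  set T := Subgroup.zpowers u with hT
  have hidx : T.index = 2 := by
    have := Subgroup.card_mul_index T
    rw [hTc, h4] at this
    omega
  obtain ⟨v, hv⟩ : ∃ v : Q, v ∉ T := by
    by_contra hcon
    push Not at hcon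
    have hall : T = ⊤ := (Subgroup.eq_top_iff' T).2 hcon
    rw [hall] at hidx
    simp at hidx
  have hcov : ∀ q : Q, q ∈ T ∨ v * q ∈ T := by
    intro q
    by_cases hq : q ∈ T
    · exact Or.inl hq
    · right
      exact (Subgroup.mul_mem_iff_of_index_two hidx).2 ⟨fun h => absurd h hv, fun h => absurd h hq⟩
  obtain ⟨⟨e⟩, _⟩ := split_of T (fun q => hcomm v q) (hexp v) hv hcov
  haveI : Fact (Nat.Prime 2) := ⟨Nat.prime_two⟩
  have e2 : ↥T ≃* Multiplicative (ZMod 2) := mulEquivOfPrimeCardEq hTc (by simp)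
  exact ⟨e.trans (MulEquiv.prodCongr e2 (MulEquiv.refl _))⟩

end abstract

variable {G : Type*} [Group G] [Finite G]

/-- The `V₄`-configuration. -/
structure R4 (a u u₁ : G) : Prop where
  hu2 : u * u = 1
  hu₁2 : u₁ * u₁ = 1
  hc : u * u₁ = u₁ * u
  hu1 : u ≠ 1
  hu₁1 : u₁ ≠ 1
  hne : u ≠ u₁
  ha0 : a * u * a⁻¹ = u₁
  ha1 : a * u₁ * a⁻¹ = u * u₁

namespace R4

omit [Finite G]
variable {a u u₁ : G} (R : R4 a u u₁)
include R

theorem ha2 : a * (u * u₁) * a⁻¹ = u := by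
  have e : a * (u * u₁) * a⁻¹ = (a * u * a⁻¹) * (a * u₁ * a⁻¹) := by group
  rw [e, R.ha0, R.ha1]
  calc u₁ * (u * u₁) = (u₁ * u) * u₁ := by group
    _ = (u * u₁) * u₁ := by rw [R.hc]
    _ = u * (u₁ * u₁) := by group
    _ = u := by rw [R.hu₁2]; group

theorem pow3u (k : ℕ) : a ^ (3 * k) * u * (a ^ (3 * k))⁻¹ = u := by
  induction k with
  | zero => simp
  | succ k ih =>
    have e : a ^ (3 * (k + 1)) = a ^ (3 * k) * (a * (a * a)) := by
      rw [mul_add, pow_add]; congr 1; rw [pow_succ, pow_succ, pow_one, mul_assoc]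
    rw [e]
    have h1 : a * (a * a) * u * (a * (a * a))⁻¹ = u := by
      calc a * (a * a) * u * (a * (a * a))⁻¹ = a * (a * (a * u * a⁻¹) * a⁻¹) * a⁻¹ := by group
        _ = u := by rw [R.ha0, R.ha1, R.ha2]
    calc a ^ (3 * k) * (a * (a * a)) * u * (a ^ (3 * k) * (a * (a * a)))⁻¹
        = a ^ (3 * k) * (a * (a * a) * u * (a * (a * a))⁻¹) * (a ^ (3 * k))⁻¹ := by
          simp only [mul_inv_rev, mul_assoc]
      _ = u := by rw [h1, ih]

theorem pow3u₁ (k : ℕ) : a ^ (3 * k) * u₁ * (a ^ (3 * k))⁻¹ = u₁ := by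
  have h := R.pow3u k
  rw [← R.ha0]
  have e : a ^ (3 * k) * (a * u * a⁻¹) * (a ^ (3 * k))⁻¹ = a * (a ^ (3 * k) * u * (a ^ (3 * k))⁻¹) * a⁻¹ := by
    have hc : a ^ (3 * k) * a = a * a ^ (3 * k) := (pow_succ a _).symm.trans (pow_succ' a _)
    have hci : (a ^ (3 * k))⁻¹ * a⁻¹ = a⁻¹ * (a ^ (3 * k))⁻¹ := by
      rw [← mul_inv_rev, ← mul_inv_rev, hc]
    calc a ^ (3 * k) * (a * u * a⁻¹) * (a ^ (3 * k))⁻¹
        = (a ^ (3 * k) * a) * u * (a⁻¹ * (a ^ (3 * k))⁻¹) := by simp only [mul_assoc]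
      _ = (a * a ^ (3 * k)) * u * ((a ^ (3 * k))⁻¹ * a⁻¹) := by rw [hc, hci]
      _ = _ := by simp only [mul_assoc]
  rw [e, h]

theorem three_dvd {i : ℕ} (h : a ^ i * u * (a ^ i)⁻¹ = u) : 3 ∣ i := by
  have h3 := Nat.div_add_mod i 3
  have hlt : i % 3 < 3 := Nat.mod_lt _ (by norm_num)
  set k := i / 3
  set r := i % 3
  have hcomm : ∀ z : G, a ^ i * z * (a ^ i)⁻¹ = a ^ r * (a ^ (3 * k) * z * (a ^ (3 * k))⁻¹) * (a ^ r)⁻¹ := by
    intro z
    have hc : a ^ r * a ^ (3 * k) = a ^ (3 * k) * a ^ r := by rw [← pow_add, ← pow_add, add_comm]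
    rw [← h3, pow_add, ← hc]
    simp only [mul_inv_rev, mul_assoc]
  rw [hcomm, R.pow3u k] at h
  interval_cases hr : r
  · exact Nat.dvd_of_mod_eq_zero hr
  · exfalso
    apply R.hne
    have : a ^ 1 * u * (a ^ 1)⁻¹ = u₁ := by rw [pow_one]; exact R.ha0
    rw [← this, h]
  · exfalso
    have h2 : a ^ 2 * u * (a ^ 2)⁻¹ = u * u₁ := by
      rw [pow_two]
      calc a * a * u * (a * a)⁻¹ = a * (a * u * a⁻¹) * a⁻¹ := by group
        _ = u * u₁ := by rw [R.ha0, R.ha1]
    rw [h2] at h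
    apply R.hu₁1
    have : u * u₁ = u * 1 := by rw [h, mul_one]
    exact mul_left_cancel this

end R4

namespace Ctx

variable {A P H : Subgroup G} {a y : G} (X : Ctx A P H a y)
include X

/-- common lifting lemma -/
theorem central_lift {u u₁ : G} (hR : R4 a u u₁) {R₀ : Subgroup G} (hRA : ∀ α ∈ A, ∀ r ∈ R₀, α * r = r * α) (huR : u ∈ R₀)
    (hRa : ∀ r ∈ R₀, a⁻¹ * r * a ∈ R₀) (ha3 : ∀ α ∈ A, α * a ^ 3 = a ^ 3 * α) (h : G) (hch : ∀ r ∈ R₀, h * r = r * h)
    (hhH : h ∈ H) : ∃ p ∈ A, ∃ i : ℕ, h = a ^ i * p ∧ ∃ hi : a ^ i ∈ H, (⟨a ^ i, hi⟩ : ↥H) ∈ Cfsg.oddCore ↥H := by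
  have hLmem : ∀ z, (∀ r ∈ R₀, z * r = r * z) → z ∈ Subgroup.centralizer (R₀ : Set G) := by
    intro z hz
    rw [Subgroup.mem_centralizer_iff]
    intro r hr
    exact (hz r hr).symm
  have hAL : A ≤ Subgroup.centralizer (R₀ : Set G) := fun α hα => hLmem α (hRA α hα)
  have haL : a ∉ Subgroup.centralizer (R₀ : Set G) := by
    intro hmem
    have := Subgroup.mem_centralizer_iff.1 hmem u huR
    apply hR.hne
    rw [← hR.ha0, eq_comm, mul_inv_eq_iff_eq_mul]
    exact this.symm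
  have hhL := hLmem h hch
  obtain ⟨i, p, hp, he⟩ := X.hgen h hhH
  have hahL : a * h * a⁻¹ ∈ Subgroup.centralizer (R₀ : Set G) := by
    apply hLmem
    intro r hr
    have h1 := hch _ (hRa r hr)
    calc a * h * a⁻¹ * r = a * (h * (a⁻¹ * r * a)) * a⁻¹ := by group
      _ = a * ((a⁻¹ * r * a) * h) * a⁻¹ := by rw [h1]
      _ = r * (a * h * a⁻¹) := by group
  by_cases hpA : p ∈ A
  · refine ⟨p, hpA, i, he, H.pow_mem X.ha i, ?_⟩
    have h1 : a ^ i ∈ Subgroup.centralizer (R₀ : Set G) := by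
      have : a ^ i = h * p⁻¹ := by rw [he]; group
      rw [this]
      exact Subgroup.mul_mem _ hhL (Subgroup.inv_mem _ (hAL hpA))
    have h2 := Subgroup.mem_centralizer_iff.1 h1 u huR
    have h3 : a ^ i * u * (a ^ i)⁻¹ = u := by
      rw [mul_inv_eq_iff_eq_mul]; exact h2.symm
    obtain ⟨k, rfl⟩ := hR.three_dvd h3
    apply X.oc_mem
    intro α hα
    rw [pow_mul]
    exact ((show Commute α (a ^ 3) from ha3 α hα).pow_right k).eq
  · exact (X.not_mem_of_refl hAL haL hp hpA he hhL hahL).elim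

/-- order bookkeeping -/
theorem card_Q_three {u u₁ : G} (hR : R4 a u u₁) (huA : u ∈ A) (ha3 : ∀ α ∈ A, α * a ^ 3 = a ^ 3 * α) {n : ℕ}
    (hn : orderOf a = n) (hH : Nat.card H = 2 * n * Nat.card A) :
    Nat.card (↥H ⧸ Cfsg.oddCore ↥H) = 6 * Nat.card A := by
  have h3n : 3 ∣ orderOf a := by
    apply hR.three_dvd
    rw [pow_orderOf_eq_one]; simp
  have hnpos : 0 < orderOf a := by
    rcases X.hodd with ⟨k, hk⟩; omega
  have h := X.card_Q (e := 3) ha3 (by
    intro i hi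
    have h1 := hi u huA
    have h3 : a ^ i * u * (a ^ i)⁻¹ = u := by
      rw [mul_inv_eq_iff_eq_mul]; exact h1.symm
    obtain ⟨k, rfl⟩ := hR.three_dvd h3
    rw [pow_mul]
    exact Subgroup.npow_mem_zpowers _ _)
  rw [orderOf_pow_of_dvd (by norm_num) h3n, hH, ← hn] at h
  obtain ⟨k, hk⟩ := h3n
  rw [hk] at h
  have hk0 : 0 < k := by
    rw [hk] at hnpos
    omega
  have h2 : (3 * k) / 3 = k := by omega
  rw [h2] at h
  have h3 : Nat.card (↥H ⧸ Cfsg.oddCore ↥H) * k = (6 * Nat.card A) * k := by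
    rw [h]; ring
  exact Nat.eq_of_mul_eq_mul_right hk0 h3

theorem caseII {u u₁ : G} (hR : R4 a u u₁) (hA4 : Nat.card A = 4) (huA : u ∈ A) (hu₁A : u₁ ∈ A)
    (hform : ∀ x ∈ A, x = 1 ∨ x = u ∨ x = u₁ ∨ x = u * u₁) {n : ℕ} (hn : orderOf a = n)
    (hH : Nat.card H = 2 * n * Nat.card A) : Nonempty (↥H ⧸ Cfsg.oddCore ↥H ≃* Equiv.Perm (Fin 4)) := by
  have hcu : ∀ x ∈ A, Commute x u := by
    intro x hx
    rcases hform x hx with rfl | rfl | rfl | rfl
    · exact Commute.one_left _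
    · exact Commute.refl _
    · exact (show Commute u x from hR.hc).symm
    · exact (Commute.refl u).mul_left (show Commute u₁ u from hR.hc.symm)
  have hcu₁ : ∀ x ∈ A, Commute x u₁ := by
    intro x hx
    rcases hform x hx with rfl | rfl | rfl | rfl
    · exact Commute.one_left _
    · exact (show Commute x u₁ from hR.hc)
    · exact Commute.refl _
    · exact (show Commute u u₁ from hR.hc).mul_left (Commute.refl u₁)
  have hab : ∀ α ∈ A, ∀ r ∈ A, Commute α r := by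
    intro α hα r hr
    rcases hform r hr with rfl | rfl | rfl | rfl
    · exact Commute.one_right _
    · exact hcu α hα
    · exact hcu₁ α hα
    · exact (hcu α hα).mul_right (hcu₁ α hα)
  have ha3 : ∀ α ∈ A, α * a ^ 3 = a ^ 3 * α := by
    have h1 : a ^ 3 * u = u * a ^ 3 := by
      have := hR.pow3u 1
      rw [mul_inv_eq_iff_eq_mul] at this
      simpa using this
    have h2 : a ^ 3 * u₁ = u₁ * a ^ 3 := by
      have := hR.pow3u₁ 1
      rw [mul_inv_eq_iff_eq_mul] at this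
      simpa using this
    intro α hα
    rcases hform α hα with rfl | rfl | rfl | rfl
    · simp
    · exact h1.symm
    · exact h2.symm
    · exact ((show Commute u (a ^ 3) from h1.symm).mul_left (show Commute u₁ (a ^ 3) from h2.symm)).eq
  have hcard := X.card_Q_three hR huA ha3 hn hH
  rw [hA4] at hcard
  haveI hON : (Cfsg.oddCore ↥H).Normal := oc_normal
  let π := QuotientGroup.mk' (Cfsg.oddCore ↥H)
  have hπs : Function.Surjective π := QuotientGroup.mk'_surjective _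
  have hAnorm : (A.subgroupOf H).Normal := by
    constructor
    intro x hx g
    rw [Subgroup.mem_subgroupOf] at hx ⊢
    exact X.hAn g g.2 x hx
  haveI hVN : ((A.subgroupOf H).map π).Normal := hAnorm.map π hπs
  have hVc : Nat.card ↥((A.subgroupOf H).map π) = 4 := by
    rw [card_map_of_disjoint, Nat.card_congr (Subgroup.subgroupOfEquivOfLe (X.hAP.trans X.hPH)).toEquiv, hA4]
    intro x hx h1
    have h2 : x ∈ Cfsg.oddCore ↥H := (QuotientGroup.eq_one_iff x).1 h1
    exact X.oc_inter h2 (Subgroup.mem_subgroupOf.1 hx)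
  have hC : ∀ g : ↥H ⧸ Cfsg.oddCore ↥H, (∀ v ∈ (A.subgroupOf H).map π, g * v = v * g) → g ∈ (A.subgroupOf H).map π := by
    intro g hg
    obtain ⟨h, rfl⟩ := hπs g
    -- `h` centralises `A`
    have hcent : ∀ α ∈ A, (h : G) * α = α * (h : G) := by
      intro α hα
      have hαH := X.mem_H_of_A hα
      let αh : ↥H := ⟨α, hαH⟩
      have h1 := hg (π αh) ⟨αh, Subgroup.mem_subgroupOf.2 hα, rfl⟩
      have h2 : π (h * αh * h⁻¹ * αh⁻¹) = 1 := by
        rw [map_mul, map_mul, map_mul, map_inv, map_inv, h1]; group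
      have h3 : h * αh * h⁻¹ * αh⁻¹ ∈ Cfsg.oddCore ↥H := (QuotientGroup.eq_one_iff _).1 h2
      have h4 : (((h * αh * h⁻¹ * αh⁻¹ : ↥H)) : G) ∈ A := by
        show (h : G) * α * (h : G)⁻¹ * α⁻¹ ∈ A
        exact A.mul_mem (X.hAn h h.2 α hα) (A.inv_mem hα)
      have h5 := X.oc_inter h3 h4
      have h6 : (h : G) * α * (h : G)⁻¹ * α⁻¹ = 1 := congrArg Subtype.val h5
      have h7 : (h : G) * α = ((h : G) * α * (h : G)⁻¹ * α⁻¹) * (α * (h : G)) := by group
      rw [h7, h6, one_mul]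
    obtain ⟨p, hpA, i, he, hi, hiO⟩ := X.central_lift hR (R₀ := A) (fun α hα r hr => (hab α hα r hr).eq) huA
      (fun r hr => by
        have := X.hAn a⁻¹ (H.inv_mem X.ha) r hr
        simpa using this) ha3 h hcent h.2
    refine ⟨⟨p, X.mem_H_of_A hpA⟩, Subgroup.mem_subgroupOf.2 hpA, ?_⟩
    have h8 : h = ⟨a ^ i, hi⟩ * ⟨p, X.mem_H_of_A hpA⟩ := Subtype.ext he
    rw [h8, map_mul]
    have h9 : π ⟨a ^ i, hi⟩ = 1 := (QuotientGroup.eq_one_iff _).2 hiO
    rw [h9, one_mul]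
  exact Cfsg.Agent.H03.S4R.sym_four_of _ hVc hC (by rw [hcard])

/-- Case I. -/
theorem caseI (hA2 : Nat.card A = 2) (hac : ∀ x ∈ A, a * x * a⁻¹ = x) {n : ℕ} (hn : orderOf a = n)
    (hH : Nat.card H = 2 * n * Nat.card A) :
    Nonempty (↥H ⧸ Cfsg.oddCore ↥H ≃* Multiplicative (ZMod 2) × Multiplicative (ZMod 2)) := by
  have hnpos : 0 < n := by
    rw [← hn]; rcases X.hodd with ⟨k, hk⟩; omega
  have hcen : ∀ α ∈ A, α * a ^ 1 = a ^ 1 * α := by
    intro α hα
    have := hac α hα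
    rw [mul_inv_eq_iff_eq_mul] at this
    rw [pow_one]; exact this.symm
  have h := X.card_Q (e := 1) hcen (by
    intro i _
    rw [pow_one]
    exact Subgroup.npow_mem_zpowers _ _)
  rw [pow_one, hn, hH, hA2] at h
  have hcard : Nat.card (↥H ⧸ Cfsg.oddCore ↥H) = 4 := by
    have : Nat.card (↥H ⧸ Cfsg.oddCore ↥H) * n = 4 * n := by rw [h]; ring
    exact Nat.eq_of_mul_eq_mul_right hnpos this
  haveI hON : (Cfsg.oddCore ↥H).Normal := oc_normal
  -- elementary abelian `P`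
  have hD := X.D_bot_of hac
  have hpp : ∀ p ∈ P, p * p = 1 := by
    obtain ⟨x, hxA, hxB⟩ := X.exists_AB
    have hBc : Nat.card (cnj y A) = 2 := by rw [X.cardB, hA2]
    have hx1 : x ≠ 1 := by
      rintro rfl
      exact hxB (Subgroup.one_mem _)
    have hAtwo : ∀ {U : Subgroup G}, Nat.card U = 2 → ∀ z ∈ U, ∀ z' ∈ U, z ≠ 1 → z' ≠ 1 → z = z' := by
      intro U hU z hz z' hz' h1 h2
      obtain ⟨w, _, hw⟩ := (Nat.card_eq_two_iff' (1 : U)).1 hU
      have e1 := hw ⟨z, hz⟩ (fun h' => h1 (congrArg Subtype.val h'))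
      have e2 := hw ⟨z', hz'⟩ (fun h' => h2 (congrArg Subtype.val h'))
      have := e1.trans e2.symm
      exact congrArg Subtype.val this
    have hsq2 : ∀ {U : Subgroup G}, Nat.card U = 2 → ∀ z ∈ U, z * z = 1 := by
      intro U hU z hz
      have h1 : z ^ (Nat.card U) = 1 := pow_card_eq_one hz
      rw [hU, pow_two] at h1
      exact h1
    intro p hp
    by_cases hpA : p ∈ A
    · exact hsq2 hA2 p hpA
    by_cases hpB : p ∈ cnj y A
    · exact hsq2 hBc p hpB
    have hid := idx2 X.B_le X.cardPB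
    have hβ : x⁻¹ * p ∈ cnj y A := (hid _ (P.inv_mem (X.hAP hxA)) p hp).2
      ⟨fun h' => absurd (by simpa using Subgroup.inv_mem _ h') hxB, fun h' => absurd h' hpB⟩
    set β := x⁻¹ * p with hβd
    have hpe : p = x * β := by rw [hβd]; group
    have hβ1 : β ≠ 1 := by
      intro h1
      apply hpA
      rw [hpe, h1, mul_one]; exact hxA
    have hcomm : x * β = β * x := by
      have h1 := X.nA β (X.B_le hβ) x hxA
      have h2 : β * x * β⁻¹ ≠ 1 := by
        intro h3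
        apply hx1
        have : x = β⁻¹ * (β * x * β⁻¹) * β := by group
        rw [this, h3]; group
      have h3 := hAtwo hA2 _ h1 _ hxA h2 hx1
      rw [mul_inv_eq_iff_eq_mul] at h3
      exact h3.symm
    rw [hpe]
    calc x * β * (x * β) = x * (β * x) * β := by group
      _ = x * (x * β) * β := by rw [hcomm]
      _ = (x * x) * (β * β) := by group
      _ = 1 := by rw [hsq2 hA2 x hxA, hsq2 hBc β hβ, mul_one]
  apply v4_of hcard
  intro q
  obtain ⟨h, rfl⟩ := QuotientGroup.mk_surjective q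
  obtain ⟨i, p, hp, he⟩ := X.hgen h h.2
  have hai : (⟨a ^ i, H.pow_mem X.ha i⟩ : ↥H) ∈ Cfsg.oddCore ↥H := by
    apply X.oc_mem
    intro α hα
    have : Commute α a := by
      have := hac α hα
      rw [mul_inv_eq_iff_eq_mul] at this
      exact this.symm
    exact (this.pow_right i).eq
  have h8 : h = ⟨a ^ i, H.pow_mem X.ha i⟩ * ⟨p, X.hPH hp⟩ := Subtype.ext he
  have h9 : ((⟨a ^ i, H.pow_mem X.ha i⟩ : ↥H) : ↥H ⧸ Cfsg.oddCore ↥H) = 1 := (QuotientGroup.eq_one_iff _).2 hai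
  rw [h8, QuotientGroup.mk_mul, h9, one_mul, ← QuotientGroup.mk_mul]
  have h10 : (⟨p, X.hPH hp⟩ : ↥H) * ⟨p, X.hPH hp⟩ = 1 := Subtype.ext (hpp p hp)
  rw [h10]; rfl

end Ctx
end Cfsg.Agent.H12.Tut
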