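import Cfsg.Agent.Lib.H12.Tut7

set_option autoImplicit false
set_option linter.unusedVariables false
set_option linter.unusedSectionVars false

open Pointwise

namespace Cfsg.Agent.H12.Tut

variable {G : Type*} [Group G] [Finite G]

namespace R4

omit [Finite G] in
theorem closure_form {a u u₁ : G} (hR : R4 a u u₁) : ∀ ω ∈ Subgroup.closure ({u, u₁} : Set G),
    ω = 1 ∨ ω = u ∨ ω = u₁ ∨ ω = u * u₁ := by
  intro ω hω
  have hw2 := hR.hu2
  have hw₁2 := hR.hu₁2
  have hcommw := hR.hc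
  have hwinv : u⁻¹ = u := by rw [inv_eq_iff_mul_eq_one]; exact hw2
  have hw1i : u₁⁻¹ = u₁ := by rw [inv_eq_iff_mul_eq_one]; exact hw₁2
  have h11 : ∀ z, u * (u * z) = z := fun z => by rw [← mul_assoc, hw2, one_mul]
  have h22 : ∀ z, u₁ * (u₁ * z) = z := fun z => by rw [← mul_assoc, hw₁2, one_mul]
  have hc' : ∀ z, u₁ * (u * z) = u * (u₁ * z) := fun z => by rw [← mul_assoc, ← hcommw, mul_assoc]
  induction hω using Subgroup.closure_induction with
  | mem x hx =>
    rcases hx with rfl | hx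
    · simp
    · right; right; left; exact hx
  | one => simp
  | mul x y _ _ hx hy =>
    rcases hx with rfl | rfl | rfl | rfl <;> rcases hy with rfl | rfl | rfl | rfl <;>
      simp [mul_assoc, hw2, hw₁2, h11, h22, hc', ← hcommw]
  | inv x _ hx =>
    rcases hx with rfl | rfl | rfl | rfl
    · simp
    · simp [hwinv]
    · simp [hw1i]
    · right; right; right
      rw [mul_inv_rev, hwinv, hw1i]; exact hcommw.symm

end R4

namespace Ctx

variable {A P H : Subgroup G} {a y : G} (X : Ctx A P H a y)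
include X

/-- data for Case II -/
theorem caseII_data (hA4 : Nat.card A = 4) (hna : ¬ ∀ x ∈ A, a * x * a⁻¹ = x) :
    ∃ u u₁ : G, R4 a u u₁ ∧ u ∈ A ∧ u₁ ∈ A ∧ ∀ x ∈ A, x = 1 ∨ x = u ∨ x = u₁ ∨ x = u * u₁ := by
  have hcD : Nat.card ↥(A ⊓ cnj y A) = 2 := by
    have := X.cardAD; omega
  set D := A ⊓ cnj y A with hD
  obtain ⟨⟨d, hdD⟩, hd1, hduniq⟩ := (Nat.card_eq_two_iff' (1 : D)).1 hcD
  have hd1' : d ≠ 1 := fun h => hd1 (Subtype.ext h)
  have hDform : ∀ z ∈ D, z = 1 ∨ z = d := by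
    intro z hz
    by_cases hz1 : z = 1
    · exact Or.inl hz1
    · right
      have := hduniq ⟨z, hz⟩ (fun h => hz1 (congrArg Subtype.val h))
      exact congrArg Subtype.val this
  have hd2 : d * d = 1 := by
    have h1 : d ^ (Nat.card D) = 1 := pow_card_eq_one hdD
    rw [hcD, pow_two] at h1
    exact h1
  have hdA : d ∈ A := hdD.1
  have hdc : ∀ p ∈ P, p * d * p⁻¹ = d := by
    intro p hp
    rcases hDform _ (X.nD p hp d hdD) with h | h
    · exfalso
      apply hd1'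
      have : d = p⁻¹ * (p * d * p⁻¹) * p := by group
      rw [this, h]; group
    · exact h
  obtain ⟨t, htP, htA⟩ := X.exists_t
  have hadne : a * d * a⁻¹ ≠ d := by
    intro h
    have hbot : D = ⊥ := by
      apply X.hyQ D (inf_le_left.trans X.hAP)
      · apply X.normal_of htP htA
        · intro α hα z hz; exact X.nD α (X.hAP hα) z hz
        · intro z hz
          rcases hDform z hz with rfl | rfl
          · simpa using D.one_mem
          · rw [h]; exact hdD
        · intro z hz; exact X.nD t htP z hz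
      · intro z hz; exact X.yD hz
    rw [hbot] at hdD
    exact hd1' (by simpa using hdD)
  set u₁ := a * d * a⁻¹ with hu₁
  have hu₁A : u₁ ∈ A := X.hAn a X.ha d hdA
  have hu₁1 : u₁ ≠ 1 := by
    intro h
    apply hd1'
    have : d = a⁻¹ * u₁ * a := by rw [hu₁]; group
    rw [this, h]; group
  have hu₁D : u₁ ∉ D := by
    intro h
    rcases hDform _ h with h' | h'
    · exact hu₁1 h'
    · exact hadne h'
  have hu₁2 : u₁ * u₁ = 1 := by
    rw [hu₁]
    calc a * d * a⁻¹ * (a * d * a⁻¹) = a * (d * d) * a⁻¹ := by group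
      _ = 1 := by rw [hd2]; group
  have hcomm : d * u₁ = u₁ * d := by
    have := hdc _ (X.hAP hu₁A)
    rw [mul_inv_eq_iff_eq_mul] at this
    exact this.symm
  have hid := idx2 (inf_le_left : D ≤ A) X.cardAD
  have hform : ∀ x ∈ A, x = 1 ∨ x = d ∨ x = u₁ ∨ x = d * u₁ := by
    intro x hx
    by_cases hxD : x ∈ D
    · rcases hDform x hxD with h | h
      · exact Or.inl h
      · exact Or.inr (Or.inl h)
    · have h : u₁⁻¹ * x ∈ D := (hid _ (A.inv_mem hu₁A) x hx).2
        ⟨fun h' => absurd (by simpa using D.inv_mem h') hu₁D, fun h' => absurd h' hxD⟩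
      rcases hDform _ h with h' | h'
      · exact Or.inr (Or.inr (Or.inl (inv_mul_eq_one.1 h').symm))
      · right; right; right
        have : x = u₁ * d := by rw [← h']; group
        rw [this, hcomm]
  have hu₂ : a * u₁ * a⁻¹ = d * u₁ := by
    rcases hform _ (X.hAn a X.ha u₁ hu₁A) with h | h | h | h
    · exfalso
      apply hu₁1
      have : u₁ = a⁻¹ * (a * u₁ * a⁻¹) * a := by group
      rw [this, h]; group
    · exfalso
      apply hadne
      apply X.fix_of_sq
      have e : a * a * d * (a * a)⁻¹ = a * (a * d * a⁻¹) * a⁻¹ := by group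
      rw [e]; exact h
    · exfalso
      apply hadne
      have h2 : a * (a * d * a⁻¹) * a⁻¹ = a * d * a⁻¹ := h
      have h3 : a * ((a * d * a⁻¹) * a⁻¹) = a * (d * a⁻¹) := by
        calc a * ((a * d * a⁻¹) * a⁻¹) = a * (a * d * a⁻¹) * a⁻¹ := by group
          _ = a * d * a⁻¹ := h2
          _ = a * (d * a⁻¹) := by group
      have h4 := mul_left_cancel h3
      exact mul_right_cancel h4
    · exact h
  refine ⟨d, u₁, ⟨hd2, hu₁2, hcomm, hd1', hu₁1, fun h => hadne h.symm, rfl, hu₂⟩, hdA, hu₁A, hform⟩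

/-- Core of Case III. -/
theorem caseIII_core {c u u₁ t' : G} (hR : R4 a u u₁) (hcC : c ∈ Ctx.Cc P H) (hc2 : c * c = 1) (hc1 : c ≠ 1)
    (huA : u ∈ A) (hu₁A : u₁ ∈ A) (huc : ∀ x ∈ A, x * u = u * x) (hu₁c : ∀ x ∈ A, x * u₁ = u₁ * x)
    (huP : ∀ p ∈ P, p * u * p⁻¹ = u) (ht'P : t' ∈ P) (ht'A : t' ∉ A) (ht'2 : t' * t' = 1)
    (hform : ∀ x ∈ A, (x = 1 ∨ x = u ∨ x = u₁ ∨ x = u * u₁) ∨ (x = c ∨ x = c * u ∨ x = c * u₁ ∨ x = c * (u * u₁)))
    (hA8 : Nat.card A = 8) {n : ℕ} (hn : orderOf a = n) (hH : Nat.card H = 2 * n * Nat.card A) :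
    Nonempty (↥H ⧸ Cfsg.oddCore ↥H ≃* (Equiv.Perm (Fin 4) × Multiplicative (ZMod 2))) := by
  classical
  have hcP : c ∈ P := (memCc.1 hcC).1
  have hcH : ∀ h ∈ H, h * c * h⁻¹ = c := (memCc.1 hcC).2
  have hcc : ∀ h ∈ H, h * c = c * h := by
    intro h hh
    have := hcH h hh
    rwa [mul_inv_eq_iff_eq_mul] at this
  -- `R₀`
  set R₀ := Subgroup.closure ({u, u₁} : Set G) with hR₀
  have hrform := hR.closure_form
  have huR : u ∈ R₀ := Subgroup.subset_closure (by simp)
  have hu₁R : u₁ ∈ R₀ := Subgroup.subset_closure (by simp)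
  have hR₀A : R₀ ≤ A := by
    rw [hR₀, Subgroup.closure_le]
    rintro z (rfl | rfl)
    · exact huA
    · exact hu₁A
  have huu₁c : ∀ x ∈ A, x * (u * u₁) = (u * u₁) * x := by
    intro x hx
    rw [← mul_assoc, huc x hx, mul_assoc, hu₁c x hx, mul_assoc]
  have hRc : ∀ α ∈ A, ∀ r ∈ R₀, α * r = r * α := by
    intro α hα r hr
    rcases hrform r hr with rfl | rfl | rfl | rfl
    · simp
    · exact huc α hα
    · exact hu₁c α hα
    · exact huu₁c α hα
  have ha2 := hR.ha2
  -- `a` acts on `R₀`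
  have hRa : ∀ r ∈ R₀, a * r * a⁻¹ ∈ R₀ := by
    intro r hr
    rcases hrform r hr with rfl | rfl | rfl | rfl
    · simpa using R₀.one_mem
    · rw [hR.ha0]; exact hu₁R
    · rw [hR.ha1]; exact R₀.mul_mem huR hu₁R
    · rw [ha2]; exact huR
  have hainvu : a⁻¹ * u * a = u * u₁ := by
    have : a⁻¹ * (a * (u * u₁) * a⁻¹) * a = u * u₁ := by group
    rw [ha2] at this; exact this
  have hainvu₁ : a⁻¹ * u₁ * a = u := by
    rw [← hR.ha0]; group
  have hainvuu₁ : a⁻¹ * (u * u₁) * a = u₁ := by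
    rw [← hR.ha1]; group
  have hRa' : ∀ r ∈ R₀, a⁻¹ * r * a ∈ R₀ := by
    intro r hr
    rcases hrform r hr with rfl | rfl | rfl | rfl
    · simpa using R₀.one_mem
    · rw [hainvu]; exact R₀.mul_mem huR hu₁R
    · rw [hainvu₁]; exact huR
    · rw [hainvuu₁]; exact hu₁R
  -- `a³` centralises `A`
  have hau3 : a ^ 3 * u = u * a ^ 3 := by
    have := hR.pow3u 1
    rw [mul_inv_eq_iff_eq_mul] at this
    simpa using this
  have hau₁3 : a ^ 3 * u₁ = u₁ * a ^ 3 := by
    have := hR.pow3u₁ 1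
    rw [mul_inv_eq_iff_eq_mul] at this
    simpa using this
  have hac3 : c * a ^ 3 = a ^ 3 * c := (hcc _ (H.pow_mem X.ha 3)).symm
  have ha3 : ∀ α ∈ A, α * a ^ 3 = a ^ 3 * α := by
    have h1 : Commute u (a ^ 3) := hau3.symm
    have h2 : Commute u₁ (a ^ 3) := hau₁3.symm
    have h3 : Commute c (a ^ 3) := hac3
    intro α hα
    rcases hform α hα with (rfl | rfl | rfl | rfl) | (rfl | rfl | rfl | rfl)
    · simp
    · exact h1.eq
    · exact h2.eq
    · exact (h1.mul_left h2).eq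
    · exact h3.eq
    · exact (h3.mul_left h1).eq
    · exact (h3.mul_left h2).eq
    · exact (h3.mul_left (h1.mul_left h2)).eq
  have hcard := X.card_Q_three hR huA ha3 hn hH
  rw [hA8] at hcard
  -- `c ∉ R₀`
  have hau : a * u * a⁻¹ ≠ u := by
    rw [hR.ha0]; exact hR.hne.symm
  have hcR : c ∉ R₀ := by
    intro h
    have hfix := hcH a X.ha
    rcases hrform c h with h' | h' | h' | h'
    · exact hc1 h'
    · rw [h'] at hfix; exact hau hfix
    · rw [h', hR.ha1] at hfix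
      apply hR.hu1
      have : u * u₁ = 1 * u₁ := by rw [hfix, one_mul]
      exact mul_right_cancel this
    · rw [h', ha2] at hfix
      apply hR.hu₁1
      have : u * u₁ = u * 1 := by rw [← hfix, mul_one]
      exact mul_left_cancel this
  -- `t'`
  have ht'inv : t'⁻¹ = t' := by rw [inv_eq_iff_mul_eq_one]; exact ht'2
  have hβ := X.hinv t' ht'P ht'A
  set β := t' * a * t'⁻¹ * a with hβd
  have ht'a : t' * a * t'⁻¹ = β * a⁻¹ := by rw [hβd]; group
  have hmpos : 0 < orderOf a := by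
    rcases X.hodd with ⟨k, hk⟩; omega
  have hβR : β ∈ R₀ := by
    rcases hform β hβ with h | h
    · rcases h with h | h | h | h <;> rw [h]
      · exact R₀.one_mem
      · exact huR
      · exact hu₁R
      · exact R₀.mul_mem huR hu₁R
    · exfalso
      -- write `β = c * r`
      obtain ⟨r, hr, hβr⟩ : ∃ r ∈ R₀, β = c * r := by
        rcases h with h | h | h | h
        · exact ⟨1, R₀.one_mem, by rw [h, mul_one]⟩
        · exact ⟨u, huR, h⟩
        · exact ⟨u₁, hu₁R, h⟩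
        · exact ⟨u * u₁, R₀.mul_mem huR hu₁R, h⟩
      have hpow : ∀ j : ℕ, ∃ r' ∈ R₀, (β * a⁻¹) ^ j = c ^ j * r' * (a ^ j)⁻¹ := by
        intro j
        induction j with
        | zero => exact ⟨1, R₀.one_mem, by simp⟩
        | succ j ih =>
          obtain ⟨r', hr', e⟩ := ih
          have hr'' : (a ^ j)⁻¹ * r * a ^ j ∈ R₀ := by
            have : ∀ j : ℕ, ∀ r ∈ R₀, (a ^ j)⁻¹ * r * a ^ j ∈ R₀ := by
              intro j
              induction j with
              | zero => intro r hr; simpa using hr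
              | succ j ih =>
                intro r hr
                have := ih _ (hRa' r hr)
                rw [pow_succ]
                convert this using 1
                group
            exact this j r hr
          refine ⟨r' * ((a ^ j)⁻¹ * r * a ^ j), R₀.mul_mem hr' hr'', ?_⟩
          have hca : (a ^ j)⁻¹ * c = c * (a ^ j)⁻¹ := by
            have := hcc _ (H.inv_mem (H.pow_mem X.ha j))
            exact this
          have hcr : r' * c = c * r' := hcc r' (X.mem_H_of_A (hR₀A hr'))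
          rw [pow_succ, e, hβr, pow_succ c, pow_succ a]
          calc c ^ j * r' * (a ^ j)⁻¹ * (c * r * a⁻¹)
              = c ^ j * r' * ((a ^ j)⁻¹ * c) * r * a⁻¹ := by group
            _ = c ^ j * (r' * c) * (a ^ j)⁻¹ * r * a⁻¹ := by rw [hca]; group
            _ = c ^ j * (c * r') * (a ^ j)⁻¹ * r * a⁻¹ := by rw [hcr]
            _ = c ^ j * c * (r' * ((a ^ j)⁻¹ * r * a ^ j)) * (a ^ j * a)⁻¹ := by group
      obtain ⟨r', hr', e⟩ := hpow (orderOf a)
      rw [← ht'a, conj_pow, pow_orderOf_eq_one] at e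
      simp only [mul_one, mul_inv_cancel, inv_one] at e
      obtain ⟨q, hq⟩ := X.hodd
      have hcm : c ^ orderOf a = c := by
        rw [hq, pow_succ, pow_mul, pow_two, hc2, one_pow, one_mul]
      rw [hcm] at e
      apply hcR
      have : c = r'⁻¹ := eq_inv_of_mul_eq_one_left e.symm
      rw [this]; exact R₀.inv_mem hr'
  have hRAform : ∀ x ∈ A, x ∈ R₀ ∨ ∃ r ∈ R₀, x = c * r := by
    intro x hx
    rcases hform x hx with h | h
    · left
      rcases h with h | h | h | h <;> rw [h]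
      · exact R₀.one_mem
      · exact huR
      · exact hu₁R
      · exact R₀.mul_mem huR hu₁R
    · right
      rcases h with h | h | h | h
      · exact ⟨1, R₀.one_mem, by rw [h, mul_one]⟩
      · exact ⟨u, huR, h⟩
      · exact ⟨u₁, hu₁R, h⟩
      · exact ⟨u * u₁, R₀.mul_mem huR hu₁R, h⟩
  -- `t'` acts on `R₀`
  have ht'u : t' * u * t'⁻¹ = u := huP t' ht'P
  have ht'u₁ : t' * u₁ * t'⁻¹ = u * u₁ := by
    have e : t' * u₁ * t'⁻¹ = (t' * a * t'⁻¹) * (t' * u * t'⁻¹) * (t' * a * t'⁻¹)⁻¹ := by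
      rw [← hR.ha0]; group
    rw [e, ht'u, ht'a]
    have e2 : β * a⁻¹ * u * (β * a⁻¹)⁻¹ = β * (a⁻¹ * u * a) * β⁻¹ := by group
    rw [e2, hainvu, mul_inv_eq_iff_eq_mul]
    exact huu₁c β hβ
  have hR₀t : ∀ r ∈ R₀, t' * r * t'⁻¹ ∈ R₀ := by
    intro r hr
    rcases hrform r hr with rfl | rfl | rfl | rfl
    · simpa using R₀.one_mem
    · rw [ht'u]; exact huR
    · rw [ht'u₁]; exact R₀.mul_mem huR hu₁R
    · have e : t' * (u * u₁) * t'⁻¹ = (t' * u * t'⁻¹) * (t' * u₁ * t'⁻¹) := by group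
      rw [e, ht'u, ht'u₁, ← mul_assoc, hR.hu2, one_mul]; exact hu₁R
  have hR₀n : ∀ h ∈ H, ∀ r ∈ R₀, h * r * h⁻¹ ∈ R₀ := by
    apply X.normal_of ht'P ht'A
    · intro α hα r hr
      rw [hRc α hα r hr]; simpa using hr
    · exact hRa
    · exact hR₀t
  have hRaj : ∀ j : ℕ, ∀ r ∈ R₀, (a ^ j)⁻¹ * r * a ^ j ∈ R₀ := by
    intro j r hr
    have := hR₀n _ (H.inv_mem (H.pow_mem X.ha j)) r hr
    simpa using this
  -- `K₀`
  let K₀ : Subgroup G :=
    { carrier := {h | ∃ i : ℕ, ∃ r ∈ R₀, h = a ^ i * r}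
      one_mem' := ⟨0, 1, R₀.one_mem, by simp⟩
      mul_mem' := by
        rintro _ _ ⟨i, r, hr, rfl⟩ ⟨j, r', hr', rfl⟩
        refine ⟨i + j, ((a ^ j)⁻¹ * r * a ^ j) * r', R₀.mul_mem (hRaj j r hr) hr', ?_⟩
        rw [pow_add]; group
      inv_mem' := by
        rintro _ ⟨i, r, hr, rfl⟩
        have hp : (a ^ i)⁻¹ = a ^ ((orderOf a - 1) * i) := by
          rw [pow_mul, X.a_pred, inv_pow]
        refine ⟨(orderOf a - 1) * i, a ^ i * r⁻¹ * (a ^ i)⁻¹,
          hR₀n _ (H.pow_mem X.ha i) _ (R₀.inv_mem hr), ?_⟩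
        rw [← hp]; group }
  have hK₀mem : ∀ h, h ∈ K₀ ↔ ∃ i : ℕ, ∃ r ∈ R₀, h = a ^ i * r := fun h => Iff.rfl
  have hRK : ∀ r ∈ R₀, r ∈ K₀ := fun r hr => ⟨0, r, hr, by simp⟩
  have haK : a ∈ K₀ := ⟨1, 1, R₀.one_mem, by simp⟩
  have hK₀t : ∀ k ∈ K₀, t' * k * t'⁻¹ ∈ K₀ := by
    rintro _ ⟨i, r, hr, rfl⟩
    have e : t' * (a ^ i * r) * t'⁻¹ = (t' * a * t'⁻¹) ^ i * (t' * r * t'⁻¹) := by
      rw [conj_pow]; group
    rw [e, ht'a]
    exact K₀.mul_mem (K₀.pow_mem (K₀.mul_mem (hRK _ hβR) (K₀.inv_mem haK)) i) (hRK _ (hR₀t r hr))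
  -- `T₁`
  let T₁ : Subgroup G :=
    { carrier := {h | h ∈ K₀ ∨ h * t' ∈ K₀}
      one_mem' := Or.inl K₀.one_mem
      mul_mem' := by
        rintro h h' (h1 | h1) (h2 | h2)
        · exact Or.inl (K₀.mul_mem h1 h2)
        · right
          rw [mul_assoc]; exact K₀.mul_mem h1 h2
        · right
          have := K₀.mul_mem h1 (hK₀t h' h2)
          convert this using 1
          rw [ht'inv]
          calc h * h' * t' = h * (t' * t') * h' * t' := by rw [ht'2, mul_one]
            _ = h * t' * (t' * h' * t') := by group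
        · left
          have := K₀.mul_mem h1 (hK₀t _ h2)
          convert this using 1
          rw [ht'inv]
          calc h * h' = h * (t' * t') * h' * (t' * t') := by rw [ht'2, mul_one, mul_one]
            _ = h * t' * (t' * (h' * t') * t') := by group
      inv_mem' := by
        rintro h (h1 | h1)
        · exact Or.inl (K₀.inv_mem h1)
        · right
          have := hK₀t _ (K₀.inv_mem h1)
          convert this using 1
          rw [ht'inv, mul_inv_rev, ht'inv]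
          calc h⁻¹ * t' = (t' * t') * h⁻¹ * t' := by rw [ht'2, one_mul]
            _ = t' * (t' * h⁻¹) * t' := by group }
  have hT₁mem : ∀ h, h ∈ T₁ ↔ (h ∈ K₀ ∨ h * t' ∈ K₀) := fun h => Iff.rfl
  have hKT : ∀ k ∈ K₀, k ∈ T₁ := fun k hk => Or.inl hk
  have hcT₁ : c ∉ T₁ := by
    have hone : ∀ i : ℕ, a ^ i ∈ P → a ^ i = 1 := by
      intro i hi
      obtain ⟨k, hk⟩ := IsPGroup.iff_card.1 X.hP2g
      have h1 : (a ^ i) ^ (2 ^ k) = 1 := by rw [← hk]; exact pow_card_eq_one hi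
      have h2 : (a ^ i) ^ orderOf a = 1 := by
        rw [← pow_mul, mul_comm, pow_mul, pow_orderOf_eq_one, one_pow]
      exact eq_one_of_odd_two X.hodd h2 h1
    rintro (⟨i, r, hr, he⟩ | ⟨i, r, hr, he⟩)
    · have h1 : a ^ i = c * r⁻¹ := by rw [he]; group
      have h2 : a ^ i ∈ P := by
        rw [h1]; exact P.mul_mem hcP (X.hAP (hR₀A (R₀.inv_mem hr)))
      rw [hone i h2, one_mul] at he
      exact hcR (he ▸ hr)
    · have h1 : a ^ i = c * t' * r⁻¹ := by rw [he]; group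
      have h2 : a ^ i ∈ P := by
        rw [h1]; exact P.mul_mem (P.mul_mem hcP ht'P) (X.hAP (hR₀A (R₀.inv_mem hr)))
      rw [hone i h2, one_mul] at he
      apply ht'A
      have h3 : t' = c⁻¹ * r := by rw [← he]; group
      rw [h3]
      have hcA : c ∈ A := by
        have hna : ¬ ∀ x ∈ A, a * x * a⁻¹ = x := by
          intro h
          have := X.card_two_of h
          omega
        exact X.zA hna hcP (X.Cc_central hcC)
      exact A.mul_mem (A.inv_mem hcA) (hR₀A hr)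
  have hcovG : ∀ h ∈ H, h ∈ T₁ ∨ c * h ∈ T₁ := by
    intro h hh
    obtain ⟨i, p, hp, rfl⟩ := X.hgen h hh
    have hca : ∀ z ∈ H, c * z = z * c := fun z hz => (hcc z hz).symm
    have hai := H.pow_mem X.ha i
    by_cases hpA : p ∈ A
    · rcases hRAform p hpA with hr | ⟨r, hr, rfl⟩
      · exact Or.inl (hKT _ ⟨i, p, hr, rfl⟩)
      · right
        apply hKT
        refine ⟨i, r, hr, ?_⟩
        rw [← mul_assoc, hca _ hai]
        calc a ^ i * c * (c * r) = a ^ i * (c * c) * r := by group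
          _ = a ^ i * r := by rw [hc2]; group
    · have hα : t'⁻¹ * p ∈ A := (idx2 X.hAP X.hPc _ (P.inv_mem ht'P) p hp).2
        ⟨fun h' => absurd (by simpa using A.inv_mem h') ht'A, fun h' => absurd h' hpA⟩
      have hpe : p = t' * (t'⁻¹ * p) := by group
      rcases hRAform _ hα with hr | ⟨r, hr, hre⟩
      · left
        right
        refine ⟨i, t' * (t'⁻¹ * p) * t'⁻¹, hR₀t _ hr, ?_⟩
        rw [ht'inv]
        calc a ^ i * p * t' = a ^ i * (t' * (t'⁻¹ * p)) * t' := by rw [← hpe]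
          _ = a ^ i * (t' * (t' * p) * t') := by rw [ht'inv]; group
      · right
        right
        refine ⟨i, t' * r * t'⁻¹, hR₀t _ hr, ?_⟩
        rw [ht'inv, hpe, hre]
        have ht'c : t' * c = c * t' := hcc t' (X.hPH ht'P)
        have hai' := hcc _ hai
        calc c * (a ^ i * (t' * (c * r))) * t' = (c * a ^ i) * (t' * (c * r)) * t' := by group
          _ = (a ^ i * c) * ((t' * c) * r) * t' := by rw [hai']; group
          _ = (a ^ i * c) * ((c * t') * r) * t' := by rw [ht'c]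
          _ = a ^ i * (c * c) * t' * r * t' := by group
          _ = a ^ i * (t' * r * t') := by rw [hc2]; group
  -- Quotient level
  haveI hON : (Cfsg.oddCore ↥H).Normal := oc_normal
  let π := QuotientGroup.mk' (Cfsg.oddCore ↥H)
  have hπs : Function.Surjective π := QuotientGroup.mk'_surjective _
  have hπ1 : ∀ z : ↥H, π z = 1 ↔ z ∈ Cfsg.oddCore ↥H := fun z => QuotientGroup.eq_one_iff z
  have hcHm : c ∈ H := X.hPH hcP
  let ch : ↥H := ⟨c, hcHm⟩
  let Th : Subgroup (↥H ⧸ Cfsg.oddCore ↥H) := (T₁.subgroupOf H).map π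
  let chb := π ch
  have hchbc : ∀ q, chb * q = q * chb := by
    intro q
    obtain ⟨h, rfl⟩ := hπs q
    rw [← map_mul, ← map_mul]
    congr 1
    exact Subtype.ext (hcc h h.2).symm
  have hchb2 : chb * chb = 1 := by
    rw [← map_mul]
    have : ch * ch = 1 := Subtype.ext hc2
    rw [this, map_one]
  have hchbT : chb ∉ Th := by
    rintro ⟨h, hh, e⟩
    have h1 : π (h⁻¹ * ch) = 1 := by
      rw [map_mul, map_inv, e]; exact inv_mul_cancel _
    have h2 := (hπ1 _).1 h1
    obtain ⟨i, hi⟩ := X.oc_form h2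
    have h3 : ((h⁻¹ * ch : ↥H) : G) = (h : G)⁻¹ * c := rfl
    rw [h3] at hi
    apply hcT₁
    have h4 : c = (h : G) * a ^ i := by rw [← hi]; group
    rw [h4]
    exact T₁.mul_mem (Subgroup.mem_subgroupOf.1 hh) (hKT _ ⟨i, 1, R₀.one_mem, by simp⟩)
  have hchbcov : ∀ q, q ∈ Th ∨ chb * q ∈ Th := by
    intro q
    obtain ⟨h, rfl⟩ := hπs q
    rcases hcovG h h.2 with h1 | h1
    · exact Or.inl ⟨h, Subgroup.mem_subgroupOf.2 h1, rfl⟩
    · refine Or.inr ⟨ch * h, Subgroup.mem_subgroupOf.2 h1, ?_⟩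
      rw [map_mul]
  obtain ⟨⟨e⟩, hcT⟩ := split_of Th hchbc hchb2 hchbT hchbcov
  have hT24 : Nat.card Th = 24 := by omega
  -- `Rh`
  have hR₀H : R₀ ≤ H := hR₀A.trans (X.hAP.trans X.hPH)
  have hRnorm : (R₀.subgroupOf H).Normal := by
    constructor
    intro x hx g
    rw [Subgroup.mem_subgroupOf] at hx ⊢
    exact hR₀n g g.2 x hx
  let Rh : Subgroup (↥H ⧸ Cfsg.oddCore ↥H) := (R₀.subgroupOf H).map π
  haveI hRN : Rh.Normal := hRnorm.map π hπs
  have hRhT : Rh ≤ Th := by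
    rintro _ ⟨r, hr, rfl⟩
    exact ⟨r, Subgroup.mem_subgroupOf.2 (hKT _ (hRK _ (Subgroup.mem_subgroupOf.1 hr))), rfl⟩
  -- the order of `R₀`
  have hcardR : Nat.card R₀ = 4 := by
    have h1 : 2 * Nat.card R₀ ≤ Nat.card A := by
      have hcA : c ∈ A := by
        have hna : ¬ ∀ x ∈ A, a * x * a⁻¹ = x := by
          intro h
          have := X.card_two_of h
          omega
        exact X.zA hna hcP (X.Cc_central hcC)
      exact two_le_of_lt hR₀A ⟨c, hcA, hcR⟩
    have h2 : 2 ≤ Nat.card (Subgroup.zpowers u) := by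
      have := two_le_of_lt (U := ⊥) (V := Subgroup.zpowers u) bot_le
        ⟨u, Subgroup.mem_zpowers u, by simpa using hR.hu1⟩
      simpa using this
    have h3 : 2 * Nat.card (Subgroup.zpowers u) ≤ Nat.card R₀ := by
      refine two_le_of_lt ((Subgroup.zpowers_le).2 huR) ⟨u₁, hu₁R, ?_⟩
      intro h
      have hle : Subgroup.zpowers u ≤ Subgroup.centralizer ({t'} : Set G) := by
        rw [Subgroup.zpowers_le, Subgroup.mem_centralizer_iff]
        intro g hg
        rw [Set.mem_singleton_iff.1 hg]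
        rw [mul_inv_eq_iff_eq_mul] at ht'u
        exact ht'u
      have h4 := Subgroup.mem_centralizer_iff.1 (hle h) t' rfl
      have h5 : t' * u₁ * t'⁻¹ = u₁ := by
        rw [mul_inv_eq_iff_eq_mul]; exact h4
      rw [ht'u₁] at h5
      apply hR.hu1
      have : u * u₁ = 1 * u₁ := by rw [h5, one_mul]
      exact mul_right_cancel this
    omega
  have hVc : Nat.card ↥(Rh.subgroupOf Th) = 4 := by
    rw [Nat.card_congr (Subgroup.subgroupOfEquivOfLe hRhT).toEquiv]
    show Nat.card ↥((R₀.subgroupOf H).map π) = 4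
    rw [card_map_of_disjoint, Nat.card_congr (Subgroup.subgroupOfEquivOfLe hR₀H).toEquiv, hcardR]
    intro x hx h1
    exact X.oc_inter ((hπ1 x).1 h1) (hR₀A (Subgroup.mem_subgroupOf.1 hx))
  have hVC : ∀ g : ↥Th, (∀ v ∈ Rh.subgroupOf Th, g * v = v * g) → g ∈ Rh.subgroupOf Th := by
    rintro ⟨q, hq⟩ hg
    obtain ⟨h, hh, rfl⟩ := hq
    have hcent : ∀ r ∈ R₀, (h : G) * r = r * (h : G) := by
      intro r hr
      have hrH := hR₀H hr
      let rh : ↥H := ⟨r, hrH⟩
      have hvR : π rh ∈ Rh := ⟨rh, Subgroup.mem_subgroupOf.2 hr, rfl⟩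
      have h1 := hg ⟨π rh, hRhT hvR⟩ (Subgroup.mem_subgroupOf.2 hvR)
      have h1' : π h * π rh = π rh * π h := congrArg Subtype.val h1
      have h2 : π (h * rh * h⁻¹ * rh⁻¹) = 1 := by
        rw [map_mul, map_mul, map_mul, map_inv, map_inv, h1']; group
      have h3 := (hπ1 _).1 h2
      have h4 : ((h * rh * h⁻¹ * rh⁻¹ : ↥H) : G) ∈ A := by
        show (h : G) * r * (h : G)⁻¹ * r⁻¹ ∈ A
        exact A.mul_mem (X.hAn h h.2 r (hR₀A hr)) (A.inv_mem (hR₀A hr))
      have h5 := X.oc_inter h3 h4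
      have h6 : (h : G) * r * (h : G)⁻¹ * r⁻¹ = 1 := congrArg Subtype.val h5
      have h7 : (h : G) * r = ((h : G) * r * (h : G)⁻¹ * r⁻¹) * (r * (h : G)) := by group
      rw [h7, h6, one_mul]
    obtain ⟨p, hpA, i, he, hi, hiO⟩ := X.central_lift hR hRc huR hRa' ha3 h hcent h.2
    have hpH := X.mem_H_of_A hpA
    have h8 : h = ⟨a ^ i, hi⟩ * ⟨p, hpH⟩ := Subtype.ext he
    have h9 : π ⟨a ^ i, hi⟩ = 1 := (hπ1 _).2 hiO
    have h10 : π h = π ⟨p, hpH⟩ := by rw [h8, map_mul, h9, one_mul]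
    rw [Subgroup.mem_subgroupOf]
    show π h ∈ Rh
    rw [h10]
    rcases hRAform p hpA with hr | ⟨r, hr, hre⟩
    · exact ⟨⟨p, hpH⟩, Subgroup.mem_subgroupOf.2 hr, rfl⟩
    · exfalso
      apply hchbT
      have hrH := hR₀H hr
      have h11 : (⟨p, hpH⟩ : ↥H) = ch * ⟨r, hrH⟩ := Subtype.ext hre
      rw [h11, map_mul] at h10
      have h12 : chb = π h * (π ⟨r, hrH⟩)⁻¹ := by
        show π ch = _
        rw [h10]; group
      rw [h12]
      exact Th.mul_mem ⟨h, hh, rfl⟩ (Th.inv_mem (hRhT ⟨⟨r, hrH⟩, Subgroup.mem_subgroupOf.2 hr, rfl⟩))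
  haveI : (Rh.subgroupOf Th).Normal := Subgroup.normal_subgroupOf
  obtain ⟨e₂⟩ := Cfsg.Agent.H03.S4R.sym_four_of (Rh.subgroupOf Th) hVc hVC hT24
  exact ⟨e.trans (MulEquiv.prodCongr e₂ (MulEquiv.refl _))⟩

end Ctx
end Cfsg.Agent.H12.Tut
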