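import Cfsg.Agent.Lib.H12.Tut8

set_option autoImplicit false
set_option linter.unusedVariables false
set_option linter.unusedSectionVars false

open Pointwise

namespace Cfsg.Agent.H12.Tut

variable {G : Type*} [Group G] [Finite G]

namespace Ctx

variable {A P H : Subgroup G} {a y : G} (X : Ctx A P H a y)
include X

theorem exists_inv_Cc {c₀ : G} (hc₀ : c₀ ∈ Ctx.Cc P H) (hc₀1 : c₀ ≠ 1) : ∃ c ∈ Ctx.Cc P H, c ≠ 1 ∧ c * c = 1 := by
  have hpg : IsPGroup 2 (Ctx.Cc P H) := X.hP2g.to_le inf_le_left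
  haveI : Fact (Nat.Prime 2) := ⟨Nat.prime_two⟩
  have h2d : 2 ∣ Nat.card (Ctx.Cc P H) := by
    obtain ⟨k, hk⟩ := IsPGroup.iff_card.1 hpg
    rw [hk]
    rcases k with _ | k
    · exfalso
      have h1 : Nat.card (Ctx.Cc P H) = 1 := by simpa using hk
      have := (Nat.card_eq_one_iff_unique.1 h1).1
      have h2 : (⟨c₀, hc₀⟩ : Ctx.Cc P H) = 1 := Subsingleton.elim _ _
      exact hc₀1 (congrArg Subtype.val h2)
    · exact dvd_pow_self 2 (by omega)
  obtain ⟨⟨c, hc⟩, hco⟩ := exists_prime_orderOf_dvd_card' 2 h2d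
  have hco' : orderOf c = 2 := by
    rw [← hco]; exact (Subgroup.orderOf_mk c hc).symm
  refine ⟨c, hc, ?_, ?_⟩
  · intro h; rw [h, orderOf_one] at hco'; omega
  · rw [← pow_two, ← hco']; exact pow_orderOf_eq_one c

theorem caseIII (hA8 : Nat.card A = 8) {c₀ : G} (hc₀ : c₀ ∈ Ctx.Cc P H) (hc₀1 : c₀ ≠ 1) {n : ℕ} (hn : orderOf a = n)
    (hH : Nat.card H = 2 * n * Nat.card A) :
    Nonempty (↥H ⧸ Cfsg.oddCore ↥H ≃* (Equiv.Perm (Fin 4) × Multiplicative (ZMod 2))) := by
  classical
  obtain ⟨c, hc, hc1, hc2⟩ := X.exists_inv_Cc hc₀ hc₀1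
  have hna : ¬ ∀ x ∈ A, a * x * a⁻¹ = x := by
    intro h
    have := X.card_two_of h
    omega
  set D := A ⊓ cnj y A with hD
  have hDc : Nat.card D = 4 := by
    have h9 : Nat.card A = 2 * Nat.card D := X.cardAD
    omega
  have hDA : D ≤ A := inf_le_left
  have hcP : c ∈ P := (memCc.1 hc).1
  have hcH : ∀ h ∈ H, h * c * h⁻¹ = c := (memCc.1 hc).2
  have hcc : ∀ h ∈ H, h * c = c * h := by
    intro h hh
    have := hcH h hh
    rwa [mul_inv_eq_iff_eq_mul] at this
  have hcD : c ∈ D := X.zD hna hcP (X.Cc_central hc)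
  set c' := y * c * y⁻¹ with hc'
  have hc'P : c' ∈ P := (X.hyP c).1 hcP
  have hc'cent : ∀ p ∈ P, p * c' * p⁻¹ = c' := by
    intro p hp
    have h1 := X.Cc_central hc _ (X.yinvP hp)
    rw [hc']
    calc p * (y * c * y⁻¹) * p⁻¹ = y * ((y⁻¹ * p * y) * c * (y⁻¹ * p * y)⁻¹) * y⁻¹ := by group
      _ = y * c * y⁻¹ := by rw [h1]
  have hc'D : c' ∈ D := X.zD hna hc'P hc'cent
  have hc'2 : c' * c' = 1 := by
    rw [hc']
    calc y * c * y⁻¹ * (y * c * y⁻¹) = y * (c * c) * y⁻¹ := by group
      _ = 1 := by rw [hc2]; group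
  have hc'1 : c' ≠ 1 := by
    intro h
    apply hc1
    have : c = y⁻¹ * c' * y := by rw [hc']; group
    rw [this, h]; group
  have hc'notC : c' ∉ Ctx.Cc P H := fun h => hc1 (X.Cc_y hc h)
  have hcne : c' ≠ c := fun h => hc'notC (h ▸ hc)
  have hanot : a * c' * a⁻¹ ≠ c' := by
    intro h
    apply hc'notC
    rw [memCc]
    refine ⟨hc'P, ?_⟩
    intro u hu
    obtain ⟨i, p, hp, rfl⟩ := X.hgen u hu
    have h1 : ∀ i : ℕ, a ^ i * c' * (a ^ i)⁻¹ = c' := by
      intro i
      induction i with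
      | zero => simp
      | succ i ih =>
        calc a ^ (i + 1) * c' * (a ^ (i + 1))⁻¹ = a ^ i * (a * c' * a⁻¹) * (a ^ i)⁻¹ := by
              rw [pow_succ]; group
          _ = c' := by rw [h, ih]
    calc a ^ i * p * c' * (a ^ i * p)⁻¹ = a ^ i * (p * c' * p⁻¹) * (a ^ i)⁻¹ := by group
      _ = c' := by rw [hc'cent p hp, h1]
  -- form of D
  have hzc : ∀ z ∈ Subgroup.zpowers c, z = 1 ∨ z = c := by
    rintro z ⟨k, rfl⟩
    have hc2' : c ^ (2 : ℤ) = 1 := by
      rw [show (2 : ℤ) = ((2 : ℕ) : ℤ) by norm_num, zpow_natCast, pow_two]; exact hc2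
    rcases Int.even_or_odd' k with ⟨m, rfl | rfl⟩
    · left; simp only; rw [zpow_mul, hc2', one_zpow]
    · right; simp only; rw [zpow_add, zpow_mul, hc2', one_zpow]; simp
  have hUc : Nat.card (Subgroup.zpowers c) = 2 := by
    rw [Nat.card_zpowers]
    exact orderOf_eq_prime (by rw [pow_two]; exact hc2) hc1
  have hUD : Subgroup.zpowers c ≤ D := (Subgroup.zpowers_le).2 hcD
  have hc'U : c' ∉ Subgroup.zpowers c := by
    intro h
    rcases hzc _ h with h' | h'
    · exact hc'1 h'
    · exact hcne h'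
  have hDform : ∀ z ∈ D, z = 1 ∨ z = c ∨ z = c' ∨ z = c' * c := by
    intro z hz
    by_cases hzU : z ∈ Subgroup.zpowers c
    · rcases hzc z hzU with h | h
      · exact Or.inl h
      · exact Or.inr (Or.inl h)
    · have h1 : c'⁻¹ * z ∈ Subgroup.zpowers c :=
        (idx2 hUD (by rw [hDc, hUc]) _ (D.inv_mem hc'D) z hz).2
          ⟨fun h' => absurd (by simpa using Subgroup.inv_mem _ h') hc'U, fun h' => absurd h' hzU⟩
      rcases hzc _ h1 with h | h
      · right; right; left
        exact (inv_mul_eq_one.1 h).symm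
      · right; right; right
        rw [← h]; group
  have hcA : c ∈ A := hDA hcD
  have hc'A : c' ∈ A := hDA hc'D
  set v := a * c' * a⁻¹ with hv
  have hvA : v ∈ A := X.hAn a X.ha c' hc'A
  have hainvH := H.inv_mem X.ha
  have hcainv : a⁻¹ * c * a = c := by
    have := hcH a⁻¹ hainvH
    simpa using this
  have hvc : ∀ x ∈ A, v * x = x * v := by
    intro x hx
    have h1 := hc'cent _ (X.hAP (X.hAn a⁻¹ hainvH x hx))
    rw [inv_inv] at h1
    rw [hv]
    have h2 : c' * (a⁻¹ * x * a) = (a⁻¹ * x * a) * c' := by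
      rw [mul_inv_eq_iff_eq_mul] at h1
      exact h1.symm
    calc a * c' * a⁻¹ * x = a * (c' * (a⁻¹ * x * a)) * a⁻¹ := by group
      _ = a * ((a⁻¹ * x * a) * c') * a⁻¹ := by rw [h2]
      _ = x * (a * c' * a⁻¹) := by group
  have hv2 : v * v = 1 := by
    rw [hv]
    calc a * c' * a⁻¹ * (a * c' * a⁻¹) = a * (c' * c') * a⁻¹ := by group
      _ = 1 := by rw [hc'2]; group
  have hccent : ∀ x ∈ A, c * x = x * c := fun x hx => (hcc x (X.mem_H_of_A hx)).symm
  have hc'c : ∀ x ∈ A, c' * x = x * c' := by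
    intro x hx
    have := hc'cent x (X.hAP hx)
    rw [mul_inv_eq_iff_eq_mul] at this
    exact this.symm
  have hvD : v ∉ D := by
    intro h
    rcases hDform v h with h' | h' | h' | h'
    · apply hc'1
      have : c' = a⁻¹ * v * a := by rw [hv]; group
      rw [this, h']; group
    · apply hcne
      have : c' = a⁻¹ * v * a := by rw [hv]; group
      rw [this, h', hcainv]
    · exact hanot h'
    · apply hanot
      apply X.fix_of_sq
      calc a * a * c' * (a * a)⁻¹ = a * v * a⁻¹ := by rw [hv]; group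
        _ = a * (c' * c) * a⁻¹ := by rw [h']
        _ = (a * c' * a⁻¹) * (a * c * a⁻¹) := by group
        _ = (c' * c) * c := by rw [← hv, h', hcH a X.ha]
        _ = c' := by rw [mul_assoc, hc2, mul_one]
  have hid := idx2 hDA X.cardAD
  have hAform : ∀ x ∈ A, (x = 1 ∨ x = c ∨ x = c' ∨ x = c' * c) ∨ (x = v ∨ x = v * c ∨ x = v * c' ∨ x = v * (c' * c)) := by
    intro x hx
    by_cases hxD : x ∈ D
    · exact Or.inl (hDform x hxD)
    · have h1 : v⁻¹ * x ∈ D := (hid _ (A.inv_mem hvA) x hx).2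
        ⟨fun h' => absurd (by simpa using D.inv_mem h') hvD, fun h' => absurd h' hxD⟩
      right
      rcases hDform _ h1 with h | h | h | h
      · exact Or.inl (inv_mul_eq_one.1 h).symm
      · right; left; rw [← h]; group
      · right; right; left; rw [← h]; group
      · right; right; right; rw [← h]; group
  -- rewriting system
  have e1 : c' * c = c * c' := hc'c c hcA
  have e2 : v * c = c * v := hvc c hcA
  have e3 : v * c' = c' * v := hvc c' hc'A
  have s1 : ∀ z, c * (c * z) = z := fun z => by rw [← mul_assoc, hc2, one_mul]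
  have s2 : ∀ z, c' * (c' * z) = z := fun z => by rw [← mul_assoc, hc'2, one_mul]
  have s3 : ∀ z, v * (v * z) = z := fun z => by rw [← mul_assoc, hv2, one_mul]
  have s4 : ∀ z, c' * (c * z) = c * (c' * z) := fun z => by rw [← mul_assoc, e1, mul_assoc]
  have s5 : ∀ z, v * (c * z) = c * (v * z) := fun z => by rw [← mul_assoc, e2, mul_assoc]
  have s6 : ∀ z, v * (c' * z) = c' * (v * z) := fun z => by rw [← mul_assoc, e3, mul_assoc]
  -- elementary abelian
  have hZ : ∀ x ∈ A, (∀ u ∈ A, x * u = u * x) ∧ x * x = 1 := by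
    have hmul : ∀ x z, ((∀ u ∈ A, x * u = u * x) ∧ x * x = 1) → ((∀ u ∈ A, z * u = u * z) ∧ z * z = 1) → z ∈ A →
        ((∀ u ∈ A, (x * z) * u = u * (x * z)) ∧ (x * z) * (x * z) = 1) := by
      intro x z hx hz hzA
      refine ⟨?_, ?_⟩
      · intro u hu
        rw [mul_assoc, hz.1 u hu, ← mul_assoc, hx.1 u hu, mul_assoc]
      · calc x * z * (x * z) = x * (z * x) * z := by group
          _ = x * (x * z) * z := by rw [← hx.1 z hzA]
          _ = (x * x) * (z * z) := by group
          _ = 1 := by rw [hx.2, hz.2]; simp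
    have hZc : (∀ u ∈ A, c * u = u * c) ∧ c * c = 1 := ⟨hccent, hc2⟩
    have hZc' : (∀ u ∈ A, c' * u = u * c') ∧ c' * c' = 1 := ⟨hc'c, hc'2⟩
    have hZv : (∀ u ∈ A, v * u = u * v) ∧ v * v = 1 := ⟨hvc, hv2⟩
    intro x hx
    rcases hAform x hx with (rfl | rfl | rfl | rfl) | (rfl | rfl | rfl | rfl)
    · exact ⟨fun u _ => by simp, by simp⟩
    · exact hZc
    · exact hZc'
    · exact hmul _ _ hZc' hZc hcA
    · exact hZv
    · exact hmul _ _ hZv hZc hcA
    · exact hmul _ _ hZv hZc' hc'A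
    · exact hmul _ _ hZv (hmul _ _ hZc' hZc hcA) (A.mul_mem hc'A hcA)
  -- `t'`
  obtain ⟨t', ht'B, ht'A⟩ := X.exists_BA
  have ht'P : t' ∈ P := X.B_le ht'B
  have ht'2 : t' * t' = 1 := by
    have h1 := (hZ _ (X.conj_inv_A ht'B)).2
    have h2 : t' * t' = y * ((y⁻¹ * t' * y) * (y⁻¹ * t' * y)) * y⁻¹ := by group
    rw [h2, h1]; group
  -- `a v a⁻¹`
  have hacc : a * c * a⁻¹ = c := hcH a X.ha
  have hw : a * v * a⁻¹ = v * c' ∨ a * v * a⁻¹ = v * (c' * c) := by
    rcases hAform _ (X.hAn a X.ha v hvA) with (h | h | h | h) | (h | h | h | h)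
    · exfalso
      apply hc'1
      have h5 : v = 1 := by
        have h3 : v = a⁻¹ * (a * v * a⁻¹) * a := by group
        rw [h3, h]; group
      have h4 : c' = a⁻¹ * v * a := by rw [hv]; group
      rw [h4, h5]; group
    · exfalso
      apply hvD
      have h3 : v = a⁻¹ * (a * v * a⁻¹) * a := by group
      rw [h3, h, hcainv]; exact hcD
    · exfalso
      apply hanot
      apply X.fix_of_sq
      calc a * a * c' * (a * a)⁻¹ = a * v * a⁻¹ := by rw [hv]; group
        _ = c' := h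
    · exfalso
      -- `a² c' a⁻² = c' c`, so `a⁴` fixes `c'`.
      apply hanot
      have h3 : (a * a) * c' * (a * a)⁻¹ = c' * c := by
        rw [← h, hv]; group
      have h4 : (a * a) * (a * a) * c' * ((a * a) * (a * a))⁻¹ = c' := by
        calc (a * a) * (a * a) * c' * ((a * a) * (a * a))⁻¹
            = (a * a) * ((a * a) * c' * (a * a)⁻¹) * (a * a)⁻¹ := by group
          _ = (a * a) * (c' * c) * (a * a)⁻¹ := by rw [h3]
          _ = ((a * a) * c' * (a * a)⁻¹) * ((a * a) * c * (a * a)⁻¹) := by group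
          _ = (c' * c) * c := by rw [h3, hcH _ (H.mul_mem X.ha X.ha)]
          _ = c' := by rw [mul_assoc, hc2, mul_one]
      have h5 : a ^ 4 ∈ Subgroup.centralizer ({c'} : Set G) := by
        rw [Subgroup.mem_centralizer_iff]
        intro g hg
        rw [Set.mem_singleton_iff.1 hg]
        have e : a ^ 4 = (a * a) * (a * a) := by
          rw [show (4 : ℕ) = 2 + 2 from rfl, pow_add, pow_two]
        rw [e]
        rw [mul_inv_eq_iff_eq_mul] at h4
        exact h4.symm
      have h6 : a ∈ Subgroup.centralizer ({c'} : Set G) := by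
        refine mem_of_pow_mem (k := 4) ?_ h5
        have : (4 : ℕ) = 2 ^ 2 := by norm_num
        rw [this]
        exact coprime_two_pow_of_odd X.hodd 2
      have h7 := Subgroup.mem_centralizer_iff.1 h6 c' rfl
      rw [mul_inv_eq_iff_eq_mul]
      exact h7.symm
    · exfalso
      apply hanot
      have h2 : a * (a * c' * a⁻¹) * a⁻¹ = a * c' * a⁻¹ := h
      have h3 : a * ((a * c' * a⁻¹) * a⁻¹) = a * (c' * a⁻¹) := by
        calc a * ((a * c' * a⁻¹) * a⁻¹) = a * (a * c' * a⁻¹) * a⁻¹ := by group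
          _ = a * c' * a⁻¹ := h2
          _ = a * (c' * a⁻¹) := by group
      exact mul_right_cancel (mul_left_cancel h3)
    · exfalso
      apply hvD
      have h3 : a⁻¹ * (a * v * a⁻¹) * a = v := by group
      rw [h] at h3
      have h4 : a⁻¹ * (v * c) * a = (a⁻¹ * v * a) * (a⁻¹ * c * a) := by group
      rw [h4, hcainv] at h3
      have h5 : a⁻¹ * v * a = c' := by rw [hv]; group
      rw [h5] at h3
      rw [← h3]
      exact D.mul_mem hc'D hcD
    · exact Or.inl h
    · exact Or.inr h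
  -- dispatch to the core
  have hP_central : ∀ {z : G}, z ∈ A → (∀ p ∈ P, p * z * p⁻¹ = z) → True := fun _ _ => trivial
  have hcpc : ∀ p ∈ P, p * c * p⁻¹ = c := X.Cc_central hc
  rcases hw with hw | hw
  · -- α = 0 : u = c', u₁ = v
    have hR : R4 a c' v := ⟨hc'2, hv2, e3.symm, hc'1, fun h => hvD (h ▸ (by simpa using D.one_mem)),
      fun h => hvD (h ▸ hc'D), rfl, by rw [hw, e3]⟩
    refine X.caseIII_core hR hc hc2 hc1 hc'A hvA (fun x hx => (hc'c x hx).symm) (fun x hx => (hvc x hx).symm)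
      hc'cent ht'P ht'A ht'2 ?_ hA8 hn hH
    intro x hx
    rcases hAform x hx with (rfl | rfl | rfl | rfl) | (rfl | rfl | rfl | rfl)
    · exact Or.inl (Or.inl rfl)
    · exact Or.inr (Or.inl rfl)
    · exact Or.inl (Or.inr (Or.inl rfl))
    · exact Or.inr (Or.inr (Or.inl e1))
    · exact Or.inl (Or.inr (Or.inr (Or.inl rfl)))
    · exact Or.inr (Or.inr (Or.inr (Or.inl e2)))
    · exact Or.inl (Or.inr (Or.inr (Or.inr e3)))
    · right; right; right; right
      simp only [mul_assoc, e1, e2, e3, s4, s5, s6]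
  · -- α = 1 : u = c' c, u₁ = v c
    have hvc1 : v * c ≠ 1 := by
      intro h
      apply hvD
      have : v = c := by
        have h2 : v = (v * c) * c := by rw [mul_assoc, hc2, mul_one]
        rw [h2, h, one_mul]
      rw [this]; exact hcD
    have hR : R4 a (c' * c) (v * c) := by
      refine ⟨?_, ?_, ?_, ?_, hvc1, ?_, ?_, ?_⟩
      · simp only [mul_assoc, e1, e2, e3, s1, s2, s3, s4, s5, s6, hc2, hc'2, hv2, mul_one]
      · simp only [mul_assoc, e1, e2, e3, s1, s2, s3, s4, s5, s6, hc2, hc'2, hv2, mul_one]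
      · simp only [mul_assoc, e1, e2, e3, s1, s2, s3, s4, s5, s6, hc2, hc'2, hv2, mul_one]
      · intro h
        apply hcne
        have h2 : c' = (c' * c) * c := by rw [mul_assoc, hc2, mul_one]
        rw [h2, h, one_mul]
      · intro h
        apply hvD
        have h2 : v = (v * c) * c := by rw [mul_assoc, hc2, mul_one]
        rw [h2, ← h, mul_assoc, hc2, mul_one]
        exact hc'D
      · have e : a * (c' * c) * a⁻¹ = (a * c' * a⁻¹) * (a * c * a⁻¹) := by group
        rw [e, hacc]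
      · have e : a * (v * c) * a⁻¹ = (a * v * a⁻¹) * (a * c * a⁻¹) := by group
        rw [e, hacc, hw]
        simp only [mul_assoc, e1, e2, e3, s1, s2, s3, s4, s5, s6, hc2, hc'2, hv2, mul_one]
    have hcpc' := hc'cent
    refine X.caseIII_core hR hc hc2 hc1 (A.mul_mem hc'A hcA) (A.mul_mem hvA hcA) ?_ ?_ ?_ ht'P ht'A ht'2 ?_ hA8 hn hH
    · intro x hx
      exact ((Commute.mul_right (show Commute x c' from (hc'c x hx).symm) (show Commute x c from (hccent x hx).symm))).eq
    · intro x hx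
      exact ((Commute.mul_right (show Commute x v from (hvc x hx).symm) (show Commute x c from (hccent x hx).symm))).eq
    · intro p hp
      have e : p * (c' * c) * p⁻¹ = (p * c' * p⁻¹) * (p * c * p⁻¹) := by group
      rw [e, hc'cent p hp, hcpc p hp]
    · intro x hx
      rcases hAform x hx with (rfl | rfl | rfl | rfl) | (rfl | rfl | rfl | rfl)
      · exact Or.inl (Or.inl rfl)
      · right; left
        rfl
      · right; right; left
        simp only [mul_assoc, e1, e2, e3, s1, s2, s3, s4, s5, s6, hc2, hc'2, hv2, mul_one]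
      · left; right; left; rfl
      · right; right; right; left
        simp only [mul_assoc, e1, e2, e3, s1, s2, s3, s4, s5, s6, hc2, hc'2, hv2, mul_one]
      · left; right; right; left; rfl
      · left; right; right; right
        simp only [mul_assoc, e1, e2, e3, s1, s2, s3, s4, s5, s6, hc2, hc'2, hv2, mul_one]
      · right; right; right; right
        simp only [mul_assoc, e1, e2, e3, s1, s2, s3, s4, s5, s6, hc2, hc'2, hv2, mul_one]

/-- The main theorem at the level of the local context. -/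
theorem main {n : ℕ} (hn : orderOf a = n) (hH : Nat.card H = 2 * n * Nat.card A) :
    (Nat.card P = 4 ∨ Nat.card P = 8 ∨ Nat.card P = 16) ∧
    (Nonempty (↥H ⧸ Cfsg.oddCore ↥H ≃* Multiplicative (ZMod 2) × Multiplicative (ZMod 2)) ∨
     Nonempty (↥H ⧸ Cfsg.oddCore ↥H ≃* Equiv.Perm (Fin 4)) ∨
     Nonempty (↥H ⧸ Cfsg.oddCore ↥H ≃* Equiv.Perm (Fin 4) × Multiplicative (ZMod 2))) := by
  obtain ⟨t, ht, h1, h6, h5⟩ := X.bound_six
  have hAtwo : 2 ≤ Nat.card A := by
    obtain ⟨x, hx, hx1⟩ : ∃ x ∈ A, x ≠ 1 := by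
      by_contra hcon
      push Not at hcon
      apply X.hAne
      rw [eq_bot_iff]
      intro x hx
      simpa using hcon x hx
    have := two_le_of_lt (U := ⊥) (V := A) bot_le ⟨x, hx, by simpa using hx1⟩
    simpa using this
  have hPA := X.hPc
  have hCc : Nat.card P ≠ 16 ∧ Nat.card P ≠ 64 → True := fun _ => trivial
  -- a nontrivial central element exists if `|P| ∈ {16, 64}`
  have hnontriv : (Nat.card P = 16 ∨ Nat.card P = 64) → ∃ c₀ ∈ Ctx.Cc P H, c₀ ≠ 1 := by
    intro hP
    by_contra hcon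
    push Not at hcon
    obtain ⟨s, hs, hs1, hs3, hs2⟩ := X.bound_three (fun x hx => hcon x hx)
    have hs' : s = 1 ∨ s = 3 := by omega
    rcases hs' with rfl | rfl <;> rcases hP with hP | hP <;> rw [hP] at hs <;> norm_num at hs
  have hna_of : Nat.card A ≠ 2 → ¬ ∀ x ∈ A, a * x * a⁻¹ = x := fun h2 h => h2 (X.card_two_of h)
  have ht' : t = 1 ∨ t = 2 ∨ t = 3 ∨ t = 4 ∨ t = 6 := by omega
  rcases ht' with rfl | rfl | rfl | rfl | rfl
  · norm_num at ht; omega
  · norm_num at ht
    have hA2 : Nat.card A = 2 := by omega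
    refine ⟨Or.inl ht, Or.inl ?_⟩
    have hac : ∀ x ∈ A, a * x * a⁻¹ = x := by
      intro x hx
      obtain ⟨w, _, hw⟩ := (Nat.card_eq_two_iff' (1 : A)).1 hA2
      by_cases hx1 : x = 1
      · rw [hx1]; simp
      · have hax : a * x * a⁻¹ ∈ A := X.hAn a X.ha x hx
        have hax1 : a * x * a⁻¹ ≠ 1 := by
          intro h
          apply hx1
          have : x = a⁻¹ * (a * x * a⁻¹) * a := by group
          rw [this, h]; group
        have e1 := hw ⟨x, hx⟩ (fun h' => hx1 (congrArg Subtype.val h'))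
        have e2 := hw ⟨a * x * a⁻¹, hax⟩ (fun h' => hax1 (congrArg Subtype.val h'))
        exact congrArg Subtype.val (e2.trans e1.symm)
    exact X.caseI hA2 hac hn hH
  · norm_num at ht
    have hA4 : Nat.card A = 4 := by omega
    refine ⟨Or.inr (Or.inl ht), Or.inr (Or.inl ?_)⟩
    obtain ⟨u, u₁, hR, huA, hu₁A, hform⟩ := X.caseII_data hA4 (hna_of (by omega))
    exact X.caseII hR hA4 huA hu₁A hform hn hH
  · norm_num at ht
    have hA8 : Nat.card A = 8 := by omega
    refine ⟨Or.inr (Or.inr ht), Or.inr (Or.inr ?_)⟩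
    obtain ⟨c₀, hc₀, hc₀1⟩ := hnontriv (Or.inl ht)
    exact X.caseIII hA8 hc₀ hc₀1 hn hH
  · norm_num at ht
    have hA32 : Nat.card A = 32 := by omega
    obtain ⟨c₀, hc₀, hc₀1⟩ := hnontriv (Or.inr ht)
    exact (X.not_six hA32 hc₀ hc₀1).elim

end Ctx
end Cfsg.Agent.H12.Tut
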