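import Cfsg.Agent.Lib.H12.Tut9
import Cfsg.Agent.Lib.H01.Fitting

set_option autoImplicit false
set_option linter.unusedVariables false
set_option linter.unusedSectionVars false

open Pointwise

namespace Cfsg.Agent.H12.Tut

variable {G : Type*} [Group G] [Finite G]

section Dih

open DihedralGroup

theorem dih_odd {X : Type*} [Group X] {n : ℕ} (hn : 2 ≤ n) (φ : X →* DihedralGroup n)
    (hs : Function.Surjective φ) (hk : φ.ker = Cfsg.pCore 2 X) : Odd n := by
  classical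
  haveI : Fact (Nat.Prime 2) := ⟨Nat.prime_two⟩
  by_contra hodd
  rw [Nat.not_odd_iff_even] at hodd
  obtain ⟨m, hm⟩ := hodd
  have hn2 : n = 2 * m := by omega
  subst hn2
  haveI : NeZero (2 * m) := ⟨by omega⟩
  set x : DihedralGroup (2 * m) := r (m : ZMod (2 * m)) with hx
  have hm2 : (m : ZMod (2 * m)) + m = 0 := by
    have : ((2 * m : ℕ) : ZMod (2 * m)) = 0 := ZMod.natCast_self _
    push_cast at this
    rw [← two_mul]; exact this
  have hneg : (m : ZMod (2 * m)) = -m := eq_neg_of_add_eq_zero_left hm2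
  have hx2 : x * x = 1 := by
    rw [hx, r_mul_r, hm2]; rfl
  have hx1 : x ≠ 1 := by
    intro h
    have : r (m : ZMod (2 * m)) = r 0 := h
    have h3 : (m : ZMod (2 * m)) = 0 := r.inj this
    rw [ZMod.natCast_eq_zero_iff] at h3
    have := Nat.le_of_dvd (by omega) h3
    omega
  have hcent : ∀ g : DihedralGroup (2 * m), g * x * g⁻¹ = x := by
    intro g
    rcases g with i | i
    · simp [hx]
    · simp only [hx, r_mul_r, sr_mul_r, inv_sr, sr_mul_sr]
      congr 1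
      rw [sub_add_cancel_left]; exact hneg.symm
  have hord : orderOf x = 2 := by
    apply orderOf_eq_prime _ hx1
    rw [pow_two, hx2]
  let Z := Subgroup.zpowers x
  haveI hZn : Z.Normal := by
    constructor
    intro z hz g
    obtain ⟨k, rfl⟩ := Subgroup.mem_zpowers_iff.1 hz
    have : g * x ^ k * g⁻¹ = (g * x * g⁻¹) ^ k := by
      rw [conj_zpow]
    rw [this, hcent]
    exact Subgroup.zpow_mem_zpowers x k
  have hZp : IsPGroup 2 Z := by
    apply IsPGroup.of_card (n := 1)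
    rw [Nat.card_zpowers, hord]; rfl
  have hker : IsPGroup 2 φ.ker := by
    rw [hk]; exact Cfsg.Agent.H01.pCore_isPGroup 2
  have hNp : IsPGroup 2 (Z.comap φ) := hZp.comap_of_ker_isPGroup φ hker
  have hNn : (Z.comap φ).Normal := hZn.comap φ
  have hle := Cfsg.Agent.H01.le_pCore hNn hNp
  obtain ⟨w, hw⟩ := hs x
  have hwm : w ∈ Z.comap φ := by
    rw [Subgroup.mem_comap, hw]; exact Subgroup.mem_zpowers x
  have h2 := hle hwm
  rw [← hk, MonoidHom.mem_ker, hw] at h2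
  exact hx1 h2

theorem r_pow' {n : ℕ} (i : ZMod n) (k : ℕ) : (r i : DihedralGroup n) ^ k = r ((k : ZMod n) * i) := by
  induction k with
  | zero => simp
  | succ k ih => rw [pow_succ, ih, r_mul_r]; push_cast; ring_nf

/-- an element `r i` of two-power order in an odd dihedral group is trivial -/
theorem r_two_pow_eq {n : ℕ} (hn : Odd n) {i : ZMod n} {k : ℕ} (h : (r i : DihedralGroup n) ^ (2 ^ k) = 1) :
    i = 0 := by
  rw [r_pow'] at h
  have h0 : r (((2 ^ k : ℕ) : ZMod n) * i) = r (0 : ZMod n) := by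
    rw [h]; rfl
  have h1 : ((2 ^ k : ℕ) : ZMod n) * i = 0 := r.inj h0
  have hc : Nat.Coprime (2 ^ k) n := Nat.Coprime.pow_left _ (Nat.coprime_two_left.2 hn)
  have hu : IsUnit ((2 ^ k : ℕ) : ZMod n) := (ZMod.isUnit_iff_coprime _ _).2 hc
  exact (hu.mul_right_eq_zero).1 h1

theorem wrapper_core {n : ℕ} (hn : 2 ≤ n) (H P A : Subgroup G) (hA : A = (Cfsg.pCore 2 ↥H).map H.subtype)
    (hO : Cfsg.pCore 2 ↥H ≠ ⊥)
    (φ : ↥H →* DihedralGroup n) (hs : Function.Surjective φ) (hk : φ.ker = Cfsg.pCore 2 ↥H)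
    (hPH : P ≤ H) (hP : IsPGroup 2 P) (hPsyl : ¬ 2 ∣ P.relIndex H)
    (y : G) (hy2 : y ^ 2 ∈ P ⊔ Subgroup.centralizer (P : Set G)) (hyN : MulAut.conj y • P = P)
    (hyQ : ∀ Q : Subgroup G, Q ≤ P → (Q.subgroupOf H).Normal → MulAut.conj y • Q = Q → Q = ⊥) :
    ∃ a : G, Ctx A P H a y ∧ orderOf a = n ∧ Nat.card H = 2 * n * Nat.card A := by
  classical
  haveI : Fact (Nat.Prime 2) := ⟨Nat.prime_two⟩
  have hodd : Odd n := dih_odd hn φ hs hk
  haveI : NeZero n := ⟨by omega⟩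
  have hkp : IsPGroup 2 φ.ker := by
    rw [hk]; exact Cfsg.Agent.H01.pCore_isPGroup 2
  have memA : ∀ h : H, (h : G) ∈ A ↔ φ h = 1 := by
    intro h
    rw [← MonoidHom.mem_ker, hk, hA, Subgroup.mem_map]
    constructor
    · rintro ⟨z, hz, hzh⟩
      have : z = h := Subtype.ext hzh
      rwa [← this]
    · intro h'; exact ⟨h, h', rfl⟩
  have hAH : A ≤ H := by
    rw [hA]; exact Subgroup.map_subtype_le _
  have memA' : ∀ x (hx : x ∈ H), x ∈ A ↔ φ ⟨x, hx⟩ = 1 := fun x hx => memA ⟨x, hx⟩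
  have cardA : Nat.card A = Nat.card (Cfsg.pCore 2 ↥H) := by
    rw [hA]
    exact Nat.card_congr (Subgroup.equivMapOfInjective _ _ H.subtype_injective).symm.toEquiv
  have hcardH : Nat.card H = 2 * n * Nat.card A := by
    have h1 := Subgroup.card_eq_card_quotient_mul_card_subgroup φ.ker
    have h2 : Nat.card (↥H ⧸ φ.ker) = 2 * n := by
      rw [Nat.card_congr (QuotientGroup.quotientKerEquivOfSurjective φ hs).toEquiv, DihedralGroup.nat_card]
    have h3 : Nat.card φ.ker = Nat.card A := by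
      rw [cardA, hk]
    rw [h1, h2, h3]
  have hcP : Nat.card (P.subgroupOf H) = Nat.card P :=
    Nat.card_congr (Subgroup.subgroupOfEquivOfLe hPH).toEquiv
  -- P₁ is a Sylow subgroup of H
  have hP₁ : IsPGroup 2 (P.subgroupOf H) := by
    obtain ⟨j, hj⟩ := IsPGroup.iff_card.1 hP
    exact IsPGroup.of_card (n := j) (by rw [hcP, hj])
  have hAP : A ≤ P := by
    have hPsyl' : ¬ 2 ∣ (P.subgroupOf H).index := hPsyl
    have h5 := Cfsg.Agent.H01.pCore_le_sylow 2 (hP₁.toSylow hPsyl')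
    rw [hA]
    rintro _ ⟨z, hz, rfl⟩
    have h6 := h5 hz
    rw [IsPGroup.toSylow_coe, Subgroup.mem_subgroupOf] at h6
    exact h6
  have hPc : Nat.card P = 2 * Nat.card A := by
    obtain ⟨j, hj⟩ := IsPGroup.iff_card.1 hP
    have hkp' := hkp
    obtain ⟨k, hk'⟩ := IsPGroup.iff_card.1 hkp'
    have hAc : Nat.card A = 2 ^ k := by rw [cardA, ← hk, hk']
    have h1 := Subgroup.card_mul_index (P.subgroupOf H)
    rw [hcP, hj, hcardH, hAc] at h1
    have h2 : (P.subgroupOf H).index = P.relIndex H := rfl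
    rw [h2] at h1
    have hco1 : Nat.Coprime (2 ^ j) n := Nat.Coprime.pow_left _ (Nat.coprime_two_left.2 hodd)
    have hco2 : Nat.Coprime (2 ^ (k + 1)) (P.relIndex H) :=
      Nat.Coprime.pow_left _ ((Nat.Prime.coprime_iff_not_dvd Nat.prime_two).2 hPsyl)
    have e1 : 2 * n * 2 ^ k = 2 ^ (k + 1) * n := by ring
    rw [e1] at h1
    have d1 : 2 ^ j ∣ 2 ^ (k + 1) := by
      apply hco1.dvd_of_dvd_mul_right
      exact ⟨_, h1.symm⟩
    have d2 : 2 ^ (k + 1) ∣ 2 ^ j := by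
      apply hco2.dvd_of_dvd_mul_right
      exact ⟨_, h1⟩
    have hjk : j = k + 1 := by
      have l1 := (Nat.pow_dvd_pow_iff_le_right (by norm_num : 1 < 2)).1 d1
      have l2 := (Nat.pow_dvd_pow_iff_le_right (by norm_num : 1 < 2)).1 d2
      omega
    rw [hj, hAc, hjk, pow_succ]; ring
  -- the odd element
  obtain ⟨a₀, ha₀⟩ := hs (r 1)
  obtain ⟨s, m', hm', hm⟩ := Nat.exists_eq_two_pow_mul_odd (n := orderOf a₀) (orderOf_pos a₀).ne'
  have hcos : Nat.Coprime (2 ^ s) n := Nat.Coprime.pow_left _ (Nat.coprime_two_left.2 hodd)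
  obtain ⟨q, -, hq⟩ := Nat.exists_mul_mod_eq_one_of_coprime hcos (by omega)
  set a₁ : H := a₀ ^ (2 ^ s * q) with ha₁
  have hφa : φ a₁ = r 1 := by
    rw [ha₁, map_pow, ha₀, r_one_pow]
    congr 1
    rw [← ZMod.natCast_mod, hq]; simp
  have ha₁m : a₁ ^ m' = 1 := by
    rw [ha₁, ← pow_mul]
    have : 2 ^ s * q * m' = (2 ^ s * m') * q := by ring
    rw [this, ← hm, pow_mul, pow_orderOf_eq_one, one_pow]
  have hordodd : Odd (orderOf a₁) := Odd.of_dvd_nat hm' (orderOf_dvd_of_pow_eq_one ha₁m)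
  have hφpow : ∀ k : ℕ, φ (a₁ ^ k) = r (k : ZMod n) := by
    intro k; rw [map_pow, hφa, r_one_pow]
  have hord : orderOf a₁ = n := by
    apply Nat.dvd_antisymm
    · -- a₁ ^ n in the kernel
      have h1 : φ (a₁ ^ n) = 1 := by
        rw [hφpow]; simp
      obtain ⟨e, he⟩ := hkp ⟨a₁ ^ n, h1⟩
      have he' : (a₁ ^ n) ^ (2 ^ e) = 1 := congrArg Subtype.val he
      have h2 : (a₁ ^ n) ^ (orderOf a₁) = 1 := by
        rw [← pow_mul, mul_comm, pow_mul, pow_orderOf_eq_one, one_pow]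
      have h3 := eq_one_of_odd_two hordodd h2 he'
      exact orderOf_dvd_of_pow_eq_one h3
    · have := orderOf_map_dvd φ a₁
      rwa [hφa, DihedralGroup.orderOf_r_one] at this
  -- elements of P
  have hPr : ∀ x (hx : x ∈ P) (i : ZMod n), φ ⟨x, hPH hx⟩ = r i → i = 0 := by
    intro x hx i hi
    obtain ⟨e, he⟩ := hP ⟨x, hx⟩
    have he' : x ^ (2 ^ e) = 1 := congrArg Subtype.val he
    have h1 : (⟨x, hPH hx⟩ : H) ^ (2 ^ e) = 1 := Subtype.ext (by simpa using he')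
    have h2 := congrArg φ h1
    rw [map_pow, hi, map_one] at h2
    exact r_two_pow_eq hodd h2
  have hPs : ∀ x (hx : x ∈ P), x ∉ A → ∃ i, φ ⟨x, hPH hx⟩ = sr i := by
    intro x hx hxA
    rcases hv : φ ⟨x, hPH hx⟩ with i | i
    · exfalso
      have := hPr x hx i hv
      subst this
      exact hxA ((memA' x (hPH hx)).2 hv)
    · exact ⟨i, rfl⟩
  refine ⟨(a₁ : G), ?_, by rw [Subgroup.orderOf_coe]; exact hord, hcardH⟩
  refine
    { hAP := hAP
      hPH := hPH
      hAn := ?_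
      hP2g := hP
      hPc := hPc
      ha := a₁.2
      hodd := by rw [Subgroup.orderOf_coe]; exact hordodd
      hinv := ?_
      hP2 := ?_
      hgen := ?_
      hyP := ?_
      hy2 := ?_
      hyQ := ?_
      hAne := ?_ }
  · -- hAn
    intro h hh x hx
    have hxH := hAH hx
    have h1 := (memA' x hxH).1 hx
    have h2 : h * x * h⁻¹ ∈ A := by
      have := (memA (⟨h, hh⟩ * ⟨x, hxH⟩ * (⟨h, hh⟩ : H)⁻¹)).2 (by
        rw [map_mul, map_mul, h1]; simp)
      exact this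
    exact h2
  · -- hinv
    intro p hp hpA
    obtain ⟨i, hi⟩ := hPs p hp hpA
    have := (memA (⟨p, hPH hp⟩ * a₁ * (⟨p, hPH hp⟩ : H)⁻¹ * a₁)).2 (by
      rw [map_mul, map_mul, map_mul, map_inv, hi, hφa]
      simp [DihedralGroup.sr_mul_r, DihedralGroup.r_mul_sr, DihedralGroup.sr_mul_sr, DihedralGroup.r_mul_r])
    exact this
  · -- hP2
    intro x hx hax
    by_contra hxA
    obtain ⟨i, hi⟩ := hPs x hx hxA
    set z := x⁻¹ * ((a₁ : G) * x * (a₁ : G)⁻¹) with hz
    have hzP : z ∈ P := P.mul_mem (P.inv_mem hx) hax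
    have hzv : φ ⟨z, hPH hzP⟩ = r (-2) := by
      have : (⟨z, hPH hzP⟩ : H) = (⟨x, hPH hx⟩ : H)⁻¹ * (a₁ * ⟨x, hPH hx⟩ * a₁⁻¹) := Subtype.ext rfl
      rw [this, map_mul, map_mul, map_mul, map_inv, map_inv, hi, hφa]
      simp [DihedralGroup.sr_mul_r, DihedralGroup.r_mul_sr, DihedralGroup.sr_mul_sr, DihedralGroup.r_mul_r]
      ring
    have h0 := hPr z hzP _ hzv
    have h2 : ((2 : ℕ) : ZMod n) = 0 := by
      have : (2 : ZMod n) = 0 := by simpa using h0
      exact_mod_cast this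
    rw [ZMod.natCast_eq_zero_iff] at h2
    have := Nat.le_of_dvd (by norm_num) h2
    obtain ⟨t, ht⟩ := hodd
    omega
  · -- hgen
    intro h hh
    rcases hv : φ ⟨h, hh⟩ with i | i
    · refine ⟨i.val, (a₁ : G)⁻¹ ^ i.val * h, ?_, ?_⟩
      · have h1 : φ ((a₁ ^ i.val)⁻¹ * ⟨h, hh⟩) = 1 := by
          rw [map_mul, map_inv, hφpow, hv, ZMod.natCast_zmod_val]
          simp
        have h2 := (memA _).2 h1
        apply hAP
        simpa using h2
      · simp
    · -- pick p₀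
      obtain ⟨p₀, hp₀, hp₀A⟩ : ∃ p₀ ∈ P, p₀ ∉ A := by
        by_contra hcon
        push_neg at hcon
        have hle : P ≤ A := hcon
        have := Subgroup.card_le_of_le hle
        have hpos : 0 < Nat.card A := Nat.card_pos
        omega
      obtain ⟨j, hj⟩ := hPs p₀ hp₀ hp₀A
      set k := (j - i).val with hk'
      have hkv : ((k : ℕ) : ZMod n) = j - i := ZMod.natCast_zmod_val _
      have h1 : φ ((a₁ ^ k)⁻¹ * ⟨h, hh⟩ * (⟨p₀, hPH hp₀⟩ : H)⁻¹) = 1 := by
        rw [map_mul, map_mul, map_inv, map_inv, hφpow, hv, hj, hkv]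
        simp [DihedralGroup.sr_mul_r, DihedralGroup.r_mul_sr, DihedralGroup.sr_mul_sr, DihedralGroup.r_mul_r]
      have h2 := (memA _).2 h1
      refine ⟨k, (a₁ : G)⁻¹ ^ k * h, ?_, by simp⟩
      have h3 : ((a₁ : G)⁻¹ ^ k * h) = (((a₁ ^ k)⁻¹ * ⟨h, hh⟩ * (⟨p₀, hPH hp₀⟩ : H)⁻¹ : H) : G) * p₀ := by
        simp
      rw [h3]
      exact P.mul_mem (hAP h2) hp₀
  · -- hyP
    intro x
    rw [smul_eq] at hyN
    constructor
    · intro hx
      have : y * x * y⁻¹ ∈ cnj y P := conj_mem_cnj hx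
      rwa [hyN] at this
    · intro hx
      have h1 : y * x * y⁻¹ ∈ cnj y P := by rw [hyN]; exact hx
      have h2 := mem_cnj.1 h1
      convert h2 using 1
      group
  · -- hy2
    let T : Subgroup G :=
      { carrier := {x | ∃ p ∈ P, ∃ c ∈ Subgroup.centralizer (P : Set G), x = p * c}
        one_mem' := ⟨1, P.one_mem, 1, Subgroup.one_mem _, by simp⟩
        mul_mem' := by
          rintro _ _ ⟨p, hp, c, hc, rfl⟩ ⟨p', hp', c', hc', rfl⟩
          refine ⟨p * p', P.mul_mem hp hp', c * c', Subgroup.mul_mem _ hc hc', ?_⟩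
          have hcomm : c * p' = p' * c := (Subgroup.mem_centralizer_iff.1 hc p' hp').symm
          calc p * c * (p' * c') = p * (c * p') * c' := by group
            _ = p * (p' * c) * c' := by rw [hcomm]
            _ = p * p' * (c * c') := by group
        inv_mem' := by
          rintro _ ⟨p, hp, c, hc, rfl⟩
          refine ⟨p⁻¹, P.inv_mem hp, c⁻¹, Subgroup.inv_mem _ hc, ?_⟩
          have hcomm : c⁻¹ * p⁻¹ = p⁻¹ * c⁻¹ :=
            (Subgroup.mem_centralizer_iff.1 (Subgroup.inv_mem _ hc) p⁻¹ (P.inv_mem hp)).symm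
          rw [mul_inv_rev, hcomm] }
    have hle : P ⊔ Subgroup.centralizer (P : Set G) ≤ T := by
      apply sup_le
      · intro p hp
        exact ⟨p, hp, 1, Subgroup.one_mem _, by simp⟩
      · intro c hc
        exact ⟨1, P.one_mem, c, hc, by simp⟩
    obtain ⟨p, hp, c, hc, h⟩ := hle hy2
    exact ⟨p, hp, c, hc, by rw [← pow_two]; exact h⟩
  · -- hyQ
    intro Q hQP hQH hQy
    apply hyQ Q hQP
    · constructor
      intro z hz g
      rw [Subgroup.mem_subgroupOf] at hz ⊢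
      exact hQH _ g.2 _ hz
    · rw [smul_eq]
      apply Subgroup.eq_of_le_of_card_ge
      · rintro _ ⟨z, hz, rfl⟩
        exact hQy z hz
      · rw [card_cnj]
  · -- hAne
    intro h
    rw [hA] at h
    exact hO ((Subgroup.map_eq_bot_iff_of_injective _ H.subtype_injective).1 h)

theorem wrapper {n : ℕ} (hn : 2 ≤ n) (H P : Subgroup G) (hO : Cfsg.pCore 2 ↥H ≠ ⊥)
    (hdih : Nonempty (↥H ⧸ Cfsg.pCore 2 ↥H ≃* DihedralGroup n))
    (hPH : P ≤ H) (hP : IsPGroup 2 P) (hPsyl : ¬ 2 ∣ P.relIndex H)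
    (y : G) (hy2 : y ^ 2 ∈ P ⊔ Subgroup.centralizer (P : Set G)) (hyN : MulAut.conj y • P = P)
    (hyQ : ∀ Q : Subgroup G, Q ≤ P → (Q.subgroupOf H).Normal → MulAut.conj y • Q = Q → Q = ⊥) :
    (Nat.card P = 4 ∨ Nat.card P = 8 ∨ Nat.card P = 16) ∧
    (Nonempty (↥H ⧸ Cfsg.oddCore ↥H ≃* Multiplicative (ZMod 2) × Multiplicative (ZMod 2)) ∨
     Nonempty (↥H ⧸ Cfsg.oddCore ↥H ≃* Equiv.Perm (Fin 4)) ∨
     Nonempty (↥H ⧸ Cfsg.oddCore ↥H ≃* Equiv.Perm (Fin 4) × Multiplicative (ZMod 2))) := by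
  obtain ⟨e⟩ := hdih
  haveI := Cfsg.Agent.H01.pCore_normal (G := ↥H) 2
  let φ : ↥H →* DihedralGroup n := e.toMonoidHom.comp (QuotientGroup.mk' (Cfsg.pCore 2 ↥H))
  have hs : Function.Surjective φ := e.surjective.comp (QuotientGroup.mk'_surjective _)
  have hk : φ.ker = Cfsg.pCore 2 ↥H := by
    ext x
    simp [φ, MonoidHom.mem_ker]
  obtain ⟨a, X, ha, hH⟩ := wrapper_core hn H P _ rfl hO φ hs hk hPH hP hPsyl y hy2 hyN hyQ
  exact X.main ha hH

end Dih

end Cfsg.Agent.H12.Tut
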